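import Cfsg.Agent.Asch.QSInst

/-! Monomial and block-monomial frames for decompositions; orthogonal decompositions from orbits. -/

set_option autoImplicit false

namespace Cfsg.Agent.Asch

open Matrix Cfsg.Geo
open scoped Kronecker

variable {ι κ μ : Type} [Fintype ι] [DecidableEq ι] [Fintype κ] [DecidableEq κ] [Fintype μ]
  [DecidableEq μ] {F : Type*} [Field F]

theorem mem_dstab {t : ℕ} {D : Fin t → Submodule F (ι → F)} {g : GL ι F} :
    g ∈ decompositionStabilizer D ↔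
      ∃ π : Equiv.Perm (Fin t), ∀ i, (D i).map (toLin' g.val) = D (π i) := Iff.rfl

theorem dstab_mem {t : ℕ} {D : Fin t → Submodule F (ι → F)} {g : GL ι F}
    (hg : g ∈ decompositionStabilizer D) :
    ∃ π : Equiv.Perm (Fin t), ∀ i v, v ∈ D i ↔ g.val *ᵥ v ∈ D (π i) := by
  obtain ⟨π, hπ⟩ := hg
  refine ⟨π, fun i v => ⟨fun hv => hπ i ▸ ⟨v, hv, rfl⟩, fun hv => ?_⟩⟩
  rw [← hπ i] at hv
  obtain ⟨w, hw, e⟩ := hv
  rwa [← toLin'_injective g e]

/-- Block monomial matrices. -/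
def bm (π : Equiv.Perm μ) (a : μ → Matrix κ κ F) : Matrix (κ × μ) (κ × μ) F :=
  of fun p q => if p.2 = π q.2 then a q.2 p.1 q.1 else 0

omit [Fintype μ] [Fintype κ] [DecidableEq κ] in
theorem bm_eq (π : Equiv.Perm μ) (a : μ → Matrix κ κ F) :
    bm π a = (blockDiagonal a).submatrix (Equiv.prodCongrRight fun _ => π.symm) id := by
  ext p q
  simp only [bm, of_apply, submatrix_apply, blockDiagonal_apply, id, Equiv.prodCongrRight_apply,
    Equiv.coe_fn_mk, Equiv.prodCongrRight, Equiv.symm_apply_eq]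
  split_ifs with h
  · rw [h, Equiv.symm_apply_apply]
  · rfl

theorem det_bm (π : Equiv.Perm μ) (a : μ → Matrix κ κ F) :
    (bm π a).det = ((Equiv.Perm.sign π : ℤ) : F) ^ Fintype.card κ * ∏ i, (a i).det := by
  rw [bm_eq, det_permute, det_blockDiagonal, Equiv.Perm.sign_prodCongrRight]
  simp

omit [DecidableEq κ] in
theorem bm_mulVec (π : Equiv.Perm μ) (a : μ → Matrix κ κ F) (i : μ) (x : κ → F) :
    bm π a *ᵥ kv x (Pi.single i 1) = kv (a i *ᵥ x) (Pi.single (π i) 1) := by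
  funext p
  simp only [bm, mulVec, dotProduct, of_apply, kv, Fintype.sum_prod_type, Pi.single_apply, mul_ite,
    mul_one, mul_zero, Finset.sum_ite_eq', Finset.mem_univ, if_true]
  split_ifs <;> simp

omit [DecidableEq κ] [Fintype κ] in
theorem sum_kv (y : κ × μ → F) : ∑ i, kv (fun a => y (a, i)) (Pi.single i 1) = y := by
  funext p
  simp [kv, Finset.sum_apply, Pi.single_apply]

theorem ext_kv {e : ι ≃ κ × μ} {P : GL ι F} {x : Matrix (κ × μ) (κ × μ) F} {z : Matrix ι ι F}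
    (h : ∀ i y, z *ᵥ tv e P (kv y (Pi.single i 1)) = tv e P (x *ᵥ kv y (Pi.single i 1))) :
    z = tp e P x := eq_tp_of_mulVec fun y => by
  rw [← sum_kv y, map_sum, mulVec_sum, mulVec_sum, map_sum]
  exact Finset.sum_congr rfl fun i _ => h i _

theorem exists_bframe {t m : ℕ} {D : Fin t → Submodule F (ι → F)} (hD : IsMDecomposition m D)
    (b : ∀ i, (Fin m → F) ≃ₗ[F] D i) :
    ∃ (e : ι ≃ Fin m × Fin t) (P : GL ι F), ∀ i x, tv e P (kv x (Pi.single i 1)) = b i x := by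
  let Φ : (Fin m × Fin t → F) →ₗ[F] (ι → F) :=
    ∑ i, (D i).subtype ∘ₗ (b i).toLinearMap ∘ₗ LinearMap.funLeft F F fun a => (a, i)
  have hΦ : ∀ i x, Φ (kv x (Pi.single i 1)) = b i x := fun i x => by
    rw [LinearMap.sum_apply, Finset.sum_eq_single i (fun j _ hj => ?_) (by simp)]
    · change ((b i _ : D i) : ι → F) = _
      congr 2; funext a; simp [kv]
    · change ((b j _ : D j) : ι → F) = _
      rw [show LinearMap.funLeft F F (fun a => (a, j)) (kv x (Pi.single i 1)) = 0 by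
        funext a; simp [kv, hj], map_zero]; rfl
  have hs : Function.Surjective Φ := by
    rw [← LinearMap.range_eq_top, eq_top_iff, ← hD.iSup_eq_top]
    refine iSup_le fun i v hv => ⟨kv ((b i).symm ⟨v, hv⟩) (Pi.single i 1), ?_⟩
    rw [hΦ, LinearEquiv.apply_symm_apply]
  have hi : Function.Injective Φ := (LinearMap.injective_iff_surjective_of_finrank_eq_finrank (by
    simp [← mdec_mul_eq hD, mul_comm])).2 hs
  obtain ⟨e, P, h⟩ := exists_frame (LinearEquiv.ofBijective Φ ⟨hi, hs⟩)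
  exact ⟨e, P, fun i x => (h _).trans (hΦ i x)⟩

theorem mdec_basis {t m : ℕ} {D : Fin t → Submodule F (ι → F)} (hD : IsMDecomposition m D) (i : Fin t) :
    Nonempty ((Fin m → F) ≃ₗ[F] D i) :=
  ⟨LinearEquiv.ofFinrankEq _ _ (by simp [hD.finrank_eq])⟩

theorem exists_bm {t m : ℕ} {D : Fin t → Submodule F (ι → F)} {b : ∀ i, (Fin m → F) ≃ₗ[F] D i}
    {e : ι ≃ Fin m × Fin t} {P : GL ι F} (h : ∀ i x, tv e P (kv x (Pi.single i 1)) = b i x)
    {g : GL ι F} (hg : g ∈ decompositionStabilizer D) :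
    ∃ (π : Equiv.Perm (Fin t)) (a : Fin t → GL (Fin m) F), g.val = tp e P (bm π fun i => a i) ∧
      ∀ i x, g.val *ᵥ (b i x : ι → F) = b (π i) ((a i).val *ᵥ x) := by
  obtain ⟨π, hπ⟩ := dstab_mem hg
  have : ∀ i, ∃ a : GL (Fin m) F, ∀ x, g.val *ᵥ (b i x : ι → F) = b (π i) (a.val *ᵥ x) := fun i => by
    let φ : (Fin m → F) →ₗ[F] (Fin m → F) := (b (π i)).symm.toLinearMap ∘ₗ
      ((toLin' g.val).restrict fun v hv => (hπ i v).1 hv) ∘ₗ (b i).toLinearMap
    have h1 : ∀ x, g.val *ᵥ (b i x : ι → F) = b (π i) (LinearMap.toMatrix' φ *ᵥ x) := fun x => by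
      rw [LinearMap.toMatrix'_mulVec]; simp [φ]; rfl
    obtain ⟨a, ha⟩ := exists_gl_of_injective (LinearMap.toMatrix' φ) fun v hv => by
      have := h1 v
      rw [hv, map_zero, Submodule.coe_zero, gl_mulVec_eq_zero] at this
      simpa using this
    exact ⟨a, ha ▸ h1⟩
  choose a ha using this
  exact ⟨π, a, ext_kv fun i y => by rw [bm_mulVec, h, h, ha], ha⟩

section form

variable {σ : F ≃+* F}

theorem form_kv (G : Matrix κ κ F) (i j : μ) (x y : κ → F) :
    formOfGram σ (G ⊗ₖ (1 : Matrix μ μ F)) (kv x (Pi.single i 1)) (kv y (Pi.single j 1)) =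
      if i = j then formOfGram σ G x y else 0 := by
  have : σ ∘ kv y (Pi.single j 1 : μ → F) = kv (σ ∘ y) (Pi.single j 1) := by
    funext p; simp [kv, Pi.single_apply, apply_ite σ]
  rw [formOfGram_eq, formOfGram_eq, this, kron_mulVec_kv, kv_dot, one_mulVec, single_dotProduct,
    Pi.single_apply]
  split_ifs <;> simp

theorem sesq_kron_one {ε : F} {G : Matrix κ κ F} (h : Sesq σ ε (formOfGram σ G)) :
    Sesq σ ε (formOfGram σ (G ⊗ₖ (1 : Matrix μ μ F))) := by
  have h1 := h.gram_det_ne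
  have h2 := h.gram_transpose
  rw [gramMatrix_formOfGram] at h1 h2
  refine sesq_formOfGram h.invol h.eps (by simp [det_kronecker, h1]) ?_
  rw [← kroneckerMap_transpose, h2, transpose_one, smul_kronecker]
  congr 1
  ext p q; simp [one_apply, apply_ite σ]

theorem Sesq.sim_of_kv {ε : F} {f : (κ × μ → F) → (κ × μ → F) → F} (hf : Sesq σ ε f)
    {g : Matrix (κ × μ) (κ × μ) F} {c : F}
    (h : ∀ i j x y, f (g *ᵥ kv x (Pi.single i 1)) (g *ᵥ kv y (Pi.single j 1)) =
      c * f (kv x (Pi.single i 1)) (kv y (Pi.single j 1))) (u v : κ × μ → F) :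
    f (g *ᵥ u) (g *ᵥ v) = c * f u v := by
  rw [← sum_kv u, ← sum_kv v]
  simp only [mulVec_sum, hf.sum_left, hf.sum_right, h, Finset.mul_sum]

theorem bm_sim {ε : F} {G : Matrix κ κ F} (h : Sesq σ ε (formOfGram σ G)) (π : Equiv.Perm μ)
    {a : μ → Matrix κ κ F} {c : F}
    (ha : ∀ i x y, formOfGram σ G (a i *ᵥ x) (a i *ᵥ y) = c * formOfGram σ G x y) (u v : κ × μ → F) :
    formOfGram σ (G ⊗ₖ (1 : Matrix μ μ F)) (bm π a *ᵥ u) (bm π a *ᵥ v) =
      c * formOfGram σ (G ⊗ₖ (1 : Matrix μ μ F)) u v :=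
  (sesq_kron_one h).sim_of_kv (fun i j x y => by
    rw [bm_mulVec, bm_mulVec, form_kv, form_kv]
    by_cases hij : i = j
    · subst hij; simp [ha]
    · simp [hij]) u v

theorem mem_sim_push {e : ι ≃ κ} {P g : GL ι F} {x : Matrix κ κ F} (hg : g.val = tp e P x)
    {f : (κ → F) → (κ → F) → F} {c : F} (hc : c ≠ 0) (h : ∀ u v, f (x *ᵥ u) (x *ᵥ v) = c * f u v) :
    g ∈ similarityGroup (push e P f) := ⟨Units.mk0 c hc, fun u v => by
  obtain ⟨u, rfl⟩ := (tv e P).surjective u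
  obtain ⟨v, rfl⟩ := (tv e P).surjective v
  simp [push, hg, tp_mulVec, h]⟩

end form

/-- Monomial matrices. -/
def mono (π : Equiv.Perm μ) (a : μ → F) : Matrix μ μ F :=
  of fun i j => if i = π j then a j else 0

theorem mono_mulVec (π : Equiv.Perm μ) (a x : μ → F) (i : μ) :
    (mono π a *ᵥ x) (π i) = a i * x i := by
  simp [mono, mulVec, dotProduct]

theorem mono_single (π : Equiv.Perm μ) (a : μ → F) (i : μ) (c : F) :
    mono π a *ᵥ Pi.single i c = Pi.single (π i) (a i * c) := by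
  funext j
  obtain ⟨j, rfl⟩ := π.surjective j
  rw [mono_mulVec]
  by_cases h : j = i
  · subst h; simp
  · simp [h]

theorem mono_mul (π ρ : Equiv.Perm μ) (a b : μ → F) :
    mono π a * mono ρ b = mono (π * ρ) fun j => a (ρ j) * b j := by
  ext i j
  simp only [mono, mul_apply, of_apply, mul_ite, mul_zero, Finset.sum_ite_eq', Finset.mem_univ,
    if_true, ite_mul, zero_mul]
  rfl

omit [Fintype μ] in
theorem mono_one (a : μ → F) : mono 1 a = diagonal a := by
  ext i j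
  by_cases h : i = j
  · subst h; simp [mono]
  · simp [mono, h]

omit [Fintype μ] in
theorem mono_const (c : F) : mono (1 : Equiv.Perm μ) (fun _ => c) = c • 1 := by
  rw [mono_one, smul_one_eq_diagonal]

omit [Fintype μ] in
theorem smul_mono (π : Equiv.Perm μ) (a : μ → F) (c : F) :
    c • mono π a = mono π fun i => c * a i := by
  ext i j; simp [mono]

theorem det_mono (π : Equiv.Perm μ) (a : μ → F) :
    (mono π a).det = ((Equiv.Perm.sign π : ℤ) : F) * ∏ i, a i := by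
  have : mono π a = (diagonal a).submatrix π.symm id := by
    ext i j
    simp only [mono, of_apply, submatrix_apply, id, diagonal_apply, Equiv.symm_apply_eq]
    split_ifs with h
    · rw [h, Equiv.symm_apply_apply]
    · rfl
  rw [this, det_permute, det_diagonal]; simp

/-- Monomial matrices as invertible matrices. -/
def monoGL (π : Equiv.Perm μ) (a : μ → Fˣ) : GL μ F where
  val := mono π fun i => a i
  inv := mono π⁻¹ fun i => ((a (π⁻¹ i))⁻¹ : Fˣ)
  val_inv := by rw [mono_mul, mul_inv_cancel, mono_one]; simp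
  inv_val := by rw [mono_mul, inv_mul_cancel, mono_one]; simp

theorem coe_monoGL (π : Equiv.Perm μ) (a : μ → Fˣ) : (monoGL π a).val = mono π fun i => (a i : F) :=
  rfl

theorem monoGL_mul (π ρ : Equiv.Perm μ) (a b : μ → Fˣ) :
    monoGL π a * monoGL ρ b = monoGL (π * ρ) fun j => a (ρ j) * b j :=
  Units.ext (mono_mul _ _ _ _)

theorem monoGL_inv (π : Equiv.Perm μ) (a : μ → Fˣ) :
    (monoGL π a)⁻¹ = monoGL π⁻¹ fun i => (a (π⁻¹ i))⁻¹ := Units.ext rfl

theorem monoGL_const (c : Fˣ) : monoGL (1 : Equiv.Perm μ) (fun _ => c) = sc μ c :=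
  Units.ext ((mono_const _).trans (coe_sc c).symm)

theorem form_mono (σ : F ≃+* F) (d : μ → F) (π : Equiv.Perm μ) (a u v : μ → F) :
    formOfGram σ (diagonal d) (mono π a *ᵥ u) (mono π a *ᵥ v) =
      formOfGram σ (diagonal fun i => d (π i) * (a i * σ (a i))) u v := by
  simp only [formOfGram_eq, dotProduct, mulVec_diagonal, Function.comp]
  rw [← Equiv.sum_comp π]
  exact Finset.sum_congr rfl fun i _ => by rw [mono_mulVec, mono_mulVec, map_mul]; ring

theorem mdec_one_span {t : ℕ} {D : Fin t → Submodule F (ι → F)} (hD : IsMDecomposition 1 D)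
    {i : Fin t} {b : ι → F} (hb : b ∈ D i) (h0 : b ≠ 0) {v : ι → F} :
    v ∈ D i ↔ ∃ c : F, c • b = v := by
  rw [← Submodule.mem_span_singleton, ← Submodule.eq_of_le_of_finrank_eq
    ((Submodule.span_singleton_le_iff_mem _ _).2 hb) (by
      rw [finrank_span_singleton h0, hD.finrank_eq])]

theorem mdec_exists_ne {t m : ℕ} {D : Fin t → Submodule F (ι → F)} (hD : IsMDecomposition m D)
    (i : Fin t) : ∃ b ∈ D i, b ≠ 0 := (Submodule.ne_bot_iff _).1 fun h => by
  have := hD.finrank_eq i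
  have := hD.pos
  rw [h, finrank_bot] at *; omega

theorem exists_mframe {t : ℕ} {D : Fin t → Submodule F (ι → F)} (hD : IsMDecomposition 1 D)
    {b : Fin t → ι → F} (hb : ∀ i, b i ∈ D i) (h0 : ∀ i, b i ≠ 0) :
    ∃ (e : ι ≃ Fin t) (P : GL ι F), (∀ i, tv e P (Pi.single i 1) = b i) ∧
      ∀ g ∈ decompositionStabilizer D, ∃ π a, g = tg e P (monoGL π a) ∧
        ∀ i, g.val *ᵥ b i = (a i : F) • b (π i) := by
  let Φ : (Fin t → F) →ₗ[F] (ι → F) := Fintype.linearCombination F b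
  have hΦ : ∀ i, Φ (Pi.single i 1) = b i := fun i => by simp [Φ]
  have hs : Function.Surjective Φ := by
    rw [← LinearMap.range_eq_top, eq_top_iff, ← hD.iSup_eq_top]
    refine iSup_le fun i v hv => ?_
    obtain ⟨c, rfl⟩ := (mdec_one_span hD (hb i) (h0 i)).1 hv
    exact Submodule.smul_mem _ _ ⟨_, hΦ i⟩
  have hi : Function.Injective Φ := (LinearMap.injective_iff_surjective_of_finrank_eq_finrank (by
    simp [← mdec_mul_eq hD])).2 hs
  obtain ⟨e, P, h⟩ := exists_frame (LinearEquiv.ofBijective Φ ⟨hi, hs⟩)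
  have h1 : ∀ i, tv e P (Pi.single i 1) = b i := fun i => (h _).trans (hΦ i)
  refine ⟨e, P, h1, fun g hg => ?_⟩
  obtain ⟨π, hπ⟩ := dstab_mem hg
  have : ∀ i, ∃ a : Fˣ, g.val *ᵥ b i = (a : F) • b (π i) := fun i => by
    obtain ⟨c, hc⟩ := (mdec_one_span hD (hb _) (h0 _)).1 ((hπ i _).1 (hb i))
    refine ⟨Units.mk0 c fun e => h0 i ?_, hc.symm⟩
    rwa [e, zero_smul, eq_comm, gl_mulVec_eq_zero] at hc
  choose a ha using this
  refine ⟨π, a, Units.ext ?_, ha⟩
  rw [coe_tg]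
  refine eq_tp_of_mulVec fun y => ?_
  rw [← Finset.univ_sum_single y, map_sum, mulVec_sum, mulVec_sum, map_sum]
  refine Finset.sum_congr rfl fun i _ => ?_
  rw [coe_monoGL, mono_single, ← mul_one (y i), ← smul_eq_mul, Pi.single_smul, map_smul, h1,
    mulVec_smul, ha, ← mul_one (_ * _), ← smul_eq_mul, Pi.single_smul, map_smul, h1, smul_smul]
  congr 1; simp [mul_comm]

section orbit

variable {σ : F ≃+* F} {ε : F} {f : (ι → F) → (ι → F) → F}

theorem Sesq.exists_proj (hf : Sesq σ ε f) {W : Submodule F (ι → F)} (hW : IsNondegenerateOn f W) :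
    ∃ e : Matrix ι ι F, e * e = e ∧ adj σ f e = e ∧ rng e = W := by
  have hc : IsCompl W (hf.perp W) :=
    ⟨disjoint_iff.2 (hf.nondegenerateOn_iff.1 hW), codisjoint_iff.2 (hf.sup_perp hW)⟩
  let p := W.projection _ hc
  have h1 : ∀ v, LinearMap.toMatrix' p *ᵥ v = p v := fun v => LinearMap.toMatrix'_mulVec _ _
  have h2 : ∀ v, p v ∈ W := fun v => Submodule.projection_apply_mem hc v
  have h3 : ∀ v ∈ W, p v = v := fun v hv => Submodule.projection_apply_left hc ⟨v, hv⟩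
  have h4 : ∀ u, ∀ w ∈ W, f u w = f (p u) w := fun u w hw => by
    have : u - p u ∈ hf.perp W := by
      rw [← Submodule.projection_eq_self_sub_projection hc]
      exact Submodule.projection_apply_mem hc.symm u
    have := this w hw
    rwa [hf.sub_left, sub_eq_zero] at this
  refine ⟨LinearMap.toMatrix' p, ext_mulVec fun v => by rw [← mulVec_mulVec, h1, h1, h3 _ (h2 v)],
    hf.adj_unique fun u v => ?_, le_antisymm ?_ fun v hv => ⟨v, (h1 v).trans (h3 v hv)⟩⟩
  · rw [h1, h1, h4 u _ (h2 v), hf.herm, hf.herm (p u), h4 v _ (h2 u)]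
  · rintro _ ⟨v, rfl⟩
    rw [toLin'_apply, h1]; exact h2 v

theorem Sesq.proj_unique (hf : Sesq σ ε f) {e e' : Matrix ι ι F} (h1 : e * e = e)
    (h2 : adj σ f e = e) (h1' : e' * e' = e') (h2' : adj σ f e' = e') (h : rng e = rng e') :
    e = e' := by
  have h3 : e * e' = e' := ext_mulVec fun v => by
    rw [← mulVec_mulVec]; exact (mem_rng_idem h1).1 (h ▸ mulVec_mem_rng _ _)
  have h4 : e' * e = e := ext_mulVec fun v => by
    rw [← mulVec_mulVec]; exact (mem_rng_idem h1').1 (h ▸ mulVec_mem_rng _ _)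
  rw [← h2', ← h3, hf.adj_mul, h2, h2', h4]

theorem Sesq.dec_of_orbit [Finite F] (hf : Sesq σ ε f) {H : Subgroup (GL ι F)} (hH : Irr H)
    (hs : H ≤ similarityGroup f) {W : Submodule F (ι → F)} (h0 : W ≠ ⊥) (h1 : W ≠ ⊤)
    (hW : IsNondegenerateOn f W) (h : ∀ g ∈ H, (∀ v ∈ W, g.val *ᵥ v ∈ W) ∨
      ∀ u ∈ W, ∀ v ∈ W, f (g.val *ᵥ u) v = 0) :
    ∃ (t : ℕ) (D : Fin t → Submodule F (ι → F)),
      IsNondegenerateMDecomposition f (Module.finrank F W) D ∧ H ≤ decompositionStabilizer D ∧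
      ∀ i, ∃ g ∈ H, D i = W.map (toLin' g.val) := by
  obtain ⟨e, he1, he2, rfl⟩ := hf.exists_proj hW
  have h2 : ∀ g ∈ H, cj g e = e ∨ e * cj g e = 0 := fun g hg => (h g hg).imp (fun h => by
    refine hf.proj_unique (by rw [← map_mul, he1]) (by rw [hf.adj_cj (hs hg), he2]) he1 he2 ?_
    rw [rng_cj]
    exact Submodule.eq_of_le_of_finrank_eq (Submodule.map_le_iff_le_comap.2 h)
      (finrank_map_gl _ _)) fun h => ext_mulVec fun v => by
    rw [zero_mulVec]
    refine hf.nondeg_left _ fun x => ?_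
    rw [← mulVec_mulVec, hf.adj_spec, he2, cj_mulVec']
    exact h _ (mulVec_mem_rng _ _) _ (mulVec_mem_rng _ _)
  have h3 : ∀ g ∈ H, ∀ g' ∈ H, cj g e = cj g' e ∨ cj g e * cj g' e = 0 := fun g hg g' hg' =>
    (h2 _ (mul_mem (inv_mem hg) hg')).imp (fun h => by
      nth_rw 1 [← h]; rw [← cj_mul, mul_inv_cancel_left]) fun h => by
      rw [← mul_inv_cancel_left g g', cj_mul, ← map_mul, h, map_zero]
  obtain ⟨t, E, hE, hS, -⟩ := exists_idemSys hH {x | x = 0 ∨ ∃ g ∈ H, x = cj g e} (by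
    rintro _ (rfl | ⟨g, -, rfl⟩)
    · simp
    · rw [← map_mul, he1]) (by
    rintro _ (rfl | ⟨g, hg, rfl⟩) _ (rfl | ⟨g', hg', rfl⟩)
    any_goals simp
    rcases h3 g hg g' hg' with h | h
    · rw [h]
    · rcases h3 g' hg' g hg with h' | h'
      · rw [h']
      · rw [h, h']) (by
    rintro _ (rfl | ⟨g, hg, rfl⟩) _ (rfl | ⟨g', hg', rfl⟩)
    any_goals simp
    rcases h3 g hg g' hg' with h | h
    · exact Or.inr ⟨g', hg', by rw [h, ← map_mul, he1]⟩
    · exact Or.inl h) (by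
    rintro g hg _ (rfl | ⟨g', hg', rfl⟩)
    · simp
    · exact Or.inr ⟨_, mul_mem hg hg', (cj_mul _ _ _).symm⟩)
    ⟨e, Or.inr ⟨1, one_mem _, (cj_one e).symm⟩, fun h => h0 (rng_eq_bot.2 h), fun h => h1 (by
      rw [h, eq_top_iff]; exact fun v _ => ⟨v, one_mulVec v⟩)⟩
  have h4 : ∀ i, ∃ g ∈ H, E i = cj g e := fun i => (hS i).resolve_left (hE.ne i)
  obtain ⟨m, hm⟩ := hE.nd_decomp hf fun i => by
    obtain ⟨g, hg, h⟩ := h4 i
    rw [h, hf.adj_cj (hs hg), he2]
  have h5 : m = Module.finrank F (rng e) := by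
    obtain ⟨g, -, h⟩ := h4 ⟨0, by have := hE.two_le; omega⟩
    rw [← hm.decomp.finrank_eq, h, rng_cj, finrank_map_gl]
  exact ⟨t, _, h5 ▸ hm, hE.le_stab, fun i => let ⟨g, hg, h⟩ := h4 i; ⟨g, hg, by rw [h, rng_cj]⟩⟩

end orbit

section field

variable [Finite F] [Nonempty ι] {K : Subalgebra F (Matrix ι ι F)}

theorem Fld.exists_equiv (hK : IsFieldSubalgebra (Fintype.card ι) K) {v : ι → F} (hv : v ≠ 0) :
    ∃ Φ : K ≃ₗ[F] (ι → F), ∀ x : K, Φ x = x.1 *ᵥ v := by
  let φ : K →ₗ[F] (ι → F) := (mulVecBilin F F).flip v ∘ₗ K.val.toLinearMap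
  have hi : Function.Injective φ := (injective_iff_map_eq_zero _).2 fun x hx => by
    by_contra h0
    obtain ⟨y, hy, h⟩ := hK.inv x x.2 fun h => h0 (Subtype.ext h)
    refine hv ?_
    rw [← one_mulVec v, ← h, hK.comm _ x.2 _ hy, ← mulVec_mulVec, show x.1 *ᵥ v = 0 from hx,
      mulVec_zero]
  exact ⟨LinearEquiv.ofBijective φ ⟨hi, (LinearMap.injective_iff_surjective_of_finrank_eq_finrank
    (by simp [hK.finrank_eq])).1 hi⟩, fun _ => rfl⟩

theorem Fld.det_eq_pow (hK : IsFieldSubalgebra (Fintype.card ι) K) {x : Matrix ι ι F} (hx : x ∈ K) :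
    x.det • (1 : Matrix ι ι F) = x ^ ((Nat.card F ^ Fintype.card ι - 1) / (Nat.card F - 1)) := by
  letI := (Fld.isField hK).toField
  obtain ⟨i⟩ := ‹Nonempty ι›
  obtain ⟨Φ, hΦ⟩ := Fld.exists_equiv hK (v := Pi.single i 1) (by simp)
  have h1 := congrArg Subtype.val (FiniteField.algebraMap_norm_eq_pow (K := F) (x := (⟨x, hx⟩ : K)))
  rw [Fld.card hK, Algebra.norm_apply, ← LinearMap.det_conj _ Φ, Algebra.algebraMap_eq_smul_one]
    at h1
  refine Eq.trans ?_ (h1.trans rfl)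
  rw [← LinearMap.det_toLin']
  congr 2
  refine LinearMap.ext fun w => ?_
  obtain ⟨y, rfl⟩ := Φ.surjective w
  rw [LinearMap.comp_apply, LinearMap.comp_apply, LinearEquiv.coe_coe, LinearEquiv.coe_coe,
    Φ.symm_apply_apply, hΦ, hΦ, toLin'_apply, mulVec_mulVec]
  rfl

theorem Fld.scalar_of_pow {d : ℕ} (hK : IsFieldSubalgebra d K) {x : Matrix ι ι F} (hx : x ∈ K)
    (h : x ^ Nat.card F = x) : ∃ c : F, x = c • 1 := by
  obtain ⟨K', h1, h2⟩ := Fld.exists_dvd hK (one_dvd d)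
  have : K' = ⊥ := Subalgebra.finrank_eq_one_iff.1 h1.finrank_eq
  exact mem_bot_iff.1 (this ▸ (h2 x).2 ⟨hx, by rwa [pow_one]⟩)

end field

theorem map_eq_of_semi' {φ : F ≃+* F} {θ : (ι → F) → (ι → F)} {T : GL ι F}
    (hT : ∀ v, θ (T.val *ᵥ v) = T.val *ᵥ (φ ∘ v)) {x y : Matrix ι ι F}
    (hx : ∀ v, θ (x *ᵥ v) = y *ᵥ θ v) : (cj T⁻¹ x).map φ = cj T⁻¹ y := by
  refine ext_mulVec fun v => ?_
  obtain ⟨v, rfl⟩ : ∃ w, φ ∘ w = v := ⟨φ.symm ∘ v, by funext i; simp⟩
  rw [← comp_mulVec]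
  apply toLin'_injective T
  change _ *ᵥ _ = _ *ᵥ _
  rw [← hT, ← cj_mulVec, ← cj_mulVec, cj_cj_inv, cj_cj_inv, hx, hT]

theorem mem_subfield_of_semi [Nonempty ι] {φ : F ≃+* F} {θ : (ι → F) → (ι → F)} {T : GL ι F}
    (hT : ∀ v, θ (T.val *ᵥ v) = T.val *ᵥ (φ ∘ v)) {g : GL ι F} {c : F}
    (hx : ∀ v, θ (g.val *ᵥ v) = c • g.val *ᵥ θ v) : g ∈ subfieldSubgroup (fixF φ) T := by
  have := map_eq_of_semi' hT (x := g.val) (y := c • g.val) fun v => by rw [hx, smul_mulVec]
  rw [map_smul] at this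
  exact mem_subfieldSubgroup.2 (exists_rational_of_map (fun h => g.ne_zero ((cj T⁻¹).injective
    (by rw [h, map_zero]))) this)

theorem det_cj (g : GL ι F) (x : Matrix ι ι F) : (cj g x).det = x.det := det_units_conj g x

theorem gspan_map_tg {N : Subgroup (GL κ F)} (h : gspan N = ⊤) (e : ι ≃ κ) (P : GL ι F) :
    gspan (N.map (tg e P).toMonoidHom) = ⊤ := eq_top_iff.2 fun x _ => by
  obtain ⟨y, rfl⟩ := (tp e P).surjective x
  refine gspan_induction (N := N) (p := fun y => tp e P y ∈ gspan (N.map (tg e P).toMonoidHom))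
    (fun g hg => ?_) (by simp) (fun x y hx hy => by rw [map_add]; exact add_mem hx hy)
    (fun c x hx => by rw [map_smul]; exact Subalgebra.smul_mem _ hx c) (h ▸ Algebra.mem_top)
  rw [← coe_tg]; exact coe_mem_gspan ⟨g, hg, rfl⟩

theorem Sym.push {N : Subgroup (GL κ F)} {r : ℕ} (h : Sym N r) (e : ι ≃ κ) (P : GL ι F) :
    Sym (N.map (tg e P).toMonoidHom) r where
  zle x hx := by
    obtain ⟨c, rfl⟩ := mem_scalars_iff_sc.1 hx
    exact ⟨_, h.zle (sc_mem c), tg_sc e P c⟩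
  span := gspan_map_tg h.span e P
  ab := by
    rintro _ ⟨x, hx, rfl⟩ _ ⟨y, hy, rfl⟩
    have := (tg_mem_scalars e P).2 (h.ab x hx y hy)
    simpa using this
  prime := h.prime
  pow := by
    rintro _ ⟨x, hx, rfl⟩
    have := (tg_mem_scalars e P).2 (h.pow x hx)
    simpa using this
  two_le := Fintype.card_congr e ▸ h.two_le

theorem Sym.push_root_sup {N : Subgroup (GL κ F)} {r : ℕ} (h : Sym N r) (e : ι ≃ κ) (P : GL ι F)
    (hR : h.root ⊔ scalars κ F = N) :
    (h.push e P).root ⊔ scalars ι F = N.map (tg e P).toMonoidHom := by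
  refine le_antisymm (sup_le (h.push e P).root_le (h.push e P).zle) ?_
  rintro _ ⟨x, hx, rfl⟩
  obtain ⟨y, hy, c, rfl⟩ := mem_sup_scalars.1 (hR.ge hx)
  refine mem_sup_scalars.2 ⟨tg e P y, ⟨⟨y, hy.1, rfl⟩, ?_⟩, c, by simp [tg_sc]⟩
  rw [← map_pow, hy.2, map_one]

theorem nrm_push {H : Subgroup (GL ι F)} {N : Subgroup (GL κ F)} {e : ι ≃ κ} {P : GL ι F}
    (h : Nrm (pullG e P H) N) : Nrm H (N.map (tg e P).toMonoidHom) := by
  rintro g hg _ ⟨x, hx, rfl⟩
  obtain ⟨k, rfl⟩ := (tg e P).surjective g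
  exact ⟨_, h k (mem_pullG.2 hg) x hx, by simp⟩

end Cfsg.Agent.Asch
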