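import Cfsg.Agent.Asch.Pauli

/-! The refined Aschbacher theorem for maximal subgroups of `SL_n(q)`. -/

set_option autoImplicit false

namespace Cfsg.Agent.Asch

open Matrix Cfsg.Geo Equiv
open scoped Kronecker

variable {ι κ : Type} [Fintype ι] [DecidableEq ι] [Fintype κ] [DecidableEq κ] {F : Type*} [Field F]

section linear

variable [Fintype F] {n : ℕ} {H : Subgroup (GL (Fin n) F)}

/-- The geometric maximal subgroups of `SL_n(q)`. -/
inductive MaxL (p : Subgroup (GL (Fin n) F) → Prop) : Prop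
  | red (W : Submodule F (Fin n → F)) (h0 : W ≠ ⊥) (h1 : W ≠ ⊤) (h : p (subspaceStabilizer W))
  | dec (t m : ℕ) (D : Fin t → Submodule F (Fin n → F)) (hD : IsMDecomposition m D)
      (h1 : m = 1 → 5 ≤ Fintype.card F ∧ (n = 4 → 7 ≤ Fintype.card F))
      (h2 : m = 2 → 3 ≤ Fintype.card F ∧ (n = 4 → 4 ≤ Fintype.card F))
      (h : p (decompositionStabilizer D))
  | fld (r : ℕ) (K : Subalgebra F (Matrix (Fin n) (Fin n) F)) (hr : r.Prime)
      (hK : IsFieldSubalgebra r K) (h1 : n = 3 → Fintype.card F ≠ 4) (h : p (subalgebraNormalizer K))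
  | tens (k m : ℕ) (e : Fin n ≃ Fin k × Fin m) (P : GL (Fin n) F) (hk : 2 ≤ k) (hkm : k < m)
      (h1 : k = 2 → 3 ≤ Fintype.card F) (h : p (tensorProductSubgroup k m e P))
  | sub (K : Subfield F) (r : ℕ) (P : GL (Fin n) F) (hr : r.Prime)
      (hc : Fintype.card F = Nat.card K ^ r) (h : p (subfieldSubgroup K P))
  | sym (r k : ℕ) (R : Subgroup (GL (Fin n) F)) (hR : IsLinearSymplecticTypeData r R)
      (hk : n = r ^ k) (hs : gspan R = ⊤) (h : p (subgroupNormalizer R))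
  | wr (m t : ℕ) (e : Fin n ≃ (Fin t → Fin m)) (P : GL (Fin n) F) (hm : 3 ≤ m) (ht : 2 ≤ t)
      (h : p (tensorWreathSubgroup m t e P))
  | sp (f : (Fin n → F) → (Fin n → F) → F) (hf : IsSymplecticForm f) (he : Even n)
      (h : p (similarityGroup f))
  | uni (σ : F ≃+* F) (f : (Fin n → F) → (Fin n → F) → F) (hf : IsUnitaryForm σ f)
      (h : p (similarityGroup f))
  | orth (Q : (Fin n → F) → F) (hQ : IsNondegenerateQuadraticForm Q) (ho : Odd (Fintype.card F))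
      (h : p (quadSimilarityGroup Q))

theorem MaxL.imp (hn : 3 ≤ n) {p p' : Subgroup (GL (Fin n) F) → Prop} (h : MaxL p)
    (hp : ∀ M, p M → ¬ specialLinear (Fin n) F ≤ M → p' M) : MaxL p' := by
  have hq := qs_sl (F := F) hn
  cases h with
  | red W h0 h1 h => exact .red W h0 h1 (hp _ h (hq.not_le_stab h0 h1))
  | dec t m D hD h1 h2 h => exact .dec t m D hD h1 h2 (hp _ h (hq.not_le_dstab hD))
  | fld r K hr hK h1 h => exact .fld r K hr hK h1 (hp _ h (hq.not_le_anorm hr.one_lt hK))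
  | tens k m e P hk hkm h1 h =>
    exact .tens k m e P hk hkm h1 (hp _ h (hq.not_le_tensor hk (by omega) e P))
  | sub K r P hr hc h => exact .sub K r P hr hc (hp _ h (hq.not_le_subfield' hr.two_le hc P))
  | sym r k R hR hk hs h => exact .sym r k R hR hk hs (hp _ h (hq.not_le_gnorm
      hR.symplecticType.prime hR.symplecticType.pGroup hs (nrm_sl R)))
  | wr m t e P hm ht h => exact .wr m t e P hm ht (hp _ h (hq.not_le_wreath (by omega) ht e P))
  | sp f hf he h => exact .sp f hf he (hp _ h (sl_not_le_sim hn (sesq_of_symplectic hf)))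
  | uni σ f hf h => exact .uni σ f hf (hp _ h (sl_not_le_sim hn (sesq_of_unitary hf)))
  | orth Q hQ ho h => exact .orth Q hQ ho (hp _ h fun hle =>
      sl_not_le_sim hn (sesq_polar hQ) (hle.trans (quadSim_le_sim Q)))

theorem maxL_of_not_irr (h : ¬ Irr H) : MaxL (H ≤ ·) := by
  obtain ⟨W, h1, h2, h3⟩ := exists_of_not_irr h
  exact .red W h1 h2 (le_subspaceStabilizer h3)

theorem maxL_of_bilin (hn : 3 ≤ n) {ε : F} {f : (Fin n → F) → (Fin n → F) → F}
    (hf : Sesq (RingEquiv.refl F) ε f) (hs : H ≤ similarityGroup f) : MaxL (H ≤ ·) := by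
  by_cases hH : Irr H
  swap
  · exact maxL_of_not_irr hH
  rcases hf.alt_or hH hs (by simp; omega) with ha | ⟨h2, rfl⟩
  · exact .sp f (hf.isSymplecticForm ha) (by simpa using hf.even_of_alt ha) hs
  · exact .orth _ (hf.quad_diag h2) (odd_of_two_ne_zero h2) (hs.trans (sim_le_quadSim_diag f))

theorem maxL_of_sesq (hn : 3 ≤ n) {σ : F ≃+* F} {ε : F} {f : (Fin n → F) → (Fin n → F) → F}
    (hf : Sesq σ ε f) (hs : H ≤ similarityGroup f) : MaxL (H ≤ ·) := by
  by_cases hσ : ∃ a, σ a ≠ a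
  · obtain ⟨b, hb, hf'⟩ := hf.exists_herm hσ
    exact .uni σ _ (hf'.isUnitaryForm hσ) (by rwa [sim_smul hb])
  · push Not at hσ
    obtain rfl : σ = RingEquiv.refl F := RingEquiv.ext hσ
    exact maxL_of_bilin hn hf hs

theorem maxL_of_realisable [Nonempty (Fin n)] {N : Subgroup (GL (Fin n) F)} (hN : gspan N = ⊤)
    (hn : Nrm H N) {K : Subfield F} (hK : K ≠ ⊤) (h : RealisableOver K (matrixSet N)) :
    MaxL (H ≤ ·) := by
  obtain ⟨K', r, P, hr, -, hc, hP⟩ := exists_subfield_of_realisable hK h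
  exact .sub K' r P hr (by rw [← Nat.card_eq_fintype_card, hc]) (le_subfieldSubgroup hN hn hP)

theorem maxL_of_root (hn : 3 ≤ n) {N : Subgroup (GL (Fin n) F)} {r : ℕ} (h : Sym N r)
    (hnr : Nrm H N) (hR : h.root ⊔ scalars _ F = N) : MaxL (H ≤ ·) := by
  haveI := h.nonempty
  have hs := h.span_of_sup hR
  have hnr := h.nrm_root hnr
  have hz : ∀ c : Fˣ, sc (Fin n) c ∈ h.root →
      (c : F) ^ (Nat.card F - 1).gcd (r * Nat.gcd 2 r) = 1 :=
    fun c hc => pow_gcd_card c.ne_zero (mem_root_sc h hc)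
  have hZ : Nat.card (Subgroup.center h.root) = (Nat.card F - 1).gcd (r * Nat.gcd 2 r) := by
    rw [card_center hs, h.card_comap_root]
  obtain ⟨m, hm1, hmn⟩ := h.card_eq_pow
  have hc := h.card_of_sup hR hmn
  rcases minimal_or (F := F) (Nat.gcd_dvd_left (Nat.card F - 1) (r * Nat.gcd 2 r)) with
    ⟨p, e, hmin⟩ | ⟨K, hK, hKz⟩
  swap
  · exact maxL_of_realisable hs hnr hK (h.realisable hR fun c hc => hKz _ (hz c hc))
  have hu : Even e → ((Nat.card F - 1).gcd (r * Nat.gcd 2 r)).Prime ∨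
      ((Nat.card F - 1).gcd (r * Nat.gcd 2 r) = 4 ∧ e = 2) → MaxL (H ≤ ·) := fun he h' => by
    obtain ⟨σ, hσ, -, hσz⟩ := exists_invol_of_even hmin he h'
    obtain ⟨l, G, hf, hfix⟩ := h.exists_form hR hσ fun c hc => hσz _ (hz c hc)
    exact maxL_of_sesq hn hf (hf.le_sim_of_nrm hs hnr hfix)
  haveI := hmin.2.1
  rcases gcd_cases h.prime h.dvd_card_sub_one with ⟨ho, hg, -⟩ | ⟨rfl, h4, hg⟩ | ⟨rfl, -, hg⟩
  · rcases Nat.even_or_odd e with he | he
    · exact hu he (Or.inl (by rw [hg]; exact h.prime))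
    · exact .sym r m _ ⟨h.isSymplecticTypeGroup_root hR (Or.inl ho), absIrr_of_gspan hs, p, e,
        h.ne_char hmin.1, by rwa [hZ], Or.inl ⟨ho, he, hZ.trans hg, m, hm1,
        by rw [hc, hZ, hg]; ring⟩⟩ (by simpa using hmn) hs hnr.le_normalizer
  · rcases minimal_four (by rwa [hg] at hmin) with he | he
    · refine .sym 2 m _ ⟨h.isSymplecticTypeGroup_root hR (Or.inr ?_), absIrr_of_gspan hs, p, e,
        h.ne_char hmin.1, by rwa [hZ], Or.inr (Or.inl ⟨rfl, he, hZ.trans hg, ?_, m,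
        by rw [hc, hZ, hg]; ring⟩)⟩ (by simpa using hmn) hs hnr.le_normalizer
      · obtain ⟨i, hi⟩ := FiniteField.isSquare_neg_one_iff.2 (show Fintype.card F % 4 ≠ 3 by
          rw [Nat.card_eq_fintype_card] at h4; omega)
        exact ⟨i, hi.symm⟩
      rw [Fintype.card_fin] at hmn ⊢
      rcases hm1.eq_or_lt with rfl | h1
      · omega
      · rw [hmn]; exact Nat.pow_le_pow_right (n := 2) two_pos h1
    · exact hu (by rw [he]; exact even_two) (Or.inr ⟨hg, he⟩)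
  · obtain ⟨l, G, hf, hfix⟩ := h.exists_form hR (σ := RingEquiv.refl F) (fun _ => rfl)
      fun c hc => by have := hz c hc; rw [hg, sq] at this; exact this
    exact maxL_of_bilin hn hf (hf.le_sim_of_nrm hs hnr hfix)

/-- Frames over fields with at most four elements preserve a form. -/
theorem exists_sesq_of_frame (h4 : Fintype.card F ≤ 4) {t : ℕ} {D : Fin t → Submodule F (ι → F)}
    (hD : IsMDecomposition 1 D) : ∃ (σ : F ≃+* F) (f : (ι → F) → (ι → F) → F),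
      Sesq σ 1 f ∧ decompositionStabilizer D ≤ similarityGroup f := by
  obtain ⟨σ, hσ, h1⟩ : ∃ σ : F ≃+* F, (∀ a, σ (σ a) = a) ∧ ∀ a : Fˣ, (a : F) * σ a = 1 := by
    have h2 := Fintype.one_lt_card (α := F)
    have h3 := fun a : Fˣ => congrArg Units.val (pow_card_sub_one_units a)
    rcases h4.eq_or_lt with h4 | h4
    · refine ⟨fq (q := 2) h4, fq_fq _, fun a => ?_⟩
      rw [fq_apply, ← pow_succ']; simpa [h4] using h3 a
    · refine ⟨RingEquiv.refl F, fun _ => rfl, fun a => ?_⟩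
      have := h3 a
      interval_cases Fintype.card F <;> simp_all [sq]
  choose b hb h0 using mdec_exists_ne hD
  obtain ⟨e, P, -, h⟩ := exists_mframe hD hb h0
  refine ⟨σ, _, (sesq_one hσ).push e P, fun g hg => ?_⟩
  obtain ⟨π, a, rfl, -⟩ := h g hg
  refine mem_sim_push (coe_tg _ _ _) one_ne_zero fun u v => ?_
  rw [← diagonal_one, coe_monoGL, form_mono]; simp [h1]

theorem nrm_P4_of_frame {D : Fin 4 → Submodule F (ι → F)} {e : ι ≃ Fin 4} {P : GL ι F}
    {H : Subgroup (GL ι F)} (hH : H ≤ specialLinear ι F)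
    (h : ∀ g ∈ H, ∃ π a, g = tg e P (monoGL π a) ∧ ∀ i, a i ^ 4 = 1) :
    Nrm H ((P4 F).map (tg e P).toMonoidHom) := nrm_push fun g hg x hx => by
  obtain ⟨π, a, h1, h2⟩ := h _ hg
  obtain rfl := (tg e P).injective h1
  exact P4_conj h2 (prod_sq_of_det (hH hg)) hx

theorem sesq_J2 : Sesq (RingEquiv.refl F) (-1) (formOfGram (RingEquiv.refl F) (J2 F)) :=
  sesq_formOfGram (fun _ => rfl) (by simp) det_J2 (by simpa using J2_transpose (F := F))

theorem form_J2 (a : Matrix (Fin 2) (Fin 2) F) (x y : Fin 2 → F) :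
    formOfGram (RingEquiv.refl F) (J2 F) (a *ᵥ x) (a *ᵥ y) =
      a.det * formOfGram (RingEquiv.refl F) (J2 F) x y :=
  (gram_isom_iff (RingEquiv.refl F) _ a _).2 (by simpa using mul_J2 a) x y

/-- Decompositions into planes over small fields preserve an alternating form. -/
theorem exists_sesq_of_planes {t : ℕ} {D : Fin t → Submodule F (ι → F)}
    (hD : IsMDecomposition 2 D) (h : Fintype.card F = 2 ∨ (Fintype.card F = 3 ∧ t = 2)) :
    ∃ (f : (ι → F) → (ι → F) → F), Sesq (RingEquiv.refl F) (-1) f ∧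
      decompositionStabilizer D ⊓ specialLinear ι F ≤ similarityGroup f := by
  let b := fun i => (mdec_basis hD i).some
  obtain ⟨e, P, hb⟩ := exists_bframe hD b
  refine ⟨_, (sesq_kron_one sesq_J2).push e P, fun g hg => ?_⟩
  obtain ⟨π, a, h1, -⟩ := exists_bm hb hg.1
  let i₀ : Fin t := ⟨0, by have := hD.two_le; omega⟩
  refine mem_sim_push h1 (a i₀).det_ne_zero (bm_sim sesq_J2 π fun i x y => ?_)
  rw [form_J2]
  congr 1
  have h3 := fun i => FiniteField.pow_card_sub_one_eq_one _ (a i).det_ne_zero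
  rcases h with h | ⟨h, rfl⟩
  · simp only [h, Nat.add_one_sub_one, pow_one] at h3
    rw [h3, h3]
  · have h2 := mem_sl.1 hg.2
    rw [h1, det_tp, det_bm, Fintype.card_fin, sign_sq, one_mul, Fin.prod_univ_two] at h2
    simp only [h, Nat.add_one_sub_one] at h3
    have h4 := h3 0
    fin_cases i
    · rfl
    · change (a 1).val.det = (a 0).val.det
      linear_combination (a 0).val.det * h2 - (a 1).val.det * h4

theorem maxL_of_dec (hn : 3 ≤ n) (hH : H ≤ specialLinear _ F) {t m : ℕ}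
    {D : Fin t → Submodule F (Fin n → F)} (hD : IsMDecomposition m D)
    (h : H ≤ decompositionStabilizer D) : MaxL (H ≤ ·) := by
  have hm := mdec_mul_eq hD
  rw [Fintype.card_fin] at hm
  have h2 := Fintype.one_lt_card (α := F)
  by_cases h1 : m = 1 ∧ Fintype.card F ≤ 4
  · obtain ⟨rfl, h1⟩ := h1
    obtain ⟨σ, f, hf, hs⟩ := exists_sesq_of_frame h1 hD
    exact maxL_of_sesq hn hf (h.trans hs)
  by_cases h3 : m = 2 ∧ (Fintype.card F = 2 ∨ (Fintype.card F = 3 ∧ t = 2))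
  · obtain ⟨rfl, h3⟩ := h3
    obtain ⟨f, hf, hs⟩ := exists_sesq_of_planes hD h3
    exact maxL_of_bilin hn hf ((le_inf h hH).trans hs)
  by_cases h4 : m = 1 ∧ n = 4 ∧ Fintype.card F = 5
  · obtain ⟨rfl, rfl, h4⟩ := h4
    obtain rfl : t = 4 := by omega
    have h5 : (2 : F) ≠ 0 := two_ne_zero_of_odd (by rw [h4]; decide)
    choose b hb h0 using mdec_exists_ne hD
    obtain ⟨e, P, -, h6⟩ := exists_mframe hD hb h0
    refine maxL_of_root hn ((sym_P4 h5).push e P) (nrm_P4_of_frame (D := D) hH fun g hg => ?_)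
      (Sym.push_root_sup _ e P (P4_root_sup h5))
    obtain ⟨π, a, h7, -⟩ := h6 g (h hg)
    exact ⟨π, a, h7, fun i => by simpa [h4] using pow_card_sub_one_units (a i)⟩
  have := card_ne_six (F := F)
  refine .dec t m D hD (fun _ => ⟨by omega, fun _ => by omega⟩)
    (fun hm2 => ⟨by omega, fun _ => ?_⟩) h
  subst hm2; omega

theorem maxL_of_field (hH : H ≤ specialLinear _ F) [Nonempty (Fin n)] {d : ℕ} (hd : 1 < d)
    {K : Subalgebra F (Matrix (Fin n) (Fin n) F)} (hK : IsFieldSubalgebra d K) (hi : Inv H K) :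
    MaxL (H ≤ ·) := by
  obtain ⟨r, hr, hrd⟩ := Nat.exists_prime_and_dvd hd.ne'
  obtain ⟨K', -, h1, h2, -⟩ := Fld.exists_dvd_inv hK hrd hi
  by_cases h : n = 3 ∧ Fintype.card F = 4
  · obtain ⟨rfl, h4⟩ := h
    obtain rfl : r = 3 := (Nat.prime_dvd_prime_iff_eq hr Nat.prime_three).1 (by
      simpa using Fld.dvd_card h1)
    obtain ⟨P, hP⟩ := le_subfield_of_cubic h4 (by simp) h1
    exact .sub _ 2 P Nat.prime_two (by rw [card_fixF_fq, h4]; rfl)
      ((le_inf h2.le_normalizer hH).trans hP)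
  · exact .fld r K' hr h1 (fun h1 h2 => h ⟨h1, h2⟩) h2.le_normalizer

theorem maxL_of_comm (hn : 3 ≤ n) (hH : H ≤ specialLinear _ F) (hI : Irr H)
    {C : Subalgebra F (Matrix (Fin n) (Fin n) F)} (hC : Inv H C) (hc : IsComm C) (hne : C ≠ ⊥) :
    MaxL (H ≤ ·) := by
  haveI : Nonempty (Fin n) := ⟨⟨0, by omega⟩⟩
  rcases comm_cases hI hC hc hne with ⟨t, e, he, -⟩ | ⟨d, hd, hK⟩
  · obtain ⟨m, hm⟩ := he.decomp
    exact maxL_of_dec hn hH hm he.le_stab
  · exact maxL_of_field hH hd hK hC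

theorem maxL_of_wreath (hn : 3 ≤ n) {m t : ℕ} (hm : 2 ≤ m) (ht : 2 ≤ t)
    {e : Fin n ≃ (Fin t → Fin m)} {P : GL (Fin n) F} (h : H ≤ tensorWreathSubgroup m t e P) :
    MaxL (H ≤ ·) := by
  rcases hm.eq_or_lt with rfl | hm
  · haveI : Nonempty (Fin t) := ⟨⟨0, by omega⟩⟩
    obtain ⟨ε, f, hf, hs⟩ := wreath_two_le_sim e P
    exact maxL_of_bilin hn hf (h.trans hs)
  · exact .wr m t e P hm ht h

theorem hasComm_zero_of_tensor {k m : ℕ} [Nonempty ι] {e : ι ≃ Fin k × Fin m} {P : GL ι F}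
    {H : Subgroup (GL ι F)} (h : H ≤ tensorProductSubgroup k m e P) {σ : F ≃+* F}
    {f : (Fin k → F) → (Fin k → F) → F} (hc : HasComm σ f (fstG (pullG e P H))) :
    HasComm σ (fun _ _ => 0) H := by
  haveI : Nonempty (Fin k) := ⟨(e (Classical.arbitrary ι)).1⟩
  obtain ⟨C, h1, h2, h3, -⟩ := hc
  refine HasComm.map (f' := fun _ _ => 0) ⟨C, h1, h2, h3, fun x _ => by simp [sesq_zero_adj]⟩
    ((tp e P).toAlgHom.comp (lk (Fin k) (Fin m) F)) (fun g hg => ?_) fun x => by simp [sesq_zero_adj]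
  obtain ⟨a, b, rfl⟩ := mem_tensorProductSubgroup.1 (h hg)
  refine ⟨a, ⟨b, hg⟩, fun x => ?_⟩
  rw [AlgHom.comp_apply, AlgHom.comp_apply, lk_apply, lk_apply]
  exact (cj_tg _ _ _ _).trans (by rw [cj_kronecker, map_one]; rfl)

theorem hasComm_of_tensor_two (h2 : Fintype.card F = 2) {m : ℕ} [Nonempty ι]
    {e : ι ≃ Fin 2 × Fin m} {P : GL ι F} {H : Subgroup (GL ι F)} (hI : Irr H)
    (h : H ≤ tensorProductSubgroup 2 m e P) : HasComm (RingEquiv.refl F) (fun _ _ => 0) H := by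
  haveI : Nonempty (Fin m) := ⟨(e (Classical.arbitrary ι)).2⟩
  refine hasComm_zero_of_tensor h (sesq_J2.hasComm_of_char ((hI.pullG e P).fstG fun g hg => ?_)
    (fun a _ => mem_sim_J2 a) (noPerf_gl2 (by omega) _) (by simpa using Nat.prime_two)
    (by simp [h2]))
  obtain ⟨a, b, h1⟩ := mem_tensorProductSubgroup.1 (h hg)
  exact ⟨a, b, (tg e P).injective h1⟩

theorem maxL_of_tensor' (hn : 3 ≤ n) (hH : H ≤ specialLinear _ F) (hI : Irr H) {k m : ℕ}
    (hk : 2 ≤ k) (hm : k < m) {e : Fin n ≃ Fin k × Fin m} {P : GL (Fin n) F}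
    (h : H ≤ tensorProductSubgroup k m e P) : MaxL (H ≤ ·) := by
  haveI : Nonempty (Fin n) := ⟨⟨0, by omega⟩⟩
  by_cases h1 : k = 2 ∧ Fintype.card F = 2
  · obtain ⟨rfl, h1⟩ := h1
    obtain ⟨C, h1, h2, h3, -⟩ := hasComm_of_tensor_two h1 hI h
    exact maxL_of_comm hn hH hI h1 h2 h3
  · have h2 := Fintype.one_lt_card (α := F)
    exact .tens k m e P hk hm (fun _ => by omega) h

theorem maxL_main (hn : 3 ≤ n) (hH : H ≤ specialLinear _ F) :
    MaxL (H ≤ ·) ∨ InLinearResidualClass H := by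
  haveI : Nonempty (Fin n) := ⟨⟨0, by omega⟩⟩
  by_cases hI : Irr H
  swap
  · exact Or.inl (maxL_of_not_irr hI)
  have h2 : 2 ≤ Fintype.card (Fin n) := by simp; omega
  obtain ⟨N, hm, -, h | ⟨h1, h2, h3⟩ | ⟨h1, h3⟩ | ⟨P, m, t, e, T, ψ, g, h⟩ | ⟨P, h⟩⟩ := core hI h2
  · exact Or.inl (maxL_of_comm hn hH hI hm.nrm.inv_gspan.ctr (isComm_ctr _) h)
  · obtain ⟨k, m, e, P, hk, hm', hle, -⟩ := tensor_case hI hm.nrm.inv_gspan h1 h2 h3
    rcases lt_trichotomy k m with hl | rfl | hl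
    · exact Or.inl (maxL_of_tensor' hn hH hI hk hl hle)
    · exact Or.inl (maxL_of_wreath hn hk le_rfl (hle.trans (tensor_le_wreath e P)))
    · exact Or.inl (maxL_of_tensor' hn hH hI hm' hl (tensorProductSubgroup_swap e P ▸ hle))
  · obtain ⟨r, hr⟩ := hm.sym h1 h3 h2
    exact Or.inl (maxL_of_root hn hr hm.nrm (hr.root_sup hm))
  · exact Or.inl (maxL_of_wreath hn h.two_le_m h.two_le_t h.le)
  by_contra hc
  rw [not_or] at hc
  refine hc.2 ⟨P, h.core fun K hK hr => hc.1 (maxL_of_realisable h.span h.nrm hK hr), ?_, ?_, ?_⟩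
  · rintro ⟨Q, hQ, hfix⟩
    exact hc.1 (maxL_of_bilin hn (sesq_polar hQ)
      ((sesq_polar hQ).le_sim_of_nrm h.span h.nrm (fixesForm_polar hfix)))
  · rintro ⟨f, hf, hfix⟩
    exact hc.1 (maxL_of_bilin hn (sesq_of_symplectic hf)
      ((sesq_of_symplectic hf).le_sim_of_nrm h.span h.nrm hfix))
  · rintro ⟨σ, f, hf, hfix⟩
    exact hc.1 (maxL_of_sesq hn (sesq_of_unitary hf)
      ((sesq_of_unitary hf).le_sim_of_nrm h.span h.nrm hfix))

/-- Maximal subgroups of `SL_n(q)`. -/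
theorem maxL_of_max (hn : 3 ≤ n) (hH : IsMaximalIn (specialLinear _ F) H) :
    MaxL (fun M => H = M ⊓ specialLinear _ F) ∨ InLinearResidualClass H :=
  (maxL_main hn hH.1.le).imp_left fun h => h.imp hn fun _ => eq_of_max hH

end linear

section arith

set_option synthInstance.maxSize 2000

theorem mdec_arith {t m : ℕ} {D : Fin t → Submodule F (ι → F)} (hD : IsMDecomposition m D) :
    t * m = Fintype.card ι ∧ 2 ≤ t ∧ t ≤ Fintype.card ι ∧ 0 < m :=
  ⟨mdec_mul_eq hD, hD.two_le, mdec_mul_eq hD ▸ Nat.le_mul_of_pos_right _ hD.pos, hD.pos⟩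

theorem tens_arith {k m : ℕ} (e : ι ≃ Fin k × Fin m) (hkm : k < m) :
    k * m = Fintype.card ι ∧ k ≤ Fintype.card ι := by
  have : k * m = Fintype.card ι := by simpa using (Fintype.card_congr e).symm
  exact ⟨this, this ▸ Nat.le_mul_of_pos_right _ (by omega)⟩

theorem fld_arith [Finite F] [Nonempty ι] {r : ℕ} {K : Subalgebra F (Matrix ι ι F)}
    (hK : IsFieldSubalgebra r K) : r ∣ Fintype.card ι ∧ r ≤ Fintype.card ι :=
  ⟨Fld.dvd_card hK, Nat.le_of_dvd Fintype.card_pos (Fld.dvd_card hK)⟩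

theorem wr_arith {m t : ℕ} (e : ι ≃ (Fin t → Fin m)) (hm : 3 ≤ m) (ht : 2 ≤ t)
    (hn : Fintype.card ι ≤ 15) : Fintype.card ι = 9 ∧ m = 3 ∧ t = 2 := by
  have h : Fintype.card ι = m ^ t := by simpa using Fintype.card_congr e
  have h1 : m ≤ 3 := by
    by_contra hc
    have := (Nat.pow_le_pow_left (show 4 ≤ m by omega) t).trans' (Nat.pow_le_pow_right (n := 4)
      (by omega) ht)
    omega
  obtain rfl : m = 3 := by omega
  have h2 : t ≤ 2 := by
    by_contra hc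
    have := Nat.pow_le_pow_right (n := 3) (by omega) (show 3 ≤ t by omega)
    omega
  obtain rfl : t = 2 := by omega
  exact ⟨h, rfl, rfl⟩

theorem prime_pow_arith {n r k : ℕ} (hr : r.Prime) (h : n = r ^ k) (hn : n ≠ 1) :
    IsPrimePow n ∧ n.minFac = r := by
  have hk : k ≠ 0 := by rintro rfl; exact hn h
  exact ⟨⟨r, k, hr.prime, Nat.pos_of_ne_zero hk, h.symm⟩, h ▸ hr.pow_minFac hk⟩

variable [Fintype F] {R : Subgroup (GL ι F)}

theorem sym_odd {r : ℕ} (hR : IsLinearSymplecticTypeData r R) (hr : r ≠ 2) :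
    ∃ p e, Odd e ∧ IsMinimalFieldFor r p e F := by
  obtain ⟨p, e, -, hm, ⟨-, he, hz, -⟩ | h | h⟩ := hR.field
  exacts [⟨p, e, he, hz ▸ hm⟩, absurd h.1 hr, absurd h.1 hr]

theorem sym_two (hR : IsLinearSymplecticTypeData 2 R) (hn : Fintype.card ι ≠ 2) :
    ∃ p : ℕ, p.Prime ∧ Fintype.card F = p ∧ p % 4 = 1 := by
  obtain ⟨p, e, -, hm, h | ⟨-, rfl, hz, -⟩ | h⟩ := hR.field
  · exact absurd h.1 (by decide)
  · rw [hz] at hm
    exact ⟨p, hm.1, by simpa using hm.2.2.1, by simpa using (minimal_mod hm (by omega)).2.1⟩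
  · exact absurd h.2.2.1 hn

theorem sym_three (hR : IsLinearSymplecticTypeData 3 R) :
    ∃ p : ℕ, p.Prime ∧ Fintype.card F = p ∧ p % 3 = 1 := by
  obtain ⟨p, e, he, hm⟩ := sym_odd hR (by omega)
  obtain ⟨rfl, h⟩ := minimal_dec (k := 2) (C := fun a e => Odd e → e = 1 ∧ a = 1) hm (by omega)
    (by omega) (by decide) (by decide) he
  exact ⟨p, hm.1, by simpa using hm.2.2.1, h⟩

theorem sym_five (hR : IsLinearSymplecticTypeData 5 R) :
    ∃ p : ℕ, p.Prime ∧ Fintype.card F = p ∧ p % 5 = 1 := by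
  obtain ⟨p, e, he, hm⟩ := sym_odd hR (by omega)
  obtain ⟨rfl, h⟩ := minimal_dec (k := 4) (C := fun a e => Odd e → e = 1 ∧ a = 1) hm (by omega)
    (by omega) (by decide) (by decide) he
  exact ⟨p, hm.1, by simpa using hm.2.2.1, h⟩

theorem sym_seven (hR : IsLinearSymplecticTypeData 7 R) :
    ∃ p : ℕ, p.Prime ∧ CharP F p ∧ ((Fintype.card F = p ∧ p % 7 = 1) ∨
      (Fintype.card F = p ^ 3 ∧ (p % 7 = 2 ∨ p % 7 = 4))) := by
  obtain ⟨p, e, he, hm⟩ := sym_odd hR (by omega)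
  obtain ⟨rfl, h⟩ | ⟨rfl, h⟩ := minimal_dec (k := 6)
    (C := fun a e => Odd e → (e = 1 ∧ a = 1) ∨ (e = 3 ∧ (a = 2 ∨ a = 4))) hm (by omega)
    (by omega) (by decide) (by decide) he
  · exact ⟨p, hm.1, hm.2.1, Or.inl ⟨by simpa using hm.2.2.1, h⟩⟩
  · exact ⟨p, hm.1, hm.2.1, Or.inr ⟨hm.2.2.1, h⟩⟩

theorem sym_eleven (hR : IsLinearSymplecticTypeData 11 R) :
    ∃ p : ℕ, p.Prime ∧ CharP F p ∧ ((Fintype.card F = p ∧ p % 11 = 1) ∨
      (Fintype.card F = p ^ 5 ∧ (p % 11 = 3 ∨ p % 11 = 4 ∨ p % 11 = 5 ∨ p % 11 = 9))) := by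
  obtain ⟨p, e, he, hm⟩ := sym_odd hR (by omega)
  obtain ⟨rfl, h⟩ | ⟨rfl, h⟩ := minimal_dec (k := 10)
    (C := fun a e => Odd e → (e = 1 ∧ a = 1) ∨ (e = 5 ∧ (a = 3 ∨ a = 4 ∨ a = 5 ∨ a = 9))) hm
    (by omega) (by omega) (by decide) (by decide) he
  · exact ⟨p, hm.1, hm.2.1, Or.inl ⟨by simpa using hm.2.2.1, h⟩⟩
  · exact ⟨p, hm.1, hm.2.1, Or.inr ⟨hm.2.2.1, h⟩⟩

end arith

end Cfsg.Agent.Asch
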