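import Cfsg.Agent.Asch.OSmall

/-! Extension-field structures: orthogonal spaces of dimension one or two over a self-adjoint
field of matrices. -/

set_option autoImplicit false

namespace Cfsg.Agent.Asch

open Matrix Cfsg.Geo Module

universe u

variable {ι : Type} [Fintype ι] [DecidableEq ι]

local notation "rf" => RingEquiv.refl
local notation "pl" => QuadraticMap.polar
local notation "NQ" => IsNondegenerateQuadraticForm

/-- Coordinates for the natural module as a vector space over a field of matrices. -/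
structure Ext {F : Type u} [Field F] (K : Subalgebra F (Matrix ι ι F)) (L : Type u) [Field L]
    [Algebra F L] {m : ℕ} (ρ : L →ₐ[F] Matrix ι ι F) (Φ : (Fin m → L) ≃ₗ[F] (ι → F)) : Prop where
  range : ∀ x, x ∈ K ↔ ∃ y, ρ y = x
  app : ∀ l x, ρ l *ᵥ Φ x = Φ (l • x)
  norm : ∀ g ∈ subalgebraNormalizer K, ∃ (α : L ≃ₐ[F] L) (M : Matrix (Fin m) (Fin m) L),
    (∀ l, cj g (ρ l) = ρ (α l)) ∧ ∀ x, g.val *ᵥ Φ x = Φ (M *ᵥ (α ∘ x))

theorem exists_ext {F : Type u} [Field F] [Finite F] [Nonempty ι] {d m : ℕ}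
    {K : Subalgebra F (Matrix ι ι F)} (hK : IsFieldSubalgebra d K) (hm : Fintype.card ι = d * m) :
    ∃ (L : Type u) (_ : Field L) (_ : Finite L) (_ : Algebra F L) (ρ : L →ₐ[F] Matrix ι ι F)
      (Φ : (Fin m → L) ≃ₗ[F] (ι → F)), Ext K L ρ Φ ∧ Nat.card L = Nat.card F ^ d := by
  letI := (Fld.isField hK).toField
  letI : Module K (ι → F) := Module.compHom (ι → F) (K.val.toRingHom : K →+* Matrix ι ι F)
  have h1 : Nat.card (ι → F) = Nat.card K ^ finrank K (ι → F) := Module.natCard_eq_pow_finrank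
  rw [Fld.card hK, ← pow_mul, Nat.card_fun, Nat.card_eq_fintype_card (α := ι), hm] at h1
  let b := (Module.finBasisOfFinrankEq K (ι → F) (Nat.eq_of_mul_eq_mul_left (Fld.pos hK)
    (Nat.pow_right_injective (two_le_natCard F) h1)).symm).equivFun.symm
  have hb : ∀ (l : K) x, l.1 *ᵥ b x = b (l • x) := fun l x => (b.map_smul l x).symm
  let Φ : (Fin m → K) ≃ₗ[F] (ι → F) :=
    { b.toAddEquiv with
      map_smul' := fun c x => by
        have := hb (algebraMap F K c) x
        rw [algebraMap_smul, Subalgebra.coe_algebraMap, Algebra.algebraMap_eq_smul_one, smul_mulVec,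
          one_mulVec] at this
        exact this.symm }
  refine ⟨K, (Fld.isField hK).toField, inferInstance, inferInstanceAs (Algebra F K), K.val, Φ,
    ⟨fun x => ⟨fun h => ⟨⟨x, h⟩, rfl⟩, fun ⟨y, h⟩ => h ▸ y.2⟩, hb, fun g hg => ?_⟩, Fld.card hK⟩
  let α : K ≃ₐ[F] K := AlgEquiv.ofRingEquiv (f := (inv_subalgebraNormalizer K).aut g hg)
    fun c => Subtype.ext ((cj g).commutes c)
  refine ⟨α, Matrix.of fun i j => b.symm (g.val *ᵥ b (Pi.single j 1)) i, fun _ => rfl, fun x => ?_⟩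
  change g.val *ᵥ b x = b _
  rw [← Finset.univ_sum_single x, map_sum, mulVec_sum, Finset.univ_sum_single, mulVec_eq_sum, map_sum]
  refine Finset.sum_congr rfl fun j _ => ?_
  rw [single_eq_smul, ← hb, ← cj_mulVec, op_smul_eq_smul, ← hb]
  exact congrArg _ (b.apply_symm_apply _).symm

variable {F : Type u} [Field F] [Finite F] {L : Type u} [Field L] [Finite L] [Algebra F L]

theorem exists_tr (φ : L →ₗ[F] F) : ∃ a, ∀ l, φ l = Algebra.trace F L (a * l) :=
  ⟨_, fun l => (LinearMap.BilinForm.apply_toDual_symm_apply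
    (hB := traceForm_nondegenerate F L) φ l).symm⟩

theorem eq_zero_of_tr {a : L} (h : ∀ l, Algebra.trace F L (a * l) = 0) : a = 0 :=
  (traceForm_nondegenerate F L).1 a h

omit [Finite F] [Finite L] in
theorem two_eq_zero_ext (h2 : (2 : F) = 0) : (2 : L) = 0 := by
  rw [← map_ofNat (algebraMap F L) 2, h2, map_zero]

theorem eq_zero_of_tr_sq {a : L} (h : ∀ l, Algebra.trace F L (a * l ^ 2) = 0) : a = 0 := by
  refine eq_zero_of_tr (F := F) fun l => ?_
  by_cases h2 : (2 : F) = 0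
  · obtain ⟨y, rfl⟩ := exists_sq_of_two (two_eq_zero_ext (L := L) h2) l
    rw [← sq, h]
  · have h1 := h (l + 1)
    rw [show a * (l + 1) ^ 2 = a * l ^ 2 + a * 1 ^ 2 + (2 : F) • (a * l) by rw [two_smul]; ring,
      map_add, map_add, h, h, map_smul] at h1
    simpa [h2] using h1

variable {Q : (ι → F) → F} {K : Subalgebra F (Matrix ι ι F)} {m : ℕ}
  {ρ : L →ₐ[F] Matrix ι ι F} {H : Subgroup (GL ι F)}

theorem exists_tr_polar (hQ : NQ Q) (hs : ∀ l, adj (rf F) (pl Q) (ρ l) = ρ l) (u v : ι → F) :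
    ∃ a, ∀ l l', pl Q (ρ l *ᵥ u) (ρ l' *ᵥ v) = Algebra.trace F L (a * (l * l')) := by
  have hf := sesq_polar hQ
  obtain ⟨a, ha⟩ := exists_tr (hf.bilin.flip v ∘ₗ (mulVecBilin F F).flip u ∘ₗ ρ.toLinearMap)
  exact ⟨a, fun l l' => by
    rw [← ha, ← hs l', ← hf.adj_spec, mulVec_mulVec, ← map_mul, mul_comm]; rfl⟩

theorem exists_tr_sq (hQ : NQ Q) (hs : ∀ l, adj (rf F) (pl Q) (ρ l) = ρ l) (v : ι → F) :
    ∃ a, ∀ l, Q (ρ l *ᵥ v) = Algebra.trace F L (a * l ^ 2) := by
  obtain ⟨a, ha⟩ := exists_tr_polar hQ hs v v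
  by_cases h2 : (2 : F) = 0
  swap
  · exact ⟨(2 : F)⁻¹ • a, fun l => by
      rw [smul_mul_assoc, map_smul, sq, ← ha, polar_self hQ, smul_eq_mul, inv_mul_cancel_left₀ h2]⟩
  have h3 := two_eq_zero_ext (L := L) h2
  obtain rfl : a = 0 := eq_zero_of_tr_sq (F := F) fun l => by
    rw [sq, ← ha, polar_self hQ, h2, zero_mul]
  choose r hr using exists_sq_of_two h3
  have hr' : ∀ x y, y * y = x → r x = y := fun x y h => by
    have : (r x - y) ^ 2 = 0 := by linear_combination hr x - h + (y * y - r x * y) * h3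
    exact sub_eq_zero.1 (pow_eq_zero_iff two_ne_zero |>.1 this)
  obtain ⟨a, ha'⟩ := exists_tr (F := F) (L := L)
    { toFun := fun l => Q (ρ (r l) *ᵥ v)
      map_add' := fun x y => by
        rw [hr' (x + y) (r x + r y) (by linear_combination hr x + hr y + r x * r y * h3), map_add,
          add_mulVec, quad_add Q, ha]
        simp
      map_smul' := fun c x => by
        obtain ⟨c, rfl⟩ := exists_sq_of_two h2 c
        rw [hr' _ (c • r x) (by rw [smul_mul_smul_comm, hr]), map_smul, smul_mulVec, hQ.smul, sq]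
        rfl }
  exact ⟨a, fun l => by rw [← ha', LinearMap.coe_mk, AddHom.coe_mk, hr' _ l (sq l).symm]⟩

/-- The normaliser of a self-adjoint field of odd full degree fixes a line. -/
theorem not_irr_of_singer [Fintype F] (hQ : NQ Q) (ho : Odd (Fintype.card ι))
    (hn : 2 ≤ Fintype.card ι) (hK : IsFieldSubalgebra (Fintype.card ι) K)
    (hs : IsSelfAdjointFor (pl Q) K) (hH : H ≤ subalgebraNormalizer K ⊓ isometryGroup F Q) :
    ¬ Irr H := by
  intro hI
  haveI : Nonempty ι := Fintype.card_pos_iff.1 (by omega)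
  have hf := sesq_polar hQ
  obtain ⟨L, _, _, _, ρ, Φ, h⟩ := exists_singer hK
  obtain ⟨a, ha⟩ := exists_tr_sq hQ (fun l => hf.isSelfAdjointFor_iff.1 hs _ ((h.range _).2 ⟨l, rfl⟩))
    (Φ 1)
  simp only [h.app, mul_one] at ha
  have h0 : a ≠ 0 := by
    rintro rfl
    obtain ⟨x, hx⟩ := (hQ.nondegenerate (Φ 1) (by simp)).1
    obtain ⟨x, rfl⟩ := Φ.surjective x
    simp [QuadraticMap.polar, ← map_add, ha] at hx
  have h2 : (2 : F) ≠ 0 := fun h2 => Nat.not_even_iff_odd.2 ho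
    (hf.even_of_alt fun v => by rw [polar_self hQ, h2, zero_mul])
  obtain ⟨s, hs⟩ : Odd ((Nat.card F ^ Fintype.card ι - 1) / (Nat.card F - 1)) := by
    rw [← Nat.geomSum_eq (two_le_natCard F), Finset.odd_sum_iff_odd_card_odd,
      Finset.filter_true_of_mem fun i _ => (Nat.card_eq_fintype_card (α := F) ▸
        odd_of_two_ne_zero h2).pow]
    simpa
  have h1 : a * (a ^ s) ^ 2 = algebraMap F L (ρ a).det := by rw [h.det, hs]; ring
  refine (hI.span {Φ (a ^ s)} ?_).elim (by simp [h0]) (ne_top_of_finrank (by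
    rw [finrank_span_singleton (by simp [h0])]; omega))
  rintro g hg _ rfl
  obtain ⟨α, k, -, h3⟩ := h.norm g (hH hg).1
  have h4 : a * k ^ 2 - α a = 0 := eq_zero_of_tr_sq (F := F) fun l => by
    obtain ⟨l, rfl⟩ := α.surjective l
    have := Geom.mem_isometryGroup.1 (hH hg).2 (Φ l)
    rw [h3, ha, ha, ← Algebra.trace_eq_of_algEquiv α (a * l ^ 2), map_mul α, map_pow α] at this
    rw [sub_mul, map_sub, ← this, sub_eq_zero]
    congr 1; ring
  have h5 := congrArg α h1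
  rw [α.commutes, ← h1, map_mul, map_pow] at h5
  have h6 : (α (a ^ s) * k) ^ 2 = (a ^ s) ^ 2 := mul_left_cancel₀ h0 (by
    linear_combination α (a ^ s) ^ 2 * h4 + h5)
  rw [h3]
  rcases sq_eq_sq_iff_eq_or_eq_neg.1 h6 with h | h <;> rw [h] <;> simp

omit [Finite F] in
theorem Sesq.adjoin_comm {σ : F ≃+* F} {ε : F} {f : (ι → F) → (ι → F) → F} (hf : Sesq σ ε f)
    {S : Set (Matrix ι ι F)} (hc : ∀ x ∈ S, ∀ y ∈ S, x * y = y * x)
    (hi : ∀ g ∈ H, ∀ s ∈ S, cj g s ∈ Algebra.adjoin F S)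
    (ha : ∀ s ∈ S, adj σ f s ∈ Algebra.adjoin F S) : Inv H (Algebra.adjoin F S) ∧
      IsComm (Algebra.adjoin F S) ∧ ∀ x ∈ Algebra.adjoin F S, adj σ f x ∈ Algebra.adjoin F S := by
  refine ⟨fun g hg x hx => ?_, fun x hx y hy => ?_, fun x hx => ?_⟩
  · exact (Algebra.adjoin_le (S := (Algebra.adjoin F S).comap (cj g).toAlgHom) (hi g hg)) hx
  · exact Algebra.commute_of_mem_adjoin_of_forall_mem_commute hy fun b hb =>
      (Algebra.commute_of_mem_adjoin_of_forall_mem_commute hx fun a ha => hc b hb a ha).symm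
  · induction hx using Algebra.adjoin_induction with
    | mem x hx => exact ha x hx
    | algebraMap c =>
      rw [Algebra.algebraMap_eq_smul_one, hf.adj_smul, hf.adj_one]
      exact Subalgebra.smul_mem _ (one_mem _) _
    | add x y _ _ hx hy => rw [hf.adj_add]; exact add_mem hx hy
    | mul x y _ _ hx hy => rw [hf.adj_mul]; exact mul_mem hy hx

/-- The normaliser of a self-adjoint field of degree `n / 2` normalises a larger commutative
algebra. -/
theorem exists_comm_of_half [Nonempty ι] (hQ : NQ Q) {d : ℕ} (hn : Fintype.card ι = d * 2)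
    (hK : IsFieldSubalgebra d K) (hs : IsSelfAdjointFor (pl Q) K)
    (hH : H ≤ subalgebraNormalizer K ⊓ isometryGroup F Q) :
    ∃ C : Subalgebra F (Matrix ι ι F), K < C ∧ Inv H C ∧ IsComm C ∧
      ∀ x ∈ C, adj (rf F) (pl Q) x ∈ C := by
  have hf := sesq_polar hQ
  obtain ⟨L, _, _, _, ρ, Φ, h, -⟩ := exists_ext hK hn
  have hρ : ∀ l, ρ l ∈ K := fun l => (h.range _).2 ⟨l, rfl⟩
  have hs' := fun l => hf.isSelfAdjointFor_iff.1 hs _ (hρ l)
  obtain ⟨a, ha⟩ := exists_tr_sq hQ hs' (Φ (Pi.single 0 1))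
  obtain ⟨c, hc⟩ := exists_tr_sq hQ hs' (Φ (Pi.single 1 1))
  obtain ⟨b, hb⟩ := exists_tr_polar hQ hs' (Φ (Pi.single 0 1)) (Φ (Pi.single 1 1))
  have hq : ∀ x, Q (Φ x) = Algebra.trace F L (a * x 0 ^ 2 + b * (x 0 * x 1) + c * x 1 ^ 2) :=
    fun x => by
      nth_rw 1 [pi_eq_sum_univ' x]
      rw [Fin.sum_univ_two, map_add, ← h.app, ← h.app, quad_add Q, ha, hc, hb, map_add, map_add]
      ring
  have hp : ∀ x y, pl Q (Φ x) (Φ y) = Algebra.trace F L (2 * a * x 0 * y 0 +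
      b * (x 0 * y 1 + x 1 * y 0) + 2 * c * x 1 * y 1) := fun x y => by
    rw [QuadraticMap.polar, ← map_add, hq, hq, hq, ← map_sub, ← map_sub]
    congr 1; simp; ring
  let S : Matrix (Fin 2) (Fin 2) L := !![0, -c; a, b]
  let s := LinearMap.toMatrix' (Φ.toLinearMap ∘ₗ (toLin' S).restrictScalars F ∘ₗ Φ.symm.toLinearMap)
  have h1 : ∀ x, s *ᵥ Φ x = Φ (S *ᵥ x) := fun x => by
    rw [← toLin'_apply, toLin'_toMatrix']; simp
  have hext : ∀ {x y : Matrix ι ι F}, (∀ v, x *ᵥ Φ v = y *ᵥ Φ v) → x = y := fun h =>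
    ext_mulVec fun v => by obtain ⟨v, rfl⟩ := Φ.surjective v; exact h v
  have h2 : ∀ l, ρ l * s = s * ρ l := fun l => hext fun v => by
    rw [← mulVec_mulVec, ← mulVec_mulVec, h1, h.app, h.app, h1, mulVec_smul]
  have hK' : K ≤ Algebra.adjoin F (insert s K) := fun x hx =>
    Algebra.subset_adjoin (Set.mem_insert_of_mem _ hx)
  have h3 : s ∈ Algebra.adjoin F (insert s K) := Algebra.subset_adjoin (Set.mem_insert _ _)
  refine ⟨_, lt_of_le_of_ne hK' fun h4 => ?_, hf.adjoin_comm ?_ ?_ ?_⟩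
  · obtain ⟨l, hl⟩ := (h.range s).1 (h4 ▸ h3)
    have e1 := Φ.injective ((h1 (Pi.single 0 1)).symm.trans (hl ▸ h.app l _))
    have e2 := Φ.injective ((h1 (Pi.single 1 1)).symm.trans (hl ▸ h.app l _))
    have e3 := congrFun e1 0
    have e4 := congrFun e1 1
    have e5 := congrFun e2 0
    have e6 := congrFun e2 1
    simp [S] at e3 e4 e5 e6
    obtain ⟨x, hx⟩ := (hQ.nondegenerate (Φ (Pi.single 0 1)) (by simp)).1
    obtain ⟨x, rfl⟩ := Φ.surjective x
    simp [hp, e4, e5, e6, ← e3] at hx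
  · rintro x (rfl | hx) y (rfl | hy)
    · rfl
    · obtain ⟨l, rfl⟩ := (h.range _).1 hy; exact (h2 l).symm
    · obtain ⟨l, rfl⟩ := (h.range _).1 hx; exact h2 l
    · exact hK.comm x hx y hy
  · rintro g hg x (rfl | hx)
    swap
    · exact hK' ((mem_subalgebraNormalizer.1 (hH hg).1 x).1 hx)
    obtain ⟨α, M, -, h4⟩ := h.norm g (hH hg).1
    have h5 : ∀ x : Fin 2 → L, a * (M *ᵥ (α ∘ x)) 0 ^ 2 + b * ((M *ᵥ (α ∘ x)) 0 * (M *ᵥ (α ∘ x)) 1) +
        c * (M *ᵥ (α ∘ x)) 1 ^ 2 - α (a * x 0 ^ 2 + b * (x 0 * x 1) + c * x 1 ^ 2) = 0 :=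
      fun x => eq_zero_of_tr_sq (F := F) fun l => by
        obtain ⟨l, rfl⟩ := α.surjective l
        have := Geom.mem_isometryGroup.1 (hH hg).2 (Φ (l • x))
        rw [h4, hq, hq, show α ∘ (l • x) = α l • α ∘ x from funext fun _ => map_mul _ _ _,
          mulVec_smul] at this
        rw [sub_mul, map_sub, ← map_pow, ← map_mul, Algebra.trace_eq_of_algEquiv, sub_eq_zero]
        convert this using 2 <;> simp <;> ring
    have e1 := h5 ![1, 0]
    have e2 := h5 ![0, 1]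
    have e3 := h5 ![1, 1]
    simp [mulVec, dotProduct] at e1 e2 e3
    have h6 : M * S.map α = (M.det • S + (c * M 1 0 * M 1 1 + a * M 0 0 * M 0 1 +
        b * M 0 1 * M 1 0) • 1) * M := by
      ext i j
      fin_cases i <;> fin_cases j <;> simp [S, mul_apply, det_fin_two]
      · linear_combination -M 0 1 * e1
      · linear_combination M 0 0 * e2 - M 0 1 * (e3 - e1 - e2)
      · linear_combination -M 1 1 * e1
      · linear_combination M 1 0 * e2 - M 1 1 * (e3 - e1 - e2)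
    rw [show cj g s = ρ M.det * s + ρ (c * M 1 0 * M 1 1 + a * M 0 0 * M 0 1 + b * M 0 1 * M 1 0)
      from ext_mulVec fun v => ?_]
    · exact add_mem (mul_mem (hK' (hρ _)) h3) (hK' (hρ _))
    obtain ⟨x, hx⟩ := Φ.surjective (g⁻¹.val *ᵥ v)
    have hv : v = Φ (M *ᵥ (α ∘ x)) := by rw [← h4, hx, mulVec_inv_mulVec]
    rw [cj_mulVec', ← hx, h1, h4, show α ∘ (S *ᵥ x) = S.map α *ᵥ (α ∘ x) from
      funext fun i => RingHom.map_mulVec (α : L →+* L) S x i, mulVec_mulVec, h6, hv, add_mulVec,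
      ← mulVec_mulVec (Φ _), h1, h.app, h.app, ← map_add, ← mulVec_mulVec, add_mulVec, smul_mulVec,
      smul_mulVec, one_mulVec]
  · rintro x (rfl | hx)
    swap
    · exact (hf.isSelfAdjointFor_iff.1 hs x hx).symm ▸ hK' hx
    rw [hf.adj_unique (y := ρ b - s) fun u v => ?_]
    · exact sub_mem (hK' (hρ _)) h3
    obtain ⟨u, rfl⟩ := Φ.surjective u
    obtain ⟨v, rfl⟩ := Φ.surjective v
    rw [sub_mulVec, h1, h1, h.app, ← map_sub, hp, hp]
    congr 1
    simp [S, mulVec, dotProduct]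
    ring

end Cfsg.Agent.Asch
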