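import Cfsg.Agent.Asch.OSmall
import Cfsg.Agent.Asch.OExt

/-! The geometric maximal subgroups of `Ω(Q)` in dimension at least seven: the list, and the
reducible and imprimitive cases. -/

set_option autoImplicit false

namespace Cfsg.Agent.Asch

open Matrix Cfsg.Geo Module

variable {ι : Type} [Fintype ι] [DecidableEq ι] {F : Type*} [Field F] [Fintype F]

local notation "rf" => RingEquiv.refl
local notation "pl" => QuadraticMap.polar
local notation "NQ" => IsNondegenerateQuadraticForm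
local notation "TS" => IsTotallySingularQuad
local notation "Pl" => IsPlusTypeOn

/-- The geometric maximal subgroups of `Ω(Q)`. -/
inductive MaxO (Q : (ι → F) → F) (p : Subgroup (GL ι F) → Prop) : Prop
  | ts (W : Submodule F (ι → F)) (h0 : W ≠ ⊥) (h1 : TS Q W)
      (h2 : Pl Q ⊤ → 2 * finrank F W + 2 ≠ Fintype.card ι) (h : p (subspaceStabilizer W))
  | nd (W : Submodule F (ι → F)) (h0 : W ≠ ⊥) (ht : W ≠ ⊤) (h1 : IsNondegenerateOn (pl Q) W)
      (h2 : Even (Fintype.card ι) → 2 * finrank F W < Fintype.card ι)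
      (h3 : Odd (Fintype.card ι) → Even (finrank F W))
      (h4 : finrank F W = 2 → Pl Q W → 4 ≤ Fintype.card F)
      (h5 : Odd (finrank F W) → Odd (Fintype.card F)) (h : p (subspaceStabilizer W))
  | half (k : ℕ) (D : Fin 2 → Submodule F (ι → F)) (hD : IsNondegenerateMDecomposition (pl Q) k D)
      (h1 : ¬ AreIsometricFor Q (D 0) (D 1)) (h2 : Even k → ¬ Pl Q ⊤)
      (h3 : Odd k → Odd (Fintype.card F) ∧ (Pl Q ⊤ ↔ ¬ Fintype.card F % 4 = 1))
      (h : p (decompositionStabilizer D)) (h' : p (subspaceStabilizer (D 0)))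
  | pt (v : ι → F) (ho : ¬ Odd (Fintype.card F)) (hv : Q v ≠ 0) (h : p (subspaceStabilizer (F ∙ v)))
  | dec (t k : ℕ) (D : Fin t → Submodule F (ι → F)) (hD : IsOrthogonalMDecomposition Q k D)
      (h1 : k = 1 → (Fintype.card F).Prime) (ho : Odd k → Odd (Fintype.card F))
      (h2 : k = 2 → Fintype.card F ≠ 3 ∧ ∀ i, Pl Q (D i) → 7 ≤ Fintype.card F)
      (h3 : k = 3 → 5 ≤ Fintype.card F) (h4 : k = 4 → ∀ i, Pl Q (D i) → 3 ≤ Fintype.card F)
      (h : p (decompositionStabilizer D))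
  | pair (k : ℕ) (D : Fin 2 → Submodule F (ι → F)) (he : Even k) (hD : IsMDecomposition k D)
      (h1 : ∀ i, TS Q (D i)) (hp : Pl Q ⊤) (h : p (decompositionStabilizer D))
  | fld (r : ℕ) (K : Subalgebra F (Matrix ι ι F)) (hr : r.Prime) (hK : IsFieldSubalgebra r K)
      (h1 : IsSelfAdjointFor (pl Q) K) (h2 : r ≠ Fintype.card ι) (h3 : 2 * r ≠ Fintype.card ι)
      (h4 : ¬ Odd (Fintype.card F) → 2 * r ∣ Fintype.card ι) (h : p (subalgebraNormalizer K))
  | uni (K : Subalgebra F (Matrix ι ι F)) (hK : IsFieldSubalgebra 2 K)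
      (h1 : IsAdjointClosedFor (pl Q) K) (h2 : ¬ IsSelfAdjointFor (pl Q) K)
      (h3 : ∀ k ∈ K, ∃ c, ∀ v, Q (k *ᵥ v) = c * Q v) (h4 : Pl Q ⊤ ↔ 4 ∣ Fintype.card ι)
      (h : p (subalgebraNormalizer K))
  | sub (K : Subfield F) (r : ℕ) (P : GL ι F) (ζ : F) (hr : r.Prime)
      (hc : Fintype.card F = Nat.card K ^ r) (hζ : ζ ≠ 0)
      (h1 : IsQuadFormRationalStructure (fun v => ζ * Q v) K P)
      (h2 : r = 2 → Even (Fintype.card ι) → Pl Q ⊤) (h : p (subfieldSubgroup K P))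
  | tensS (m : ℕ) (e : ι ≃ Fin 2 × Fin m) (P : GL ι F) (f₁ : (Fin 2 → F) → (Fin 2 → F) → F)
      (f₂ : (Fin m → F) → (Fin m → F) → F) (hq : 3 ≤ Fintype.card F) (he : Even m) (hm : 2 ≤ m)
      (hf₁ : IsSymplecticForm f₁) (hf₂ : IsSymplecticForm f₂)
      (hT : IsTensorFormStructure id (pl Q) f₁ f₂ e P) (h0 : ∀ x y, Q (tv e P (kv x y)) = 0)
      (hp : Pl Q ⊤) (h : p (tensorProductSubgroup 2 m e P))
  | tensO (k m : ℕ) (e : ι ≃ Fin k × Fin m) (P : GL ι F) (f₁ : (Fin k → F) → (Fin k → F) → F)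
      (f₂ : (Fin m → F) → (Fin m → F) → F) (ho : Odd (Fintype.card F)) (hk : 3 ≤ k) (hm : k < m)
      (h3 : k = 3 → 5 ≤ Fintype.card F)
      (h4 : k = 3 → m = 4 → ¬ Pl (fun v => f₂ v v) ⊤ ∧ ¬ Pl Q ⊤)
      (hf₁ : IsSymmetricForm f₁) (hf₂ : IsSymmetricForm f₂)
      (hT : IsTensorFormStructure id (pl Q) f₁ f₂ e P) (h : p (tensorProductSubgroup k m e P))
  | wr (k t : ℕ) (e : ι ≃ (Fin t → Fin k)) (P : GL ι F) (f₁ : (Fin k → F) → (Fin k → F) → F)
      (ho : Odd (Fintype.card F)) (hk : 3 ≤ k) (ht : 2 ≤ t) (h3 : k = 3 → 5 ≤ Fintype.card F)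
      (hf₁ : IsSymmetricForm f₁) (hT : IsTensorPowerFormStructure id (pl Q) f₁ e P)
      (h : p (tensorWreathSubgroup k t e P))
  | exc (he : Even (Fintype.card ι)) (h : 13 ≤ Fintype.card ι ∨ (Fintype.card ι = 8 ∧ Pl Q ⊤))

variable {Q : (ι → F) → F} {H : Subgroup (GL ι F)} {W : Submodule F (ι → F)}

omit [Fintype F] in
theorem span_ne_bot (hQ : NQ Q) {v : ι → F} (hv : Q v ≠ 0) : (F ∙ v) ≠ ⊥ := by
  rw [Ne, Submodule.span_singleton_eq_bot]
  rintro rfl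
  exact hv (quad_zero hQ)

omit [Fintype F] in
theorem finrank_line (hQ : NQ Q) {v : ι → F} (hv : Q v ≠ 0) : finrank F (F ∙ v) = 1 :=
  finrank_span_singleton fun h => hv (h ▸ quad_zero hQ)

omit [Fintype F] in
theorem mdec_ne {t k : ℕ} {D : Fin t → Submodule F (ι → F)} (hD : IsMDecomposition k D) (i : Fin t) :
    D i ≠ ⊥ ∧ D i ≠ ⊤ := by
  have h1 := mdec_mul_eq hD
  have h2 := hD.finrank_eq i
  have h3 := hD.pos
  have h4 := hD.two_le
  refine ⟨fun h => ?_, ne_top_of_finrank (by nlinarith)⟩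
  rw [h, finrank_bot] at h2; omega

theorem MaxO.imp (hQ : NQ Q) (hn : 7 ≤ Fintype.card ι) {p p' : Subgroup (GL ι F) → Prop}
    (h : MaxO Q p) (hp : ∀ M, p M → ¬ omegaGL Q ≤ M → p' M) : MaxO Q p' := by
  have hq := qs_omega hQ hn
  haveI := hq.nonempty
  cases h with
  | ts W h0 h1 h2 h =>
    exact .ts W h0 h1 h2 (hp _ h (hq.not_le_stab h0 ((sesq_polar hQ).ts_ne_top (polar_of_ts h1))))
  | nd W h0 ht h1 h2 h3 h4 h5 h => exact .nd W h0 ht h1 h2 h3 h4 h5 (hp _ h (hq.not_le_stab h0 ht))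
  | half k D hD h1 h2 h3 h h' =>
    exact .half k D hD h1 h2 h3 (hp _ h (hq.not_le_dstab hD.decomp))
      (hp _ h' (hq.not_le_stab (mdec_ne hD.decomp 0).1 (mdec_ne hD.decomp 0).2))
  | pt v ho hv h =>
    exact .pt v ho hv (hp _ h (hq.not_le_stab (span_ne_bot hQ hv)
      (ne_top_of_finrank (by rw [finrank_line hQ hv]; omega))))
  | dec t k D hD h1 ho h2 h3 h4 h =>
    exact .dec t k D hD h1 ho h2 h3 h4 (hp _ h (hq.not_le_dstab hD.decomp.decomp))
  | pair k D he hD h1 h2 h => exact .pair k D he hD h1 h2 (hp _ h (hq.not_le_dstab hD))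
  | fld r K hr hK h1 h2 h3 h4 h =>
    exact .fld r K hr hK h1 h2 h3 h4 (hp _ h (hq.not_le_anorm hr.one_lt hK))
  | uni K hK h1 h2 h3 h4 h => exact .uni K hK h1 h2 h3 h4 (hp _ h (hq.not_le_anorm one_lt_two hK))
  | sub K r P ζ hr hc hζ h1 h2 h =>
    exact .sub K r P ζ hr hc hζ h1 h2 (hp _ h (hq.not_le_subfield' hr.two_le hc P))
  | tensS m e P f₁ f₂ h1 he hm hf₁ hf₂ hT h0 h2 h =>
    exact .tensS m e P f₁ f₂ h1 he hm hf₁ hf₂ hT h0 h2 (hp _ h (hq.not_le_tensor le_rfl hm e P))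
  | tensO k m e P f₁ f₂ ho hk hm h3 h4 hf₁ hf₂ hT h =>
    exact .tensO k m e P f₁ f₂ ho hk hm h3 h4 hf₁ hf₂ hT
      (hp _ h (hq.not_le_tensor (by omega) (by omega) e P))
  | wr k t e P f₁ ho hk ht h3 hf₁ hT h =>
    exact .wr k t e P f₁ ho hk ht h3 hf₁ hT (hp _ h (hq.not_le_wreath (by omega) ht e P))
  | exc he h => exact .exc he h

omit [Fintype F] in
theorem polar_alt (hQ : NQ Q) (h2 : (2 : F) = 0) (v : ι → F) : pl Q v v = 0 := by
  rw [polar_self hQ, h2, zero_mul]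

theorem odd_of_nd (hQ : NQ Q) (hW : IsNondegenerateOn (pl Q) W) (ho : Odd (finrank F W)) :
    Odd (Fintype.card F) := by
  by_contra h
  exact Nat.not_even_iff_odd.2 ho
    ((sesq_polar hQ).even_of_nd (polar_alt hQ (two_eq_zero_of_not_odd h)) hW)

theorem odd_of_odd_dim (hQ : NQ Q) (ho : Odd (Fintype.card ι)) : Odd (Fintype.card F) := by
  by_contra h
  exact Nat.not_even_iff_odd.2 ho
    ((sesq_polar hQ).even_of_alt (polar_alt hQ (two_eq_zero_of_not_odd h)))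

omit [Fintype F] in
theorem map_eq_of_le {g : GL ι F} {U : Submodule F (ι → F)} (h : U ≤ U.map (toLin' g.val)) :
    ∀ v ∈ U, g.val *ᵥ v ∈ U := fun v hv => by
  rw [Submodule.eq_of_le_of_finrank_eq h (finrank_map_gl g U).symm]
  exact ⟨v, hv, rfl⟩

theorem maxO_of_ts (hQ : NQ Q) (hn : 7 ≤ Fintype.card ι) (hH : H ≤ omegaGL Q) (h0 : W ≠ ⊥)
    (h1 : TS Q W) (h : ∀ g ∈ H, ∀ v ∈ W, g.val *ᵥ v ∈ W) : MaxO Q (H ≤ ·) := by
  by_cases hx : Pl Q ⊤ ∧ 2 * finrank F W + 2 = Fintype.card ι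
  swap
  · exact .ts W h0 h1 (by tauto) (le_subspaceStabilizer h)
  obtain ⟨U, hU, h2⟩ := plus_top_iff.1 hx.1
  obtain ⟨M, h3, h4, h5⟩ := ts_ext hQ h1 hU (by omega)
  refine .ts M (fun h => h0 (eq_bot_iff.2 (h ▸ h3))) h4 (fun _ => by omega)
    (le_subspaceStabilizer fun g hg => map_eq_of_le ?_)
  have h6 := omega_parity hQ h2.symm (by omega) h4 h5 (hH hg)
  have h7 : W ≤ M ⊓ M.map (toLin' g.val) := le_inf h3 fun v hv =>
    ⟨g⁻¹.val *ᵥ v, h3 (h _ (inv_mem hg) v hv), by simp⟩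
  have h8 := Submodule.finrank_mono h7
  have h9 := Submodule.finrank_mono (inf_le_left : M ⊓ M.map (toLin' g.val) ≤ M)
  rw [← inf_eq_left]
  refine Submodule.eq_of_le_of_finrank_eq inf_le_left ?_
  obtain ⟨c, hc⟩ := h6
  omega

theorem maxO_of_line (hQ : NQ Q) (hn : 7 ≤ Fintype.card ι) (hH : H ≤ omegaGL Q) {v : ι → F}
    (hv : Q v ≠ 0) (h : ∀ g ∈ H, ∀ u ∈ F ∙ v, g.val *ᵥ u ∈ F ∙ v) : MaxO Q (H ≤ ·) := by
  by_cases ho : Odd (Fintype.card F)
  swap
  · exact .pt v ho hv (le_subspaceStabilizer h)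
  have hf := sesq_polar hQ
  have h1 := finrank_line hQ hv
  have h2 : IsNondegenerateOn (pl Q) (F ∙ v) := fun w hw h0 => by
    obtain ⟨c, rfl⟩ := Submodule.mem_span_singleton.1 hw
    have : pl Q (c • v) (c • v) ≠ 0 := by
      rw [polar_self hQ, hQ.smul]
      exact mul_ne_zero (two_ne_zero_of_odd ho)
        (mul_ne_zero (pow_ne_zero _ (left_ne_zero_of_smul h0)) hv)
    exact ⟨⟨_, hw, this⟩, _, hw, this⟩
  rcases Nat.even_or_odd (Fintype.card ι) with he | he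
  · exact .nd _ (span_ne_bot hQ hv) (ne_top_of_finrank (by omega)) h2 (fun _ => by omega)
      (fun h => absurd he (Nat.not_even_iff_odd.2 h)) (by omega) (fun _ => ho)
      (le_subspaceStabilizer h)
  · have h3 := hf.finrank_perp (F ∙ v)
    obtain ⟨k, hk⟩ := he
    exact .nd (hf.perp (F ∙ v)) (mt Submodule.finrank_eq_zero.2 (by omega))
      (ne_top_of_finrank (by omega)) (hf.nondegenerateOn_perp h2)
      (fun ⟨j, hj⟩ => by omega) (fun _ => ⟨k, by omega⟩) (by omega) (fun _ => ho)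
      (le_subspaceStabilizer (hf.perp_inv ((hH.trans omega_le_iso).trans (iso_le_sim _)) h))

theorem dec_plus_iff {t k : ℕ} {D : Fin t → Submodule F (ι → F)}
    (hD : IsOrthogonalMDecomposition Q k D) (i j : Fin t) : Pl Q (D i) ↔ Pl Q (D j) :=
  let ⟨e, he⟩ := hD.isometric i j
  plus_congr e one_ne_zero fun w => by rw [he, one_mul]

theorem maxO_of_half (hQ : NQ Q) (hn : 7 ≤ Fintype.card ι) (hH : H ≤ omegaGL Q) (h0 : W ≠ ⊥)
    (h1 : IsNondegenerateOn (pl Q) W) (h2 : 2 * finrank F W = Fintype.card ι)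
    (h : ∀ g ∈ H, ∀ v ∈ W, g.val *ᵥ v ∈ W) : MaxO Q (H ≤ ·) := by
  have hf := sesq_polar hQ
  have hD := hf.nd_pair h0 h1 h2
  have hs := le_dstab_pair h (hf.perp_inv ((hH.trans omega_le_iso).trans (iso_le_sim _)) h)
  by_cases hi : AreIsometricFor Q W (hf.perp W)
  · have hO : IsOrthogonalMDecomposition Q _ ![W, hf.perp W] := ⟨hD, fun i j => by
      have hi' : AreIsometricFor Q (hf.perp W) W :=
        let ⟨e, he⟩ := hi; ⟨e.symm, fun w => by rw [← he, e.apply_symm_apply]⟩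
      fin_cases i <;> fin_cases j
      · exact ⟨.refl _ _, fun _ => rfl⟩
      · exact hi
      · exact hi'
      · exact ⟨.refl _ _, fun _ => rfl⟩⟩
    by_cases h4 : finrank F W = 4
    · exact .exc ⟨4, by omega⟩ (Or.inr ⟨by omega, (dec_plus hQ hO ⟨2, by omega⟩ 0).2
        (Or.inl even_two)⟩)
    · exact .dec _ _ _ hO (by omega) (odd_of_nd hQ h1) (by omega) (by omega) (by omega) hs
  refine .half _ _ hD hi (fun he hp => hi ?_) (fun ho => ?_) hs (le_subspaceStabilizer h)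
  · have h3 := hD.decomp.finrank_eq 1
    have h4 : Pl Q W ↔ Pl Q (hf.perp W) := ⟨fun h => plus_perp hQ h1 h hp, fun h => by
      have := plus_perp hQ (hf.nondegenerateOn_perp h1) h hp
      rwa [hf.perp_perp] at this⟩
    obtain ⟨e, h5⟩ := exists_isom_of_plus hQ h1 (hf.nondegenerateOn_perp h1) rfl h3 he
      (by omega) h4 one_ne_zero
    exact ⟨e, fun w => by rw [h5, one_mul]⟩
  · have h3 := odd_of_nd hQ h1 ho
    have h4 := two_ne_zero_of_odd h3
    exact ⟨h3, by rw [half_disc hQ h4 hD hi, isSquare_neg_one_odd h4 ho]⟩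

theorem maxO_of_nd' (hQ : NQ Q) (hn : 7 ≤ Fintype.card ι) (hH : H ≤ omegaGL Q) (h0 : W ≠ ⊥)
    (ht : W ≠ ⊤) (h1 : IsNondegenerateOn (pl Q) W)
    (h2 : Even (Fintype.card ι) → 2 * finrank F W ≤ Fintype.card ι)
    (h3 : Odd (Fintype.card ι) → Even (finrank F W))
    (h : ∀ g ∈ H, ∀ v ∈ W, g.val *ᵥ v ∈ W) : MaxO Q (H ≤ ·) := by
  by_cases h4 : 2 * finrank F W = Fintype.card ι
  · exact maxO_of_half hQ hn hH h0 h1 h4 h
  by_cases h5 : finrank F W = 2 ∧ Pl Q W ∧ Fintype.card F ≤ 3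
  swap
  · exact .nd W h0 ht h1 (fun he => lt_of_le_of_ne (h2 he) h4) h3
      (fun _ _ => by by_contra; exact h5 ⟨‹_›, ‹_›, by omega⟩) (odd_of_nd hQ h1)
      (le_subspaceStabilizer h)
  obtain ⟨v, h6, h7, h8, -⟩ := plus_plane_line h5.2.2 hQ h1 h5.1 h5.2.1
  refine maxO_of_line hQ hn hH (v := v) (by rw [h7]; exact one_ne_zero) fun g hg u hu => ?_
  obtain ⟨c, rfl⟩ := Submodule.mem_span_singleton.1 hu
  rw [mulVec_smul]
  exact Submodule.smul_mem _ _ (h8 _ (h g hg v h6) (by rw [omega_isom (hH hg), h7]))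

theorem maxO_of_nd (hQ : NQ Q) (hn : 7 ≤ Fintype.card ι) (hH : H ≤ omegaGL Q) (h0 : W ≠ ⊥)
    (ht : W ≠ ⊤) (h1 : IsNondegenerateOn (pl Q) W) (h2 : 2 * finrank F W ≤ Fintype.card ι)
    (h : ∀ g ∈ H, ∀ v ∈ W, g.val *ᵥ v ∈ W) : MaxO Q (H ≤ ·) := by
  by_cases h3 : Odd (Fintype.card ι) → Even (finrank F W)
  · exact maxO_of_nd' hQ hn hH h0 ht h1 (fun _ => h2) h3 h
  have hf := sesq_polar hQ
  have h4 := hf.finrank_perp W
  have h5 := mt Submodule.finrank_eq_zero.1 h0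
  rw [Classical.not_imp, Nat.not_even_iff_odd] at h3
  obtain ⟨⟨a, ha⟩, b, hb⟩ := h3
  exact maxO_of_nd' hQ hn hH (W := hf.perp W) (mt Submodule.finrank_eq_zero.2 (by omega))
    (ne_top_of_finrank (by omega)) (hf.nondegenerateOn_perp h1) (fun ⟨c, hc⟩ => by omega)
    (fun _ => ⟨a - b, by omega⟩)
    (hf.perp_inv ((hH.trans omega_le_iso).trans (iso_le_sim _)) h)

theorem maxO_of_not_irr (hQ : NQ Q) (hn : 7 ≤ Fintype.card ι) (hH : H ≤ omegaGL Q) (h : ¬ Irr H) :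
    MaxO Q (H ≤ ·) := by
  have hf := sesq_polar hQ
  obtain ⟨W, h1, h2, h3, h4 | ⟨h4, h5⟩⟩ :=
    hf.reducible ((hH.trans omega_le_iso).trans (iso_le_sim _)) h
  swap
  · exact maxO_of_nd hQ hn hH h1 h2 h4 h5 h3
  by_cases ho : (2 : F) = 0
  swap
  · exact maxO_of_ts hQ hn hH h1 (ts_of_polar hQ ho h4) h3
  let U : Submodule F (ι → F) :=
    { carrier := {v | v ∈ W ∧ Q v = 0}
      add_mem' := fun {u v} hu hv => ⟨add_mem hu.1 hv.1, by
        rw [quad_add Q, hu.2, hv.2, h4 u hu.1 v hv.1]; simp⟩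
      zero_mem' := ⟨zero_mem _, quad_zero hQ⟩
      smul_mem' := fun c v hv => ⟨W.smul_mem c hv.1, by rw [hQ.smul, hv.2, mul_zero]⟩ }
  by_cases h0 : U = ⊥
  swap
  · exact maxO_of_ts hQ hn hH h0 (fun v hv => hv.2) fun g hg v hv =>
      ⟨h3 g hg v hv.1, by rw [omega_isom (hH hg), hv.2]⟩
  have h5 : ∀ v ∈ W, Q v = 0 → v = 0 := fun v hv h => (Submodule.eq_bot_iff U).1 h0 v ⟨hv, h⟩
  obtain ⟨v, hv, h6⟩ := (Submodule.ne_bot_iff W).1 h1
  have h7 := mt (h5 v hv) h6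
  have h8 : (F ∙ v) = W := le_antisymm ((Submodule.span_singleton_le_iff_mem _ _).2 hv) fun w hw => by
    obtain ⟨c, hc⟩ := exists_sq_of_two ho (Q w / Q v)
    have := h5 (w + -(c • v)) (add_mem hw (neg_mem (W.smul_mem c hv))) (by
      rw [quad_add Q, h4 w hw _ (neg_mem (W.smul_mem c hv)), ← neg_smul, hQ.smul, neg_sq, sq, hc]
      field_simp
      linear_combination Q w * ho)
    rw [add_neg_eq_zero.1 this]
    exact Submodule.smul_mem _ _ (Submodule.mem_span_singleton_self v)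
  exact maxO_of_line hQ hn hH h7 (h8 ▸ h3)

theorem maxO_of_sub (hQ : NQ Q) (hn : 7 ≤ Fintype.card ι) {K : Subfield F} {r : ℕ} {P : GL ι F}
    {ζ : F} (hr : r.Prime) (hc : Nat.card F = Nat.card K ^ r) (hζ : ζ ≠ 0)
    (h1 : IsQuadFormRationalStructure (fun v => ζ * Q v) K P) (h : H ≤ subfieldSubgroup K P) :
    MaxO Q (H ≤ ·) :=
  .sub K r P ζ hr (by rw [← Nat.card_eq_fintype_card, hc]) hζ h1
    (fun h2 he => plus_of_quadratic hQ (h2 ▸ hc) hζ h1 he (by omega)) h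

theorem bot_ne_top_of_not_prime (h : ¬ (Fintype.card F).Prime) : (⊥ : Subfield F) ≠ ⊤ := fun h0 => by
  obtain ⟨p, hc⟩ := CharP.exists F
  haveI : Fact p.Prime := ⟨CharP.char_is_prime F p⟩
  have h1 := Subfield.card_bot F p
  rw [h0, Nat.card_congr Subfield.topEquiv.toEquiv, Nat.card_eq_fintype_card] at h1
  exact h (h1 ▸ Fact.out)

section dec

variable {t : ℕ} {D : Fin t → Submodule F (ι → F)}

theorem maxO_of_dec1 (hQ : NQ Q) (hn : 7 ≤ Fintype.card ι) (hH : H ≤ omegaGL Q)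
    (hD : IsOrthogonalMDecomposition Q 1 D) (h : H ≤ decompositionStabilizer D) :
    MaxO Q (H ≤ ·) := by
  by_cases hp : (Fintype.card F).Prime
  · let i : Fin t := ⟨0, by have := hD.decomp.decomp.two_le; omega⟩
    exact .dec t 1 D hD (fun _ => hp) (fun h => odd_of_nd hQ (hD.decomp.nondegenerate i)
      (hD.decomp.decomp.finrank_eq i ▸ h)) (by omega) (by omega) (by omega) h
  obtain ⟨K, r, hr, -, hc⟩ := exists_prime_index (bot_ne_top_of_not_prime hp)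
  obtain ⟨P, ζ, h1, h2, h3⟩ := subfield_of_frame hQ hD K
  exact maxO_of_sub hQ hn hr hc h1 h2 ((le_inf h (hH.trans omega_le_isom)).trans h3)

theorem maxO_of_dec2 (hQ : NQ Q) (hn : 7 ≤ Fintype.card ι) (hH : H ≤ omegaGL Q) (hI : Irr H)
    (hD : IsOrthogonalMDecomposition Q 2 D) (h : H ≤ decompositionStabilizer D) :
    MaxO Q (H ≤ ·) := by
  have hh := le_inf h (hH.trans omega_le_isom)
  let i : Fin t := ⟨0, by have := hD.decomp.decomp.two_le; omega⟩
  by_cases h1 : (Fintype.card F = 3 ∧ ¬ Pl Q (D i)) ∨ (Fintype.card F = 5 ∧ Pl Q (D i))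
  · obtain ⟨D', h2, h3⟩ := frame_of_planes hQ hD h1
    exact maxO_of_dec1 hQ hn hH h2 (hh.trans h3)
  by_cases h2 : Fintype.card F = 2 ^ 2 ∧ Pl Q (D i)
  · obtain ⟨P, h3, h4⟩ := subfield_of_planes h2.1 hQ hD.decomp fun j => (dec_plus_iff hD i j).1 h2.2
    exact maxO_of_sub hQ hn Nat.prime_two (by
      rw [fq, card_fixF_frob, Nat.card_eq_fintype_card, h2.1]) (by simp) h3 (hh.trans h4)
  have h3 : Pl Q (D i) → 4 ≤ Fintype.card F := fun hp => by
    by_contra h4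
    exact not_irr_of_planes (by omega) hQ hD.decomp hp hh hI
  refine .dec t 2 D hD (by omega) (fun h => absurd h (by decide)) (fun _ => ⟨fun h4 => ?_, fun j hj => ?_⟩)
    (by omega) (by omega) h
  · have := mt h3 (by omega); tauto
  · rw [dec_plus_iff hD j i] at hj
    have h4 := h3 hj
    have h5 : Fintype.card F ≠ 6 := fun h => by
      have := FiniteField.isPrimePow_card F
      rw [h] at this
      revert this; decide
    have h6 : Fintype.card F ≠ 5 := by tauto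
    have h7 : Fintype.card F ≠ 4 := by tauto
    omega

theorem maxO_of_dec3 (hQ : NQ Q) (hn : 7 ≤ Fintype.card ι) (hH : H ≤ omegaGL Q)
    (hD : IsOrthogonalMDecomposition Q 3 D) (h : H ≤ decompositionStabilizer D) :
    MaxO Q (H ≤ ·) := by
  by_cases h3 : Fintype.card F = 3
  · obtain ⟨D', h2, h4⟩ := frame_of_three h3 hQ hD
    exact maxO_of_dec1 hQ hn hH h2 ((le_inf h (hH.trans omega_le_isom)).trans h4)
  let i : Fin t := ⟨0, by have := hD.decomp.decomp.two_le; omega⟩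
  have ho := odd_of_nd hQ (hD.decomp.nondegenerate i)
    (by rw [hD.decomp.decomp.finrank_eq i]; decide)
  exact .dec t 3 D hD (by omega) (fun _ => ho) (by omega) (fun _ => five_le_of_odd ho h3)
    (by omega) h

theorem maxO_of_dec_lt (hQ : NQ Q) (hn : 7 ≤ Fintype.card ι) (hH : H ≤ omegaGL Q) (hI : Irr H)
    {k : ℕ} (hk : k < 4) (hD : IsOrthogonalMDecomposition Q k D)
    (h : H ≤ decompositionStabilizer D) : MaxO Q (H ≤ ·) := by
  have := hD.decomp.decomp.pos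
  obtain rfl | rfl | rfl : k = 1 ∨ k = 2 ∨ k = 3 := by omega
  exacts [maxO_of_dec1 hQ hn hH hD h, maxO_of_dec2 hQ hn hH hI hD h, maxO_of_dec3 hQ hn hH hD h]

theorem maxO_of_dec (hQ : NQ Q) (hn : 7 ≤ Fintype.card ι) (hH : H ≤ omegaGL Q) (hI : Irr H)
    {k : ℕ} (hD : IsOrthogonalMDecomposition Q k D) (h : H ≤ decompositionStabilizer D) :
    MaxO Q (H ≤ ·) := by
  by_cases hk : k < 4
  · exact maxO_of_dec_lt hQ hn hH hI hk hD h
  by_cases h4 : k = 4 ∧ Fintype.card F = 2 ∧ ∃ i, Pl Q (D i)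
  · obtain ⟨rfl, h2, i, hi⟩ := h4
    obtain ⟨t', k', D', h3, h4, h5, h6⟩ :=
      dec_of_four h2 hQ hD.decomp hi hI (le_inf h (hH.trans omega_le_isom))
    exact maxO_of_dec_lt hQ hn hH hI h3 ⟨h4, h6⟩ h5
  let i : Fin t := ⟨0, by have := hD.decomp.decomp.two_le; omega⟩
  have := Fintype.one_lt_card (α := F)
  exact .dec t k D hD (by omega) (fun h => odd_of_nd hQ (hD.decomp.nondegenerate i)
    (hD.decomp.decomp.finrank_eq i ▸ h)) (by omega) (by omega)
    (fun _ j hj => by by_contra; exact h4 ⟨‹_›, by omega, j, hj⟩) h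

end dec

end Cfsg.Agent.Asch
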