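import Cfsg.Agent.Asch.MaxO1

/-! The refined Aschbacher theorem for maximal subgroups of `Ω(Q)`, dimension at least seven. -/

set_option autoImplicit false

namespace Cfsg.Agent.Asch

open Matrix Cfsg.Geo Module
open scoped Kronecker

variable {ι κ μ : Type} [Fintype ι] [DecidableEq ι] [Fintype κ] [DecidableEq κ] [Fintype μ]
  [DecidableEq μ] {F : Type*} [Field F] [Fintype F]

local notation "rf" => RingEquiv.refl
local notation "pl" => QuadraticMap.polar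
local notation "NQ" => IsNondegenerateQuadraticForm
local notation "TS" => IsTotallySingularQuad
local notation "Pl" => IsPlusTypeOn
local notation "kr" => GeneralLinearGroup.kronecker

variable {Q : (ι → F) → F} {H : Subgroup (GL ι F)}

theorem omega_le_sim : omegaGL Q ≤ similarityGroup (pl Q) := omega_le_iso.trans (iso_le_sim _)

theorem quad_unique (hQ : NQ Q) (hn : 7 ≤ Fintype.card ι) (hH : H ≤ omegaGL Q) (hI : Irr H)
    {Q' : (ι → F) → F} (hQ' : NQ Q') (hp : ∀ u v, pl Q' u v = pl Q u v)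
    (h : ∀ g ∈ H, ∀ v, Q' (g.val *ᵥ v) = Q' v) (v : ι → F) : Q v = Q' v :=
  sub_eq_zero.1 (quad_eq_zero hI (by omega) (D := fun v => Q v - Q' v)
    (fun u v => by simp only [quad_add Q, quad_add Q', hp]; ring)
    (fun c v => by simp only [hQ.smul, hQ'.smul]; ring)
    (fun g hg v hv => by simpa only [omega_isom (hH hg), h g hg] using hv) v)

theorem quad_eq_omega (hQ : NQ Q) (hn : 7 ≤ Fintype.card ι) (hH : H ≤ omegaGL Q) (hI : Irr H)
    {ω : Matrix ι ι F} (h : ω + adj (rf F) (pl Q) ω = 1)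
    (hi : ∀ g ∈ H, ∀ v, pl Q (cj g ω *ᵥ v) v = pl Q (ω *ᵥ v) v) (v : ι → F) :
    Q v = pl Q (ω *ᵥ v) v := by
  obtain ⟨Q', h1, h2, h3, h4⟩ := (sesq_polar hQ).exists_quad_of_omega (hH.trans omega_le_iso) h hi
  rw [quad_unique hQ hn hH hI h1 h2 h4, h3]

theorem maxO_of_pair (hQ : NQ Q) (hn : 7 ≤ Fintype.card ι) (hH : H ≤ omegaGL Q) (hI : Irr H)
    {e : Fin 2 → Matrix ι ι F} (he : IdemSys H e) (ha : adj (rf F) (pl Q) (e 0) = e 1) :
    MaxO Q (H ≤ ·) := by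
  have hf := sesq_polar hQ
  obtain ⟨k, hk⟩ := he.decomp
  have h1 := he.ts_of_adj hf ha
  have hsum := he.sum
  rw [Fin.sum_univ_two] at hsum
  have h2 : ∀ i, TS Q (rng (e i)) := fun i => by
    by_cases h2 : (2 : F) = 0
    swap
    · exact ts_of_polar hQ h2 (h1 i)
    have h3 := quad_eq_omega hQ hn hH hI (ω := e 0) (by rw [ha, hsum]) fun g hg v => by
      obtain ⟨π, hπ⟩ := he.perm g hg
      rw [hπ]
      obtain h | h : π 0 = 0 ∨ π 0 = 1 := by omega
      · rw [h]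
      · have := polar_alt hQ h2 v
        nth_rw 1 [← one_mulVec v, ← hsum] at this
        rw [add_mulVec, hf.add_left] at this
        rw [h]; linear_combination this - pl Q (e 0 *ᵥ v) v * h2
    intro v hv
    rw [h3]
    obtain rfl | rfl : i = 0 ∨ i = 1 := by omega
    · exact h1 0 _ (mulVec_mem_rng _ _) _ hv
    · obtain ⟨u, rfl⟩ := mem_rng.1 hv
      rw [mulVec_mulVec, he.orth 0 1 (by decide), zero_mulVec, hf.zero_left]
  have h3 : Pl Q ⊤ := plus_of_sup hQ (h2 0) (h2 1) (by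
    rw [← hk.iSup_eq_top]
    exact le_antisymm (sup_le (le_iSup (fun i => rng (e i)) 0) (le_iSup (fun i => rng (e i)) 1))
      (iSup_le fun i => by fin_cases i <;> simp))
  rcases Nat.even_or_odd k with h4 | h4
  · exact .pair k _ h4 hk h2 h3 he.le_stab
  have h5 := mdec_mul_eq hk
  refine absurd (hI (rng (e 0)) fun g hg v hv => ?_) (not_or.2 (mdec_ne hk 0))
  obtain ⟨π, hπ⟩ := he.perm g hg
  have h6 := omega_parity hQ h5.symm (by omega) (h2 0) (hk.finrank_eq 0) (hH hg)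
  have h7 : g.val *ᵥ v ∈ rng (e (π 0)) := by rw [← hπ, rng_cj]; exact ⟨v, hv, rfl⟩
  rw [← rng_cj, hπ] at h6
  obtain h | h : π 0 = 0 ∨ π 0 = 1 := by omega
  · exact h ▸ h7
  · rw [h, (hk.indep.pairwiseDisjoint (by decide : (0 : Fin 2) ≠ 1)).eq_bot, finrank_bot] at h6
    exact absurd h6 (by simpa using h4)

theorem Fld.norm_scalar [Nonempty ι] {ε : F} {f : (ι → F) → (ι → F) → F} (hf : Sesq (rf F) ε f)
    {K : Subalgebra F (Matrix ι ι F)} (hK : IsFieldSubalgebra 2 K)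
    (h1 : ∀ k ∈ K, adj (rf F) f k ∈ K) (h2 : ∃ k ∈ K, adj (rf F) f k ≠ k) {k : Matrix ι ι F}
    (hk : k ∈ K) : ∃ c : F, adj (rf F) f k * k = c • 1 := by
  obtain ⟨s, h3, h4, -⟩ := Fld.adj_eq_pow hK hf h1 h2
  obtain rfl := Nat.pow_left_injective two_ne_zero h3
  obtain ⟨K', h5, h6⟩ := Fld.exists_dvd hK (one_dvd 2)
  have h7 := mul_mem (h1 k hk) hk
  refine mem_bot_iff.1 ((Subalgebra.eq_bot_of_finrank_one h5.finrank_eq) ▸ (h6 _).2 ⟨h7, ?_⟩)
  rw [pow_one, ← h4 _ h7, hf.adj_mul, hf.adj_adj]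

theorem maxO_of_uni (hQ : NQ Q) (hn : 7 ≤ Fintype.card ι) (hH : H ≤ omegaGL Q) (hI : Irr H)
    {K : Subalgebra F (Matrix ι ι F)} (hK : IsFieldSubalgebra 2 K)
    (h1 : ∀ k ∈ K, adj (rf F) (pl Q) k ∈ K) (h2 : ¬ IsSelfAdjointFor (pl Q) K) (hi : Inv H K) :
    MaxO Q (H ≤ ·) := by
  have hf := sesq_polar hQ
  have : Nonempty ι := Fintype.card_pos_iff.1 (by omega)
  have h3 := h2
  rw [hf.isSelfAdjointFor_iff] at h3
  push Not at h3
  have h4 : ∀ k ∈ K, ∃ c, ∀ v, Q (k *ᵥ v) = c * Q v := fun k hk => by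
    obtain ⟨c, hc⟩ := Fld.norm_scalar hf hK h1 h3 hk
    refine ⟨c, fun v => ?_⟩
    by_cases h5 : (2 : F) = 0
    swap
    · exact isom_of_polar hQ h5 (by
        rw [← hf.adj_spec', mulVec_mulVec, hc, smul_mulVec, one_mulVec, hf.smul_left])
    obtain ⟨s, -, -, -, ω, hω, hω'⟩ := Fld.adj_eq_pow hK hf h1 h3
    have hf' : Sesq (rf F) (-1) (pl Q) := by rwa [show (-1 : F) = 1 by linear_combination -h5]
    have h6 := quad_eq_omega hQ hn hH hI hω' fun g hg v => by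
      have h7 := hf'.alt_of_selfAdj (polar_alt hQ h5) hK h1 (sub_mem (hi g hg ω hω) hω) (by
        have h6 : (2 : F) • (cj g ω - ω) = 0 := by rw [h5, zero_smul]
        rw [hf.adj_sub, hf.adj_cj (omega_le_sim (hH hg)), eq_sub_of_add_eq' hω', map_sub, map_one,
          ← sub_eq_zero, ← neg_eq_zero, ← h6, two_smul]
        abel) v
      rwa [sub_mulVec, hf.sub_left, sub_eq_zero] at h7
    rw [h6, h6 v, ← hf.adj_spec', mulVec_mulVec, mulVec_mulVec, hK.comm _ (h1 k hk) ω hω, mul_assoc,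
      hc, mul_smul_comm, mul_one, smul_mulVec, hf.smul_left]
  exact .uni K hK (hf.isAdjointClosedFor_iff.2 h1) h2 h4 (plus_iff_of_uni hQ hK h1 h4)
    hi.le_normalizer

theorem maxO_of_fld (hQ : NQ Q) (hn : 7 ≤ Fintype.card ι) {r : ℕ} (hr : r.Prime)
    {K : Subalgebra F (Matrix ι ι F)} (hK : IsFieldSubalgebra r K)
    (hs : IsSelfAdjointFor (pl Q) K) (h1 : r ≠ Fintype.card ι) (h2 : 2 * r ≠ Fintype.card ι)
    (hi : Inv H K) : MaxO Q (H ≤ ·) := by
  have hf := sesq_polar hQ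
  have : Nonempty ι := Fintype.card_pos_iff.1 (by omega)
  refine .fld r K hr hK hs h1 h2 (fun ho => ?_) hi.le_normalizer
  have h5 := two_eq_zero_of_not_odd ho
  have hf' : Sesq (rf F) (-1) (pl Q) := by rwa [show (-1 : F) = 1 by linear_combination -h5]
  rw [hf.isSelfAdjointFor_iff] at hs
  exact Fld.two_mul_dvd hK hf hs fun x hx =>
    hf'.alt_of_selfAdj (polar_alt hQ h5) hK (fun x hx => (hs x hx).symm ▸ hx) hx (hs x hx)

theorem maxO_of_comm (hQ : NQ Q) (hn : 7 ≤ Fintype.card ι) (hH : H ≤ omegaGL Q) (hI : Irr H)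
    {C : Subalgebra F (Matrix ι ι F)} (h1 : Inv H C) (h2 : IsComm C) (h3 : C ≠ ⊥)
    (h4 : ∀ x ∈ C, adj (rf F) (pl Q) x ∈ C) :
    MaxO Q (H ≤ ·) ∨ ∃ d, 1 < d ∧ IsFieldSubalgebra d C := by
  have hf := sesq_polar hQ
  have : Nonempty ι := Fintype.card_pos_iff.1 (by omega)
  rcases comm_cases_adj hf hI (hH.trans omega_le_sim) h1 h2 h3 h4 with
    ⟨t, e, he, -, ha, -⟩ | ⟨e, he, -, ha⟩ | h
  · obtain ⟨k, hk⟩ := he.nd_decomp hf ha
    exact Or.inl (maxO_of_dec hQ hn hH hI ⟨hk, he.isometric fun g hg => omega_isom (hH hg)⟩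
      he.le_stab)
  · exact Or.inl (maxO_of_pair hQ hn hH hI he ha)
  · exact Or.inr h

theorem maxO_of_hasComm (hQ : NQ Q) (hn : 7 ≤ Fintype.card ι) (hH : H ≤ omegaGL Q) (hI : Irr H)
    (h : HasComm (rf F) (pl Q) H) : MaxO Q (H ≤ ·) := by
  have hf := sesq_polar hQ
  have : Nonempty ι := Fintype.card_pos_iff.1 (by omega)
  obtain ⟨C, h1, h2, h3, h4⟩ := h
  obtain h | ⟨d, hd, hK⟩ := maxO_of_comm hQ hn hH hI h1 h2 h3 h4
  · exact h
  rcases Fld.selfAdj_cases hK hd hf h4 (hH.trans omega_le_sim) h1 with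
    ⟨d', K', -, hd', hK', hi, hs, -⟩ | ⟨rfl, hs⟩
  swap
  · exact maxO_of_uni hQ hn hH hI hK h4 hs h1
  obtain ⟨r, hr, hrd⟩ := Nat.exists_prime_and_dvd hd'.ne'
  obtain ⟨K, hle, h5, h6, -⟩ := Fld.exists_dvd_inv hK' hrd hi
  have h7 : IsSelfAdjointFor (pl Q) K :=
    hf.isSelfAdjointFor_iff.2 fun x hx => hf.isSelfAdjointFor_iff.1 hs x (hle hx)
  have hh := le_inf h6.le_normalizer (hH.trans omega_le_isom)
  by_cases h8 : r = Fintype.card ι
  · subst h8
    exact absurd hI (not_irr_of_singer hQ (hr.odd_of_ne_two (by omega)) (by omega) h5 h7 hh)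
  by_cases h9 : 2 * r = Fintype.card ι
  swap
  · exact maxO_of_fld hQ hn hr h5 h7 h8 h9 h6
  obtain ⟨C', c1, c2, c3, c4⟩ := exists_comm_of_half hQ (by omega) h5 h7 hh
  obtain h | ⟨d'', -, c5⟩ := maxO_of_comm hQ hn hH hI c2 c3 (ne_bot_of_gt c1) c4
  · exact h
  have c6 : r < d'' := by
    rw [← h5.finrank_eq, ← c5.finrank_eq]
    exact Submodule.finrank_lt_finrank_of_lt (Subalgebra.toSubmodule.strictMono c1)
  obtain ⟨a, ha⟩ := Fld.dvd_card c5
  have c7 : 2 ∣ d'' := by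
    obtain rfl : a = 1 := by
      rcases a with _ | _ | a
      · omega
      · rfl
      · nlinarith
    omega
  obtain ⟨K₂, -, c8, c9, c10⟩ := Fld.exists_dvd_inv c5 c7 c2
  by_cases c11 : IsSelfAdjointFor (pl Q) K₂
  · exact maxO_of_fld hQ hn Nat.prime_two c8 c11 (by omega) (by omega) c9
  · exact maxO_of_uni hQ hn hH hI c8 (c10 hf c4) c11 c9

section tensor

variable {k m : ℕ} {e : ι ≃ Fin k × Fin m} {P : GL ι F} {G₁ : Matrix (Fin k) (Fin k) F}
  {G₂ : Matrix (Fin m) (Fin m) F} {ε l₁ l₂ : F} {f : (ι → F) → (ι → F) → F}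

omit [Fintype F] in
theorem TensF.form_kv (h : TensF (rf F) f H e P G₁ G₂ l₁ l₂) (hf : Sesq (rf F) ε f) :
    ∃ c : F, c ≠ 0 ∧ ∀ x y x' y', f (tv e P (kv x y)) (tv e P (kv x' y')) =
      c * (formOfGram (rf F) G₁ x x' * formOfGram (rf F) G₂ y y') := by
  obtain ⟨c, hc, hG⟩ := h.gram
  refine ⟨c, hc, fun x y x' y' => ?_⟩
  have := (hf.pull e P).eq_dot (kv x y) (kv x' y')
  rw [pull, hG] at this
  rw [this, formOfGram_eq, formOfGram_eq, ← kv_dot, ← kron_mulVec_kv, smul_mulVec, dotProduct_smul]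
  rfl

theorem maxO_of_tensS (hQ : NQ Q) (hn : 7 ≤ Fintype.card ι) (hH : H ≤ omegaGL Q) (hI : Irr H)
    {e : ι ≃ Fin 2 × Fin m} {G₁ : Matrix (Fin 2) (Fin 2) F}
    (h : TensF (rf F) (pl Q) H e P G₁ G₂ l₁ l₂) (a₁ : ∀ v, formOfGram (rf F) G₁ v v = 0)
    (a₂ : ∀ v, formOfGram (rf F) G₂ v v = 0) : MaxO Q (H ≤ ·) := by
  have hf := sesq_polar hQ
  have hs := hH.trans omega_le_sim
  by_cases hq : Fintype.card F = 2
  · exact maxO_of_hasComm hQ hn hH hI (h.hasComm hf (h.fst.hasComm_of_char (h.irr hI)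
      (h.fstG_le_sim hf hs) (noPerf_gl2 (by omega) _) (by simpa using Nat.prime_two) (by simp [hq])))
  have h0 : ∀ x y, Q (tv e P (kv x y)) = 0 := fun x y => by
    by_cases h2 : (2 : F) = 0
    · obtain ⟨Q', h1, h3, h4, h5⟩ := h.exists_quad hf h2 a₁ a₂
      rw [quad_unique hQ hn hH hI h1 h3 fun g hg => h5 g ⟨hg, omega_le_iso (hH hg)⟩, h4]
    · obtain ⟨c, -, hc⟩ := h.form_kv hf
      have := hc x y x y
      rw [a₁, polar_self hQ] at this
      simpa [h2] using this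
  have := Fintype.one_lt_card (α := F)
  refine .tensS m e P _ _ (by omega) (by simpa using h.snd.even_of_alt a₂) h.two_m
    (h.fst.isSymplecticForm a₁) (h.snd.isSymplecticForm a₂) (h.isTensorFormStructure hf) h0
    (plus_of_basis hQ e P (fun p => p.1 = 0) (fun p => by rw [single_eq_kv, h0]) ?_) h.le
  rintro ⟨i, j⟩ ⟨i', j'⟩ hp
  obtain ⟨c, -, hG⟩ := h.gram
  obtain rfl : i = i' := by simp only at hp; omega
  simp [hG, gram_diag_of_alt a₁]

theorem maxO_of_alt (hQ : NQ Q) (hn : 7 ≤ Fintype.card ι) (hH : H ≤ omegaGL Q) (hI : Irr H)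
    (h : TensF (rf F) (pl Q) H e P G₁ G₂ l₁ l₂) (a₁ : ∀ v, formOfGram (rf F) G₁ v v = 0)
    (a₂ : ∀ v, formOfGram (rf F) G₂ v v = 0) : MaxO Q (H ≤ ·) := by
  rcases h.two_k.eq_or_lt with rfl | h1
  · exact maxO_of_tensS hQ hn hH hI h a₁ a₂
  rcases h.two_m.eq_or_lt with rfl | h2
  · exact maxO_of_tensS hQ hn hH hI h.swap a₂ a₁
  have h3 : Even k := by simpa using h.fst.even_of_alt a₁
  have h4 : Even m := by simpa using h.snd.even_of_alt a₂
  refine .exc (h.card_eq ▸ h3.mul_right m) (Or.inl ?_)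
  obtain ⟨a, rfl⟩ := h3
  obtain ⟨b, rfl⟩ := h4
  rw [h.card_eq]
  nlinarith [show 2 ≤ a by omega, show 2 ≤ b by omega]

omit [Fintype F] in
theorem Sesq.tensF_of_hom (hf : Sesq (rf F) ε f) (hk : 2 ≤ k) (hn : k < Fintype.card ι)
    (ψ : Matrix (Fin k) (Fin k) F →ₐ[F] Matrix ι ι F)
    (h : ∀ g ∈ H, ∀ a, ∃ a', cj g (ψ a) = ψ a') (ha : ∀ a, ∃ a', adj (rf F) f (ψ a) = ψ a') :
    ∃ (m : ℕ) (e : ι ≃ Fin k × Fin m) (P : GL ι F) (G₁ : Matrix (Fin k) (Fin k) F)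
      (G₂ : Matrix (Fin m) (Fin m) F) (l : F), TensF (rf F) f H e P G₁ G₂ l (ε * l) := by
  have : Nonempty (Fin k) := ⟨⟨0, by omega⟩⟩
  obtain ⟨m, e, P, hP⟩ := exists_tensor_frame ψ
  have h1 : Fintype.card ι = k * m := by simpa using Fintype.card_congr e
  have hm : 2 ≤ m := by
    rcases m with _ | _ | m <;> omega
  have : Nonempty (Fin m) := ⟨⟨0, by omega⟩⟩
  obtain ⟨G₁, G₂, l, h3, h4, h5, h6, h7, h8⟩ := (hf.pull e P).gram_kron fun a => by
    obtain ⟨a', ha'⟩ := ha a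
    exact ⟨a', (tp e P).injective (by rw [← hf.adj_tp, ← hP, ← hP, ha'])⟩
  refine ⟨m, e, P, G₁, G₂, l, hk, hm, fun g hg => ?_, ⟨1, one_ne_zero, by rw [h6, one_smul]⟩,
    sesq_formOfGram hf.invol h5 h3 h7, sesq_formOfGram hf.invol ?_ h4 h8⟩
  · obtain ⟨g, rfl⟩ := (tg e P).surjective g
    obtain ⟨a, b, rfl⟩ := kron_of_norm g fun a => by
      obtain ⟨a', ha'⟩ := h _ hg a
      exact ⟨a', (tp e P).injective (by rw [← cj_tg, ← hP, ← hP, ha'])⟩
    exact mem_tensorProductSubgroup.2 ⟨a, b, rfl⟩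
  · have := hf.eps
    simp only [RingEquiv.refl_apply] at this h5 ⊢
    linear_combination l * l * this + h5

omit [Fintype F] in
theorem form_sw (z z' : κ × κ → F) (G : Matrix κ κ F) :
    formOfGram (rf F) (G ⊗ₖ G) ((sw κ F).val *ᵥ z) ((sw κ F).val *ᵥ z') =
      formOfGram (rf F) (G ⊗ₖ G) z z' := by
  have h : ∀ w : κ × κ → F, (sw κ F).val *ᵥ w = fun p => w p.swap := fun w => funext fun p => by
    simpa [sw, coe_monoGL] using mono_mulVec (Equiv.prodComm κ κ) (fun _ => (1 : F)) w p.swap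
  simp only [h, formOfGram_eq, dotProduct, mulVec, Function.comp, RingEquiv.refl_apply]
  rw [← (Equiv.prodComm κ κ).sum_comp]
  refine Finset.sum_congr rfl fun ⟨i, j⟩ _ => ?_
  rw [← (Equiv.prodComm κ κ).sum_comp]
  simp [mul_comm]

/-- `O₃ ⊗ O₄⁺` meets `Ω` inside `Sp₂ ⊗ Sp₆`. -/
theorem TensF.tensF_of_plus {e : ι ≃ Fin 3 × Fin 4} {G₁ : Matrix (Fin 3) (Fin 3) F}
    {G₂ : Matrix (Fin 4) (Fin 4) F} (h : TensF (rf F) f H e P G₁ G₂ 1 1) (hf : Sesq (rf F) 1 f)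
    (hH : H ≤ Iso f ⊓ specialLinear ι F) (h2 : (2 : F) ≠ 0)
    (hp : Pl (fun v => formOfGram (rf F) G₂ v v) ⊤) :
    ∃ (m : ℕ) (e : ι ≃ Fin 2 × Fin m) (P : GL ι F) (G₁ : Matrix (Fin 2) (Fin 2) F)
      (G₂ : Matrix (Fin m) (Fin m) F) (l : F), TensF (rf F) f H e P G₁ G₂ l (1 * l) := by
  obtain ⟨e', P', hG⟩ := h.snd.exists_JJ h2 (by simp) hp
  obtain ⟨h3, h4⟩ := h.o4 hf ((hH.trans inf_le_left).trans (iso_le_sim _)) h2 hG
  let ψ : Matrix (Fin 2) (Fin 2) F →ₐ[F] Matrix ι ι F :=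
    (tp e P).toAlgHom.comp ((rk _ _ F).comp ((tp e' P').toAlgHom.comp (lk _ _ F)))
  have h5 : ∀ a, ψ a = trip e P e' P' 1 a 1 := fun a => by simp [ψ, trip, lk_apply, rk_apply]
  refine hf.tensF_of_hom le_rfl (by rw [h.card_eq]; decide) ψ (fun g hg y => ?_) fun y =>
    ⟨adj (rf F) (formOfGram (rf F) (J2 F)) y, by rw [h5, h4, h.fst.adj_one, sesq_J2.adj_one, h5]⟩
  obtain ⟨a, b, c, rfl | rfl⟩ := h3 g hg
  · exact ⟨cj b y, by rw [h5, (cj_trip ..).1, map_one, map_one, h5]⟩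
  exfalso
  obtain ⟨d, hd, h6⟩ := h.form_kv hf
  have h7 : ∀ z z', formOfGram (rf F) G₂ (tv e' P' z) (tv e' P' z') =
      formOfGram (rf F) (J2 F ⊗ₖ J2 F) z z' := fun z z' => by
    rw [← hG, ← (h.snd.pull e' P').eq_formOfGram, pull]
  obtain ⟨z, z', h8⟩ : ∃ z z', formOfGram (rf F) (J2 F ⊗ₖ J2 F) z z' ≠ 0 := by
    by_contra! h8
    simpa using congrFun (sesq_JJ.nondeg (Pi.single (0, 0) 1) fun x => h8 x _) (0, 0)
  have h9 : (b.val.det * c.val.det) • (a.valᵀ * G₁ * a.val) = G₁ :=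
    formOfGram_inj (rf F) fun x x' => by
      have := mem_iso.1 (hH hg).1 (tv e P (kv x (tv e' P' z))) (tv e P (kv x' (tv e' P' z')))
      have e1 := (gram_isom_iff (rf F) (J2 F ⊗ₖ J2 F) (b.val ⊗ₖ c.val) (b.val.det * c.val.det)).2
        (by simp [← kroneckerMap_transpose, ← mul_kronecker_mul, mul_J2, smul_kronecker,
          kronecker_smul, smul_smul, mul_comm]) z z'
      simp only [tg_mulVec, coe_kronecker, kron_mulVec_kv, h6, h7, Units.val_mul, ← mulVec_mulVec,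
        form_sw, e1] at this
      have e2 := gram_sim (rf F) G₁ a.val x x'
      rw [show a.val.map (rf F) = a.val from rfl] at e2
      rw [formOfGram_smul, ← e2]
      exact mul_right_cancel₀ h8 (mul_left_cancel₀ hd (by linear_combination this))
  have e1 := congrArg det h9
  have e2 := mem_sl.1 (hH hg).2
  have e3 := h.fst.gram_det_ne
  rw [gramMatrix_formOfGram] at e3
  simp only [det_smul, det_mul, det_transpose, Fintype.card_fin] at e1
  simp only [coe_tg, det_tp, coe_kronecker, det_kronecker, Units.val_mul, det_mul, det_sw,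
    Fintype.card_fin] at e2
  have e4 : (b.val.det * c.val.det) ^ 3 * a.val.det ^ 2 = 1 :=
    mul_right_cancel₀ e3 (by linear_combination e1)
  exact h2 (by linear_combination -e2 -
    ((b.val.det * c.val.det) ^ 3 * a.val.det ^ 2 + 1) * e4)

theorem plus_diag_iff {f : (κ → F) → (κ → F) → F} (hf : Sesq (rf F) 1 f) (h2 : (2 : F) ≠ 0)
    {m : ℕ} (hm : Fintype.card κ = 2 * m) :
    Pl (fun v => f v v) ⊤ ↔ IsSquare ((-1) ^ m * (gramMatrix f).det) := by
  have : gramMatrix (pl fun v => f v v) = (2 : F) • gramMatrix f := by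
    ext i j
    simp only [gramMatrix, QuadraticMap.polar, hf.add_left, hf.add_right, Matrix.smul_apply]
    rw [hf.herm (Pi.single j 1)]
    simp; ring
  rw [plus_iff_det' (hf.quad_diag h2) h2 hm, this, det_smul, hm, mul_left_comm, pow_mul',
    Geom.isSquare_sq_mul_iff (pow_ne_zero _ h2)]

theorem maxO_of_two (hQ : NQ Q) (hn : 7 ≤ Fintype.card ι) (hH : H ≤ omegaGL Q) (hI : Irr H)
    (h2 : (2 : F) ≠ 0) {e : ι ≃ Fin 2 × Fin m} {G₁ : Matrix (Fin 2) (Fin 2) F}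
    (h : TensF (rf F) (pl Q) H e P G₁ G₂ l₁ (1 * l₁)) : MaxO Q (H ≤ ·) := by
  rcases eq_or_eq_neg_of_sesq h.fst with rfl | rfl
  · exact maxO_of_hasComm hQ hn hH hI
      (h.hasComm_of_two (sesq_polar hQ) (hH.trans omega_le_sim) h2)
  · exact maxO_of_alt hQ hn hH hI h (h.fst.alt_of_neg_one h2)
      (Sesq.alt_of_neg_one (by simpa using h.snd) h2)

theorem maxO_of_symm (hQ : NQ Q) (hn : 7 ≤ Fintype.card ι) (hH : H ≤ omegaGL Q) (hI : Irr H)
    (h2 : (2 : F) ≠ 0) (hkm : k ≤ m) (h : TensF (rf F) (pl Q) H e P G₁ G₂ 1 1) :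
    MaxO Q (H ≤ ·) := by
  have hf := sesq_polar hQ
  have hs := hH.trans omega_le_sim
  have ho := odd_of_two_ne_zero h2
  rcases h.two_k.eq_or_lt with rfl | h1
  · exact maxO_of_hasComm hQ hn hH hI (h.hasComm_of_two hf hs h2)
  by_cases h3 : k = 3 ∧ Fintype.card F = 3
  · obtain ⟨rfl, h3⟩ := h3
    exact maxO_of_hasComm hQ hn hH hI (h.hasComm hf (h.fst.hasComm_of_char (h.irr hI)
      (h.fstG_le_sim hf hs) ((noPerf_o3 h3 (by simp) h.fst).mono (h.fstG_le_sim hf hs))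
      (by simpa using Nat.prime_three) (by simp [h3])))
  have h4 : k = 3 → 5 ≤ Fintype.card F := fun _ => five_le_of_odd ho (by tauto)
  have d1 := h.fst.gram_det_ne
  have d2 := h.snd.gram_det_ne
  rw [gramMatrix_formOfGram] at d1 d2
  rcases hkm.eq_or_lt with rfl | h5
  · rcases Nat.even_or_odd k with h6 | ⟨j, rfl⟩
    · refine .exc (h.card_eq ▸ h6.mul_right k) (Or.inl ?_)
      obtain ⟨a, rfl⟩ := h6
      rw [h.card_eq]
      nlinarith [show 2 ≤ a by omega]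
    have h7 : Sesq (rf F) 1 (formOfGram (rf F) ((G₁.det * G₂.det) • G₁)) := by
      convert h.fst.smul (mul_ne_zero d1 d2) (ε' := 1) (by simp) using 1
      funext u v; rw [formOfGram_smul]
    obtain ⟨u, hu⟩ := h7.exists_congr_of_det h.snd h2 rfl (by
      rw [gramMatrix_formOfGram, gramMatrix_formOfGram, det_smul, Fintype.card_fin]
      exact ⟨(G₁.det * G₂.det) ^ (j + 1), by ring⟩)
    obtain ⟨b, hb⟩ := exists_frame_of_eq (Equiv.refl _) u
    have h8 := h.fr hf 1 b one_ne_zero (mul_ne_zero d1 d2) (G₁' := G₁) (G₂' := G₁) (by simp)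
      (formOfGram_inj (rf F) fun x y => by rw [← gram_sim, ← hu, ← hb, ← hb]; rfl) h.fst h.fst
    exact .wr _ 2 _ _ _ ho h1 le_rfl h4 h.fst.isSymmetricForm
      (h8.wrF.isTensorPowerFormStructure hf) h8.wrF.le
  by_cases h6 : k = 3 ∧ m = 4 ∧ Pl (fun v => formOfGram (rf F) G₂ v v) ⊤
  · obtain ⟨rfl, rfl, h6⟩ := h6
    obtain ⟨m, e, P, G₁, G₂, l, h⟩ := h.tensF_of_plus hf
      (le_inf (hH.trans omega_le_iso) (hH.trans (qs_omega hQ hn).le_sl)) h2 h6
    exact maxO_of_two hQ hn hH hI h2 h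
  refine .tensO k m e P _ _ ho h1 h5 h4 (fun h7 h8 => ⟨by tauto, fun hp => h6 ⟨h7, h8, ?_⟩⟩)
    h.fst.isSymmetricForm h.snd.isSymmetricForm (h.isTensorFormStructure hf) h.le
  subst h7 h8
  obtain ⟨c, hc, hG⟩ := h.gram
  rw [plus_iff_det hQ h2 (m := 6) h.card_eq e P, hG, det_smul, det_kronecker] at hp
  rw [plus_diag_iff h.snd h2 (m := 2) (by simp), gramMatrix_formOfGram,
    ← Geom.isSquare_sq_mul_iff (u := c ^ 6 * G₁.det ^ 2 * G₂.det) (by simp [hc, d1, d2])]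
  convert hp using 1
  simp; ring

theorem maxO_of_tensF (hQ : NQ Q) (hn : 7 ≤ Fintype.card ι) (hH : H ≤ omegaGL Q) (hI : Irr H)
    (h : TensF (rf F) (pl Q) H e P G₁ G₂ l₁ (1 * l₁)) : MaxO Q (H ≤ ·) := by
  have hf := sesq_polar hQ
  have hs := hH.trans omega_le_sim
  by_cases h2 : (2 : F) = 0
  · exact maxO_of_alt hQ hn hH hI h (h.alt_fst hf hI hs h2) (h.swap.alt_fst hf hI hs h2)
  rcases eq_or_eq_neg_of_sesq h.fst with rfl | rfl
  · rw [one_mul] at h
    rcases le_total k m with hkm | hkm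
    exacts [maxO_of_symm hQ hn hH hI h2 hkm h, maxO_of_symm hQ hn hH hI h2 hkm h.swap]
  · exact maxO_of_alt hQ hn hH hI h (h.fst.alt_of_neg_one h2)
      (Sesq.alt_of_neg_one (by simpa using h.snd) h2)

end tensor

theorem exists_skew_two {G : Matrix (Fin 2) (Fin 2) F} (h : Sesq (rf F) 1 (formOfGram (rf F) G)) :
    ∃ s : Matrix (Fin 2) (Fin 2) F, s * s = (-G.det) • 1 ∧ adj (rf F) (formOfGram (rf F) G) s = -s := by
  have h1 := congrFun (congrFun h.gram_symm 0) 1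
  simp only [transpose_apply, one_smul] at h1
  refine ⟨!![G 0 1, G 1 1; -G 0 0, -G 0 1], ?_, h.adj_eq_of_gram ?_⟩
  · ext i j; fin_cases i <;> fin_cases j <;> simp [det_fin_two, mul_apply, h1] <;> ring
  · rw [gramMatrix_formOfGram]
    ext i j; fin_cases i <;> fin_cases j <;> simp [mul_apply, h1] <;> ring

theorem maxO_of_wrF (hQ : NQ Q) (hn : 7 ≤ Fintype.card ι) (hH : H ≤ omegaGL Q) (hI : Irr H)
    {k t : ℕ} {e : ι ≃ (Fin t → Fin k)} {P : GL ι F} {G : Matrix (Fin k) (Fin k) F} {l c : F}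
    (h : WrF (rf F) (pl Q) H e P G l) (hc : c ≠ 0) (hl : c * l ^ t = 1 * c)
    (hp : ¬ NoPerf (similarityGroup (formOfGram (rf F) G))) : MaxO Q (H ≤ ·) := by
  have hf := sesq_polar hQ
  have hd : Fintype.card ι = k ^ t := WrF.card_eq (e := e)
  have h1 := h.two_m
  have h3 := h.two_t
  rcases Nat.even_or_odd k with he | he
  swap
  · have ho := odd_of_odd_dim hQ (hd ▸ he.pow)
    have h2 := two_ne_zero_of_odd ho
    obtain rfl : l = 1 := (eq_or_eq_neg_of_sesq h.sesq).resolve_right fun h4 => by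
      subst h4
      exact Nat.not_even_iff_odd.2 he (by simpa using h.sesq.even_of_alt (h.sesq.alt_of_neg_one h2))
    exact .wr k t e P _ ho (by obtain ⟨j, hj⟩ := he; omega) h3 (fun h4 => five_le_of_odd ho fun h5 =>
      hp (noPerf_o3 h5 (by simp [h4]) h.sesq)) h.sesq.isSymmetricForm
      (h.isTensorPowerFormStructure hf) h.le
  refine .exc (hd ▸ he.pow_of_ne_zero (by omega)) (or_iff_not_imp_left.2 fun h4 => ?_)
  obtain rfl : k = 2 := by
    by_contra h5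
    have : 4 ^ 2 ≤ k ^ t := (Nat.pow_le_pow_left (by obtain ⟨j, hj⟩ := he; omega) 2).trans
      (Nat.pow_le_pow_right (by omega) h3)
    omega
  obtain rfl : t = 3 := by
    rcases h3.eq_or_lt with rfl | h5
    · omega
    · by_contra h6
      have : 2 ^ 4 ≤ 2 ^ t := Nat.pow_le_pow_right two_pos (by omega)
      omega
  refine ⟨hd, ?_⟩
  obtain ⟨d, hd0, hG⟩ := h.gram
  have key : (∀ i, G i i = 0) → (∀ x, Q (tv e P (pv x)) = 0) → Pl Q ⊤ := fun h5 h6 =>
    plus_of_basis hQ e P (fun p => p 0 = 0) (fun p => by rw [single_eq_pv, h6]) fun p p' hp => by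
      have : p 0 = p' 0 := by omega
      simp [hG, ptens_apply, Fin.prod_univ_three, this, h5]
  by_cases h2 : (2 : F) = 0
  · have h5 : ∀ i, G i i = 0 := fun i => by
      have := congrFun (congrFun hG fun _ => i) fun _ => i
      rw [gramMatrix, pull, polar_alt hQ h2, Matrix.smul_apply, ptens_apply] at this
      simpa [hd0] using this
    obtain ⟨Q', h6, h7, h8, h9⟩ := h.exists_quad hf h2 fun v => by
      have hs := h.sesq.gram_symm
      rw [eps_eq_one h2 h.sesq, show (1 : F) = -1 by linear_combination h2, neg_smul, one_smul] at hs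
      rw [formOfGram_eq]
      exact alt_of_gram hs h5 v
    exact key h5 fun x => by
      rw [quad_unique hQ hn hH hI h6 h7 fun g hg => h9 g ⟨hg, omega_le_iso (hH hg)⟩, h8]
  obtain rfl : l = 1 := (eq_or_eq_neg_of_sesq h.sesq).resolve_right fun h4 => by
    subst h4
    exact mul_ne_zero h2 hc (by linear_combination -hl)
  obtain ⟨s, h5, h6⟩ := exists_skew_two h.sesq
  have h7 := h.sesq.gram_det_ne
  rw [gramMatrix_formOfGram] at h7
  exact plus_of_skew hQ h2 (by rw [hd]; decide) (neg_ne_zero.2 h7) (j := tp e P (fac 0 s))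
    (by rw [← map_mul, ← map_mul, h5, map_smul, map_smul, map_one, map_one])
    (by rw [hf.adj_tp, (hf.pull e P).adj_fac h.sesq hG, h6, map_neg, map_neg])

theorem maxO_of_sym (hQ : NQ Q) (hn : 7 ≤ Fintype.card ι) (hH : H ≤ omegaGL Q)
    {N : Subgroup (GL ι F)} (hle : N ≤ H ⊔ scalars _ F) {r : ℕ} (h : Sym N r) :
    MaxO Q (H ≤ ·) := by
  have := h.nonempty
  have hf := sesq_polar hQ
  obtain rfl := h.eq_two hf (hle.trans (hf.sup_le_sim (hH.trans omega_le_sim)))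
  have hR := inf_iso_sup h.zle hle (hH.trans omega_le_iso)
  obtain ⟨k, h1, hk⟩ := h.card_eq_pow
  refine .exc (hk ▸ even_two.pow_of_ne_zero (by omega)) (or_iff_not_imp_left.2 fun h4 => ?_)
  obtain rfl : k = 3 := by
    by_contra h5
    rcases le_or_gt k 2 with h6 | h6
    · have : 2 ^ k ≤ 2 ^ 2 := Nat.pow_le_pow_right two_pos h6
      omega
    · have : 2 ^ 4 ≤ 2 ^ k := Nat.pow_le_pow_right two_pos (by omega)
      omega
  refine ⟨hk, ?_⟩
  have h2 : ∀ x ∈ N ⊓ Iso (pl Q), x.val * x.val = 1 ∨ x.val * x.val = -1 := fun x hx => by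
    obtain ⟨c, hc⟩ := mem_scalars_iff_sc.1 (h.pow x hx.1)
    have h5 := ((h.inf_iso hf).2.1 c).1 (hc ▸ pow_mem hx 2)
    have h6 : x.val * x.val = (c : F) • 1 := by rw [← coe_sc, hc, sq, Units.val_mul]
    rcases sq_eq_one_iff.1 h5 with h7 | h7 <;> simp [h6, h7]
  obtain ⟨j, h5, h6⟩ : ∃ j ∈ N ⊓ Iso (pl Q), j.val * j.val = -1 := by
    obtain ⟨x, hx, hz⟩ : ∃ x ∈ N ⊓ Iso (pl Q), x ∉ scalars ι F := by
      by_contra! h0
      exact h.not_le (hR ▸ sup_le h0 le_rfl)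
    obtain ⟨y, hy, h7⟩ := h.exists_cm_ne' hR hx.1 hz
    have h8 := h.cm_eq_neg_one hy.1 hx.1 h7
    rcases h2 x hx with h9 | h9
    swap
    · exact ⟨x, hx, h9⟩
    rcases h2 y hy with h10 | h10
    swap
    · exact ⟨y, hy, h10⟩
    refine ⟨x * y, mul_mem hx hy, ?_⟩
    rw [Units.val_mul, mul_assoc, ← mul_assoc y.val, h8, neg_mul, mul_neg, mul_assoc, h10,
      mul_one, h9]
  refine plus_of_skew hQ h.two_ne (by rw [hk]; decide) (a := -1) (by simp) (j := j.val)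
    (by simp [h6]) ?_
  rw [hf.adj_of_isom (mem_iso.1 h5.2), ← mul_one (j⁻¹).val, ← neg_neg (1 : Matrix ι ι F), ← h6,
    mul_neg, ← mul_assoc, ← Units.val_mul, inv_mul_cancel, Units.val_one, one_mul]

theorem o_of_quasi (hQ : NQ Q) (hn : 7 ≤ Fintype.card ι) (hH : H ≤ omegaGL Q)
    {P : Subgroup (GL ι F)} (h : Quasi H P) : MaxO Q (H ≤ ·) ∨ InOrthogonalResidualClass H := by
  have : Nonempty ι := Fintype.card_pos_iff.1 (by omega)
  by_contra hc
  rw [not_or] at hc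
  have hr : ∀ K : Subfield F, K ≠ ⊤ → ¬ RealisableOver K (matrixSet P) := fun K hK hr => by
    obtain ⟨K', r, T, h1, -, h2, h3⟩ := exists_subfield_of_realisable hK hr
    obtain ⟨ζ, h4, h5⟩ := quad_rational hQ (by omega) h.span ((h.le.trans hH).trans omega_le_isom) h3
    exact hc.1 (maxO_of_sub hQ hn h1 h2 h4 h5 (le_subfieldSubgroup h.span h.nrm h3))
  refine hc.2 ⟨P, h.core hr, ?_⟩
  rintro ⟨σ, f, hf', hfix'⟩
  exact hr _ (fixF_ne_top (exists_ne_of_unitary hf')) (realisable_of_two_forms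
    (sesq_of_unitary hf') (exists_ne_of_unitary hf') (sesq_polar hQ) h.span hfix'
    (fixes_iff_le_iso.2 ((h.le.trans hH).trans omega_le_iso)))

/-- Aschbacher's theorem, orthogonal case. -/
theorem o_main (hQ : NQ Q) (hn : 7 ≤ Fintype.card ι) (hH : H ≤ omegaGL Q) :
    MaxO Q (H ≤ ·) ∨ InOrthogonalResidualClass H := by
  by_cases hI : Irr H
  swap
  · exact Or.inl (maxO_of_not_irr hQ hn hH hI)
  rcases (sesq_polar hQ).core hI (hH.trans omega_le_sim) (by omega) with h |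
    ⟨k, n, e, P, G₁, G₂, l, h⟩ | ⟨N, r, -, h2, h3⟩ | ⟨k, t, e, T, G, l, c, h, h1, h2, h3⟩ | ⟨P, h⟩
  · exact Or.inl (maxO_of_hasComm hQ hn hH hI h)
  · exact Or.inl (maxO_of_tensF hQ hn hH hI h)
  · exact Or.inl (maxO_of_sym hQ hn hH h2 h3)
  · exact Or.inl (maxO_of_wrF hQ hn hH hI h h1 h2 h3)
  · exact o_of_quasi hQ hn hH h

theorem maxO_of_max (hQ : NQ Q) (hn : 7 ≤ Fintype.card ι) (hH : IsMaximalIn (omegaGL Q) H) :
    MaxO Q (fun M => H = M ⊓ omegaGL Q) ∨ InOrthogonalResidualClass H :=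
  (o_main hQ hn hH.1.le).imp_left fun h => h.imp hQ hn fun _ => eq_of_max hH

theorem nq_odd (ho : Odd (Fintype.card F)) (m : ℕ) : NQ (quadFormOdd m F) :=
  Geom.coe_quadOdd F m ▸ nq_of_nondeg (Geom.quadOdd_nondeg F m (two_ne_zero_of_odd ho))

theorem odd_sub (ho : Odd (Fintype.card F)) {m : ℕ} {K : Subfield F}
    {P : GL (Unit ⊕ (Fin m ⊕ Fin m)) F} {ζ : F} (hζ : ζ ≠ 0)
    (h : IsQuadFormRationalStructure (fun v => ζ * quadFormOdd m F v) K P) :
    ∃ P', subfieldSubgroup K P' = subfieldSubgroup K P ∧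
      IsQuadFormRationalStructure (quadFormOdd m F) K P' :=
  rescale_odd (nq_odd ho m) ⟨m, by simp; omega⟩ (fun u hu => add_mem (pow_mem (hu _) 2)
    (sum_mem fun _ _ => mul_mem (hu _) (hu _))) hζ h

theorem dec_disc_even (hQ : NQ Q) (ho : Odd (Fintype.card F)) {t k m : ℕ}
    {D : Fin t → Submodule F (ι → F)} (hD : IsOrthogonalMDecomposition Q k D) (ht : Even t)
    (hm : Fintype.card ι = 2 * m) (he : Even m) : Pl Q ⊤ :=
  (dec_disc hQ (two_ne_zero_of_odd ho) hD ht hm).2 (by simp [he.neg_one_pow])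

theorem dec_disc_odd (hQ : NQ Q) (ho : Odd (Fintype.card F)) {t k m : ℕ}
    {D : Fin t → Submodule F (ι → F)} (hD : IsOrthogonalMDecomposition Q k D) (ht : Even t)
    (hm : Fintype.card ι = 2 * m) (he : Odd m) : Pl Q ⊤ ↔ Fintype.card F % 4 = 1 :=
  (dec_disc hQ (two_ne_zero_of_odd ho) hD ht hm).trans
    (isSquare_neg_one_odd (two_ne_zero_of_odd ho) he)

theorem pow_arith {n k t : ℕ} (h : n = k ^ t) (hn : n ≤ 12) (hk : 3 ≤ k) (ht : 2 ≤ t) :
    k = 3 ∧ t = 2 := by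
  have h1 : k ^ 2 ≤ k ^ t := Nat.pow_le_pow_right (by omega) ht
  obtain rfl : k = 3 := by nlinarith
  refine ⟨rfl, ?_⟩
  by_contra h2
  have : 3 ^ 3 ≤ 3 ^ t := Nat.pow_le_pow_right (by omega) (by omega)
  omega

end Cfsg.Agent.Asch
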