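import Cfsg.Agent.Asch.Onb

/-! The refined Aschbacher theorem for maximal subgroups of `SU_n(q)`. -/

set_option autoImplicit false

namespace Cfsg.Agent.Asch

open Matrix Cfsg.Geo
open scoped Kronecker

variable {ι : Type} [Fintype ι] [DecidableEq ι] {F : Type*} [Field F]

theorem Sesq.ts_ne_top [Nonempty ι] {σ : F ≃+* F} {ε : F} {f : (ι → F) → (ι → F) → F}
    (hf : Sesq σ ε f) {W : Submodule F (ι → F)} (h : IsTotallySingularFor f W) : W ≠ ⊤ := by
  rintro rfl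
  obtain ⟨i⟩ := ‹Nonempty ι›
  simpa using congrFun (hf.nondeg (Pi.single i 1) fun x => h x trivial _ trivial) i

theorem ne_top_of_finrank {W : Submodule F (ι → F)} (h : Module.finrank F W < Fintype.card ι) :
    W ≠ ⊤ := by
  rintro rfl; simp at h

variable [Fintype F] {n q : ℕ}

theorem norm_four (hF : Fintype.card F = 2 ^ 2) {a : F} (ha : a ≠ 0) : a * fq hF a = 1 := by
  rw [fq_apply, ← pow_succ']; simpa [hF] using FiniteField.pow_card_sub_one_eq_one a ha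

theorem two_eq_zero_of_four (hF : Fintype.card F = 2 ^ 2) : (2 : F) = 0 :=
  two_eq_zero_of_not_odd (by rw [hF]; decide)

/-- Over `F₄`, a decomposition into unitary planes refines to a frame. -/
theorem exists_frame_of_planes (hF : Fintype.card F = 2 ^ 2) {f : (ι → F) → (ι → F) → F}
    (hf : Sesq (fq hF) 1 f) {t : ℕ} {D : Fin t → Submodule F (ι → F)}
    (hD : IsNondegenerateMDecomposition f 2 D) :
    ∃ D' : Fin (Fintype.card ι) → Submodule F (ι → F), IsNondegenerateMDecomposition f 1 D' ∧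
      decompositionStabilizer D ⊓ Iso f ≤ decompositionStabilizer D' := by
  choose b hb using fun i => hf.exists_onb (fq_ne hF) (hD.nondegenerate i) (hD.decomp.finrank_eq i)
  simp only [form_one, Fin.sum_univ_two] at hb
  have hn := mdec_arith hD.decomp
  obtain ⟨D', h1, -, h2⟩ := hf.frame_of_set (by omega) (S := {v | (∃ i, v ∈ D i) ∧ f v v ≠ 0})
    (fun v hv => hv.2) (by
      rintro u ⟨⟨i, hu⟩, hu'⟩ v ⟨⟨j, hv⟩, hv'⟩
      by_cases hij : i = j
      swap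
      · exact Or.inl (hD.orthogonal i j hij u hu v hv)
      subst hij
      obtain ⟨x, rfl⟩ : ∃ x, (b i x : ι → F) = u := ⟨(b i).symm ⟨u, hu⟩, by simp⟩
      obtain ⟨y, rfl⟩ : ∃ x, (b i x : ι → F) = v := ⟨(b i).symm ⟨v, hv⟩, by simp⟩
      have key : ∀ x : Fin 2 → F, f (b i x) (b i x) ≠ 0 → (x 0 = 0 ∧ x 1 ≠ 0) ∨ (x 1 = 0 ∧ x 0 ≠ 0) :=
        fun x hx => by
        rw [hb] at hx
        by_cases h0 : x 0 = 0 <;> by_cases h1 : x 1 = 0 <;> simp_all
        rw [norm_four hF h0, norm_four hF h1, one_add_one_eq_two] at hx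
        exact hx (two_eq_zero_of_four hF)
      have key2 : ∀ c : F, x = c • y → ∃ c : F, (b i x : ι → F) = c • (b i y : ι → F) :=
        fun c h => ⟨c, by rw [h, map_smul]; rfl⟩
      rw [hb]
      rcases key x hu' with ⟨h1, h2⟩ | ⟨h1, h2⟩ <;> rcases key y hv' with ⟨h3, h4⟩ | ⟨h3, h4⟩
      · exact Or.inr (key2 (x 1 / y 1) (funext fun k => by fin_cases k <;> simp [*]))
      · simp [*]
      · simp [*]
      · exact Or.inr (key2 (x 0 / y 0) (funext fun k => by fin_cases k <;> simp [*])))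
    (eq_top_iff.2 (hD.decomp.iSup_eq_top ▸ iSup_le fun i => le_span_of_basis (b i) fun k =>
      ⟨⟨i, Submodule.coe_mem _⟩, by rw [hb]; fin_cases k <;> simp⟩))
  refine ⟨D', h1, fun g hg => h2 g fun v ⟨⟨i, hv⟩, hv'⟩ => ⟨1, ?_⟩⟩
  obtain ⟨π, hπ⟩ := dstab_mem hg.1
  rw [one_smul]
  exact ⟨⟨π i, (hπ i v).1 hv⟩, by rwa [mem_iso.1 hg.2]⟩

variable (hF : Fintype.card F = q ^ 2) {H : Subgroup (GL (Fin n) F)}

/-- The geometric maximal subgroups of `SU_n(q)` (up to exceptions for `n ≤ 6`). -/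
inductive MaxU (n : ℕ) (F : Type*) [Field F] [Fintype F] (q : ℕ)
    (p : Subgroup (GL (Fin n) F) → Prop) : Prop
  | ts (W : Submodule F (Fin n → F)) (h0 : W ≠ ⊥) (h1 : IsTotallySingularFor (hermForm n F q) W)
      (h : p (subspaceStabilizer W))
  | nd (W : Submodule F (Fin n → F)) (h0 : W ≠ ⊥) (h1 : IsNondegenerateOn (hermForm n F q) W)
      (h2 : 2 * Module.finrank F W < n) (h : p (subspaceStabilizer W))
  | dec (t k : ℕ) (D : Fin t → Submodule F (Fin n → F))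
      (hD : IsNondegenerateMDecomposition (hermForm n F q) k D) (h2 : k = 2 → 3 ≤ q)
      (h : p (decompositionStabilizer D))
  | pair (k : ℕ) (D : Fin 2 → Submodule F (Fin n → F)) (hD : IsMDecomposition k D)
      (h1 : ∀ i, IsTotallySingularFor (hermForm n F q) (D i)) (h : p (decompositionStabilizer D))
  | subOdd (K : Subfield F) (r : ℕ) (P : GL (Fin n) F) (hr : r.Prime) (ho : Odd r)
      (hc : Fintype.card F = Nat.card K ^ r) (h1 : IsFormRationalStructure (hermForm n F q) K 1 P)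
      (h : p (subfieldSubgroup K P))
  | subO (K : Subfield F) (P : GL (Fin n) F) (ho : Odd q) (hc : Fintype.card F = Nat.card K ^ 2)
      (h1 : IsFormRationalStructure (hermForm n F q) K 1 P) (h : p (subfieldSubgroup K P))
  | subS (K : Subfield F) (P : GL (Fin n) F) (ζ : F) (he : Even n)
      (hc : Fintype.card F = Nat.card K ^ 2) (hζ : ζ ≠ 0) (hz : ζ + ζ ^ q = 0)
      (h1 : IsFormRationalStructure (hermForm n F q) K ζ P)
      (h2 : ∀ u : Fin n → F, (∀ i, u i ∈ K) → hermForm n F q (P.val *ᵥ u) (P.val *ᵥ u) = 0)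
      (h : p (subfieldSubgroup K P))
  | sym (r : ℕ) (R : Subgroup (GL (Fin n) F)) (s e k : ℕ) (h1 : IsSymplecticTypeGroup r R)
      (h2 : gspan R = ⊤) (h3 : R ≤ GU n F q)
      (hm : IsMinimalFieldFor (Nat.card (Subgroup.center R)) s e F)
      (h4 : (Odd r ∧ Nat.card (Subgroup.center R) = r ∧ Nat.card R = r ^ (1 + 2 * k)) ∨
        (r = 2 ∧ e = 2 ∧ Nat.card (Subgroup.center R) = 4 ∧ Nat.card R = 2 ^ (2 + 2 * k)))
      (hk : n = r ^ k) (h : p (subgroupNormalizer R))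
  | fld (r : ℕ) (K : Subalgebra F (Matrix (Fin n) (Fin n) F)) (hr : r.Prime) (ho : Odd r)
      (hK : IsFieldSubalgebra r K) (h1 : IsAdjointClosedFor (hermForm n F q) K)
      (h : p (subalgebraNormalizer K))
  | tens (k m : ℕ) (e : Fin n ≃ Fin k × Fin m) (P : GL (Fin n) F)
      (f₁ : (Fin k → F) → (Fin k → F) → F) (f₂ : (Fin m → F) → (Fin m → F) → F) (hk : 2 ≤ k)
      (hkm : k < m) (h2 : k = 2 → 3 ≤ q) (hf₁ : IsUnitaryFormPow q f₁) (hf₂ : IsUnitaryFormPow q f₂)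
      (hT : IsTensorFormStructure (fun x : F => x ^ q) (hermForm n F q) f₁ f₂ e P)
      (h : p (tensorProductSubgroup k m e P))
  | wr (k t : ℕ) (e : Fin n ≃ (Fin t → Fin k)) (P : GL (Fin n) F)
      (f₁ : (Fin k → F) → (Fin k → F) → F) (hk : 3 ≤ k) (ht : 2 ≤ t) (hx : k = 3 → 3 ≤ q)
      (hf₁ : IsUnitaryFormPow q f₁)
      (hT : IsTensorPowerFormStructure (fun x : F => x ^ q) (hermForm n F q) f₁ e P)
      (h : p (tensorWreathSubgroup k t e P))

include hF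

theorem MaxU.imp (hn : 3 ≤ n) (hx : ¬ (n = 3 ∧ q = 2)) {p p' : Subgroup (GL (Fin n) F) → Prop}
    (h : MaxU n F q p) (hp : ∀ M, p M → ¬ GU n F q ⊓ specialLinear (Fin n) F ≤ M → p' M) :
    MaxU n F q p' := by
  haveI : Nonempty (Fin n) := ⟨⟨0, by omega⟩⟩
  have hq := qs_su hF hn hx
  cases h with
  | ts W h0 h1 h => exact .ts W h0 h1 (hp _ h (hq.not_le_stab h0 ((sesq_herm hF n).ts_ne_top h1)))
  | nd W h0 h1 h2 h =>
    exact .nd W h0 h1 h2 (hp _ h (hq.not_le_stab h0 (ne_top_of_finrank (by simp; omega))))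
  | dec t k D hD h2 h => exact .dec t k D hD h2 (hp _ h (hq.not_le_dstab hD.decomp))
  | pair k D hD h1 h => exact .pair k D hD h1 (hp _ h (hq.not_le_dstab hD))
  | subOdd K r P hr ho hc h1 h =>
    exact .subOdd K r P hr ho hc h1 (hp _ h (hq.not_le_subfield' hr.two_le hc P))
  | subO K P ho hc h1 h => exact .subO K P ho hc h1 (hp _ h (hq.not_le_subfield' le_rfl hc P))
  | subS K P ζ he hc hζ hz h1 h2 h =>
    exact .subS K P ζ he hc hζ hz h1 h2 (hp _ h (hq.not_le_subfield' le_rfl hc P))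
  | sym r R s e k h1 h2 h3 hm h4 hk h =>
    exact .sym r R s e k h1 h2 h3 hm h4 hk (hp _ h (hq.not_le_gnorm h1.prime h1.pGroup h2
      ((nrm_iso (h3.trans (iso_le_sim _))).inf (nrm_sl R))))
  | fld r K hr ho hK h1 h => exact .fld r K hr ho hK h1 (hp _ h (hq.not_le_anorm hr.one_lt hK))
  | tens k m e P f₁ f₂ hk hkm h2 hf₁ hf₂ hT h =>
    exact .tens k m e P f₁ f₂ hk hkm h2 hf₁ hf₂ hT (hp _ h (hq.not_le_tensor hk (by omega) e P))
  | wr k t e P f₁ hk ht hx hf₁ hT h =>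
    exact .wr k t e P f₁ hk ht hx hf₁ hT (hp _ h (hq.not_le_wreath (by omega) ht e P))

theorem maxU_of_dec (hH : H ≤ GU n F q) {t k : ℕ} {D : Fin t → Submodule F (Fin n → F)}
    (hD : IsNondegenerateMDecomposition (hermForm n F q) k D) (h : H ≤ decompositionStabilizer D) :
    MaxU n F q (H ≤ ·) := by
  by_cases hx : k = 2 ∧ q = 2
  · obtain ⟨rfl, rfl⟩ := hx
    obtain ⟨D', h1, h2⟩ := exists_frame_of_planes hF (sesq_herm hF n) hD
    exact .dec _ 1 D' h1 (by omega) ((le_inf h hH).trans h2)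
  · have := Geom.two_le_of_card_eq_sq hF
    exact .dec t k D hD (fun _ => by omega) h

theorem maxU_of_not_irr (hH : H ≤ GU n F q) (h : ¬ Irr H) : MaxU n F q (H ≤ ·) := by
  have hf := sesq_herm hF n
  have hs := hH.trans (iso_le_sim _)
  obtain ⟨W, h1, h2, h3, h4 | ⟨h4, h5⟩⟩ := hf.reducible hs h
  · exact .ts W h1 h4 (le_subspaceStabilizer h3)
  · rcases h5.lt_or_eq with h5 | h5
    · exact .nd W h1 h4 (by simpa using h5) (le_subspaceStabilizer h3)
    · exact maxU_of_dec hF hH (hf.nd_pair h1 h4 h5) (le_dstab_pair h3 (hf.perp_inv hs h3))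

theorem maxU_of_hasComm (hn : 2 ≤ n) (hH : H ≤ GU n F q)
    (h : HasComm (fq hF) (hermForm n F q) H) : MaxU n F q (H ≤ ·) := by
  haveI : Nonempty (Fin n) := ⟨⟨0, by omega⟩⟩
  by_cases hI : Irr H
  swap
  · exact maxU_of_not_irr hF hH hI
  have hf := sesq_herm hF n
  obtain ⟨C, h1, h2, h3, h4⟩ := h
  rcases comm_cases_adj hf hI (hH.trans (iso_le_sim _)) h1 h2 h3 h4 with ⟨t, e, he, -, ha, -⟩ |
    ⟨e, he, -, ha⟩ | ⟨d, hd, hK⟩
  · obtain ⟨k, hk⟩ := he.nd_decomp hf ha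
    exact maxU_of_dec hF hH hk he.le_stab
  · obtain ⟨k, hk⟩ := he.decomp
    exact .pair k _ hk (he.ts_of_adj hf ha) he.le_stab
  · obtain ⟨r, hr, hrd⟩ := Nat.exists_prime_and_dvd hd.ne'
    obtain ⟨K, -, h5, h6, h7⟩ := Fld.exists_dvd_inv hK hrd h1
    exact .fld r K hr ((Fld.odd_of_adj hK hf h4 (fq_ne hF)).of_dvd_nat hrd) h5
      (hf.isAdjointClosedFor_iff.2 (h7 hf h4)) h6.le_normalizer

theorem InU.maxU (hn : 2 ≤ n) (hH : H ≤ GU n F q) (h : InU hF H) : MaxU n F q (H ≤ ·) := by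
  have hf := sesq_herm hF n
  have hq := Geom.two_le_of_card_eq_sq hF
  cases h with
  | ts W h0 h1 h => exact .ts W h0 h1 h
  | nd W h0 h1 h2 h => exact .nd W h0 h1 h2 h
  | dec t k D hD h => exact maxU_of_dec hF hH hD h
  | pair k D hD h1 h => exact .pair k D hD h1 h
  | subOdd K r P hr ho hc h1 h => exact .subOdd K r P hr ho hc h1 h
  | subO K P ho hc h1 h => exact .subO K P ho hc h1 h
  | subS K P ζ he hc hζ hz h1 h2 h => exact .subS K P ζ he hc hζ hz h1 h2 h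
  | sym r R p e k h1 h2 h3 hp hm h4 hk h =>
    exact .sym r R p e k h1 h2 h3 hm (h4.imp_left fun h => ⟨h.1, h.2.1, h.2.2.2⟩) hk h
  | fld r K hr ho hK h1 h => exact .fld r K hr ho hK h1 h
  | wr k t e P G hk hx h =>
    exact .wr k t e P _ hk h.two_t (fun _ => by omega) h.sesq.isUnitaryFormPow
      (h.isTensorPowerFormStructure hf) h.le
  | tens k m e P hkm h =>
    by_cases hx : k = 2 ∧ q = 2
    swap
    · exact .tens k m e P _ _ h.two_k hkm (fun _ => by omega) h.fst.isUnitaryFormPow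
        h.snd.isUnitaryFormPow (h.isTensorFormStructure hf) h.le
    obtain ⟨rfl, rfl⟩ := hx
    by_cases hI : Irr H
    swap
    · exact maxU_of_not_irr hF hH hI
    exact maxU_of_hasComm hF hn hH (h.hasComm hf (h.fst.hasComm_of_char (h.irr hI)
      (h.fstG_le_sim hf (hH.trans (iso_le_sim _))) ((h.fst.noPerf_gu hF (Or.inl (by simp))).mono
      (h.fstG_le_sim hf (hH.trans (iso_le_sim _)))) (by simpa using Nat.prime_two) (by simp [hF])))

theorem maxU_main (hn : 2 ≤ n) (hH : H ≤ GU n F q) :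
    MaxU n F q (H ≤ ·) ∨ InUnitaryResidualClass H :=
  (u_main hn hH).imp_left (InU.maxU hF hn hH)

/-- Maximal subgroups of `SU_n(q)`. -/
theorem maxU_of_max (hn : 3 ≤ n) (hx : ¬ (n = 3 ∧ q = 2))
    (hH : IsMaximalIn (GU n F q ⊓ specialLinear _ F) H) :
    MaxU n F q (fun M => H = M ⊓ (GU n F q ⊓ specialLinear _ F)) ∨ InUnitaryResidualClass H :=
  (maxU_main hF (by omega) (hH.1.le.trans inf_le_left)).imp_left fun h =>
    h.imp hF hn hx fun _ => eq_of_max hH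

section arith

set_option synthInstance.maxSize 2000

theorem usym_pow {z s e : ℕ} (hm : IsMinimalFieldFor z s e F) : ∃ j, e = 2 * j ∧ q = s ^ j := by
  have h1 : q ^ 2 = s ^ e := hF.symm.trans hm.2.2.1
  obtain ⟨j, -, rfl⟩ := (Nat.dvd_prime_pow hm.1).1 (h1 ▸ dvd_pow_self q two_ne_zero : q ∣ s ^ e)
  rw [← pow_mul] at h1
  exact ⟨j, by rw [← Nat.pow_right_injective hm.1.two_le h1, mul_comm], rfl⟩

theorem usym_four {s : ℕ} (hm : IsMinimalFieldFor 4 s 2 F) : s.Prime ∧ q = s ∧ s % 4 = 3 := by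
  obtain ⟨j, hj, rfl⟩ := usym_pow hF hm
  obtain rfl : j = 1 := by omega
  obtain ⟨-, h1, h2⟩ := minimal_mod hm (by omega)
  have h3 := h2 1 one_lt_two one_pos
  have h4 := Nat.mod_lt s four_pos
  refine ⟨hm.1, pow_one s, ?_⟩
  generalize s % 4 = a at *
  interval_cases a <;> omega

theorem usym_three {s e : ℕ} (hm : IsMinimalFieldFor 3 s e F) : s.Prime ∧ q = s ∧ s % 3 = 2 := by
  obtain ⟨j, rfl, rfl⟩ := usym_pow hF hm
  obtain ⟨h1, h⟩ := minimal_dec (k := 2) (C := fun a e => Even e → e = 2 ∧ a = 2) hm (by omega)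
    (by omega) (by decide) (by decide) (even_two_mul j)
  obtain rfl : j = 1 := by omega
  exact ⟨hm.1, pow_one s, h⟩

theorem usym_five {s e : ℕ} (hm : IsMinimalFieldFor 5 s e F) : s.Prime ∧ CharP F s ∧
    ((q = s ∧ s % 5 = 4) ∨ (q = s ^ 2 ∧ (s % 5 = 2 ∨ s % 5 = 3))) := by
  obtain ⟨j, rfl, rfl⟩ := usym_pow hF hm
  obtain ⟨h1, h⟩ | ⟨h1, h⟩ := minimal_dec (k := 4) (C := fun a e => Even e → (e = 2 ∧ a = 4) ∨
    (e = 4 ∧ (a = 2 ∨ a = 3))) hm (by omega) (by omega) (by decide) (by decide) (even_two_mul j)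
  · obtain rfl : j = 1 := by omega
    exact ⟨hm.1, hm.2.1, Or.inl ⟨pow_one s, h⟩⟩
  · obtain rfl : j = 2 := by omega
    exact ⟨hm.1, hm.2.1, Or.inr ⟨rfl, h⟩⟩

theorem usym_seven {s e : ℕ} (hm : IsMinimalFieldFor 7 s e F) : s.Prime ∧ CharP F s ∧
    ((q = s ∧ s % 7 = 6) ∨ (q = s ^ 3 ∧ (s % 7 = 3 ∨ s % 7 = 5))) := by
  obtain ⟨j, rfl, rfl⟩ := usym_pow hF hm
  obtain ⟨h1, h⟩ | ⟨h1, h⟩ := minimal_dec (k := 6) (C := fun a e => Even e → (e = 2 ∧ a = 6) ∨
    (e = 6 ∧ (a = 3 ∨ a = 5))) hm (by omega) (by omega) (by decide) (by decide) (even_two_mul j)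
  · obtain rfl : j = 1 := by omega
    exact ⟨hm.1, hm.2.1, Or.inl ⟨pow_one s, h⟩⟩
  · obtain rfl : j = 3 := by omega
    exact ⟨hm.1, hm.2.1, Or.inr ⟨rfl, h⟩⟩

theorem usym_eleven {s e : ℕ} (hm : IsMinimalFieldFor 11 s e F) : s.Prime ∧ CharP F s ∧
    ((q = s ∧ s % 11 = 10) ∨
      (q = s ^ 5 ∧ (s % 11 = 2 ∨ s % 11 = 6 ∨ s % 11 = 7 ∨ s % 11 = 8))) := by
  obtain ⟨j, rfl, rfl⟩ := usym_pow hF hm
  obtain ⟨h1, h⟩ | ⟨h1, h⟩ := minimal_dec (k := 10) (C := fun a e => Even e → (e = 2 ∧ a = 10) ∨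
    (e = 10 ∧ (a = 2 ∨ a = 6 ∨ a = 7 ∨ a = 8))) hm (by omega) (by omega) (by decide) (by decide)
    (even_two_mul j)
  · obtain rfl : j = 1 := by omega
    exact ⟨hm.1, hm.2.1, Or.inl ⟨pow_one s, h⟩⟩
  · obtain rfl : j = 5 := by omega
    exact ⟨hm.1, hm.2.1, Or.inr ⟨rfl, h⟩⟩

end arith

end Cfsg.Agent.Asch
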