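import Cfsg.Agent.Asch.O4
import Cfsg.Agent.Asch.MaxU

/-! The refined Aschbacher theorem for maximal subgroups of `Sp_{2m}(q)`. -/

set_option autoImplicit false

namespace Cfsg.Agent.Asch

open Matrix Cfsg.Geo
open scoped Kronecker

variable {ι κ : Type} [Fintype ι] [DecidableEq ι] [Fintype κ] [DecidableEq κ] {F : Type*} [Field F]

local notation "rf" => RingEquiv.refl

theorem QS.le_sl {X : Subgroup (GL ι F)} (h : QS X) : X ≤ specialLinear ι F :=
  h.perfect ▸ Subgroup.commutator_le.2 fun a _ b _ => mem_sl.2 (by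
    have := congrArg Units.val (map_commutatorElement GeneralLinearGroup.det a b)
    rwa [commutatorElement_eq_one_iff_mul_comm.2 (mul_comm (GeneralLinearGroup.det a) _)] at this)

theorem quad_isom_of_span {Q : (ι → F) → F} (hQ : IsNondegenerateQuadraticForm Q)
    {g : Matrix ι ι F} {c : F}
    (hg : ∀ u v, QuadraticMap.polar Q (g *ᵥ u) (g *ᵥ v) = c * QuadraticMap.polar Q u v)
    {S : Set (ι → F)} (hS : Submodule.span F S = ⊤) (h : ∀ v ∈ S, Q (g *ᵥ v) = c * Q v) (v : ι → F) :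
    Q (g *ᵥ v) = c * Q v := by
  induction (hS ▸ Submodule.mem_top : v ∈ Submodule.span F S) using Submodule.span_induction with
  | mem v hv => exact h v hv
  | zero => simp [quad_zero hQ]
  | add u v _ _ h1 h2 => simp only [mulVec_add, quad_add, hg, h1, h2]; ring
  | smul a v _ h1 => simp only [mulVec_smul, hQ.smul, h1]; ring

/-- A quadratic form with prescribed polar form and values on a basis, in characteristic two. -/
theorem Sesq.exists_quad_basis {ε : F} {f : (ι → F) → (ι → F) → F} (hf : Sesq (rf F) ε f)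
    (h2 : (2 : F) = 0) (ha : ∀ v, f v v = 0) (e : ι ≃ κ) (P : GL ι F) (c : κ → F) :
    ∃ Q : (ι → F) → F, IsNondegenerateQuadraticForm Q ∧ (∀ u v, QuadraticMap.polar Q u v = f u v) ∧
      ∀ p, Q (tv e P (Pi.single p 1)) = c p := by
  have hf' := hf.pull e P
  let r := Fintype.equivFin κ
  have s₁ := hf'.gram_transpose
  rw [eps_eq_one h2 hf, one_smul] at s₁
  have h1 := congrArg (·.submatrix r r) (upper_add (G := (gramMatrix (Asch.pull e P f)).submatrix
    r.symm r.symm) (by rw [transpose_submatrix, s₁]; rfl) fun i => ha _)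
  let U := (upper ((gramMatrix (Asch.pull e P f)).submatrix r.symm r.symm)).submatrix r r
  have p₁ : ∀ u v, QuadraticMap.polar (fun v => (tv e P).symm v ⬝ᵥ (U + diagonal c) *ᵥ
      (tv e P).symm v) u v = f u v := fun u v => by
    have h3 : U + diagonal c + (U + diagonal c)ᵀ = gramMatrix (Asch.pull e P f) := by
      rw [transpose_add, diagonal_transpose, add_add_add_comm, ← two_smul F (diagonal c), h2,
        zero_smul, add_zero]
      simpa [U, submatrix_add] using h1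
    have := polar_gram (U + diagonal c) ((tv e P).symm u) ((tv e P).symm v)
    rw [h3] at this
    have h4 := hf'.eq_dot ((tv e P).symm u) ((tv e P).symm v)
    simp only [QuadraticMap.polar, Asch.pull, LinearEquiv.apply_symm_apply, map_add] at this h4 ⊢
    rw [this, h4]; rfl
  exact ⟨_, isQuad_of_polar hf (fun c v => by simp [mulVec_smul]; ring) p₁, p₁, fun p => by
    simp [U, upper]⟩

variable [Fintype F]

theorem two_cases (h : Fintype.card F = 2) (x : F) : x = 0 ∨ x = 1 := by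
  have := FiniteField.pow_card x
  rw [h] at this
  have : x * (x - 1) = 0 := by linear_combination this
  simpa [sub_eq_zero] using this

/-- Over `F₂`, a decomposition into symplectic planes carries a quadratic form. -/
theorem exists_quad_of_planes (h : Fintype.card F = 2) {ε : F} {f : (ι → F) → (ι → F) → F}
    (hf : Sesq (rf F) ε f) (ha : ∀ v, f v v = 0) {t : ℕ} {D : Fin t → Submodule F (ι → F)}
    (hD : IsNondegenerateMDecomposition f 2 D) :
    ∃ Q : (ι → F) → F, IsNondegenerateQuadraticForm Q ∧ (∀ u v, QuadraticMap.polar Q u v = f u v) ∧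
      ∀ g ∈ decompositionStabilizer D ⊓ Iso f, ∀ v, Q (g.val *ᵥ v) = Q v := by
  have h2 : (2 : F) = 0 := two_eq_zero_of_not_odd (by rw [h]; decide)
  let b := fun i => (mdec_basis hD.decomp i).some
  obtain ⟨e, P, hb⟩ := exists_bframe hD.decomp b
  obtain ⟨Q, h1, h3, h4⟩ := hf.exists_quad_basis h2 ha e P 1
  have h5 : ∀ i k, Q (b i (Pi.single k 1)) = 1 := fun i k => by
    rw [← hb, ← single_eq_kv (k, i), h4]; rfl
  have h6 : ∀ i, ∀ v ∈ D i, v ≠ 0 → Q v = 1 := fun i v hv h0 => by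
    obtain ⟨x, rfl⟩ : ∃ x, (b i x : ι → F) = v := ⟨(b i).symm ⟨v, hv⟩, by simp⟩
    obtain ⟨c, hc, hG⟩ := alt_two (G := gramMatrix fun x y => f (b i x) (b i y)) (by
      have := hf.restrict (hD.nondegenerate i) (b i)
      rw [eps_eq_one h2 this, show (1 : F) = -1 by linear_combination h2] at this
      exact this.eq_fun ▸ this) fun v => by
        rw [← (hf.restrict (hD.nondegenerate i) (b i)).eq_formOfGram, ha]
    have h7 : f (b i (Pi.single 0 1)) (b i (Pi.single 1 1)) = 1 :=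
      (two_cases h _).resolve_left fun h0 => hc (by
        simpa [J2, gramMatrix, h0] using (congrFun (congrFun hG 0) 1).symm)
    rw [pi_eq_sum_univ' x, Fin.sum_univ_two] at h0 ⊢
    rcases two_cases h (x 0) with h8 | h8 <;> rcases two_cases h (x 1) with h9 | h9 <;>
      simp [h8, h9, h5, quad_add, h3, h7] at h0 ⊢
    linear_combination h2
  refine ⟨Q, h1, h3, fun g hg v => (quad_isom_of_span h1 (c := 1) (fun u v => by
    rw [h3, h3, mem_iso.1 hg.2, one_mul]) (S := ⋃ i, D i) (by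
      rw [Submodule.span_iUnion]; simpa using hD.decomp.iSup_eq_top) (fun v hv => ?_) v).trans
      (one_mul _)⟩
  obtain ⟨i, hv⟩ := Set.mem_iUnion.1 hv
  obtain ⟨π, hπ⟩ := dstab_mem hg.1
  by_cases h0 : v = 0
  · simp [h0]
  · rw [h6 i v hv h0, h6 _ _ ((hπ i v).1 hv) (mt (gl_mulVec_eq_zero g).1 h0), one_mul]

theorem exists_sesq_of_planes' (h : Fintype.card F = 3) {D : Fin 2 → Submodule F (ι → F)}
    (hD : IsMDecomposition 2 D) : ∃ (f : (ι → F) → (ι → F) → F), Sesq (rf F) (-1) f ∧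
      ¬ IsTotallySingularFor f (D 0) ∧
      decompositionStabilizer D ⊓ specialLinear ι F ≤ similarityGroup f := by
  let b := fun i => (mdec_basis hD i).some
  obtain ⟨e, P, hb⟩ := exists_bframe hD b
  refine ⟨_, (sesq_kron_one sesq_J2).push e P, fun h => ?_, fun g hg => ?_⟩
  · have := h _ (b 0 (Pi.single 0 1)).2 _ (b 0 (Pi.single 1 1)).2
    rw [← hb, ← hb] at this
    have h1 := congrFun (congrFun (pull_push e P (formOfGram (rf F) (J2 F ⊗ₖ 1)))
      (kv (Pi.single 0 1) (Pi.single 0 1))) (kv (Pi.single 1 1) (Pi.single 0 1))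
    rw [pull, this, form_kv] at h1
    simp [formOfGram_eq, J2] at h1
  obtain ⟨π, a, h1, -⟩ := exists_bm hb hg.1
  refine mem_sim_push h1 (a 0).det_ne_zero (bm_sim sesq_J2 π fun i x y => ?_)
  rw [form_J2]
  congr 1
  have h4 := FiniteField.pow_card_sub_one_eq_one _ (a 0).det_ne_zero
  have h2 := mem_sl.1 hg.2
  rw [h1, det_tp, det_bm, Fintype.card_fin, sign_sq, one_mul, Fin.prod_univ_two] at h2
  simp only [h, Nat.add_one_sub_one] at h4
  fin_cases i
  · rfl
  · change (a 1).val.det = (a 0).val.det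
    linear_combination (a 0).val.det * h2 - (a 1).val.det * h4

theorem noPerf_o3 (h : Fintype.card F = 3) (hn : Fintype.card ι = 3) {f : (ι → F) → (ι → F) → F}
    (hf : Sesq (rf F) 1 f) : NoPerf (similarityGroup f) := by
  obtain ⟨Q, h1, h2⟩ := Root.Mx.exists_quad (hf.quad_diag (two_ne_of_three h))
  refine NoPerf.sim (NoPerf.mono (X := isometryGroup F Q) (noPerf_of_card (a := 4) (b := 1) ?_)
    fun g hg => Geom.mem_isometryGroup.2 fun v => by rw [h1]; exact hg v v)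
  rw [Nat.card_congr (Geom.isometryEquiv Q).toEquiv, Geom.card_isom_odd 1 h2 (by simp [hn])]
  simp [h]

theorem five_le_of_odd (ho : Odd (Fintype.card F)) (h : Fintype.card F ≠ 3) :
    5 ≤ Fintype.card F := by
  have := Fintype.one_lt_card (α := F)
  obtain ⟨k, hk⟩ := ho
  omega

variable {m : ℕ} {H : Subgroup (GL (Fin m ⊕ Fin m) F)}

/-- The geometric maximal subgroups of `Sp_{2m}(q)`. -/
inductive MaxSp (m : ℕ) (F : Type*) [Field F] [Fintype F]
    (p : Subgroup (GL (Fin m ⊕ Fin m) F) → Prop) : Prop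
  | ts (W : Submodule F (Fin m ⊕ Fin m → F)) (h0 : W ≠ ⊥)
      (h1 : IsTotallySingularFor (sympForm m F) W) (h : p (subspaceStabilizer W))
  | nd (W : Submodule F (Fin m ⊕ Fin m → F)) (h0 : W ≠ ⊥) (h1 : IsNondegenerateOn (sympForm m F) W)
      (h2 : Module.finrank F W < m) (h3 : 2 < m) (h : p (subspaceStabilizer W))
  | dec (t k : ℕ) (D : Fin t → Submodule F (Fin m ⊕ Fin m → F))
      (hD : IsNondegenerateMDecomposition (sympForm m F) k D) (he : Even k)
      (h2 : k = 2 → 3 ≤ Fintype.card F) (h : p (decompositionStabilizer D))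
  | pair (D : Fin 2 → Submodule F (Fin m ⊕ Fin m → F)) (ho : Odd (Fintype.card F))
      (hD : IsMDecomposition m D) (h1 : ∀ i, IsTotallySingularFor (sympForm m F) (D i))
      (h2 : m = 2 → 5 ≤ Fintype.card F) (h : p (decompositionStabilizer D))
  | sub (K : Subfield F) (r : ℕ) (P : GL (Fin m ⊕ Fin m) F) (ζ : F) (hr : r.Prime)
      (hc : Fintype.card F = Nat.card K ^ r) (hζ : ζ ≠ 0)
      (h1 : IsFormRationalStructure (sympForm m F) K ζ P) (h : p (subfieldSubgroup K P))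
  | sym (R : Subgroup (GL (Fin m ⊕ Fin m) F)) (s k : ℕ) (h1 : IsSymplecticTypeGroup 2 R)
      (h2 : gspan R = ⊤) (h3 : R ≤ spGL m F) (hp : s.Prime) (ho : Odd s) (hc : Fintype.card F = s)
      (h4 : Nat.card R = 2 ^ (1 + 2 * k)) (h5 : Nat.card (Subgroup.center R) = 2)
      (h6 : IsOfMinusType k R) (hk : 2 * m = 2 ^ k) (h : p (subgroupNormalizer R))
  | quad (Q : (Fin m ⊕ Fin m → F) → F) (ho : ¬ Odd (Fintype.card F))
      (hQ : IsNondegenerateQuadraticForm Q)
      (h1 : ∀ u v, QuadraticMap.polar Q u v = sympForm m F u v) (h : p (quadSimilarityGroup Q))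
  | fld (r : ℕ) (K : Subalgebra F (Matrix (Fin m ⊕ Fin m) (Fin m ⊕ Fin m) F)) (hr : r.Prime)
      (hK : IsFieldSubalgebra r K) (h1 : IsSelfAdjointFor (sympForm m F) K)
      (h2 : ∀ k ∈ K, ∀ v, sympForm m F (k *ᵥ v) v = 0) (hd : r ∣ m) (h : p (subalgebraNormalizer K))
  | uni (K : Subalgebra F (Matrix (Fin m ⊕ Fin m) (Fin m ⊕ Fin m) F)) (ho : Odd (Fintype.card F))
      (hK : IsFieldSubalgebra 2 K) (h1 : IsAdjointClosedFor (sympForm m F) K)
      (h2 : ¬ IsSelfAdjointFor (sympForm m F) K) (h3 : m = 2 → 5 ≤ Fintype.card F)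
      (h : p (subalgebraNormalizer K))
  | tens (k n : ℕ) (e : Fin m ⊕ Fin m ≃ Fin k × Fin n) (P : GL (Fin m ⊕ Fin m) F)
      (f₁ : (Fin k → F) → (Fin k → F) → F) (f₂ : (Fin n → F) → (Fin n → F) → F)
      (ho : Odd (Fintype.card F)) (hk : 2 ≤ k) (he : Even k) (hn : 3 ≤ n)
      (h3 : n = 3 → 5 ≤ Fintype.card F) (h4 : k = 2 → n = 4 → ¬ IsPlusTypeOn (fun v => f₂ v v) ⊤)
      (hf₁ : IsSymplecticForm f₁) (hf₂ : IsSymmetricForm f₂)
      (hT : IsTensorFormStructure id (sympForm m F) f₁ f₂ e P) (h : p (tensorProductSubgroup k n e P))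
  | wr (k t : ℕ) (e : Fin m ⊕ Fin m ≃ (Fin t → Fin k)) (P : GL (Fin m ⊕ Fin m) F)
      (f₁ : (Fin k → F) → (Fin k → F) → F) (ho : Odd (Fintype.card F)) (ht : 3 ≤ t) (hk : 2 ≤ k)
      (hx : k = 2 → 5 ≤ Fintype.card F) (hf₁ : IsSymplecticForm f₁)
      (hT : IsTensorPowerFormStructure id (sympForm m F) f₁ e P) (h : p (tensorWreathSubgroup k t e P))

theorem MaxSp.imp (hm : 2 ≤ m) (hx : m = 2 → 3 ≤ Nat.card F)
    {p p' : Subgroup (GL (Fin m ⊕ Fin m) F) → Prop} (h : MaxSp m F p)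
    (hp : ∀ M, p M → ¬ spGL m F ≤ M → p' M) : MaxSp m F p' := by
  haveI : Nonempty (Fin m) := ⟨⟨0, by omega⟩⟩
  have hq := qs_sp hm hx
  have hf := sesq_symp m F
  cases h with
  | ts W h0 h1 h => exact .ts W h0 h1 (hp _ h (hq.not_le_stab h0 (hf.ts_ne_top h1)))
  | nd W h0 h1 h2 h3 h =>
    exact .nd W h0 h1 h2 h3 (hp _ h (hq.not_le_stab h0 (ne_top_of_finrank (by simp; omega))))
  | dec t k D hD he h2 h => exact .dec t k D hD he h2 (hp _ h (hq.not_le_dstab hD.decomp))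
  | pair D ho hD h1 h2 h => exact .pair D ho hD h1 h2 (hp _ h (hq.not_le_dstab hD))
  | sub K r P ζ hr hc hζ h1 h =>
    exact .sub K r P ζ hr hc hζ h1 (hp _ h (hq.not_le_subfield' hr.two_le hc P))
  | sym R s k h1 h2 h3 hs ho hc h4 h5 h6 hk h =>
    exact .sym R s k h1 h2 h3 hs ho hc h4 h5 h6 hk (hp _ h (hq.not_le_gnorm h1.prime h1.pGroup h2
      (nrm_iso (h3.trans (iso_le_sim _)))))
  | fld r K hr hK h1 h2 hd h => exact .fld r K hr hK h1 h2 hd (hp _ h (hq.not_le_anorm hr.one_lt hK))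
  | uni K ho hK h1 h2 h3 h => exact .uni K ho hK h1 h2 h3 (hp _ h (hq.not_le_anorm one_lt_two hK))
  | tens k n e P f₁ f₂ ho hk he hn h3 h4 hf₁ hf₂ hT h =>
    exact .tens k n e P f₁ f₂ ho hk he hn h3 h4 hf₁ hf₂ hT
      (hp _ h (hq.not_le_tensor hk (by omega) e P))
  | wr k t e P f₁ ho ht hk hx hf₁ hT h =>
    exact .wr k t e P f₁ ho ht hk hx hf₁ hT (hp _ h (hq.not_le_wreath hk (by omega) e P))
  | quad Q ho hQ h1 h =>
    refine .quad Q ho hQ h1 (hp _ h fun hle => ?_)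
    obtain ⟨Q', rfl, -⟩ := Root.Mx.exists_quad hQ
    obtain ⟨v, -, hv, h2⟩ := Geom.exists_singular_of_three_le Q' ⊤ (by simp; omega)
    obtain ⟨g, hg, h3⟩ := hf.exists_transv symp_alt v 1
    refine hv (hf.nondeg v fun x => ?_)
    have := hq.isom_of_le_quadSim hle g hg x
    rw [h3, quad_add Q', h1, hQ.smul, h2, hf.smul_right] at this
    simpa using this

theorem maxSp_of_isom (h2 : (2 : F) = 0) {Q : (Fin m ⊕ Fin m → F) → F}
    (hQ : IsNondegenerateQuadraticForm Q) (hp : ∀ u v, QuadraticMap.polar Q u v = sympForm m F u v)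
    (h : ∀ g ∈ H, ∀ v, Q (g.val *ᵥ v) = Q v) : MaxSp m F (H ≤ ·) :=
  .quad Q (fun ho => two_ne_zero_of_odd ho h2) hQ hp (le_quadSim_of_isom h)

theorem maxSp_of_dec (hH : H ≤ spGL m F) {t k : ℕ} {D : Fin t → Submodule F (Fin m ⊕ Fin m → F)}
    (hD : IsNondegenerateMDecomposition (sympForm m F) k D) (h : H ≤ decompositionStabilizer D) :
    MaxSp m F (H ≤ ·) := by
  have hf := sesq_symp m F
  by_cases hx : k = 2 ∧ Fintype.card F = 2
  · obtain ⟨rfl, hx⟩ := hx
    obtain ⟨Q, h1, h2, h3⟩ := exists_quad_of_planes hx hf symp_alt hD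
    exact maxSp_of_isom (two_eq_zero_of_not_odd (by rw [hx]; decide)) h1 h2
      fun g hg => h3 g ⟨h hg, hH hg⟩
  · have := Fintype.one_lt_card (α := F)
    let i : Fin t := ⟨0, by have := hD.decomp.two_le; omega⟩
    exact .dec t k D hD (hD.decomp.finrank_eq i ▸ hf.even_of_nd symp_alt (hD.nondegenerate i))
      (fun _ => by omega) h

theorem maxSp_of_nd {W : Submodule F (Fin m ⊕ Fin m → F)} (h0 : W ≠ ⊥)
    (h1 : IsNondegenerateOn (sympForm m F) W) (h2 : Module.finrank F W < m)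
    (h : H ≤ subspaceStabilizer W) : MaxSp m F (H ≤ ·) := by
  obtain ⟨k, hk⟩ := (sesq_symp m F).even_of_nd symp_alt h1
  have := mt Submodule.finrank_eq_zero.1 h0
  exact .nd W h0 h1 h2 (by omega) h

theorem maxSp_of_not_irr (hH : H ≤ spGL m F) (h : ¬ Irr H) : MaxSp m F (H ≤ ·) := by
  have hf := sesq_symp m F
  have hs := hH.trans (iso_le_sim _)
  obtain ⟨W, h1, h2, h3, h4 | ⟨h4, h5⟩⟩ := hf.reducible hs h
  · exact .ts W h1 h4 (le_subspaceStabilizer h3)
  · rcases h5.lt_or_eq with h5 | h5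
    · exact maxSp_of_nd h1 h4 (by simp at h5; omega) (le_subspaceStabilizer h3)
    · exact maxSp_of_dec hH (hf.nd_pair h1 h4 h5) (le_dstab_pair h3 (hf.perp_inv hs h3))

theorem maxSp_of_fld (hm : 1 ≤ m) {d : ℕ} (hd : 1 < d)
    {K : Subalgebra F (Matrix (Fin m ⊕ Fin m) (Fin m ⊕ Fin m) F)} (hK : IsFieldSubalgebra d K)
    (hs : ∀ x ∈ K, adj (rf F) (sympForm m F) x = x) (hi : Inv H K) : MaxSp m F (H ≤ ·) := by
  haveI : Nonempty (Fin m) := ⟨⟨0, hm⟩⟩
  have hf := sesq_symp m F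
  obtain ⟨r, hr, hrd⟩ := Nat.exists_prime_and_dvd hd.ne'
  obtain ⟨K', hle, h5, h6, -⟩ := Fld.exists_dvd_inv hK hrd hi
  have h7 := fun x hx => hs x (hle hx)
  have h8 := fun x hx => hf.alt_of_selfAdj symp_alt h5 (fun x hx => (h7 x hx).symm ▸ hx) hx (h7 x hx)
  exact .fld r K' hr h5 (hf.isSelfAdjointFor_iff.2 h7) h8 (Nat.dvd_of_mul_dvd_mul_left two_pos
    (by simpa [two_mul] using Fld.two_mul_dvd h5 hf h7 h8)) h6.le_normalizer

theorem maxSp_of_nsym (h3 : Fintype.card F = 3) (h : NSym (sympForm m F) H) : MaxSp m F (H ≤ ·) := by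
  obtain ⟨N, h, hn, hi, hx⟩ := h
  haveI := h.nonempty
  have hf := sesq_symp m F
  have hR : N ⊔ scalars _ F = N := sup_eq_left.2 h.zle
  obtain ⟨h1, -, h2⟩ := h.inf_iso hf
  obtain ⟨k, -, hk⟩ := h.card_eq_pow
  have h4 := h.minus_type hf symp_alt hk
  rw [inf_eq_left.2 hi] at h1 h2 h4
  have hZ := (card_center h.span).trans h2
  exact .sym N 3 k (h.isSymplecticTypeGroup_two hR h1 hx) h.span hi Nat.prime_three (by decide) h3
    (by rw [h.card_of_sup hR hk, hZ]; ring) hZ h4 (by simpa [two_mul] using hk) hn.le_normalizer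

theorem maxSp_of_pair (hH : H ≤ spGL m F) (hI : Irr H) (ho : Odd (Fintype.card F))
    {D : Fin 2 → Submodule F (Fin m ⊕ Fin m → F)} (hD : IsMDecomposition m D)
    (h1 : ∀ i, IsTotallySingularFor (sympForm m F) (D i)) (h : H ≤ decompositionStabilizer D) :
    MaxSp m F (H ≤ ·) := by
  by_cases hx : m = 2 ∧ Fintype.card F = 3
  swap
  · exact .pair D ho hD h1 (fun _ => five_le_of_odd ho (by tauto)) h
  obtain ⟨rfl, h3⟩ := hx
  have hf := sesq_symp 2 F
  have hs := hH.trans (iso_le_sim _)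
  obtain ⟨f', hf', h4, h5⟩ := exists_sesq_of_planes' h3 hD
  have hs' := (le_inf h (hH.trans (qs_sp le_rfl fun _ => by simp [h3]).le_sl)).trans h5
  obtain ⟨s, h6⟩ := hf.exists_ratio hf'
  have h7 : adj (rf F) (sympForm 2 F) s = s := hf.adj_unique fun u v => by
    rw [← h6, hf'.herm, h6, hf.herm u]
  have h8 : ∀ x ∈ Algebra.adjoin F {s}, adj (rf F) (sympForm 2 F) x = x := fun x hx => by
    obtain ⟨p, rfl⟩ := Algebra.adjoin_mem_exists_aeval F s hx
    induction p using Polynomial.induction_on' with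
    | add p q hp hq => rw [map_add, hf.adj_add, hp, hq] <;> exact Polynomial.aeval_mem_adjoin_singleton F s
    | monomial n a => rw [Polynomial.aeval_monomial, ← Algebra.smul_def, hf.adj_smul, hf.adj_pow, h7]; rfl
  have h9 : Inv H (Algebra.adjoin F {s}) := fun g hg x hx => by
    obtain ⟨c, h1⟩ := hs hg
    obtain ⟨d, h2⟩ := hs' hg
    have : cj g s = ((c : F) / d) • s := ext_mulVec fun u => hf.ext_left fun v => by
      have e1 := h1 (s *ᵥ (g⁻¹.val *ᵥ u)) (g⁻¹.val *ᵥ v)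
      have e2 := h2 (g⁻¹.val *ᵥ u) (g⁻¹.val *ᵥ v)
      simp only [mulVec_inv_mulVec] at e1 e2
      rw [cj_mulVec', e1, smul_mulVec, hf.smul_left, ← h6, ← h6, e2]
      field_simp
    exact Algebra.adjoin_le (S := (Algebra.adjoin F {s}).comap (cj g).toAlgHom)
      (Set.singleton_subset_iff.2 (show cj g s ∈ Algebra.adjoin F {s} from
        this ▸ Subalgebra.smul_mem _ (Algebra.self_mem_adjoin_singleton F s) _)) hx
  rcases comm_cases_adj hf hI hs h9 (fun x hx y hy => (Algebra.commute_of_mem_adjoin_singleton_of_commute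
    hy (Algebra.commute_of_mem_adjoin_self hx).symm)) (fun h0 => h4 fun u hu v hv => by
      obtain ⟨c, rfl⟩ := mem_bot_iff.1 (h0 ▸ Algebra.self_mem_adjoin_singleton F s)
      rw [h6, smul_mulVec, one_mulVec, hf.smul_left, h1 0 u hu v hv, mul_zero])
    (fun x hx => (h8 x hx).symm ▸ hx) with ⟨t, e, he, -, ha, -⟩ | ⟨e, he, h, ha⟩ | ⟨d, hd, hK⟩
  · obtain ⟨k, hk⟩ := he.nd_decomp hf ha
    exact maxSp_of_dec hH hk he.le_stab
  · rw [h8 _ (h 0)] at ha
    exact absurd (by rw [← he.idem 0, ← he.orth 0 1 (by decide), ha]) (he.ne 0)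
  · exact maxSp_of_fld one_le_two hd hK h8 h9

theorem maxSp_of_uni (hm : 1 ≤ m) (hH : H ≤ spGL m F) (ho : Odd (Fintype.card F))
    {K : Subalgebra F (Matrix (Fin m ⊕ Fin m) (Fin m ⊕ Fin m) F)} (hK : IsFieldSubalgebra 2 K)
    (h1 : IsAdjointClosedFor (sympForm m F) K) (h2 : ¬ IsSelfAdjointFor (sympForm m F) K)
    (h : H ≤ subalgebraNormalizer K) : MaxSp m F (H ≤ ·) := by
  by_cases hx : m = 2 ∧ Fintype.card F = 3
  swap
  · exact .uni K ho hK h1 h2 (fun _ => five_le_of_odd ho (by tauto)) h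
  obtain ⟨rfl, h3⟩ := hx
  have hf := sesq_symp 2 F
  have hs := hH.trans (iso_le_sim _)
  rw [hf.isSelfAdjointFor_iff] at h2
  rw [hf.isAdjointClosedFor_iff] at h1
  push Not at h2
  obtain ⟨s, h4, h5, -⟩ := Fld.adj_eq_pow hK hf h1 h2
  obtain rfl : 3 = s := Nat.pow_left_injective two_ne_zero (by simpa [h3] using h4)
  obtain ⟨x, hx, h6⟩ := h2
  have key : ∀ y ∈ K, y ≠ 0 → adj (rf F) (sympForm 2 F) y = -y → y * y = -1 := fun y hy h0 h => by
    rw [h5 y hy] at h
    refine eq_neg_of_add_eq_zero_left ((Fld.mul_eq_zero hK hy ?_).resolve_left h0)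
    rw [mul_add, ← mul_assoc, ← pow_three', h]; simp
  have hj : x - adj (rf F) (sympForm 2 F) x ∈ K := sub_mem hx (h1 x hx)
  have h7 : adj (rf F) (sympForm 2 F) (x - adj (rf F) (sympForm 2 F) x) =
      -(x - adj (rf F) (sympForm 2 F) x) := by rw [hf.adj_sub, hf.adj_adj, neg_sub]
  have h8 := sub_ne_zero.2 h6.symm
  generalize x - adj (rf F) (sympForm 2 F) x = j at hj h7 h8
  refine maxSp_of_nsym h3 (nsym_of_skew h3 (by simp) hf hs (key j hj h8 h7) h7 fun g hg => ?_)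
  have h9 := (mem_subalgebraNormalizer.1 (h hg) j).1 hj
  refine (Fld.mul_eq_zero hK (sub_mem h9 hj) (y := cj g j + j) ?_).imp sub_eq_zero.1
    eq_neg_of_add_eq_zero_left
  rw [sub_mul, mul_add, mul_add, ← map_mul, key j hj h8 h7, hK.comm _ h9 j hj, map_neg, map_one]
  abel

theorem maxSp_of_omega (hH : H ≤ spGL m F) (h2 : (2 : F) = 0)
    {ω : Matrix (Fin m ⊕ Fin m) (Fin m ⊕ Fin m) F}
    (h : ω + adj (rf F) (sympForm m F) ω = 1)
    (hi : ∀ g ∈ H, ∀ v, sympForm m F (cj g ω *ᵥ v) v = sympForm m F (ω *ᵥ v) v) :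
    MaxSp m F (H ≤ ·) := by
  have hf := sesq_symp m F
  rw [eps_eq_one h2 hf] at hf
  obtain ⟨Q, h1, h3, -, h4⟩ := hf.exists_quad_of_omega hH h hi
  exact maxSp_of_isom h2 h1 h3 h4

theorem maxSp_of_hasComm (hm : 1 ≤ m) (hH : H ≤ spGL m F) (hI : Irr H)
    (h : HasComm (rf F) (sympForm m F) H) : MaxSp m F (H ≤ ·) := by
  haveI : Nonempty (Fin m) := ⟨⟨0, hm⟩⟩
  have hf := sesq_symp m F
  have hs := hH.trans (iso_le_sim _)
  obtain ⟨C, h1, h2, h3, h4⟩ := h
  rcases comm_cases_adj hf hI hs h1 h2 h3 h4 with ⟨t, e, he, -, ha, -⟩ | ⟨e, he, -, ha⟩ |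
    ⟨d, hd, hK⟩
  · obtain ⟨k, hk⟩ := he.nd_decomp hf ha
    exact maxSp_of_dec hH hk he.le_stab
  · by_cases ho : Odd (Fintype.card F)
    · obtain ⟨k, hk⟩ := he.decomp
      have : k = m := by have := mdec_mul_eq hk; simp at this; omega
      subst this
      exact maxSp_of_pair hH hI ho hk (he.ts_of_adj hf ha) he.le_stab
    · have h2 := two_eq_zero_of_not_odd ho
      have hsum := he.sum
      rw [Fin.sum_univ_two] at hsum
      refine maxSp_of_omega hH h2 (ω := e 0) (by rw [ha, hsum]) fun g hg v => ?_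
      obtain ⟨π, hπ⟩ := he.perm g hg
      rw [hπ]
      obtain h | h : π 0 = 0 ∨ π 0 = 1 := by omega
      · rw [h]
      · have := symp_alt v
        nth_rw 1 [← one_mulVec v, ← hsum] at this
        rw [add_mulVec, hf.add_left] at this
        rw [h]; linear_combination this - sympForm m F (e 0 *ᵥ v) v * h2
  · rcases Fld.selfAdj_cases hK hd hf h4 hs h1 with ⟨d', K', -, hd', hK', hi, hsa, -⟩ | ⟨rfl, hsa⟩
    · exact maxSp_of_fld hm hd' hK' (hf.isSelfAdjointFor_iff.1 hsa) hi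
    · by_cases ho : Odd (Fintype.card F)
      · exact maxSp_of_uni hm hH ho hK (hf.isAdjointClosedFor_iff.2 h4) hsa h1.le_normalizer
      · have h2 := two_eq_zero_of_not_odd ho
        obtain ⟨s, -, -, -, ω, hω, hω'⟩ := Fld.adj_eq_pow hK hf h4 (by
          rw [hf.isSelfAdjointFor_iff] at hsa; push Not at hsa; exact hsa)
        refine maxSp_of_omega hH h2 hω' fun g hg v => ?_
        have h5 := hf.alt_of_selfAdj symp_alt hK h4 (sub_mem (h1 g hg ω hω) hω) (by
          have h6 : (2 : F) • (cj g ω - ω) = 0 := by rw [h2, zero_smul]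
          rw [hf.adj_sub, hf.adj_cj (hs hg), eq_sub_of_add_eq' hω', map_sub, map_one, ← sub_eq_zero,
            ← neg_eq_zero, ← h6, two_smul]
          abel) v
        rwa [sub_mulVec, hf.sub_left, sub_eq_zero] at h5

theorem maxSp_of_wr {k t : ℕ} {e : Fin m ⊕ Fin m ≃ (Fin t → Fin k)} {P : GL (Fin m ⊕ Fin m) F}
    {G : Matrix (Fin k) (Fin k) F} (ho : Odd (Fintype.card F)) (ht : Odd t)
    (hx : ¬ (Fintype.card F = 3 ∧ k = 2)) (h : WrF (rf F) (sympForm m F) H e P G (-1)) :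
    MaxSp m F (H ≤ ·) :=
  .wr k t e P _ ho (by have := h.two_t; obtain ⟨j, hj⟩ := ht; omega) h.two_m
    (fun _ => five_le_of_odd ho (by tauto))
    (h.sesq.isSymplecticForm (h.sesq.alt_of_neg_one (two_ne_zero_of_odd ho)))
    (h.isTensorPowerFormStructure (sesq_symp m F)) h.le

theorem InSp.maxSp (hm : 1 ≤ m) (hH : H ≤ spGL m F) (h : InSp H) : MaxSp m F (H ≤ ·) := by
  by_cases hI : Irr H
  swap
  · exact maxSp_of_not_irr hH hI
  haveI : Nonempty (Fin m) := ⟨⟨0, hm⟩⟩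
  have hf := sesq_symp m F
  have hs := hH.trans (iso_le_sim _)
  cases h with
  | ts W h0 h1 h => exact .ts W h0 h1 h
  | nd W h0 h1 h2 h => exact maxSp_of_nd h0 h1 h2 h
  | dec t k D hD h => exact maxSp_of_dec hH hD h
  | pair D ho hD h1 h => exact maxSp_of_pair hH hI ho hD h1 h
  | sub K r P ζ hr hc hζ h1 h => exact .sub K r P ζ hr hc hζ h1 h
  | sym R s k h1 h2 h3 hp ho hc h4 h5 h6 hk h => exact .sym R s k h1 h2 h3 hp ho hc h4 h5 h6 hk h
  | quad Q ho hQ h1 h => exact .quad Q ho hQ h1 h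
  | fld r K hr hK h1 h2 h =>
    exact maxSp_of_fld hm hr.one_lt hK (hf.isSelfAdjointFor_iff.1 h1)
      ((inv_subalgebraNormalizer K).mono h)
  | uni K ho hK h1 h2 h => exact maxSp_of_uni hm hH ho hK h1 h2 h
  | wr k t e P G ho ht hx h => exact maxSp_of_wr ho ht hx h
  | tens k n e P G₁ G₂ ho hn h =>
    have h2 := two_ne_zero_of_odd ho
    by_cases h3 : n = 3 ∧ Fintype.card F = 3
    · obtain ⟨rfl, h3⟩ := h3
      exact maxSp_of_hasComm hm hH hI (h.swap.hasComm hf (h.snd.hasComm_of_char (h.swap.irr hI)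
        (h.swap.fstG_le_sim hf hs) ((noPerf_o3 h3 (by simp) h.snd).mono (h.swap.fstG_le_sim hf hs))
        (by simpa using Nat.prime_three) (by simp [h3])))
    by_cases h4 : k = 2 ∧ n = 4 ∧ IsPlusTypeOn (fun v => formOfGram (rf F) G₂ v v) ⊤
    · obtain ⟨rfl, rfl, h4⟩ := h4
      obtain ⟨e', P', hG⟩ := h.snd.exists_JJ h2 (by simp) h4
      by_cases h5 : Fintype.card F = 3
      · exact maxSp_of_nsym h5 ((h.toJ h2).nsym_of_plus h5 hf hs hG)
      · obtain ⟨E, T, G, h⟩ := (h.toJ h2).wrF_of_plus hf hs h2 hG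
        exact maxSp_of_wr ho (by decide) (by tauto) h
    have ha := h.fst.alt_of_neg_one h2
    exact .tens k n e P _ _ ho h.two_k (by simpa using h.fst.even_of_alt ha) hn
      (fun _ => five_le_of_odd ho (by tauto)) (by tauto) (h.fst.isSymplecticForm ha)
      h.snd.isSymmetricForm (h.isTensorFormStructure hf) h.le

/-- Maximal subgroups of `Sp_{2m}(q)`. -/
theorem maxSp_of_max (hm : 2 ≤ m) (hx : m = 2 → 3 ≤ Fintype.card F)
    (hH : IsMaximalIn (spGL m F) H) :
    MaxSp m F (fun M => H = M ⊓ spGL m F) ∨ InSymplecticResidualClass H :=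
  (sp_main (by omega) hH.1.le).imp_left fun h => (h.maxSp (by omega) hH.1.le).imp hm
    (by simpa using hx) fun _ => eq_of_max hH

end Cfsg.Agent.Asch
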