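import Cfsg.Agent.Asch.MaxO2

/-! Non-maximality of geometric subgroups: tools, reducible and imprimitive cases. -/

set_option autoImplicit false

namespace Cfsg.Agent.Asch

open Matrix Cfsg.Geo Module
open scoped Kronecker

variable {ι κ : Type} [Fintype ι] [DecidableEq ι] [Fintype κ] [DecidableEq κ] {F : Type*} [Field F]

local notation "rf" => RingEquiv.refl
local notation "pl" => QuadraticMap.polar
local notation "NQ" => IsNondegenerateQuadraticForm
local notation "TS" => IsTotallySingularQuad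
local notation "Pl" => IsPlusTypeOn

theorem between {G : Type*} [Group G] {A X B : Subgroup G} (h1 : A ⊓ X ≤ B) (h2 : ¬ X ≤ B) {g : G}
    (hg : g ∈ X) (hB : g ∈ B) (hA : g ∉ A) : ∃ K, A ⊓ X < K ∧ K < X :=
  ⟨B ⊓ X, lt_of_le_of_ne (le_inf h1 inf_le_right) fun h => hA (h.ge ⟨hB, hg⟩).1,
    lt_of_le_of_ne inf_le_right fun h => h2 (h.ge.trans inf_le_left)⟩

/-- The stabiliser of a set of vectors. -/
def sstab (S : Set (ι → F)) : Subgroup (GL ι F) where
  carrier := {g | ∀ v, v ∈ S ↔ g.val *ᵥ v ∈ S}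
  mul_mem' {a b} ha hb v := by rw [Units.val_mul, ← mulVec_mulVec, ← ha, ← hb]
  one_mem' v := by simp
  inv_mem' {a} ha v := by rw [ha (a⁻¹.val *ᵥ v), mulVec_inv_mulVec]

theorem mem_sstab [Finite F] {S : Set (ι → F)} {g : GL ι F} (h : ∀ v ∈ S, g.val *ᵥ v ∈ S) :
    g ∈ sstab S := fun v => ⟨h v, fun hv => by
  obtain ⟨u, hu, h1⟩ := (((Set.toFinite S).injOn_iff_bijOn_of_mapsTo h).1
    (toLin'_injective g).injOn).surjOn hv
  rwa [← toLin'_injective g h1]⟩

theorem mem_stab {W : Submodule F (ι → F)} {g : GL ι F} (h : ∀ v ∈ W, g.val *ᵥ v ∈ W) :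
    g ∈ subspaceStabilizer W :=
  mem_subspaceStabilizer.2 fun v => ⟨h v, fun hv => by
    have : W.map (toLin' g.val) = W := Submodule.eq_of_le_of_finrank_eq
      (Submodule.map_le_iff_le_comap.2 h) (finrank_map_gl g W)
    obtain ⟨u, hu, h1⟩ := this.ge hv
    rwa [← toLin'_injective g h1]⟩

theorem exists_rank_one (φ : Dual F (ι → F)) (v : ι → F) (h : 1 + φ v ≠ 0) :
    ∃ g : GL ι F, (∀ x, g.val *ᵥ x = x + φ x • v) ∧ g.val.det = 1 + φ v := by
  have h1 : ∀ x, (fun i => φ (Pi.single i 1)) ⬝ᵥ x = φ x := fun x => by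
    rw [φ.pi_apply_eq_sum_univ x]
    exact Finset.sum_congr rfl fun i _ => by
      rw [smul_eq_mul, mul_comm]
      exact congrArg (x i * φ ·) (funext fun j => by simp [Pi.single_apply, eq_comm])
  have h2 := det_one_add_replicateCol_mul_replicateRow (ι := Unit) v fun i => φ (Pi.single i 1)
  rw [h1] at h2
  refine ⟨GeneralLinearGroup.mkOfDetNeZero _ (h2 ▸ h), fun x => ?_, h2⟩
  rw [← h1 x, GeneralLinearGroup.val_mkOfDetNeZero, add_mulVec, one_mulVec, ← mulVec_mulVec]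
  funext i
  simp [mulVec, dotProduct, mul_apply, Finset.mul_sum, mul_comm, mul_left_comm]

theorem exists_transv_sl {W : Submodule F (ι → F)} {u w : ι → F} (hu : u ∉ W ⊔ F ∙ w) :
    ∃ g ∈ specialLinear ι F, (∀ x ∈ W, g.val *ᵥ x = x) ∧ ∃ c : F, c ≠ 0 ∧ g.val *ᵥ u = u + c • w := by
  obtain ⟨φ, h1, h2⟩ := Submodule.exists_dual_map_eq_bot_of_notMem hu inferInstance
  have h3 : ∀ x ∈ W ⊔ F ∙ w, φ x = 0 := fun x hx => (Submodule.eq_bot_iff _).1 h2 _ ⟨x, hx, rfl⟩
  have h4 := h3 w (Submodule.mem_sup_right (Submodule.mem_span_singleton_self w))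
  obtain ⟨g, h5, h6⟩ := exists_rank_one φ w (by simp [h4])
  exact ⟨g, mem_sl.2 (by simp [h6, h4]), fun x hx => by simp [h5, h3 x (Submodule.mem_sup_left hx)],
    _, h1, h5 u⟩

variable {σ : F ≃+* F} {ε : F} {f : (ι → F) → (ι → F) → F}

theorem Sesq.exists_qrefl (hf : Sesq σ ε f) (v : ι → F) {c : F}
    (hc : σ c + ε * c + c * σ c * f v v = 0) (h1 : 1 + c * f v v ≠ 0) :
    ∃ g ∈ Iso f, (∀ x, g.val *ᵥ x = x + (c * f x v) • v) ∧ g.val.det = 1 + c * f v v := by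
  obtain ⟨g, h2, h3⟩ := exists_rank_one (⟨⟨fun x => c * f x v, fun x y => by
    rw [hf.add_left, mul_add]⟩, fun a x => by simp [hf.smul_left, mul_left_comm]⟩ : Dual F (ι → F))
    v h1
  refine ⟨g, mem_iso.2 fun x y => ?_, h2, h3⟩
  simp only [h2, hf.add_left, hf.add_right, hf.smul_left, hf.smul_right, hf.herm v y, map_mul,
    LinearMap.coe_mk, AddHom.coe_mk]
  linear_combination f x v * σ (f y v) * hc

section dec

variable {t k : ℕ} {D : Fin t → Submodule F (ι → F)}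

theorem not_mem_dstab {g : GL ι F} {i : Fin t} {x : ι → F} (hx : x ∈ D i)
    (h : ∀ l, g.val *ᵥ x ∉ D l) : g ∉ decompositionStabilizer D := fun hg =>
  let ⟨π, hπ⟩ := dstab_mem hg; h _ ((hπ i x).1 hx)

theorem not_mem_dec (hD : IsMDecomposition k D) {i j : Fin t} (hij : j ≠ i) {y z : ι → F}
    (hy : y ∈ D i) (hy0 : y ≠ 0) (hz : z ∈ D j) (hz0 : z ≠ 0) (l : Fin t) : y + z ∉ D l := fun h => by
  by_cases hl : l = i
  · subst hl
    exact hz0 (Submodule.disjoint_def.1 (hD.indep.pairwiseDisjoint hij) z hz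
      (by simpa using sub_mem h hy))
  · refine hy0 (Submodule.disjoint_def.1 (hD.indep i) y hy ?_)
    simpa using sub_mem (Submodule.mem_iSup_of_mem l (Submodule.mem_iSup_of_mem hl h) :
      y + z ∈ ⨆ j, ⨆ (_ : j ≠ i), D j) (Submodule.mem_iSup_of_mem j (Submodule.mem_iSup_of_mem hij hz))

theorem Sesq.not_mem_nd (hf : Sesq σ ε f) (hD : IsNondegenerateMDecomposition f k D) {i : Fin t}
    {y z : ι → F} (hy : y ∈ D i) (hy0 : y ≠ 0) (hz : z ∈ hf.perp (D i)) (hz0 : z ≠ 0) (l : Fin t) :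
    y + z ∉ D l := fun h => by
  have h1 := Submodule.eq_bot_iff _ |>.1 (hf.nondegenerateOn_iff.1 (hD.nondegenerate i))
  by_cases hl : l = i
  · subst hl
    exact hz0 (h1 z ⟨by simpa using sub_mem h hy, hz⟩)
  · refine hy0 (h1 y ⟨hy, ?_⟩)
    simpa using sub_mem (hf.mem_perp.2 (hD.orthogonal l i hl _ h)) hz

theorem mem_dstab_of (hD : IsMDecomposition k D) {g : GL ι F}
    (h : ∀ i, ∃ j, ∀ v ∈ D i, g.val *ᵥ v ∈ D j) : g ∈ decompositionStabilizer D := by
  choose π hπ using h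
  have h1 : ∀ i, (D i).map (toLin' g.val) = D (π i) := fun i => Submodule.eq_of_le_of_finrank_eq
    (Submodule.map_le_iff_le_comap.2 (hπ i)) (by rw [finrank_map_gl, hD.finrank_eq, hD.finrank_eq])
  have h2 : Function.Injective π := fun i j hij => by
    by_contra h3
    have h4 : D i = D j := Submodule.map_injective_of_injective (toLin'_injective g)
      (by rw [h1, h1, hij])
    exact (mdec_ne hD j).1 (disjoint_self.1 (by
      have : Disjoint (D i) (D j) := hD.indep.pairwiseDisjoint h3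
      rwa [h4] at this))
  exact mem_dstab.2 ⟨Equiv.ofBijective π (Finite.injective_iff_bijective.1 h2), h1⟩

end dec

section quad

variable [Fintype F] {Q : (ι → F) → F} {W : Submodule F (ι → F)}

theorem exists_of_comm {Q : QuadraticForm F (ι → F)} {x : Geom.OG Q}
    (hx : x ∈ commutator (Geom.OG Q)) : ∃ g ∈ omegaGL ⇑Q, ∀ v, g.val *ᵥ v = x.1 v := by
  obtain ⟨g, h1, h2⟩ := (Geom.exists_Omega_iff x rfl).2 hx
  exact ⟨g, ⟨g, h1, rfl⟩, fun v => by rw [h2, Geom.omat_mulVec]⟩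

theorem exists_eich (hQ : NQ Q) (hn : 5 ≤ Fintype.card ι) {p a : ι → F} (hp : Q p = 0)
    (ha : pl Q p a = 0) : ∃ g ∈ omegaGL Q, ∀ x,
      g.val *ᵥ x = x + (pl Q a x - Q a * pl Q p x) • p - pl Q p x • a := by
  obtain ⟨Q, rfl, h⟩ := Root.Mx.exists_quad hQ
  obtain ⟨g, h1, h2⟩ := exists_of_comm (Geom.eich_mem_commutator h
    (Geom.notExc_of_finrank (by simp; omega)) p a)
  exact ⟨g, h1, fun x => by rw [h2, Geom.eich_apply hp ha]⟩

theorem exists_refl2 (hQ : NQ Q) {u v : ι → F} (hv : Q v ≠ 0) (h : Q u = Q v) :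
    ∃ g ∈ omegaGL Q, ∀ x, g.val *ᵥ x = (x - ((Q v)⁻¹ * pl Q v x) • v) -
      ((Q v)⁻¹ * pl Q u (x - ((Q v)⁻¹ * pl Q v x) • v)) • u := by
  obtain ⟨Q, rfl, h'⟩ := Root.Mx.exists_quad hQ
  obtain ⟨g, h1, h2⟩ := exists_of_comm (Geom.refl_mul_refl_mem_commutator h' hv one_ne_zero
    (u := u) (by simp [h]))
  exact ⟨g, h1, fun x => by rw [h2, Geom.OG.mul_apply, Geom.refl_apply, Geom.refl_apply, h]⟩

theorem exists_sing_perp (hQ : NQ Q) (h : finrank F W + 3 ≤ Fintype.card ι) :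
    ∃ p, p ≠ 0 ∧ Q p = 0 ∧ ∀ x ∈ W, pl Q p x = 0 := by
  have h1 := (sesq_polar hQ).finrank_perp W
  obtain ⟨Q', rfl, -⟩ := Root.Mx.exists_quad hQ
  obtain ⟨p, h2, h3, h4⟩ := Geom.exists_singular_of_three_le Q' ((sesq_polar hQ).perp W) (by omega)
  exact ⟨p, h3, h4, (sesq_polar hQ).mem_perp.1 h2⟩

theorem nm_plane (hq : Fintype.card F ≤ 3) (hQ : NQ Q) (hn : 7 ≤ Fintype.card ι)
    (hW : IsNondegenerateOn (pl Q) W) (hm : finrank F W = 2) (h : Pl Q W) :
    ∃ K, subspaceStabilizer W ⊓ omegaGL Q < K ∧ K < omegaGL Q := by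
  have hf := sesq_polar hQ
  obtain ⟨v, h1, h2, h3, w, h4, h5, h6⟩ := plus_plane_line hq hQ hW hm h
  have h7 : Q v ≠ 0 := by rw [h2]; exact one_ne_zero
  obtain ⟨p, h8, h9, h10⟩ := exists_sing_perp hQ (W := W) (by omega)
  obtain ⟨g, hg, h11⟩ := exists_eich hQ (by omega) h9 (h10 w h4)
  refine between (B := subspaceStabilizer (F ∙ v)) (fun g hg => mem_stab fun u hu => ?_)
    ((qs_omega hQ hn).not_le_stab (span_ne_bot hQ h7)
      (ne_top_of_finrank (by rw [finrank_line hQ h7]; omega))) hg (mem_stab fun u hu => ?_)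
    fun hA => ?_
  · obtain ⟨c, rfl⟩ := Submodule.mem_span_singleton.1 hu
    rw [mulVec_smul]
    exact Submodule.smul_mem _ _ (h3 _ ((mem_subspaceStabilizer.1 hg.1 v).1 h1)
      (by rw [omega_isom hg.2, h2]))
  · obtain ⟨c, rfl⟩ := Submodule.mem_span_singleton.1 hu
    rw [mulVec_smul, h11]
    simpa [h6, h10 v h1] using hu
  · obtain ⟨x, hx, h12⟩ := (hW w h4 h5).2
    have := sub_mem ((mem_subspaceStabilizer.1 hA x).1 hx) hx
    simp only [h11, h10 x hx, mul_zero, sub_zero, zero_smul, add_sub_cancel_left] at this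
    obtain ⟨y, hy, h13⟩ := (hW p ((W.smul_mem_iff h12).1 this) h8).2
    exact h13 (h10 y hy)

theorem nm_ts (hQ : NQ Q) (hn : 7 ≤ Fintype.card ι) (hp : Pl Q ⊤) (h1 : TS Q W)
    (hm : 2 * (finrank F W + 1) = Fintype.card ι) :
    ∃ K, subspaceStabilizer W ⊓ omegaGL Q < K ∧ K < omegaGL Q := by
  have hf := sesq_polar hQ
  have hq := qs_omega hQ hn
  have := hq.nonempty
  obtain ⟨U, hU, h2⟩ := plus_top_iff.1 hp
  obtain ⟨M, h3, h4, h5⟩ := ts_ext hQ h1 hU (by omega)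
  obtain ⟨p, h6, h7⟩ := Root.Mx.exists_notMem_of_lt (U := M) (R := W) (by omega)
  obtain ⟨a, h8, h9⟩ := Root.Mx.exists_notMem_of_lt (U := hf.perp (F ∙ p)) (R := hf.perp W) (by
    have := hf.finrank_perp W
    have := hf.finrank_perp (F ∙ p)
    have := finrank_span_singleton (K := F) (v := p) fun h => h7 (h ▸ zero_mem _)
    omega)
  obtain ⟨g, hg, h10⟩ := exists_eich hQ (by omega) (h4 p h6)
    (hf.eq_zero_comm.1 (hf.mem_perp.1 h8 p (Submodule.mem_span_singleton_self p)))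
  have h11 : ∀ x ∈ M, g.val *ᵥ x = x + pl Q a x • p := fun x hx => by
    simp [h10, polar_of_ts h4 p h6 x hx]
  refine between (B := subspaceStabilizer M) (fun g hg => mem_stab (map_eq_of_le ?_))
    (hq.not_le_stab (mt Submodule.finrank_eq_zero.2 (by omega)) (hf.ts_ne_top (polar_of_ts h4))) hg
    (mem_stab fun x hx => h11 x hx ▸ add_mem hx (M.smul_mem _ h6)) fun hA => h9 ?_
  · have h6 := omega_parity hQ h2.symm (by omega) h4 h5 hg.2
    have h7 : W ≤ M ⊓ M.map (toLin' g.val) := le_inf h3 fun v hv =>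
      ⟨g⁻¹.val *ᵥ v, h3 ((mem_subspaceStabilizer.1 (inv_mem hg.1) v).1 hv), by simp⟩
    have h8 := Submodule.finrank_mono h7
    have h9 := Submodule.finrank_mono (inf_le_left : M ⊓ M.map (toLin' g.val) ≤ M)
    rw [← inf_eq_left]
    refine Submodule.eq_of_le_of_finrank_eq inf_le_left ?_
    obtain ⟨c, hc⟩ := h6
    omega
  · refine hf.mem_perp.2 fun x hx => by_contra fun h12 => h7 ?_
    have := sub_mem ((mem_subspaceStabilizer.1 hA x).1 hx) hx
    rwa [h11 x (h3 hx), add_sub_cancel_left, W.smul_mem_iff h12] at this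

theorem nm_pair (hQ : NQ Q) (hn : 7 ≤ Fintype.card ι) {k : ℕ} (ho : Odd k)
    {D : Fin 2 → Submodule F (ι → F)} (hD : IsMDecomposition k D) (h : ∀ i, TS Q (D i)) :
    ∃ K, decompositionStabilizer D ⊓ omegaGL Q < K ∧ K < omegaGL Q := by
  have hf := sesq_polar hQ
  have h1 := mdec_mul_eq hD
  have h2 := (hD.indep.pairwiseDisjoint (by decide : (0 : Fin 2) ≠ 1))
  obtain ⟨p, h3, h4⟩ := mdec_exists_ne hD 0
  obtain ⟨a, h5, h6⟩ := Root.Mx.exists_notMem_of_lt (U := D 0) (R := F ∙ p) (by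
    rw [finrank_span_singleton h4, hD.finrank_eq]; omega)
  obtain ⟨g, hg, h7⟩ := exists_eich hQ (by omega) (h 0 p h3) (polar_of_ts (h 0) p h3 a h5)
  obtain ⟨x, hx, h8⟩ : ∃ x ∈ D 1, pl Q p x ≠ 0 := by
    by_contra! h0
    refine h4 (hf.nondeg_left p fun x => ?_)
    have : x ∈ D 0 ⊔ D 1 := (iSup_le fun i => by fin_cases i <;> simp : iSup D ≤ D 0 ⊔ D 1)
      (hD.iSup_eq_top ▸ trivial)
    obtain ⟨y, hy, z, hz, rfl⟩ := Submodule.mem_sup.1 this
    rw [hf.add_right, polar_of_ts (h 0) p h3 y hy, h0 z hz, add_zero]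
  refine between (B := subspaceStabilizer (D 0)) (fun g hg => mem_stab fun v hv => ?_)
    ((qs_omega hQ hn).not_le_stab (mdec_ne hD 0).1 (mdec_ne hD 0).2) hg (mem_stab fun v hv => ?_)
    (not_mem_dstab hx fun l => ?_)
  · obtain ⟨π, hπ⟩ := mem_dstab.1 hg.1
    have h6 := omega_parity hQ h1.symm (by omega) (h 0) (hD.finrank_eq 0) hg.2
    have h7 : g.val *ᵥ v ∈ D (π 0) := hπ 0 ▸ ⟨v, hv, rfl⟩
    rw [hπ] at h6
    obtain h | h : π 0 = 0 ∨ π 0 = 1 := by omega
    · exact h ▸ h7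
    · rw [h, h2.eq_bot, finrank_bot] at h6
      exact absurd h6 (by simpa using ho)
  · exact h7 v ▸ sub_mem (add_mem hv (Submodule.smul_mem _ _ h3)) (Submodule.smul_mem _ _ h5)
  · rw [h7, add_sub_assoc]
    refine not_mem_dec hD (by decide : (0 : Fin 2) ≠ 1) hx (by rintro rfl; exact h8 (hf.zero_right _))
      (sub_mem (Submodule.smul_mem _ _ h3) (Submodule.smul_mem _ _ h5)) (fun h9 => h6 ?_) l
    rw [← (F ∙ p).smul_mem_iff h8, ← sub_eq_zero.1 h9]
    exact Submodule.smul_mem _ _ (Submodule.mem_span_singleton_self p)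

variable {t k : ℕ} {D : Fin t → Submodule F (ι → F)}

theorem eich_not_mem (hQ : NQ Q) (hD : IsNondegenerateMDecomposition (pl Q) k D) {i : Fin t}
    {p a x : ι → F} (h0 : p ≠ 0) (hp : ∀ x ∈ D i, pl Q p x = 0) (hx : x ∈ D i) (h : pl Q a x ≠ 0)
    (l : Fin t) : x + (pl Q a x - Q a * pl Q p x) • p - pl Q p x • a ∉ D l := by
  have hf := sesq_polar hQ
  simp only [hp x hx, mul_zero, sub_zero, zero_smul]
  exact hf.not_mem_nd hD hx (by rintro rfl; exact h (hf.zero_right _))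
    (Submodule.smul_mem _ _ (hf.mem_perp.2 hp)) (smul_ne_zero h h0) l

theorem not_le_lev (hQ : NQ Q) (hD : IsNondegenerateMDecomposition (pl Q) k D)
    (hn : 5 ≤ Fintype.card ι) (hk : k + 3 ≤ Fintype.card ι) {c : F} (hc : c ≠ 0) {u : ι → F}
    (hu : u ∈ lev Q D c) : ¬ omegaGL Q ≤ sstab (lev Q D c) := fun h => by
  obtain ⟨⟨i, h1⟩, h2⟩ := id hu
  obtain ⟨a, ha, h3⟩ := (hD.nondegenerate i u h1 fun h => hc (by rw [← h2, h, quad_zero hQ])).1
  obtain ⟨p, h4, h5, h6⟩ := exists_sing_perp hQ (W := D i) (by rwa [hD.decomp.finrank_eq])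
  obtain ⟨g, hg, h7⟩ := exists_eich hQ hn h5 (h6 a ha)
  obtain ⟨l, hl⟩ := ((h hg u).1 hu).1
  exact eich_not_mem hQ hD h4 h6 h1 h3 l (h7 u ▸ hl)

theorem nm_small_planes (hq : Fintype.card F ≤ 3) (hQ : NQ Q) (hn : 10 ≤ Fintype.card ι)
    (hD : IsNondegenerateMDecomposition (pl Q) 2 D) (h : ∀ i, Pl Q (D i)) :
    ∃ K, decompositionStabilizer D ⊓ omegaGL Q < K ∧ K < omegaGL Q := by
  have hf := sesq_polar hQ
  choose v h1 h2 h3 w h4 h5 h6 using fun i =>
    plus_plane_line hq hQ (hD.nondegenerate i) (hD.decomp.finrank_eq i) (h i)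
  have h7 := mdec_mul_eq hD.decomp
  let i : Fin t := ⟨0, by omega⟩
  let U := Submodule.span F (Set.range v)
  have hv : ∀ j, v j ∈ U := fun j => Submodule.subset_span ⟨j, rfl⟩
  have h8 : ∀ x ∈ U, pl Q (w i) x = 0 := fun x hx => hf.eq_zero_comm.1 (hf.mem_perp.1
    (Submodule.span_le.2 (show Set.range v ⊆ hf.perp (F ∙ w i) by
      rintro _ ⟨j, rfl⟩
      refine hf.mem_perp.2 fun y hy => ?_
      obtain ⟨c, rfl⟩ := Submodule.mem_span_singleton.1 hy
      by_cases hij : j = i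
      · rw [hf.smul_right, hij, hf.eq_zero_comm.1 (h6 i), mul_zero]
      · exact hD.orthogonal j i hij _ (h1 j) _ (Submodule.smul_mem _ _ (h4 i))) hx) _
    (Submodule.mem_span_singleton_self _))
  obtain ⟨p, h9, h10, h11⟩ := exists_sing_perp hQ (W := U ⊔ D i) (by
    have := Submodule.finrank_add_le_finrank_add_finrank U (D i)
    have : finrank F U ≤ t := Root.Mx.finrank_span_fam (F := F) v
    have := hD.decomp.finrank_eq i
    omega)
  obtain ⟨g, hg, h12⟩ := exists_eich hQ (by omega) h10 (h11 _ (Submodule.mem_sup_right (h4 i)))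
  obtain ⟨x, hx, h13⟩ := (hD.nondegenerate i _ (h4 i) (h5 i)).2
  refine between (B := subspaceStabilizer U) (fun g hg => mem_stab fun u hu => ?_)
    ((qs_omega hQ (by omega)).not_le_stab (fun h0 => ?_) fun h0 =>
      h5 i (hf.nondeg_left _ fun x => h8 x (h0 ▸ trivial))) hg (mem_stab fun u hu => ?_)
    (not_mem_dstab hx fun l => h12 x ▸ eich_not_mem hQ hD h9
      (fun x hx => h11 x (Submodule.mem_sup_right hx)) hx h13 l)
  · refine (Submodule.span_le (p := U.comap (toLin' g.val))).2 ?_ hu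
    rintro _ ⟨j, rfl⟩
    obtain ⟨⟨l, h14⟩, h15⟩ := lev_inv ⟨hg.1, omega_le_isom hg.2⟩ _ ⟨⟨j, h1 j⟩, h2 j⟩
    exact (Submodule.span_singleton_le_iff_mem _ _).2 (hv l) (h3 l _ h14 h15)
  · have := h2 i
    rw [(Submodule.eq_bot_iff _).1 h0 _ (hv i), quad_zero hQ] at this
    exact zero_ne_one this
  · simpa [h12, h8 u hu, h11 u (Submodule.mem_sup_left hu)] using hu

theorem nm_four_planes (h4 : Fintype.card F = 2 ^ 2) (hQ : NQ Q) (hn : 7 ≤ Fintype.card ι)
    (hD : IsNondegenerateMDecomposition (pl Q) 2 D) (h : ∀ i, Pl Q (D i)) :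
    ∃ K, decompositionStabilizer D ⊓ omegaGL Q < K ∧ K < omegaGL Q := by
  have hf := sesq_polar hQ
  choose b hb hb' using fun i => plus_plane hQ (hD.nondegenerate i) (hD.decomp.finrank_eq i) (h i)
  have h2 := two_eq_zero_of_four h4
  have h3 : ∀ a : F, a ≠ 0 → a * a ^ 2 = 1 := fun a ha => norm_four h4 ha
  let L := AddSubgroup.closure (lev Q D 1)
  have h5 : ∀ u ∈ L, ∀ v ∈ L, pl Q u v ∈ fixF (fq h4) := fun u hu v hv => by
    induction hu, hv using AddSubgroup.closure_induction₂ with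
    | mem u v hu hv =>
      obtain ⟨⟨i, hu⟩, h1⟩ := hu
      obtain ⟨⟨j, hv⟩, h1'⟩ := hv
      by_cases hij : i = j
      swap
      · rw [hD.orthogonal i j hij u hu v hv]; exact zero_mem _
      subst hij
      obtain ⟨x, rfl⟩ := exists_coord (b i) hu
      obtain ⟨y, rfl⟩ := exists_coord (b i) hv
      rw [hb] at h1 h1'
      have e1 := h3 _ (left_ne_zero_of_mul_eq_one h1)
      have e2 := h3 _ (left_ne_zero_of_mul_eq_one h1')
      have e3 : x 1 = x 0 ^ 2 := by linear_combination x 0 ^ 2 * h1 - x 1 * e1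
      have e4 : y 1 = y 0 ^ 2 := by linear_combination y 0 ^ 2 * h1' - y 1 * e2
      rw [mem_fixF, fq_apply, hb', e3, e4]
      linear_combination (x 0 ^ 2 * y 0) * e2 + (x 0 * y 0 ^ 2) * e1 + x 0 ^ 3 * y 0 ^ 3 * h2
    | zero_left => rw [hf.zero_left]; exact zero_mem _
    | zero_right => rw [hf.zero_right]; exact zero_mem _
    | add_left _ _ _ _ _ _ h1 h2 => rw [hf.add_left]; exact add_mem h1 h2
    | add_right _ _ _ _ _ _ h1 h2 => rw [hf.add_right]; exact add_mem h1 h2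
    | neg_left _ _ _ _ h1 => rw [hf.neg_left]; exact neg_mem h1
    | neg_right _ _ _ _ h1 => rw [hf.neg_right]; exact neg_mem h1
  have h6 : ∀ c ∈ fixF (fq h4), ∀ v ∈ L, c • v ∈ L := fun c hc v hv => by
    rw [mem_fixF, fq_apply] at hc
    obtain rfl | rfl : c = 0 ∨ c = 1 := by
      simpa [sub_eq_zero] using (by linear_combination hc : c * (c - 1) = 0)
    · simp
    · simpa
  have h7 := mdec_mul_eq hD.decomp
  let i : Fin 3 → Fin t := Fin.castLE (by omega)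
  have hi : ∀ {j l}, j ≠ l → i j ≠ i l := fun h => mt (Fin.castLE_injective _ ·) h
  let v : Fin 3 → ι → F := fun j => b (i j) ![1, 1]
  have hv : ∀ j, v j ∈ D (i j) := fun j => (b _ _).2
  have hv1 : ∀ j, Q (v j) = 1 := fun j => by simp [v, hb]
  have hv0 : ∀ j, v j ≠ 0 := fun j h0 => by simpa [h0, quad_zero hQ] using hv1 j
  have hL : ∀ j, v j ∈ L := fun j => AddSubgroup.subset_closure ⟨⟨_, hv j⟩, hv1 j⟩
  have h8 : ∀ x ∈ D (i 0), pl Q (v 1 + v 2) x = 0 := fun x hx => by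
    rw [hf.add_left, hD.orthogonal _ _ (hi (by decide)) _ (hv 1) x hx,
      hD.orthogonal _ _ (hi (by decide)) _ (hv 2) x hx, add_zero]
  obtain ⟨g, hg, h9⟩ := exists_eich hQ (by omega) (p := v 1 + v 2) (by
    rw [quad_add Q, hv1, hv1, hD.orthogonal _ _ (hi (by decide)) _ (hv 1) _ (hv 2)]
    linear_combination h2) (h8 _ (hv 0))
  obtain ⟨x, hx, h10⟩ := (hD.nondegenerate _ _ (hv 0) (hv0 0)).2
  refine between (B := sstab L) (fun g hg => mem_sstab fun u hu => ?_) (fun h0 => ?_) hg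
    (mem_sstab fun u hu => ?_) (not_mem_dstab hx fun l => h9 x ▸ eich_not_mem hQ hD
      (fun h0 => not_mem_dec hD.decomp (hi (by decide : (2 : Fin 3) ≠ 1)) (hv 1) (hv0 1) (hv 2)
        (hv0 2) (i 0) (by rw [h0]; exact zero_mem _)) h8 hx h10 l)
  · exact (AddSubgroup.closure_le (L.comap (toLin' g.val).toAddMonoidHom)).2 (fun v hv =>
      AddSubgroup.subset_closure (lev_inv ⟨hg.1, omega_le_isom hg.2⟩ v hv)) hu
  · have h11 := (qs_omega hQ hn).air L (fun g hg v => (h0 hg v).1) _ (hL 0) (hv0 0)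
    obtain ⟨ω, hω⟩ := fq_ne h4
    have := h5 _ (h11 ((ω / pl Q (v 0) x) • v 0)) _ (h11 x)
    rw [hf.smul_left, div_mul_cancel₀ _ h10] at this
    exact hω this
  · have h11 := add_mem (hL 1) (hL 2)
    rw [h9, hv1, one_mul]
    exact sub_mem (add_mem hu (h6 _ (sub_mem (h5 _ (hL 0) _ hu) (h5 _ h11 _ hu)) _ h11))
      (h6 _ (h5 _ h11 _ hu) _ (hL 0))

end quad

end Cfsg.Agent.Asch
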