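import Cfsg.Agent.Asch.NM1

/-! Non-maximality of geometric subgroups: frames over small fields. -/

set_option autoImplicit false

namespace Cfsg.Agent.Asch

open Matrix Cfsg.Geo Module
open scoped Kronecker

variable {ι κ : Type} [Fintype ι] [DecidableEq ι] [Fintype κ] [DecidableEq κ] {F : Type*} [Field F]
  [Fintype F] {Q : (ι → F) → F} {t k : ℕ} {D : Fin t → Submodule F (ι → F)}

local notation "rf" => RingEquiv.refl
local notation "pl" => QuadraticMap.polar
local notation "NQ" => IsNondegenerateQuadraticForm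
local notation "TS" => IsTotallySingularQuad
local notation "Pl" => IsPlusTypeOn

theorem nm_lev (hQ : NQ Q) (hD : IsNondegenerateMDecomposition (pl Q) k D)
    (hn : 5 ≤ Fintype.card ι) (hk : k + 3 ≤ Fintype.card ι) {c : F} (hc : c ≠ 0) {u : ι → F}
    (hu : u ∈ lev Q D c) {g : GL ι F} (hg : g ∈ omegaGL Q)
    (h1 : ∀ i, ∀ v ∈ D i, Q v = c → ∃ l, g.val *ᵥ v ∈ D l) (h2 : g ∉ decompositionStabilizer D) :
    ∃ K, decompositionStabilizer D ⊓ omegaGL Q < K ∧ K < omegaGL Q :=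
  between (B := sstab (lev Q D c)) (fun _ hg => mem_sstab (lev_inv ⟨hg.1, omega_le_isom hg.2⟩))
    (not_le_lev hQ hD hn hk hc hu) hg (mem_sstab fun v ⟨⟨i, h3⟩, h4⟩ =>
      ⟨h1 i v h3 h4, by rw [omega_isom hg, h4]⟩) h2

theorem nm_const (hQ : NQ Q) (h2 : (2 : F) ≠ 0) (hD : IsOrthogonalMDecomposition Q (k + 2) D)
    (hk : k + 2 + 3 ≤ Fintype.card ι) {i₀ : Fin t} (b₀ : (Fin (k + 2) → F) ≃ₗ[F] D i₀) {c : F}
    (hc : c ≠ 0) (hs : IsSquare (c ^ (k + 2) * (gramMatrix fun x y => pl Q (b₀ x) (b₀ y)).det))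
    (hF : ∀ x : Fin (k + 2) → F, ∑ a, x a ^ 2 = 1 → ∃ a, ∀ a' ≠ a, x a' = 0) :
    ∃ K, decompositionStabilizer D ⊓ omegaGL Q < K ∧ K < omegaGL Q := by
  have hf := sesq_polar hQ
  obtain ⟨a, ha⟩ := (sesq_diag (d := fun _ : Fin (k + 2) => c) fun _ => hc).exists_congr_of_det
    (hf.restrict (hD.decomp.nondegenerate i₀) b₀) h2 rfl (by
      simpa [gramMatrix_formOfGram, -RingEquiv.coe_refl] using hs)
  choose e he using hD.isometric i₀
  let b := fun i => (a.trans b₀).trans (e i)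
  have hb : ∀ i x y, pl Q (b i x) (b i y) = c * ∑ j, x j * y j := fun i x y => by
    have := ha x y
    simp only [QuadraticMap.polar, b, LinearEquiv.trans_apply, ← Submodule.coe_add, ← map_add,
      he, form_diag, Finset.mul_sum, RingEquiv.refl_apply] at this ⊢
    rw [this]; exact Finset.sum_congr rfl fun _ _ => by ring
  have hb' : ∀ i x, Q (b i x) = c / 2 ↔ ∑ j, x j ^ 2 = 1 := fun i x => by
    rw [eq_div_iff h2, mul_comm, ← polar_self hQ, hb, mul_eq_left₀ hc]; simp only [sq]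
  let w : Fin t → Fin (k + 2) → ι → F := fun i j => b i (Pi.single j 1)
  have hw : ∀ i j, w i j ∈ D i := fun i j => (b i _).2
  have hQw : ∀ i j, Q (w i j) = c / 2 := fun i j => (hb' _ _).2 (by simp [Pi.single_apply])
  have hP : ∀ i j i' j', pl Q (w i j) (w i' j') = if i = i' ∧ j = j' then c else 0 :=
    fun i j i' j' => by
    by_cases h : i = i'
    · subst h; simp [w, hb, Pi.single_apply, eq_comm]
    · simp [h, hD.decomp.orthogonal i i' h _ (hw _ _) _ (hw _ _)]
  obtain ⟨i₁, h1⟩ : ∃ i₁, i₁ ≠ i₀ := by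
    have := Fin.nontrivial_iff_two_le.2 hD.decomp.decomp.two_le
    exact exists_ne i₀
  have h3 : ∀ j, Q (w i₀ 0 - w i₁ j) = c := fun j => by
    rw [sub_eq_add_neg, quad_add Q, ← neg_one_smul F, hQ.smul, hf.smul_right, hP, hQw, hQw]
    simp [h1.symm]; field_simp; ring
  obtain ⟨g, hg, h4⟩ := exists_refl2 hQ (u := w i₀ 0 - w i₁ 0) (v := w i₀ 0 - w i₁ 1)
    (by rwa [h3]) (by rw [h3, h3])
  have h5 : ∀ i j, g.val *ᵥ w i j = if i = i₀ ∧ j = 0 then w i₁ 1 else if i = i₁ ∧ j = 0 then w i₀ 0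
      else if i = i₁ ∧ j = 1 then w i₁ 0 else w i j := fun i j => by
    simp only [h4, h3, hf.sub_left, hf.sub_right, hf.smul_right, hP]
    have h01 : (0 : Fin (k + 2)) ≠ 1 := Fin.zero_ne_one
    by_cases a0 : i = i₀
    · subst a0
      by_cases a1 : j = 0
      · subst a1; simp [h1, h1.symm, hc]
      · simp [h1, h1.symm, a1, Ne.symm a1]
    by_cases a0' : i = i₁
    · subst a0'
      by_cases a1 : j = 0
      · subst a1; simp [h1, h1.symm, hc]
      by_cases a2 : j = 1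
      · subst a2; simp [h1, h1.symm, hc]
      · simp [h1, h1.symm, a1, Ne.symm a1, a2, Ne.symm a2]
    · simp [h1, h1.symm, a0, a0', Ne.symm a0, Ne.symm a0']
  refine nm_lev hQ hD.decomp (by omega) hk (div_ne_zero hc h2) ⟨⟨_, hw i₀ 0⟩, hQw _ _⟩ hg
    (fun i v hv h6 => ?_) (not_mem_dstab (add_mem (hw i₀ 1) (hw i₀ 0)) fun l => ?_)
  · obtain ⟨x, rfl⟩ := exists_coord (b i) hv
    obtain ⟨p, hp⟩ := hF x ((hb' _ _).1 h6)
    have : (b i x : ι → F) = x p • w i p := by
      rw [← Submodule.coe_smul, ← map_smul]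
      congr 2
      ext j; by_cases hj : j = p <;> simp [*]
    rw [this, mulVec_smul, h5]
    split_ifs <;> exact ⟨_, Submodule.smul_mem _ _ (hw _ _)⟩
  · have h0 : ∀ i j, w i j ≠ 0 := fun i j h => by simp [w] at h
    rw [mulVec_add, h5, h5]
    simpa [h1.symm] using not_mem_dec hD.decomp.decomp h1 (hw i₀ 1) (h0 _ _) (hw i₁ 1) (h0 _ _) l

theorem nm_three (h3 : Fintype.card F = 3) (hQ : NQ Q) (hn : 6 ≤ Fintype.card ι)
    (hD : IsOrthogonalMDecomposition Q 3 D) :
    ∃ K, decompositionStabilizer D ⊓ omegaGL Q < K ∧ K < omegaGL Q := by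
  let i : Fin t := ⟨0, by have := hD.decomp.decomp.two_le; omega⟩
  obtain ⟨b⟩ := mdec_basis hD.decomp.decomp i
  exact nm_const (k := 1) hQ (two_ne_of_three h3) hD hn b
    ((sesq_polar hQ).restrict (hD.decomp.nondegenerate i) b).gram_det_ne
    ⟨_ ^ 2, by rw [← pow_succ, ← pow_add]⟩ (sum_sq_prime h3 (by decide))

theorem nm_planes (hQ : NQ Q) (hn : 5 ≤ Fintype.card ι) (hD : IsOrthogonalMDecomposition Q 2 D)
    {i : Fin t} (h : (Fintype.card F = 3 ∧ ¬ Pl Q (D i)) ∨ (Fintype.card F = 5 ∧ Pl Q (D i))) :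
    ∃ K, decompositionStabilizer D ⊓ omegaGL Q < K ∧ K < omegaGL Q := by
  obtain ⟨b⟩ := mdec_basis hD.decomp.decomp i
  have h2 : (2 : F) ≠ 0 := two_ne_zero_of_odd (by rcases h with h | h <;> rw [h.1] <;> decide)
  have h1 := plus_iff_det' (nq_restrict hQ (hD.decomp.nondegenerate i) b) h2 (m := 1) rfl
  rw [plus_restrict, Geom.isSquare_mul_iff (by simp)
    (sesq_polar (nq_restrict hQ (hD.decomp.nondegenerate i) b)).gram_det_ne,
    isSquare_neg_one_odd h2 odd_one, funext₂ (polar_restrict b)] at h1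
  have : Fact (Nat.Prime 5) := ⟨Nat.prime_five⟩
  refine nm_const (k := 0) hQ h2 hD hn b one_ne_zero ?_ ?_
  · rcases h with h | h <;> simp_all
  · rcases h with h | h <;> exact sum_sq_prime h.1 (by decide +revert)

theorem four_aux' : ∀ x : Fin 4 → ZMod 2, x 0 * x 2 + x 1 * x 3 = 1 →
    (x 0 + x 2 = 0 ∧ x 2 + (x 1 + x 3) = 0) ∨ (x 0 = x 2 + x 1 ∧ x 3 = x 1) := by decide

theorem nm_four (hq : Fintype.card F = 2) (hQ : NQ Q)
    (hD : IsNondegenerateMDecomposition (pl Q) 4 D) (h : ∀ i, Pl Q (D i)) :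
    ∃ K, decompositionStabilizer D ⊓ omegaGL Q < K ∧ K < omegaGL Q := by
  have hf := sesq_polar hQ
  have h2 : (2 : F) = 0 := two_eq_zero_of_not_odd (by rw [hq]; decide)
  have h11 : (1 : F) + 1 = 0 := by linear_combination h2
  obtain ⟨b, hb⟩ : ∃ b : ∀ i, (Fin 4 → F) ≃ₗ[F] D i, ∀ i x, Q (b i x) = x 0 * x 2 + x 1 * x 3 := by
    choose b hb using fun i => plus_basis hQ (hD.nondegenerate i) (m := 2) (hD.decomp.finrank_eq i)
      two_ne_zero (h i)
    exact ⟨b, fun i x => by rw [hb, Fin.sum_univ_two]; rfl⟩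
  have hb' : ∀ i x y, pl Q (b i x) (b i y) = x 0 * y 2 + x 2 * y 0 + (x 1 * y 3 + x 3 * y 1) :=
    fun i x y => by rw [← polar_restrict, QuadraticMap.polar, hb, hb, hb]; simp; ring
  have h1 := mdec_arith hD.decomp
  have := Fin.nontrivial_iff_two_le.2 h1.2.1
  obtain ⟨i, j, hij⟩ := exists_pair_ne (Fin t)
  have ho : ∀ {i j}, i ≠ j → ∀ x y, pl Q (b i x) (b j y) = 0 := fun h x y =>
    hD.orthogonal _ _ h _ (b _ x).2 _ (b _ y).2
  obtain ⟨g, hg, h3⟩ := exists_eich hQ (by omega) (p := b i ![1, 0, 1, 0] + b j ![1, 0, 1, 0])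
    (a := b i ![1, 1, 0, 1] + b j ![1, 1, 0, 1]) (by simp [quad_add Q, hb, ho hij, h11])
    (by simp [hf.add_left, hf.add_right, hb', ho hij, ho hij.symm, h11])
  have h4 : Q (b i ![1, 1, 0, 1] + b j ![1, 1, 0, 1]) = 0 := by simp [quad_add Q, hb, ho hij, h11]
  have key : ∀ {i' j'}, i' ≠ j' → (∀ y z, (b i y : ι → F) + b j z = b i' (if i' = i then y else z) +
      b j' (if i' = i then z else y)) → ∀ x, g.val *ᵥ b i' x = b i' (x + (x 2 + (x 1 + x 3)) •
      ![1, 0, 1, 0] - (x 0 + x 2) • ![1, 1, 0, 1]) + b j' ((x 2 + (x 1 + x 3)) • ![1, 0, 1, 0] -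
      (x 0 + x 2) • ![1, 1, 0, 1]) := fun h h' x => by
    rw [h3, h4, h', h']
    simp only [ite_self, hf.add_left, hb', ho h.symm, map_add, map_sub, map_smul, Submodule.coe_add,
      Submodule.coe_sub, Submodule.coe_smul]
    simp
    module
  have k1 := key hij (by simp)
  have k2 := key hij.symm (by simp [hij.symm, add_comm])
  have k3 : ∀ {i' j'}, (∀ x, g.val *ᵥ b i' x = b i' (x + (x 2 + (x 1 + x 3)) •
      ![1, 0, 1, 0] - (x 0 + x 2) • ![1, 1, 0, 1]) + b j' ((x 2 + (x 1 + x 3)) • ![1, 0, 1, 0] -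
      (x 0 + x 2) • ![1, 1, 0, 1])) → ∀ x, Q (b i' x) = 1 → ∃ l, g.val *ᵥ b i' x ∈ D l :=
    fun {i' j'} h x hx => by
    rw [hb] at hx
    let e := (ZMod.ringEquivOfPrime F Nat.prime_two hq).symm
    have key' := four_aux' (e ∘ x) (by simpa using congrArg e hx)
    simp only [Function.comp, ← map_add, EmbeddingLike.apply_eq_iff_eq, map_eq_zero] at key'
    rcases key' with ⟨a1, a2⟩ | ⟨a1, a2⟩
    · exact ⟨i', by simp [h, a1, a2]⟩
    · have : x + (x 2 + (x 1 + x 3)) • ![1, 0, 1, 0] - (x 0 + x 2) • ![1, 1, 0, 1] = 0 := by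
        ext l; fin_cases l <;> simp [vecHead, vecTail]
        · linear_combination x 1 * h2 + a2
        · linear_combination -x 2 * h2 - a1
        · linear_combination (x 1 + x 2) * h2 + a2
        · linear_combination -x 2 * h2 + a2 - a1
      exact ⟨j', by rw [h, this, map_zero, Submodule.coe_zero, zero_add]; exact (b _ _).2⟩
  refine nm_lev hQ hD (by omega) (by omega) one_ne_zero (u := b i ![1, 0, 1, 0])
    ⟨⟨i, (b i _).2⟩, by simp [hb]⟩ hg (fun l v hv h5 => ?_)
    (not_mem_dstab (b i ![0, 0, 0, 1]).2 fun l => ?_)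
  · obtain ⟨x, rfl⟩ := exists_coord (b l) hv
    by_cases h6 : l = i
    · exact k3 (h6 ▸ k1) x h5
    by_cases h7 : l = j
    · exact k3 (h7 ▸ k2) x h5
    exact ⟨l, by simp [h3, hf.add_left, ho (Ne.symm h6), ho (Ne.symm h7)]⟩
  · rw [k1]
    refine not_mem_dec hD.decomp hij.symm (b i _).2 (fun h0 => ?_) (b j _).2 (fun h0 => ?_) l
    · simpa using congrFun ((b i).map_eq_zero_iff.1 (Subtype.ext h0)) 0
    · simpa using congrFun ((b j).map_eq_zero_iff.1 (Subtype.ext h0)) 0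

theorem nm_frame_sl {n : ℕ} (hn : 5 ≤ n) (h4 : Fintype.card F ≤ 4)
    {D : Fin t → Submodule F (Fin n → F)} (hD : IsMDecomposition 1 D) :
    ∃ K, decompositionStabilizer D ⊓ specialLinear (Fin n) F < K ∧ K < specialLinear (Fin n) F := by
  have h2 := Fintype.one_lt_card (α := F)
  obtain ⟨σ, hσ, h1⟩ : ∃ σ : F ≃+* F, (∀ a, σ (σ a) = a) ∧ ∀ a : Fˣ, (a : F) * σ a = 1 := by
    have h3 := fun a : Fˣ => congrArg Units.val (pow_card_sub_one_units a)
    rcases h4.eq_or_lt with h4 | h4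
    · refine ⟨fq (q := 2) h4, fq_fq _, fun a => ?_⟩
      rw [fq_apply, ← pow_succ']; simpa [h4] using h3 a
    · refine ⟨RingEquiv.refl F, fun _ => rfl, fun a => ?_⟩
      have := h3 a
      interval_cases Fintype.card F <;> simp_all [sq]
  have h6 : (6 : F) = 0 := by
    have := FiniteField.cast_card_eq_zero F
    interval_cases h : Fintype.card F
    · linear_combination 3 * this
    · linear_combination 2 * this
    · linear_combination 3 * two_eq_zero_of_four h
  have h5 : (5 : F) ≠ 0 := fun h => one_ne_zero (by linear_combination h6 - h : (1 : F) = 0)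
  choose b hb h0 using mdec_exists_ne hD
  obtain ⟨e, P, h7, h⟩ := exists_mframe hD hb h0
  have ht : t = n := by simpa using mdec_mul_eq hD
  let i : Fin 5 → Fin t := Fin.castLE (by omega)
  have hi : ∀ j l, i j = i l ↔ j = l := fun _ _ => (Fin.castLE_injective _).eq_iff
  have hf := (sesq_one (ι := Fin t) hσ).push e P
  have hb' : ∀ j l, push e P (formOfGram σ 1) (b j) (b l) = if j = l then 1 else 0 := fun j l => by
    rw [← h7, ← h7, push]; simp [form_one, Pi.single_apply, eq_comm]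
  have h8 : push e P (formOfGram σ 1) (b (i 0) + b (i 1) + b (i 2) + b (i 3))
      (b (i 0) + b (i 1) + b (i 2) + b (i 3)) = 4 := by
    simp [hf.add_left, hf.add_right, hb', hi]; norm_num
  obtain ⟨g, g1, g2, g3⟩ := hf.exists_qrefl (b (i 0) + b (i 1) + b (i 2) + b (i 3)) (c := 1)
    (by rw [h8]; simp; linear_combination h6) (by rw [h8]; norm_num; exact h5)
  obtain ⟨g', g4, g5, g6⟩ := hf.exists_qrefl (b (i 4)) (c := 4)
    (by simp [hb', map_ofNat]; linear_combination 4 * h6) (by simp [hb']; norm_num; exact h5)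
  refine between (B := similarityGroup _) (fun g hg => ?_) (sl_not_le_sim (by omega) hf)
    (g := g * g') (mem_sl.2 ?_) (iso_le_sim _ (mul_mem g1 g4)) (not_mem_dstab (hb (i 0)) fun l hl => ?_)
  · obtain ⟨π, a, rfl, -⟩ := h g hg.1
    refine mem_sim_push (coe_tg _ _ _) one_ne_zero fun u v => ?_
    rw [← diagonal_one, coe_monoGL, form_mono]; simp [h1]
  · rw [Units.val_mul, det_mul, g3, g6, h8, hb']
    simp; linear_combination 4 * h6
  · obtain ⟨c, hc⟩ := (mdec_one_span hD (hb l) (h0 l)).1 hl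
    have e1 := congrArg (push e P (formOfGram σ 1) · (b (i 1))) hc
    have e2 := congrArg (push e P (formOfGram σ 1) · (b (i 2))) hc
    simp [← mulVec_mulVec, g2, g5, hf.add_left, hf.add_right, hf.smul_left, hb', hi] at e1 e2
    split_ifs at e1 e2 <;> simp_all

theorem nm_planes_sl {n : ℕ} (hn : 3 ≤ n) (hq : Fintype.card F = 2)
    {D : Fin t → Submodule F (Fin n → F)} (hD : IsMDecomposition 2 D) :
    ∃ K, decompositionStabilizer D ⊓ specialLinear (Fin n) F < K ∧ K < specialLinear (Fin n) F := by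
  let b := fun i => (mdec_basis hD i).some
  obtain ⟨e, P, hb⟩ := exists_bframe hD b
  obtain ⟨f, hf, hb', hs⟩ : ∃ f, Sesq (rf F) (-1) f ∧ (∀ i j x y, f (b i x) (b j y) =
      if i = j then x 0 * y 1 - x 1 * y 0 else 0) ∧ decompositionStabilizer D ≤ similarityGroup f := by
    refine ⟨_, (sesq_kron_one (μ := Fin t) (sesq_J2 (F := F))).push e P, fun i j x y => ?_,
      fun g hg => ?_⟩
    · rw [← hb, ← hb, push, LinearEquiv.symm_apply_apply, LinearEquiv.symm_apply_apply, form_kv]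
      simp [formOfGram_eq, J2, sub_eq_add_neg, dotProduct, mulVec]
    · obtain ⟨π, a, h1, -⟩ := exists_bm hb hg
      refine mem_sim_push h1 one_ne_zero (bm_sim sesq_J2 π fun i x y => ?_)
      rw [form_J2, (two_cases hq _).resolve_left (a i).det_ne_zero]
  have := Fin.nontrivial_iff_two_le.2 hD.two_le
  obtain ⟨i, j, hij⟩ := exists_pair_ne (Fin t)
  have h1 : f (b i ![0, 1] + b j ![0, 1]) (b i ![0, 1] + b j ![0, 1]) = 0 := by
    simp [hf.add_left, hf.add_right, hb']
  obtain ⟨g, g1, g2, g3⟩ := hf.exists_qrefl (b i ![0, 1] + b j ![0, 1]) (c := 1)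
    (by simp [h1]) (by simp [h1])
  refine between (inf_le_left.trans hs) (sl_not_le_sim hn hf)
    (mem_sl.2 (by simp [g3, h1])) (iso_le_sim _ g1) (not_mem_dstab (b i ![1, 0]).2 fun l => ?_)
  have : g.val *ᵥ b i ![1, 0] = b i ![1, 1] + b j ![0, 1] := by
    rw [g2, show ![1, 1] = ![(1 : F), 0] + ![0, 1] by simp, map_add]
    simp [hf.add_right, hb', hij, add_assoc]
  rw [this]
  exact not_mem_dec hD hij.symm (b i _).2 (by simp) (b j _).2 (by simp) l

theorem nm_planes_sp {m : ℕ} (hm : 4 ≤ m) (hq : Fintype.card F = 2)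
    {D : Fin t → Submodule F (Fin m ⊕ Fin m → F)}
    (hD : IsNondegenerateMDecomposition (sympForm m F) 2 D) :
    ∃ K, decompositionStabilizer D ⊓ spGL m F < K ∧ K < spGL m F := by
  have hf := sesq_symp m F
  obtain ⟨Q, hQ, h1, h3⟩ := exists_quad_of_planes hq hf symp_alt hD
  obtain ⟨g, hg, h4⟩ := SetLike.not_le_iff_exists.1
    ((qs_omega hQ (by simp; omega)).not_le_dstab hD.decomp)
  refine between (B := isometryGroup F Q) (fun g hg => Geom.mem_isometryGroup.2 (h3 g hg))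
    (fun hle => ?_) (funext₂ h1 ▸ omega_le_iso hg : g ∈ Iso _) (omega_le_isom hg) h4
  obtain ⟨v, hv, h2, -⟩ := exists_sing_perp hQ (W := ⊥) (by simp; omega)
  obtain ⟨g, hg, h3⟩ := hf.exists_transv symp_alt v 1
  refine hv (hf.nondeg v fun x => ?_)
  have := Geom.mem_isometryGroup.1 (hle hg) x
  rw [h3, quad_add Q, h1, hQ.smul, h2, hf.smul_right] at this
  simpa using this

theorem nm_planes_su {n : ℕ} (hF : Fintype.card F = 2 ^ 2) {D : Fin t → Submodule F (Fin n → F)}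
    (hD : IsNondegenerateMDecomposition (hermForm n F 2) 2 D) :
    ∃ K, decompositionStabilizer D ⊓ (GU n F 2 ⊓ specialLinear (Fin n) F) < K ∧
      K < GU n F 2 ⊓ specialLinear (Fin n) F := by
  have hf := sesq_herm hF n
  choose b hb using fun i => hf.exists_onb (fq_ne hF) (hD.nondegenerate i) (hD.decomp.finrank_eq i)
  simp only [form_one, Fin.sum_univ_two] at hb
  have h2 : (1 : F) + 1 = 0 := by linear_combination two_eq_zero_of_four hF
  have := Fin.nontrivial_iff_two_le.2 hD.decomp.two_le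
  obtain ⟨i, j, hij⟩ := exists_pair_ne (Fin t)
  have ho : ∀ {i j}, i ≠ j → ∀ x y, hermForm n F 2 (b i x) (b j y) = 0 := fun h x y =>
    hD.orthogonal _ _ h _ (b _ x).2 _ (b _ y).2
  have key : ∀ x y : Fin 2 → F, x 0 * fq hF (x 0) + x 1 * fq hF (x 1) +
      (y 0 * fq hF (y 0) + y 1 * fq hF (y 1)) = 0 → ∃ g ∈ GU n F 2 ⊓ specialLinear (Fin n) F,
      ∀ z, g.val *ᵥ z = z + hermForm n F 2 z (b i x + b j y) • ((b i x : Fin n → F) + b j y) :=
    fun x y h => by
    have h1 : hermForm n F 2 (b i x + b j y) (b i x + b j y) = 0 := by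
      simpa [hf.add_left, hf.add_right, hb, ho hij, ho hij.symm] using h
    obtain ⟨g, g1, g2, g3⟩ := hf.exists_qrefl (b i x + b j y) (c := 1) (by simp [h1, h2])
      (by simp [h1])
    exact ⟨g, ⟨g1, mem_sl.2 (by simp [g3, h1])⟩, by simpa using g2⟩
  have h3 : ∀ (y z : Fin 2 → F), y ≠ 0 → z ≠ 0 → ∀ l, (b i y : Fin n → F) + b j z ∉ D l :=
    fun y z hy hz => not_mem_dec hD.decomp hij.symm (b i _).2 (by simpa) (b j _).2 (by simpa)
  obtain ⟨g, g1, g2⟩ := key ![1, 0] ![1, 0] (by simp [h2])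
  obtain ⟨g', g3, g4⟩ := key ![1, 1] ![1, 1] (by simp [h2])
  refine between (B := sstab {v | (∃ i, v ∈ D i) ∧ hermForm n F 2 v v ≠ 0})
    (fun g hg => mem_sstab fun v ⟨⟨i, hv⟩, hv'⟩ => ?_) (fun h0 => ?_) g1
    (mem_sstab fun v ⟨⟨l, hv⟩, hv'⟩ => ⟨?_, by rwa [mem_iso.1 g1.1]⟩)
    (not_mem_dstab (b i ![1, 1]).2 fun l => ?_)
  · obtain ⟨π, hπ⟩ := dstab_mem hg.1
    exact ⟨⟨π i, (hπ i v).1 hv⟩, by rwa [mem_iso.1 hg.2.1]⟩
  · obtain ⟨l, hl⟩ := ((h0 g3 (b i ![1, 0])).1 ⟨⟨i, (b i _).2⟩, by simp [hb]⟩).1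
    refine h3 (![1, 0] + ![1, 1]) ![1, 1] (by simp) (by simp) l ?_
    rw [map_add]
    simpa [g4, hf.add_right, hb, ho hij, add_assoc] using hl
  · obtain ⟨x, rfl⟩ := exists_coord (b l) hv
    by_cases h4 : x 0 = 0 ∨ (l ≠ i ∧ l ≠ j)
    · refine ⟨l, ?_⟩
      have : ∀ l', l = l' ∨ l ≠ l' := fun l' => em _
      rcases this i with rfl | h5
      · simp [g2, hf.add_right, hb, ho hij, h4.resolve_right (by simp)]
      rcases this j with rfl | h6
      · simp [g2, hf.add_right, hb, ho h5, h4.resolve_right (by simp)]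
      · simp [g2, hf.add_right, ho h5, ho h6]
    rw [not_or] at h4
    have h5 : x = x 0 • ![1, 0] := by
      rw [hb] at hv'
      have : x 1 = 0 := by
        by_contra h1
        exact hv' (by rw [norm_four hF h4.1, norm_four hF h1, h2])
      ext a; fin_cases a <;> simp [this]
    have h6 : ∀ u : Fin n → F, u + u = 0 := fun u => by rw [← one_smul F u, ← add_smul, h2, zero_smul]
    rw [h5, map_smul, Submodule.coe_smul, mulVec_smul, g2]
    by_cases h7 : l = i
    · subst h7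
      exact ⟨j, Submodule.smul_mem _ _ (by simp [hf.add_right, hb, ho hij, ← add_assoc, h6])⟩
    · obtain rfl : l = j := by tauto
      exact ⟨i, Submodule.smul_mem _ _ (by
        simp [hf.add_right, hb, ho h7, add_left_comm (b l _ : Fin n → F), h6])⟩
  · have := h3 (![1, 1] + ![1, 0]) ![1, 0] (by simp) (by simp) l
    rw [map_add] at this
    simpa [g2, hf.add_right, hb, ho hij, add_assoc] using this

end Cfsg.Agent.Asch
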