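import Cfsg.Agent.Asch.NM2

/-! Non-maximality of geometric subgroups: tensor products and extension fields. -/

set_option autoImplicit false

namespace Cfsg.Agent.Asch

open Matrix Cfsg.Geo Module
open scoped Kronecker

variable {ι κ μ : Type} [Fintype ι] [DecidableEq ι] [Fintype κ] [DecidableEq κ] [Fintype μ]
  [DecidableEq μ] {F : Type*} [Field F] {σ : F ≃+* F} {ε : F} {f : (ι → F) → (ι → F) → F}
  {X : Subgroup (GL ι F)} {k m : ℕ} {e : ι ≃ Fin k × Fin m} {P : GL ι F}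

local notation "rf" => RingEquiv.refl
local notation "pl" => QuadraticMap.polar
local notation "NQ" => IsNondegenerateQuadraticForm
local notation "kr" => GeneralLinearGroup.kronecker

theorem QS.not_inv_comm [Finite F] (hX : QS X) {C : Subalgebra F (Matrix ι ι F)} (hc : IsComm C)
    (hne : C ≠ ⊥) : ¬ X ≤ subalgebraNormalizer C := fun h => by
  have := hX.nonempty
  rcases comm_cases hX.irr ((inv_subalgebraNormalizer C).mono h) hc hne with
    ⟨t, e, he, -⟩ | ⟨d, hd, hK⟩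
  · obtain ⟨m, hm⟩ := he.decomp
    exact hX.not_le_dstab hm he.le_stab
  · exact hX.not_le_anorm hd hK h

theorem mem_anorm_of_comm {C : Subalgebra F (Matrix ι ι F)} {g : GL ι F}
    (h : ∀ x ∈ C, g.val * x = x * g.val) : g ∈ subalgebraNormalizer C :=
  mem_subalgebraNormalizer.2 fun x => ⟨fun hx => by rwa [(cj_eq_iff g x x).2 (h x hx)],
    fun hx => by rwa [← (cj g).injective ((cj_eq_iff g _ _).2 (h _ hx))]⟩

theorem tensF_of_struct (hf : Sesq σ ε f) {f₁ : (Fin k → F) → (Fin k → F) → F}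
    {f₂ : (Fin m → F) → (Fin m → F) → F} {l₁ l₂ : F} (h₁ : Sesq σ l₁ f₁) (h₂ : Sesq σ l₂ f₂)
    (hk : 2 ≤ k) (hm : 2 ≤ m) (hT : IsTensorFormStructure σ f f₁ f₂ e P) :
    TensF σ f ⊥ e P (gramMatrix f₁) (gramMatrix f₂) l₁ l₂ := by
  obtain ⟨c, hc, h⟩ := hT
  refine ⟨hk, hm, bot_le, ⟨c, hc, ?_⟩, h₁.eq_fun ▸ h₁, h₂.eq_fun ▸ h₂⟩
  rw [← gramMatrix_formOfGram σ (c • _)]
  exact congrArg _ (funext₂ fun x y => by rw [formOfGram_smul, ← h]; rfl)

theorem kv_smul (c : F) (x : κ → F) (y : μ → F) : kv x (c • y) = c • kv x y := by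
  funext p; simp [kv, mul_left_comm]

theorem kv_swap (x : κ → F) (y : μ → F) : kv y x ∘ Prod.swap = kv x y := by
  funext p; simp [kv, mul_comm]

theorem ext_tv_kv (e : ι ≃ κ × μ) (P : GL ι F) {z z' : Matrix ι ι F}
    (h : ∀ x y, z *ᵥ tv e P (kv x y) = z' *ᵥ tv e P (kv x y)) : z = z' := by
  obtain ⟨z', rfl⟩ := (tp e P).surjective z'
  exact ext_kv fun i y => by rw [h, tp_mulVec]

theorem tens_fix {g : GL ι F} (hg : g ∈ tensorProductSubgroup k m e P) {x₀ : Fin k → F}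
    (h0 : x₀ ≠ 0) (h : ∀ y, g.val *ᵥ tv e P (kv x₀ y) = tv e P (kv x₀ y)) (x : Fin k → F) :
    ∃ x', ∀ y, g.val *ᵥ tv e P (kv x y) = tv e P (kv x' y) := by
  obtain ⟨a, b, rfl⟩ := mem_tensorProductSubgroup.1 hg
  simp only [tg_mulVec, coe_kronecker, kron_mulVec_kv, EmbeddingLike.apply_eq_iff_eq] at h ⊢
  obtain ⟨p, hp⟩ := Function.ne_iff.1 (mt (gl_mulVec_eq_zero a).1 h0)
  refine ⟨(x₀ p / (a.val *ᵥ x₀) p) • a.val *ᵥ x, fun y => funext fun j => ?_⟩
  have := congrFun (h y) (p, j.2)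
  simp only [kv, Pi.smul_apply, smul_eq_mul, Pi.zero_apply] at this hp ⊢
  field_simp
  linear_combination (a.val *ᵥ x) j.1 * this

theorem tens_fix' {g : GL ι F} (hg : g ∈ tensorProductSubgroup k m e P) {y₀ : Fin m → F}
    (h0 : y₀ ≠ 0) (h : ∀ x, g.val *ᵥ tv e P (kv x y₀) = tv e P (kv x y₀)) (y : Fin m → F) :
    ∃ y', ∀ x, g.val *ᵥ tv e P (kv x y) = tv e P (kv x y') := by
  have := tens_fix (tensorProductSubgroup_swap e P ▸ hg) h0 (by simpa [tv_trans, kv_swap] using h) y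
  simpa [tv_trans, kv_swap] using this

theorem nm_tens [Finite F] (hX : QS X) (hk : 2 ≤ k) (hm : 2 ≤ m)
    {C : Subalgebra F (Matrix (Fin k) (Fin k) F)} (hc : IsComm C) (hne : C ≠ ⊥)
    (hi : ∀ a b, tg e P (kr a b) ∈ X → ∀ x ∈ C, cj a x ∈ C) {g : GL ι F} (hg : g ∈ X)
    (h1 : ∀ x ∈ C, g.val * tp e P (x ⊗ₖ 1) = tp e P (x ⊗ₖ 1) * g.val)
    (h2 : g ∉ tensorProductSubgroup k m e P) :
    ∃ K, tensorProductSubgroup k m e P ⊓ X < K ∧ K < X := by
  have : Nonempty (Fin k) := ⟨⟨0, by omega⟩⟩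
  have : Nonempty (Fin m) := ⟨⟨0, by omega⟩⟩
  let ψ := (tp e P).toAlgHom.comp (lk (Fin k) (Fin m) F)
  refine between (B := subalgebraNormalizer (C.map ψ)) (Inv.le_normalizer ?_)
    (hX.not_inv_comm ?_ fun h => hne ?_) hg (mem_anorm_of_comm ?_) h2
  · rintro g ⟨hg, hg'⟩ _ ⟨x, hx, rfl⟩
    obtain ⟨a, b, rfl⟩ := mem_tensorProductSubgroup.1 hg
    exact ⟨_, hi a b hg' x hx, by simp [ψ, lk_apply, cj_tg, cj_kronecker]⟩
  · rintro _ ⟨x, hx, rfl⟩ _ ⟨y, hy, rfl⟩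
    simp only [RingHom.coe_coe, ← map_mul, hc x hx y hy]
  · refine eq_bot_iff.2 fun x hx => ?_
    obtain ⟨c, hc⟩ := mem_bot_iff.1 (h.le ⟨x, hx, rfl⟩)
    exact mem_bot_iff.2 ⟨c, lk_injective (μ := Fin m) ((tp e P).injective (by
      simpa [ψ, lk_apply, smul_kronecker] using hc))⟩
  · rintro _ ⟨x, hx, rfl⟩
    exact h1 x hx

theorem TensF.form_kv' {H : Subgroup (GL ι F)} {G₁ : Matrix (Fin k) (Fin k) F}
    {G₂ : Matrix (Fin m) (Fin m) F} {l₁ l₂ : F} (h : TensF σ f H e P G₁ G₂ l₁ l₂) (hf : Sesq σ ε f) :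
    ∃ c : F, c ≠ 0 ∧ ∀ x y x' y', f (tv e P (kv x y)) (tv e P (kv x' y')) =
      c * (formOfGram σ G₁ x x' * formOfGram σ G₂ y y') := by
  obtain ⟨c, hc, hG⟩ := h.gram
  refine ⟨c, hc, fun x y x' y' => ?_⟩
  have := (hf.pull e P).eq_dot (kv x y) (kv x' y')
  rw [pull, hG] at this
  rw [this, formOfGram_eq, formOfGram_eq, ← kv_dot, ← kron_mulVec_kv, smul_mulVec, dotProduct_smul]
  congr 3
  funext p; simp [kv]

theorem nm_tens_frame [Finite F] (hX : QS X) (hf : Sesq σ ε f) (hs : X ≤ Iso f)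
    {G₂ : Matrix (Fin m) (Fin m) F} {l₁ l₂ : F} (h : TensF σ f ⊥ e P 1 G₂ l₁ l₂)
    (hF : ∀ (a : Matrix (Fin k) (Fin k) F) (c : F), c ≠ 0 → aᵀ * a.map σ = c • 1 →
      ∀ i p q, p ≠ q → a p i * a q i = 0)
    (hg : ∀ W : Submodule F (ι → F), IsNondegenerateOn f W → finrank F W = m →
      ∃ g ∈ X, (∀ x ∈ hf.perp W, g.val *ᵥ x = x) ∧ ∃ w ∈ W, g.val *ᵥ w ∉ F ∙ w) :
    ∃ K, tensorProductSubgroup k m e P ⊓ X < K ∧ K < X := by
  obtain ⟨c, hc, hkv⟩ := h.form_kv' hf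
  have hk := h.two_k
  let i₀ : Fin k := ⟨0, by omega⟩
  let i₁ : Fin k := ⟨1, by omega⟩
  let u : (Fin m → F) →ₗ[F] (ι → F) := (tv e P).toLinearMap ∘ₗ
    ⟨⟨kv (Pi.single i₀ 1), fun y z => by funext p; simp [kv, mul_add]⟩, fun c y => kv_smul c _ y⟩
  have hu : ∀ y, u y = tv e P (kv (Pi.single i₀ 1) y) := fun _ => rfl
  have h1 : ∀ y, (∀ y', f (u y) (u y') = 0) → y = 0 := fun y hy =>
    h.snd.nondeg_left y fun y' => by simpa [hu, hkv, form_one, hc, Pi.single_apply] using hy y'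
  have h2 : ∀ i ≠ i₀, ∀ y, tv e P (kv (Pi.single i 1) y) ∈ hf.perp (LinearMap.range u) := by
    rintro i hi y
    refine hf.mem_perp.2 ?_
    rintro _ ⟨y', rfl⟩
    simp [hu, hkv, form_one, Pi.single_apply, hi.symm]
  obtain ⟨g, hg, h3, _, ⟨w, rfl⟩, h4⟩ := hg (LinearMap.range u)
    (hf.nondegenerateOn_iff.2 (eq_bot_iff.2 (by
      rintro _ ⟨⟨y, rfl⟩, hy⟩
      simp [h1 y fun y' => hf.mem_perp.1 hy _ ⟨y', rfl⟩])))
    ((LinearMap.finrank_range_of_inj (LinearMap.ker_eq_bot.1 (eq_bot_iff.2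
      fun y hy => h1 y fun y' => by rw [LinearMap.mem_ker.1 hy, hf.zero_left]))).trans (by simp))
  have h5 : ∀ y, ∃ y', u y' = g.val *ᵥ u y := fun y => by
    change _ ∈ LinearMap.range u
    rw [← hf.perp_perp (LinearMap.range u)]
    exact hf.mem_perp.2 fun x hx => by
      rw [← h3 x hx, mem_iso.1 (hs hg)]; exact hf.eq_zero_comm.1 (hf.mem_perp.1 hx _ ⟨y, rfl⟩)
  have h6 : ∀ (d : Fin k → F) i y, tp e P (diagonal d ⊗ₖ 1) *ᵥ tv e P (kv (Pi.single i 1) y) =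
      d i • tv e P (kv (Pi.single i 1) y) := fun d i y => by
    rw [tp_mulVec, kron_mulVec_kv, ← map_smul]
    congr 1; funext p; simp [kv, Pi.single_apply]
  refine nm_tens hX hk h.two_m (C := (diagonalAlgHom F (n := Fin k) (α := F)).range) ?_
    (fun h0 => ?_) ?_ hg ?_ fun h0 => h4 ?_
  · rintro _ ⟨x, rfl⟩ _ ⟨y, rfl⟩
    simp [diagonal_mul_diagonal, mul_comm]
  · obtain ⟨c, hc⟩ := mem_bot_iff.1 (h0.le ⟨Pi.single i₀ 1, rfl⟩)
    have e1 := congrFun₂ hc i₀ i₀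
    have e2 := congrFun₂ hc i₁ i₁
    simp [i₀, i₁] at e1 e2
    exact one_ne_zero (e1.trans e2.symm)
  · rintro a b hab _ ⟨d, rfl⟩
    obtain ⟨l, hl⟩ := (h.sim_pair hf (tg_mem_sim.1 (iso_le_sim _ (hs hab)))).1
    rw [gram_isom_iff, mul_one] at hl
    have e1 := congrArg transpose hl
    rw [transpose_mul, transpose_transpose, transpose_smul, transpose_one] at e1
    rw [(cj_eq_iff a _ ((l : F)⁻¹ • (a.val * diagonal d * (a.val.map σ)ᵀ))).2 (by
      simp [mul_assoc, e1, smul_smul])]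
    refine ⟨_, IsDiag.diagonal_diag fun p q hpq => ?_⟩
    beta_reduce
    rw [Matrix.smul_apply, mul_apply, Finset.sum_eq_zero fun i _ => ?_, smul_zero]
    rcases mul_eq_zero.1 (hF _ _ l.ne_zero hl i p q hpq) with h | h <;> simp [h]
  · rintro _ ⟨d, rfl⟩
    obtain ⟨z, hz⟩ := (tp e P).surjective (g.val * tp e P (diagonal d ⊗ₖ 1))
    have key : ∀ p, (g.val * tp e P (diagonal d ⊗ₖ 1)) *ᵥ tv e P (Pi.single p 1) =
        (tp e P (diagonal d ⊗ₖ 1) * g.val) *ᵥ tv e P (Pi.single p 1) := fun p => by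
      rw [single_eq_kv, ← mulVec_mulVec, ← mulVec_mulVec, h6, mulVec_smul]
      by_cases hp : p.1 = i₀
      · obtain ⟨y, hy⟩ := h5 (Pi.single p.2 1)
        rw [hp, ← hu, ← hy, hu, h6]
      · rw [h3 _ (h2 _ hp _), h6]
    exact hz.symm.trans (eq_tp_of_single fun p => (key p).symm.trans (by rw [← hz, tp_mulVec])).symm
  · obtain ⟨x, hx⟩ := tens_fix h0 (x₀ := Pi.single i₁ 1) (by simp)
      (fun y => h3 _ (h2 _ (by simp [i₀, i₁]) y)) (Pi.single i₀ 1)
    obtain ⟨y, hy⟩ := h5 w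
    have := (tv e P).injective (hy.trans (hx w))
    refine Submodule.mem_span_singleton.2 ⟨x i₀, ?_⟩
    rw [← hy, ← map_smul]
    exact congrArg u (funext fun j => by simpa [kv] using (congrFun this (i₀, j)).symm)

variable [Fintype F]

theorem nm_tens_three (h3 : Fintype.card F = 3) (hX : QS X) (hf : Sesq (rf F) ε f) (hs : X ≤ Iso f)
    {e : ι ≃ Fin 3 × Fin m} {G₁ : Matrix (Fin 3) (Fin 3) F} {G₂ : Matrix (Fin m) (Fin m) F} {l₂ : F}
    (h : TensF (rf F) f ⊥ e P G₁ G₂ 1 l₂)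
    (hg : ∀ W : Submodule F (ι → F), IsNondegenerateOn f W → finrank F W = m →
      ∃ g ∈ X, (∀ x ∈ hf.perp W, g.val *ᵥ x = x) ∧ ∃ w ∈ W, g.val *ᵥ w ∉ F ∙ w) :
    ∃ K, tensorProductSubgroup 3 m e P ⊓ X < K ∧ K < X := by
  have d1 : G₁.det ≠ 0 := by simpa only [gramMatrix_formOfGram] using h.fst.gram_det_ne
  obtain ⟨u, hu⟩ := (sesq_diag (d := fun _ : Fin 3 => G₁.det) fun _ => d1).exists_congr_of_det
    h.fst (two_ne_of_three h3) rfl (by
      simp only [gramMatrix_formOfGram, det_diagonal, Finset.prod_const, Finset.card_fin]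
      exact ⟨G₁.det ^ 2, by ring⟩)
  obtain ⟨b, hb⟩ := exists_frame_of_eq (Equiv.refl _) u
  rw [← tensorProductSubgroup_fr e P b 1]
  refine nm_tens_frame hX hf hs (h.fr hf b 1 d1 one_ne_zero (G₂' := G₂)
    (formOfGram_inj (rf F) fun x y => by
      rw [← gram_sim, smul_one_eq_diagonal, ← hu, ← hb, ← hb]; rfl) (by simp)
    (sesq_one fun _ => rfl) h.snd) (fun a c hc ha i p q hpq => ?_) hg
  have h1 := congrArg det ha
  have h2 := congrFun₂ ha i i
  simp only [det_mul, det_transpose, det_smul, det_one, Fintype.card_fin, RingEquiv.coe_refl,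
    map_id, mul_apply, transpose_apply, Matrix.smul_apply, one_apply_eq, ← sq] at h1 h2
  have h4 : c = 1 := by
    have := three_eq_zero h3
    rcases three_cases h3 c with rfl | rfl | rfl <;> rcases three_cases h3 a.det with h | h | h <;>
      rw [h] at h1 <;> grind
  obtain ⟨j, hj⟩ := sum_sq_prime h3 (by decide) (fun p => a p i) (by simpa [h4] using h2)
  by_cases hp : p = j
  · simp [hj q (hp ▸ hpq.symm)]
  · simp [hj p hp]

theorem Sesq.exists_move (hf : Sesq σ ε f) {W : Submodule F (ι → F)} (hW : IsNondegenerateOn f W)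
    {v : ι → F} (hv : v ∈ W) (h0 : v ≠ 0) (h1 : f v v = 0) {g : GL ι F}
    (hg : ∀ x, g.val *ᵥ x = x + (1 * f x v) • v) :
    (∀ x ∈ hf.perp W, g.val *ᵥ x = x) ∧ ∃ w ∈ W, g.val *ᵥ w ∉ F ∙ w := by
  obtain ⟨w, hw, h2⟩ := (hW v hv h0).1
  refine ⟨fun x hx => by simp [hg, hf.mem_perp.1 hx v hv], w, hw, fun h => ?_⟩
  obtain ⟨c, hc⟩ := Submodule.mem_span_singleton.1 (((F ∙ w).smul_mem_iff h2).1 (by
    simpa [hg] using sub_mem h (Submodule.mem_span_singleton_self w)) : v ∈ F ∙ w)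
  have := congrArg (f · v) hc
  simp only [hf.smul_left, h1, mul_eq_zero, h2, or_false] at this
  exact h0 (by rw [← hc, this, zero_smul])

theorem move_omega {Q : (ι → F) → F} (hQ : NQ Q) (hn : 5 ≤ Fintype.card ι) (hm : 3 ≤ m)
    (W : Submodule F (ι → F)) (hW : IsNondegenerateOn (pl Q) W) (h : finrank F W = m) :
    ∃ g ∈ omegaGL Q, (∀ x ∈ (sesq_polar hQ).perp W, g.val *ᵥ x = x) ∧ ∃ w ∈ W, g.val *ᵥ w ∉ F ∙ w := by
  have hf := sesq_polar hQ
  obtain ⟨p, h1, h2, h3⟩ : ∃ p ∈ W, p ≠ 0 ∧ Q p = 0 := by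
    obtain ⟨Q', rfl, -⟩ := Root.Mx.exists_quad hQ
    exact Geom.exists_singular_of_three_le Q' W (by omega)
  obtain ⟨a, h4, h5⟩ := Root.Mx.exists_notMem_of_lt (U := W ⊓ hf.perp (F ∙ p)) (R := F ∙ p) (by
    have := Submodule.finrank_sup_add_finrank_inf_eq W (hf.perp (F ∙ p))
    have := hf.finrank_perp (F ∙ p)
    have := finrank_span_singleton (K := F) h2
    have : finrank F (W ⊔ hf.perp (F ∙ p) : Submodule F _) ≤ Fintype.card ι := by
      simpa using Submodule.finrank_le (W ⊔ hf.perp (F ∙ p))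
    omega)
  have h6 := hf.eq_zero_comm.1 (hf.mem_perp.1 h4.2 p (Submodule.mem_span_singleton_self p))
  obtain ⟨g, hg, h7⟩ := exists_eich hQ hn h3 h6
  obtain ⟨w, hw, h8⟩ := (hW p h1 h2).2
  refine ⟨g, hg, fun x hx => by simp [h7, hf.eq_zero_comm.1 (hf.mem_perp.1 hx p h1),
    hf.eq_zero_comm.1 (hf.mem_perp.1 hx a h4.1)], w, hw, fun h => h5 ?_⟩
  obtain ⟨c, hc⟩ := Submodule.mem_span_singleton.1 h
  have := congrArg (pl Q p) hc
  rw [h7] at hc this
  simp only [hf.sub_right, hf.add_right, hf.smul_right, h6, polar_self hQ, h3, mul_zero, add_zero,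
    sub_zero, RingEquiv.refl_apply, mul_eq_right₀ h8] at this
  rw [this, one_smul, add_sub_assoc, left_eq_add, sub_eq_zero] at hc
  rw [← (F ∙ p).smul_mem_iff h8, ← hc]
  exact Submodule.smul_mem _ _ (Submodule.mem_span_singleton_self p)

theorem nm_tens_su {n : ℕ} (hF : Fintype.card F = 2 ^ 2) (hm : 2 ≤ m) {e : Fin n ≃ Fin 2 × Fin m}
    {P : GL (Fin n) F} {f₁ : (Fin 2 → F) → (Fin 2 → F) → F} {f₂ : (Fin m → F) → (Fin m → F) → F}
    (h₁ : IsUnitaryFormPow 2 f₁) (h₂ : IsUnitaryFormPow 2 f₂)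
    (hT : IsTensorFormStructure (fun x : F => x ^ 2) (hermForm n F 2) f₁ f₂ e P) :
    ∃ K, tensorProductSubgroup 2 m e P ⊓ (GU n F 2 ⊓ specialLinear (Fin n) F) < K ∧
      K < GU n F 2 ⊓ specialLinear (Fin n) F := by
  have hf := sesq_herm hF n
  have s : ∀ {k} {f : (Fin k → F) → (Fin k → F) → F}, IsUnitaryFormPow 2 f → Sesq (fq hF) 1 f :=
    fun h => sesq_of_unitary ⟨fun h0 => (fq_ne hF).elim fun a ha => ha (by rw [h0]; rfl), fq_fq hF,
      h.add_left, h.smul_left, h.herm, h.nondegenerate⟩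
  have h := tensF_of_struct hf (s h₁) (s h₂) le_rfl hm hT
  have hn : n = 2 * m := by simpa using h.card_eq
  obtain ⟨T, c, hc, hT⟩ := h.fst.exists_normal (fq_ne hF)
  have h2 : (1 : F) + 1 = 0 := by linear_combination two_eq_zero_of_four hF
  rw [← tensorProductSubgroup_fr e P T 1]
  refine nm_tens_frame (qs_su hF (by omega) (by omega)) hf inf_le_left (h.fr hf T 1 hc one_ne_zero
    hT (by simp) (sesq_one (fq_fq hF)) h.snd) (fun a c hc ha i p q hpq => ?_) fun W hW hm' => ?_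
  · by_contra h0
    have h1 := congrFun₂ ha i i
    have h3 : ∀ p, p = 0 ∨ p = 1 → a p i ≠ 0 := by
      have := left_ne_zero_of_mul h0
      have := right_ne_zero_of_mul h0
      rintro r (rfl | rfl) <;> fin_cases p <;> fin_cases q <;> simp_all
    simp [mul_apply, norm_four hF (h3 0 (.inl rfl)), norm_four hF (h3 1 (.inr rfl)), h2] at h1
    exact hc h1.symm
  · obtain ⟨b, hb⟩ := hf.exists_onb (fq_ne hF) hW hm'
    let x : Fin m → F := Pi.single ⟨0, by omega⟩ 1 + Pi.single ⟨1, by omega⟩ 1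
    have h1 : hermForm n F 2 (b x) (b x) = 0 := by
      have := sesq_one (ι := Fin m) (fq_fq hF)
      rw [hb, this.add_left, this.add_right, this.add_right]
      simp [form_one, Pi.single_apply, h2]
    obtain ⟨g, g1, g2, g3⟩ := hf.exists_qrefl (b x) (c := 1) (by simp [h1, h2]) (by simp [h1])
    refine ⟨g, ⟨g1, mem_sl.2 (by simp [g3, h1])⟩, hf.exists_move hW (b x).2 (fun h0 => ?_) h1 g2⟩
    simpa [x, Pi.single_apply, Fin.ext_iff] using congrFun (b.map_eq_zero_iff.1 (Subtype.ext h0)) ⟨0, by omega⟩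

theorem nm_tens_two (hq : Fintype.card F = 2) (hX : QS X) (hm : 2 ≤ m) {e : ι ≃ Fin 2 × Fin m}
    {g : GL ι F} (hg : g ∈ X) (h1 : g.val * tp e P (!![0, 1; 1, 1] ⊗ₖ 1) =
      tp e P (!![0, 1; 1, 1] ⊗ₖ 1) * g.val) (h2 : g ∉ tensorProductSubgroup 2 m e P) :
    ∃ K, tensorProductSubgroup 2 m e P ⊓ X < K ∧ K < X := by
  have h11 : (1 : F) + 1 = 0 := by
    linear_combination two_eq_zero_of_not_odd (L := F) (by rw [hq]; decide)
  have hω := Algebra.self_mem_adjoin_singleton F (!![0, 1; 1, 1] : Matrix (Fin 2) (Fin 2) F)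
  refine nm_tens hX le_rfl hm (C := Algebra.adjoin F {!![0, 1; 1, 1]}) (fun x hx y hy =>
    Algebra.commute_of_mem_adjoin_singleton_of_commute hy
      (Algebra.commute_of_mem_adjoin_self hx).symm) (fun h0 => ?_) (fun a _ _ x hx => ?_) hg
    (fun x hx => ?_) h2
  · obtain ⟨c, hc⟩ := mem_bot_iff.1 (h0 ▸ hω)
    simpa using congrFun₂ hc 0 1
  · refine Algebra.adjoin_le (S := (Algebra.adjoin F _).comap (cj a).toAlgHom) ?_ hx
    rintro _ rfl
    have e1 := trace_cj a !![0, 1; 1, 1]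
    have e2 := det_cj a !![0, 1; 1, 1]
    change cj a _ ∈ Algebra.adjoin F _
    generalize cj a !![0, 1; 1, 1] = y at e1 e2
    obtain rfl | rfl : y = !![0, 1; 1, 1] ∨ y = !![0, 1; 1, 1] + 1 := by
      rw [eta_fin_two y] at e1 e2 ⊢
      rcases two_cases hq (y 0 0) with h | h <;> rcases two_cases hq (y 0 1) with h' | h' <;>
        rcases two_cases hq (y 1 0) with h'' | h'' <;> rcases two_cases hq (y 1 1) with h''' | h''' <;>
        simp_all [one_fin_two]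
    · exact hω
    · exact add_mem hω (one_mem _)
  · refine Algebra.adjoin_le (S := (Subalgebra.centralizer F {g.val}).comap
      ((tp e P).toAlgHom.comp (lk _ _ F))) ?_ hx _ rfl
    rintro _ rfl _ rfl
    exact h1

theorem nm_tens_sl {n : ℕ} (hq : Fintype.card F = 2) (hm : 2 ≤ m) (e : Fin n ≃ Fin 2 × Fin m)
    (P : GL (Fin n) F) : ∃ K, tensorProductSubgroup 2 m e P ⊓ specialLinear (Fin n) F < K ∧
      K < specialLinear (Fin n) F := by
  have hn : n = 2 * m := by simpa using Fintype.card_congr e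
  let i₀ : Fin m := ⟨0, by omega⟩
  let i₁ : Fin m := ⟨1, by omega⟩
  have hi : i₁ ≠ i₀ := by simp [i₀, i₁]
  let N : Matrix (Fin 2 × Fin m) (Fin 2 × Fin m) F := !![0, 1; 1, 1] ⊗ₖ single i₀ i₁ 1
  have hN : N * N = 0 := by simp [N, ← mul_kronecker_mul, hi]
  let g : GL (Fin 2 × Fin m) F := ⟨1 + N, 1 - N, by simp [mul_sub, add_mul, hN],
    by simp [sub_mul, mul_add, hN]⟩
  have hg : ∀ x y, (tg e P g).val *ᵥ tv e P (kv x y) =
      tv e P (kv x y + kv (!![0, 1; 1, 1] *ᵥ x) (Pi.single i₀ (y i₁))) := fun x y => by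
    simp only [tg_mulVec, g, N, add_mulVec, one_mulVec, kron_mulVec_kv, single_mulVec, one_mul]
    rfl
  refine nm_tens_two hq (qs_sl (by omega)) hm (g := tg e P g)
    (mem_sl.2 ((two_cases hq _).resolve_left (tg e P g).det_ne_zero)) ?_ fun h0 => ?_
  · simp only [coe_tg, ← map_mul, g, N, add_mul, mul_add, ← mul_kronecker_mul, one_mul, mul_one]
  · obtain ⟨y, hy⟩ := tens_fix' h0 (y₀ := Pi.single i₀ 1) (by simp)
      (fun x => by simp [hg, hi, show ∀ x : Fin 2 → F, kv x (0 : Fin m → F) = 0 from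
        fun x => by funext p; simp [kv]]) (Pi.single i₁ 1)
    simpa [kv] using congrFun ((tv e P).injective ((hg _ _).symm.trans (hy ![1, 0]))) (1, i₀)

theorem nm_tens_omega (hq : Fintype.card F = 2) {Q : (ι → F) → F} (hQ : NQ Q) (hm : 4 ≤ m)
    {e : ι ≃ Fin 2 × Fin m} {f₁ : (Fin 2 → F) → (Fin 2 → F) → F}
    {f₂ : (Fin m → F) → (Fin m → F) → F} (h₁ : IsSymplecticForm f₁) (h₂ : IsSymplecticForm f₂)
    (hT : IsTensorFormStructure id (pl Q) f₁ f₂ e P) (hp : ∀ x y, Q (tv e P (kv x y)) = 0) :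
    ∃ K, tensorProductSubgroup 2 m e P ⊓ omegaGL Q < K ∧ K < omegaGL Q := by
  have hf := sesq_polar hQ
  have s₁ := sesq_of_symplectic h₁
  have s₂ := sesq_of_symplectic h₂
  have h := tensF_of_struct hf s₁ s₂ le_rfl (by omega) hT
  have hn := h.card_eq
  have h2 : (2 : F) = 0 := two_eq_zero_of_not_odd (L := F) (by rw [hq]; decide)
  obtain ⟨c, hc, hkv⟩ := h.form_kv hf
  obtain ⟨d, hd, h3⟩ := alt_two h.fst (by simpa only [← s₁.eq_fun] using h₁.alternating)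
  obtain rfl := (two_cases hq c).resolve_left hc
  obtain rfl := (two_cases hq d).resolve_left hd
  replace hkv : ∀ x y x' y', pl Q (tv e P (kv x y)) (tv e P (kv x' y')) =
      (x 0 * x' 1 - x 1 * x' 0) * f₂ y y' := fun x y x' y' => by
    rw [hkv, h3, ← s₂.eq_fun]
    simp [formOfGram_eq, J2, sub_eq_add_neg, dotProduct, mulVec]
  let y₁ : Fin m → F := Pi.single ⟨0, by omega⟩ 1
  have h4 : finrank F (F ∙ y₁) = 1 := finrank_span_singleton (by simp [y₁])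
  obtain ⟨y₀, h5, h6⟩ := Root.Mx.exists_notMem_of_lt (U := s₂.perp (F ∙ y₁)) (R := F ∙ y₁) (by
    have := s₂.finrank_perp (F ∙ y₁)
    simp only [Fintype.card_fin] at this; omega)
  have h7 : f₂ y₀ y₁ = 0 := s₂.mem_perp.1 h5 _ (Submodule.mem_span_singleton_self _)
  have h8 := s₂.eq_zero_comm.1 h7
  obtain ⟨y, h9, h10⟩ : ∃ y, f₂ y₁ y = 0 ∧ f₂ y₀ y ≠ 0 := by
    by_contra! h0
    exact h6 (s₂.perp_perp (F ∙ y₁) ▸ s₂.mem_perp.2 fun y hy => h0 y (s₂.eq_zero_comm.1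
      (s₂.mem_perp.1 hy _ (Submodule.mem_span_singleton_self _))))
  obtain ⟨g, hg, h11⟩ := exists_eich hQ (by omega)
    (p := tv e P (kv ![1, 0] y₀) + tv e P (kv ![0, 1] y₁))
    (a := tv e P (kv ![0, 1] y₀) + tv e P (kv ![1, 1] y₁)) (by simp [quad_add Q, hp, hkv, h7])
    (by simp [hf.add_left, hf.add_right, hkv, h7, h8, h₂.alternating])
  have h12 : ∀ x y, g.val *ᵥ tv e P (kv x y) = tv e P (kv x y +
      kv ![x 0 * f₂ y₀ y + (x 0 + x 1) * f₂ y₁ y, x 1 * f₂ y₀ y + x 0 * f₂ y₁ y] y₀ +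
      kv ![x 1 * f₂ y₀ y + x 0 * f₂ y₁ y, (x 0 + x 1) * f₂ y₀ y + x 1 * f₂ y₁ y] y₁) := fun x y => by
    rw [h11]
    simp only [quad_add Q, hp, hf.add_left, hkv, h7]
    simp only [← map_add, ← map_smul, ← map_sub]
    congr 1; funext ⟨i, j⟩
    fin_cases i <;> simp [kv] <;> grind
  refine nm_tens_two hq (qs_omega hQ (by omega)) (by omega) hg (ext_tv_kv e P fun x y => ?_)
    fun h0 => ?_
  · simp only [← mulVec_mulVec, tp_mulVec, kron_mulVec_kv, h12, mulVec_add, one_mulVec]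
    congr 1; funext ⟨i, j⟩
    fin_cases i <;> simp [kv, vecHead, vecTail] <;> grind
  · obtain ⟨y', hy⟩ := tens_fix' h0 (y₀ := y₀) (by rintro rfl; exact h6 (zero_mem _))
      (fun x => by simp [h11, hf.add_left, hkv, h8, h₂.alternating]) y
    have := congrFun ((tv e P).injective ((h12 _ _).symm.trans (hy ![1, 0]))) (1, ⟨0, by omega⟩)
    simp [kv, h9, h10, y₁] at this

theorem exists_unip {N : Matrix ι ι F} (h : N * N = 0) :
    ∃ g ∈ specialLinear ι F, g.val = 1 + N := by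
  refine ⟨⟨1 + N, 1 - N, by simp [mul_sub, add_mul, h], by simp [sub_mul, mul_add, h]⟩,
    mem_sl.2 ?_, rfl⟩
  have h1 : ∀ k : ℕ, (1 + N) ^ k = 1 + (k : F) • N := fun k => by
    induction k with
    | zero => simp
    | succ k ih => simp [pow_succ, ih, add_mul, mul_add, h, add_smul, add_assoc]
  have := congrArg det (h1 (Fintype.card F))
  simpa [det_pow, FiniteField.pow_card] using this

theorem nm_field [Nonempty ι] {r : ℕ} (hr1 : 1 < r) (hrp : ¬ r.Prime) (hlt : r < Fintype.card ι)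
    {K : Subalgebra F (Matrix ι ι F)} (hK : IsFieldSubalgebra r K) :
    ∃ (p : ℕ) (K' : Subalgebra F (Matrix ι ι F)), 1 < p ∧ IsFieldSubalgebra p K' ∧
      subalgebraNormalizer K ≤ subalgebraNormalizer K' ∧
      ∃ g ∈ specialLinear ι F, g ∈ subalgebraNormalizer K' ∧ g ∉ subalgebraNormalizer K := by
  have hp := Nat.minFac_prime hr1.ne'
  have h1 := (Nat.not_prime_iff_minFac_lt hr1).1 hrp
  obtain ⟨K', hle, hK', hi, -⟩ := Fld.exists_dvd_inv hK r.minFac_dvd (inv_subalgebraNormalizer K)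
  obtain ⟨m, hm⟩ := r.minFac_dvd.trans (Fld.dvd_card hK)
  obtain ⟨L, _, _, _, ρ, Φ, hE, -⟩ := exists_ext hK' hm
  have h3 : 2 < m := by
    have := Nat.le_of_dvd (by omega) ((Nat.dvd_sub_iff_left hlt.le (dvd_refl r)).2 (Fld.dvd_card hK))
    by_contra h
    have := Nat.mul_le_mul_left r.minFac (not_lt.1 h)
    omega
  have h4 : m * finrank F L = Fintype.card ι := by
    simpa [finrank_pi_fintype] using Φ.finrank_eq
  let i₀ : Fin m := ⟨0, by omega⟩
  let i₁ : Fin m := ⟨1, by omega⟩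
  let φ : (ι → F) →ₗ[F] L := LinearMap.proj i₁ ∘ₗ Φ.symm.toLinearMap
  let N := LinearMap.toMatrix' (Φ.toLinearMap ∘ₗ LinearMap.single F (fun _ => L) i₀ ∘ₗ φ)
  have hN : ∀ v, N *ᵥ v = Φ (Pi.single i₀ (φ v)) := fun v => by simp [N, ← toLin'_apply]
  have hφ : ∀ x, φ (Φ x) = x i₁ := by simp [φ]
  obtain ⟨g, hg, h5⟩ := exists_unip (N := N) (ext_mulVec fun v => by
    simp [← mulVec_mulVec, hN, hφ, i₀, i₁])
  refine ⟨_, K', hp.one_lt, hK', hi.le_normalizer, g, hg, mem_anorm_of_comm fun x hx => ?_,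
    fun h0 => ?_⟩
  · obtain ⟨l, rfl⟩ := (hE.range x).1 hx
    refine ext_mulVec fun v => ?_
    obtain ⟨v, rfl⟩ := Φ.surjective v
    simp [h5, ← mulVec_mulVec, add_mulVec, mulVec_add, hN, hφ, hE.app, ← Pi.single_smul]
  have h6 : ∀ {x}, x ∈ K → ∀ {v}, v ≠ 0 → x *ᵥ v = 0 → x = 0 := fun hx v hv h =>
    (Fld.mul_eq_zero hK hx (y := of fun i _ => v i) (ext fun i j => congrFun h i)).resolve_right
      fun h0 => hv (funext fun i => congrFun₂ h0 i i)
  obtain ⟨x, hx, h7⟩ := SetLike.exists_of_lt (hle.lt_of_ne fun h => by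
    have := hK.finrank_eq; have := hK'.finrank_eq; subst h; omega)
  obtain ⟨v, hv, h8⟩ := (Submodule.ne_bot_iff _).1 (LinearMap.ker_ne_bot_of_finrank_lt
    (f := φ.prod (φ ∘ₗ toLin' x)) (by
      simp only [finrank_prod, finrank_pi, ← h4]; have := finrank_pos (R := F) (M := L); nlinarith))
  replace hv : φ v = 0 ∧ φ (x *ᵥ v) = 0 := Prod.mk_eq_zero.1 hv
  have h9 : g.val * x = x * g.val := (cj_eq_iff g x x).1 (sub_eq_zero.1 (h6
    (sub_mem ((mem_subalgebraNormalizer.1 h0 x).1 hx) hx) h8 (by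
      have : g.val *ᵥ v = v := by simp [h5, add_mulVec, hN, hv.1]
      rw [sub_mulVec, ← this, cj_mulVec, this]
      simp [h5, add_mulVec, hN, hv.2, -mulVec_mulVec])))
  have h10 := congrArg (· *ᵥ Φ (Pi.single i₁ 1)) h9
  simp only [h5, add_mul, mul_add, one_mul, mul_one, add_mulVec, add_right_inj, ← mulVec_mulVec, hN,
    hφ, Pi.single_eq_same] at h10
  refine h7 ((hE.range x).2 ⟨φ (x *ᵥ Φ (Pi.single i₁ 1)), sub_eq_zero.1 (h6 (sub_mem (hle ((hE.range _).2 ⟨_, rfl⟩)) hx)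
    (v := Φ (Pi.single i₀ 1)) (by simp) ?_)⟩)
  rw [sub_mulVec, ← h10, hE.app, ← Pi.single_smul, smul_eq_mul, mul_one, sub_self]

end Cfsg.Agent.Asch
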