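import Cfsg.Agent.Asch.Onb

/-! The tensor structure of `O₄⁺`, and of the normaliser of `GU₂(3)` in `Sp₄(3)`. -/

set_option autoImplicit false

namespace Cfsg.Agent.Asch

open Matrix Cfsg.Geo
open scoped Kronecker

variable {ι κ μ : Type} [Fintype ι] [DecidableEq ι] [Fintype κ] [DecidableEq κ] [Fintype μ]
  [DecidableEq μ] {F : Type*} [Field F]

local notation "rf" => RingEquiv.refl
local notation "kr" => GeneralLinearGroup.kronecker

theorem eq_tp_of_single {e : ι ≃ κ} {P : GL ι F} {x : Matrix κ κ F} {z : Matrix ι ι F}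
    (h : ∀ p, z *ᵥ tv e P (Pi.single p 1) = tv e P (x *ᵥ Pi.single p 1)) : z = tp e P x :=
  eq_tp_of_mulVec (LinearMap.congr_fun ((Pi.basisFun F κ).ext (f₁ := toLin' z ∘ₗ (tv e P).toLinearMap)
    (f₂ := (tv e P).toLinearMap ∘ₗ toLin' x) fun p => by simpa using h p))

/-- The flip of the two tensor factors. -/
def sw (κ : Type) [Fintype κ] [DecidableEq κ] (F : Type*) [Field F] : GL (κ × κ) F :=
  monoGL (Equiv.prodComm κ κ) 1

theorem cj_sw (a b : Matrix κ κ F) : cj (sw κ F) (a ⊗ₖ b) = b ⊗ₖ a := by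
  rw [cj_eq_iff]
  refine ext_mulVec fun v => funext fun ⟨i, j⟩ => ?_
  have h : ∀ w : κ × κ → F, (sw κ F).val *ᵥ w = fun p => w p.swap := fun w => funext fun p => by
    simpa [sw, coe_monoGL] using mono_mulVec (Equiv.prodComm κ κ) (fun _ => (1 : F)) w p.swap
  rw [← mulVec_mulVec, ← mulVec_mulVec, h, h]
  simp only [mulVec, dotProduct, Prod.swap_prod_mk]
  rw [← (Equiv.prodComm κ κ).sum_comp]
  exact Finset.sum_congr rfl fun ⟨k, l⟩ _ => by simp [mul_comm]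

theorem sw_conj (a b : GL κ F) : sw κ F * kr a b * (sw κ F)⁻¹ = kr b a :=
  Units.ext (by rw [← cj_coe, coe_kronecker, cj_sw, coe_kronecker])

theorem det_sw : (sw (Fin 2) F).val.det = -1 := by
  have : Equiv.Perm.sign (Equiv.prodComm (Fin 2) (Fin 2)) = -1 := by decide
  simp [sw, coe_monoGL, det_mono, this]

theorem sesq_kron {σ : F ≃+* F} {l₁ l₂ : F} {G₁ : Matrix κ κ F} {G₂ : Matrix μ μ F}
    (h₁ : Sesq σ l₁ (formOfGram σ G₁)) (h₂ : Sesq σ l₂ (formOfGram σ G₂)) :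
    Sesq σ (l₁ * l₂) (formOfGram σ (G₁ ⊗ₖ G₂)) := by
  have e1 := h₁.gram_transpose
  have e2 := h₂.gram_transpose
  have d1 := h₁.gram_det_ne
  have d2 := h₂.gram_det_ne
  rw [gramMatrix_formOfGram] at e1 e2 d1 d2
  refine sesq_formOfGram h₁.invol (by
    rw [map_mul]; linear_combination l₂ * σ l₂ * h₁.eps + h₂.eps) (by simp [det_kronecker, d1, d2]) ?_
  rw [← kroneckerMap_transpose, e1, e2, smul_kronecker, kronecker_smul, smul_smul]
  congr 1; ext; simp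

variable [Fintype F]

theorem sesq_JJ : Sesq (rf F) 1 (formOfGram (rf F) (J2 F ⊗ₖ J2 F)) := by
  simpa using sesq_kron (sesq_J2 (F := F)) sesq_J2

theorem adj_J2 {a : Matrix (Fin 2) (Fin 2) F} (h : a.trace = 0) :
    adj (rf F) (formOfGram (rf F) (J2 F)) a = -a := sesq_J2.adj_eq_of_gram (by
  rw [gramMatrix_formOfGram, trace_fin_two] at *
  ext i j; fin_cases i <;> fin_cases j <;> simp [J2, mul_apply, Fin.sum_univ_two] <;> grind)

omit [Fintype F] in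
theorem sq_of_trace {a : Matrix (Fin 2) (Fin 2) F} (h : a.trace = 0) : a * a = (-a.det) • 1 := by
  rw [trace_fin_two] at h
  ext i j; fin_cases i <;> fin_cases j <;> simp [mul_apply, Fin.sum_univ_two, det_fin_two] <;> grind

theorem skew_JJ (h2 : (2 : F) ≠ 0) {x : Matrix (Fin 2 × Fin 2) (Fin 2 × Fin 2) F}
    (h : adj (rf F) (formOfGram (rf F) (J2 F ⊗ₖ J2 F)) x = -x) {c : F} (hc : x * x = c • 1) :
    (∃ a, x = a ⊗ₖ (1 : Matrix (Fin 2) (Fin 2) F)) ∨ ∃ a, x = (1 : Matrix (Fin 2) (Fin 2) F) ⊗ₖ a := by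
  obtain ⟨a, b, ha, hb, rfl⟩ : ∃ a b : Matrix (Fin 2) (Fin 2) F, a.trace = 0 ∧ b.trace = 0 ∧
      x = a ⊗ₖ 1 + 1 ⊗ₖ b := by
    have h1 := sesq_JJ.gram_mul_adj x
    rw [h, gramMatrix_formOfGram, ← ext_iff] at h1
    simp [J2, mul_apply, Fintype.sum_prod_type, Fin.forall_fin_two] at h1
    refine ⟨!![(x (0, 0) (0, 0) + x (0, 1) (0, 1)) / 2, x (0, 0) (1, 0);
      x (1, 0) (0, 0), -(x (0, 0) (0, 0) + x (0, 1) (0, 1)) / 2],
      !![(x (0, 0) (0, 0) - x (0, 1) (0, 1)) / 2, x (0, 0) (0, 1);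
      x (0, 1) (0, 0), -(x (0, 0) (0, 0) - x (0, 1) (0, 1)) / 2], by simp; ring, by simp; ring, ?_⟩
    ext ⟨i, j⟩ ⟨k, l⟩
    fin_cases i <;> fin_cases j <;> fin_cases k <;> fin_cases l <;> simp <;> grind
  have h1 : a ⊗ₖ b = ((2 : F)⁻¹ * (c + a.det + b.det)) • 1 := by
    simp only [add_mul, mul_add, ← mul_kronecker_mul, sq_of_trace ha, sq_of_trace hb, mul_one,
      one_mul, smul_kronecker, kronecker_smul, one_kronecker_one] at hc
    rw [mul_smul, eq_inv_smul_iff₀ h2, two_smul, add_smul, add_smul, ← hc]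
    module
  have h3 := congrArg trace h1
  rw [trace_kronecker, ha, zero_mul, trace_smul, trace_one] at h3
  have h4 : ((Fintype.card (Fin 2 × Fin 2) : ℕ) : F) ≠ 0 := by
    rw [show ((Fintype.card (Fin 2 × Fin 2) : ℕ) : F) = 2 * 2 by simp; norm_num]
    exact mul_ne_zero h2 h2
  rw [(mul_eq_zero.1 h3.symm).resolve_right h4, zero_smul] at h1
  by_cases h0 : a = 0
  · exact Or.inr ⟨b, by simp [h0]⟩
  · obtain ⟨i, j, hij⟩ : ∃ i j, a i j ≠ 0 := by
      by_contra hc; push Not at hc; exact h0 (ext hc)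
    obtain rfl : b = 0 := ext fun k l => by simpa [hij] using congrFun (congrFun h1 (i, k)) (j, l)
    exact Or.inl ⟨a, by simp⟩

/-- Similarities of `O₄⁺` preserve or interchange the two tensor factors. -/
theorem o4_cases (h2 : (2 : F) ≠ 0) {g : GL (Fin 2 × Fin 2) F}
    (hg : g ∈ similarityGroup (formOfGram (rf F) (J2 F ⊗ₖ J2 F))) :
    ∃ a b, g = kr a b ∨ g = sw _ F * kr a b := by
  obtain ⟨φ, hφ⟩ : ∃ φ : Matrix (Fin 2) (Fin 2) F →ₐ[F] Matrix (Fin 2 × Fin 2) (Fin 2 × Fin 2) F,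
      ∀ a, φ.toLinearMap a = cj g (a ⊗ₖ 1) :=
    ⟨(cj g).toAlgHom.comp (lk (Fin 2) (Fin 2) F), fun a => by
      rw [AlgHom.toLinearMap_apply, AlgHom.comp_apply, lk_apply]; rfl⟩
  generalize φ.toLinearMap = φ at hφ
  have h1 : (LinearMap.ker (traceLinearMap (Fin 2) F F) : Set (Matrix (Fin 2) (Fin 2) F)) ⊆
      (lk (Fin 2) (Fin 2) F).range.toSubmodule.comap φ ∪
        (rk (Fin 2) (Fin 2) F).range.toSubmodule.comap φ := fun a ha => by
    have ha : a.trace = 0 := ha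
    have := skew_JJ h2 (x := cj g (a ⊗ₖ 1)) (c := -a.det) (by
      rw [sesq_JJ.adj_cj hg, sesq_JJ.adj_kron sesq_J2 sesq_J2 (c := 1)
        (by rw [gramMatrix_formOfGram, one_smul]), adj_J2 ha, sesq_J2.adj_one, ← map_neg,
        ← neg_one_smul F a, smul_kronecker, neg_one_smul]) (by
      rw [← map_mul, ← mul_kronecker_mul, sq_of_trace ha, smul_kronecker, map_smul]; simp)
    rw [← hφ] at this
    exact this.imp (fun ⟨b, h⟩ => ⟨b, h.symm⟩) fun ⟨b, h⟩ => ⟨b, h.symm⟩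
  have h3 : ∀ A : Subalgebra F (Matrix (Fin 2 × Fin 2) (Fin 2 × Fin 2) F),
      LinearMap.ker (traceLinearMap (Fin 2) F F) ≤ A.toSubmodule.comap φ →
      ∀ a : Matrix (Fin 2) (Fin 2) F, cj g (a ⊗ₖ 1) ∈ A := fun A h a => by
    have := h (show a - (a.trace / 2) • 1 ∈ _ by simp [h2])
    rw [Submodule.mem_comap, map_sub, map_smul, hφ, hφ, one_kronecker_one, map_one] at this
    simpa using add_mem this (A.smul_mem A.one_mem (a.trace / 2))
  rcases AddSubgroupClass.subset_union.1 h1 with h | h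
  · obtain ⟨a, b, h⟩ := kron_of_norm g fun a => let ⟨b, h⟩ := h3 _ h a; ⟨b, h.symm⟩
    exact ⟨a, b, Or.inl h⟩
  · obtain ⟨a, b, h⟩ := kron_of_norm ((sw _ F)⁻¹ * g) fun a => by
      obtain ⟨b, h⟩ := h3 _ h a
      exact ⟨b, by rw [cj_mul, ← h, ← cj_inv_cj (sw _ F) (b ⊗ₖ 1), cj_sw]; rfl⟩
    exact ⟨a, b, Or.inr (inv_mul_eq_iff_eq_mul.1 h)⟩

omit [Fintype F] in
theorem Sesq.exists_JJ {f : (ι → F) → (ι → F) → F} (hf : Sesq (rf F) 1 f) (h2 : (2 : F) ≠ 0)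
    (hn : Fintype.card ι = 4) (hp : IsPlusTypeOn (fun v => f v v) ⊤) :
    ∃ (e : ι ≃ Fin 2 × Fin 2) (P : GL ι F), gramMatrix (Asch.pull e P f) = J2 F ⊗ₖ J2 F := by
  obtain ⟨U, -, h1, h3⟩ := hp
  have hS : hf.bilin.IsSymm := ⟨fun x y => (hf.herm x y).trans (one_mul _)⟩
  obtain ⟨a, b, h, -⟩ := Geom.Formed.Nondeg.exists_isHyp_of_totSing
    (Φ := .ofSymm h2 hf.bilin hS) hf.nondeg_left (U := U) (k := 2)
    (((Geom.Formed.ofSymm h2 hf.bilin hS).totSing_iff_B h2 rfl).2 fun x hx y hy => by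
      have := h1 _ (add_mem hx hy)
      simp only [hf.add_left, hf.add_right, h1 x hx, h1 y hy, hf.herm y x] at this
      exact (mul_eq_zero.1 (show 2 * f x y = 0 by simpa [two_mul] using this)).resolve_left h2)
    (by simp [hn] at h3; omega)
  have e1 : ∀ i j, f (a i) (a j) = 0 := h.ee
  have e2 : ∀ i j, f (b i) (b j) = 0 := h.ff
  have e3 : ∀ i j, f (a i) (b j) = if i = j then 1 else 0 := h.ef
  have e4 : ∀ i j, f (b i) (a j) = if i = j then 1 else 0 := h.fe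
  obtain ⟨e, P, -, h⟩ := hf.exists_frame_of_gram (G := J2 F ⊗ₖ J2 F)
    (fun p : Fin 2 × Fin 2 => !![a 0, a 1; -b 1, b 0] p.1 p.2) (by simp [hn]) (by
      rintro ⟨i, j⟩ ⟨k, l⟩
      fin_cases i <;> fin_cases j <;> fin_cases k <;> fin_cases l <;>
        simp [J2, e1, e2, e3, e4, hf.neg_left, hf.neg_right])
    (by simp [det_kronecker, det_J2])
  exact ⟨e, P, h⟩

section triple

variable {ε : F} {f : (ι → F) → (ι → F) → F} {H : Subgroup (GL ι F)}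

omit [Fintype F] in
theorem TensF.smul_fst {σ : F ≃+* F} {k m : ℕ} {e : ι ≃ Fin k × Fin m} {P : GL ι F}
    {G₁ : Matrix (Fin k) (Fin k) F} {G₂ : Matrix (Fin m) (Fin m) F} {l₁ l₂ l c : F}
    (h : TensF σ f H e P (c • G₁) G₂ l₁ l₂) (hc : c ≠ 0) (h1 : Sesq σ l (formOfGram σ G₁)) :
    TensF σ f H e P G₁ G₂ l l₂ :=
  let ⟨d, hd, hG⟩ := h.gram
  ⟨h.two_k, h.two_m, h.le, ⟨d * c, mul_ne_zero hd hc, by rw [hG, smul_kronecker, smul_smul]⟩, h1,
    h.snd⟩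

theorem TensF.toJ {m : ℕ} {e : ι ≃ Fin 2 × Fin m} {P : GL ι F} {G₁ : Matrix (Fin 2) (Fin 2) F}
    {G₂ : Matrix (Fin m) (Fin m) F} {l₂ : F} (h : TensF (rf F) f H e P G₁ G₂ (-1) l₂)
    (h2 : (2 : F) ≠ 0) : TensF (rf F) f H e P (J2 F) G₂ (-1) l₂ := by
  obtain ⟨c, hc, rfl⟩ := alt_two h.fst (h.fst.alt_of_neg_one h2)
  exact h.smul_fst hc sesq_J2

/-- A triple tensor product of matrices in nested frames. -/
noncomputable def trip {k : ℕ} (e : ι ≃ Fin k × κ) (P : GL ι F) (e' : κ ≃ μ × μ) (P' : GL κ F)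
    (a : Matrix (Fin k) (Fin k) F) (b c : Matrix μ μ F) : Matrix ι ι F :=
  tp e P (a ⊗ₖ tp e' P' (b ⊗ₖ c))

variable {k : ℕ} {e : ι ≃ Fin k × Fin 4} {P : GL ι F} {e' : Fin 4 ≃ Fin 2 × Fin 2}
  {P' : GL (Fin 4) F}

omit [Fintype F] in
theorem trip_mul (a a' : Matrix (Fin k) (Fin k) F) (b b' c c' : Matrix (Fin 2) (Fin 2) F) :
    trip e P e' P' a b c * trip e P e' P' a' b' c' = trip e P e' P' (a * a') (b * b') (c * c') := by
  simp only [trip, ← map_mul, ← mul_kronecker_mul]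

theorem TensF.o4 {G₁ : Matrix (Fin k) (Fin k) F} {G₂ : Matrix (Fin 4) (Fin 4) F} {l₁ : F}
    (h : TensF (rf F) f H e P G₁ G₂ l₁ 1) (hf : Sesq (rf F) ε f) (hs : H ≤ similarityGroup f)
    (h2 : (2 : F) ≠ 0) (hG : gramMatrix (pull e' P' (formOfGram (rf F) G₂)) = J2 F ⊗ₖ J2 F) :
    (∀ g ∈ H, ∃ a b c, g = tg e P (kr a (tg e' P' (kr b c))) ∨
      g = tg e P (kr a (tg e' P' (sw _ F * kr b c)))) ∧
    ∀ x y z, adj (rf F) f (trip e P e' P' x y z) = trip e P e' P' (adj (rf F) (formOfGram (rf F) G₁) x)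
      (adj (rf F) (formOfGram (rf F) (J2 F)) y) (adj (rf F) (formOfGram (rf F) (J2 F)) z) := by
  refine ⟨fun g hg => ?_, fun x y z => ?_⟩
  · obtain ⟨a, b, rfl⟩ := mem_tensorProductSubgroup.1 (h.le hg)
    obtain ⟨b, rfl⟩ := (tg e' P').surjective b
    have h1 := tg_mem_sim.1 (h.sim_pair hf (tg_mem_sim.1 (hs hg))).2
    rw [(h.snd.pull e' P').eq_fun, hG] at h1
    obtain ⟨c, d, rfl | rfl⟩ := o4_cases h2 h1
    exacts [⟨a, c, d, Or.inl rfl⟩, ⟨a, c, d, Or.inr rfl⟩]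
  · rw [trip, hf.adj_tp, h.adj_eq hf, h.snd.adj_tp, (h.snd.pull e' P').adj_kron sesq_J2 sesq_J2
      (c := 1) (by rw [hG, one_smul]), trip]

omit [Fintype F] in
theorem cj_trip (a : GL (Fin k) F) (b c : GL (Fin 2) F) (x : Matrix (Fin k) (Fin k) F)
    (y z : Matrix (Fin 2) (Fin 2) F) :
    cj (tg e P (kr a (tg e' P' (kr b c)))) (trip e P e' P' x y z) =
      trip e P e' P' (cj a x) (cj b y) (cj c z) ∧
    cj (tg e P (kr a (tg e' P' (sw _ F * kr b c)))) (trip e P e' P' x y z) =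
      trip e P e' P' (cj a x) (cj c z) (cj b y) := by
  simp only [trip, cj_tg, cj_kronecker, cj_mul, cj_sw, and_self]

/-- The three factors as algebra homomorphisms. -/
noncomputable def tripHom (e : ι ≃ Fin 2 × Fin 4) (P : GL ι F) (e' : Fin 4 ≃ Fin 2 × Fin 2)
    (P' : GL (Fin 4) F) : Fin 3 → Matrix (Fin 2) (Fin 2) F →ₐ[F] Matrix ι ι F :=
  ![(tp e P).toAlgHom.comp (lk _ _ F),
    (tp e P).toAlgHom.comp ((rk _ _ F).comp ((tp e' P').toAlgHom.comp (lk _ _ F))),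
    (tp e P).toAlgHom.comp ((rk _ _ F).comp ((tp e' P').toAlgHom.comp (rk _ _ F)))]

omit [Fintype F] in
theorem tripHom_apply (e : ι ≃ Fin 2 × Fin 4) (a : Matrix (Fin 2) (Fin 2) F) :
    tripHom e P e' P' 0 a = trip e P e' P' a 1 1 ∧ tripHom e P e' P' 1 a = trip e P e' P' 1 a 1 ∧
      tripHom e P e' P' 2 a = trip e P e' P' 1 1 a := by
  simp [tripHom, trip, lk_apply, rk_apply]

/-- `Sp₂ ⊗ O₄⁺` lies in `Sp₂ ≀ S₃`. -/
theorem TensF.wrF_of_plus {e : ι ≃ Fin 2 × Fin 4} {G₂ : Matrix (Fin 4) (Fin 4) F}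
    (h : TensF (rf F) f H e P (J2 F) G₂ (-1) 1) (hf : Sesq (rf F) (-1) f)
    (hs : H ≤ similarityGroup f) (h2 : (2 : F) ≠ 0)
    (hG : gramMatrix (pull e' P' (formOfGram (rf F) G₂)) = J2 F ⊗ₖ J2 F) :
    ∃ (e : ι ≃ (Fin 3 → Fin 2)) (P : GL ι F) (G : Matrix (Fin 2) (Fin 2) F),
      WrF (rf F) f H e P G (-1) := by
  haveI : Nonempty ι := ⟨e.symm (0, 0)⟩
  obtain ⟨h1, h3⟩ := h.o4 hf hs h2 hG
  have h4 := tripHom_apply (P := P) (e' := e') (P' := P') e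
  obtain ⟨E, T, hT⟩ := exists_wreath_frame (tripHom e P e' P') (fun i j hij a b => by
    fin_cases i <;> fin_cases j <;> simp [h4, trip_mul] at hij ⊢) fun x hx => by
    obtain ⟨x, rfl⟩ := (tp e P).surjective x
    obtain ⟨y, rfl⟩ := kron_of_comm (x := x) fun a => (tp e P).injective (by
      simpa [h4, trip] using hx 0 a)
    obtain ⟨y, rfl⟩ := (tp e' P').surjective y
    have h5 : ∀ z, (1 : Matrix (Fin 2) (Fin 2) F) ⊗ₖ tp e' P' y * 1 ⊗ₖ tp e' P' z =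
        1 ⊗ₖ tp e' P' z * 1 ⊗ₖ tp e' P' y → y * z = z * y := fun z hz => by
      simp only [← rk_apply, ← map_mul] at hz
      exact (tp e' P').injective (algHom_injective _ hz)
    obtain ⟨z, rfl⟩ := kron_of_comm (x := y) fun a => h5 _ ((tp e P).injective (by
      simpa [h4, trip] using hx 1 a))
    obtain ⟨c, rfl⟩ := scalar_of_comm (x := z) fun a => algHom_injective (rk (Fin 2) (Fin 2) F) (by
      simpa only [map_mul, rk_apply] using h5 _ ((tp e P).injective (by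
        simpa [h4, trip] using hx 2 a)))
    exact ⟨c, by simp [kronecker_smul]⟩
  obtain ⟨G, c, l, hd, hc, hl, hG, hl', h5⟩ := (hf.pull E T).gram_ptens
    (adj (rf F) (formOfGram (rf F) (J2 F))) fun i a => (tp E T).injective (by
      rw [← hf.adj_tp, ← hT, ← hT]
      fin_cases i <;> simp [h4, h3, sesq_J2.adj_one, -RingEquiv.coe_refl])
  have h6 : l = -1 := by
    have : l ^ 3 = -1 := mul_left_cancel₀ hc (by simpa [mul_comm] using h5)
    simp only [RingEquiv.refl_apply] at hl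
    linear_combination this - l * hl
  subst h6
  refine ⟨E, T, G, by omega, le_rfl, le_tensorWreathSubgroup fun g hg => ?_, ⟨c, hc, hG⟩,
    sesq_formOfGram (fun _ => rfl) hl hd hl'⟩
  simp only [← hT]
  obtain ⟨a, b, c, rfl | rfl⟩ := h1 g hg
  · refine ⟨1, fun i x => ?_⟩
    fin_cases i <;> simp [h4, cj_trip] <;> exact ⟨_, rfl⟩
  · refine ⟨Equiv.swap 1 2, fun i x => ?_⟩
    fin_cases i <;> simp [h4, cj_trip, Equiv.swap_apply_def, -map_mul] <;> exact ⟨_, rfl⟩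

end triple

section three

variable {ε : F} {f : (ι → F) → (ι → F) → F} {H : Subgroup (GL ι F)}

/-- `H` normalises a symplectic-type `2`-group of isometries (with enough elements of order 4). -/
def NSym (f : (ι → F) → (ι → F) → F) (H : Subgroup (GL ι F)) : Prop :=
  ∃ N : Subgroup (GL ι F), Sym N 2 ∧ Nrm H N ∧ N ≤ Iso f ∧
    ∀ a ∈ N, a ∉ scalars ι F → ∃ x ∈ N, x.val * x.val = -1 ∧ cm x a ≠ 1

theorem TensF.nsym (h3 : Fintype.card F = 3) {m : ℕ} {e : ι ≃ Fin 2 × Fin m} {P : GL ι F}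
    {G₂ : Matrix (Fin m) (Fin m) F} {l₂ : F} (h : TensF (rf F) f H e P (J2 F) G₂ (-1) l₂)
    (hf : Sesq (rf F) ε f) (hs : H ≤ similarityGroup f) {B : Subgroup (GL (Fin m) F)}
    (hB : Sym B 2) (hn : Nrm (similarityGroup (formOfGram (rf F) G₂)) B)
    (hi : B ≤ Iso (formOfGram (rf F) G₂)) : NSym f H :=
  let ⟨_, _, hG⟩ := h.gram
  ⟨_, (sym_Q8 (two_ne_of_three h3)).tprod hB e P,
    nrm_tprod h.le (nrm_Q8 h3 _) (hn.mono (h.swap.fstG_le_sim hf hs)),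
    tprod_le_iso hf hG (Q8_le_iso h3) hi, hx_tprod h3 hB e P⟩

theorem nrm_QQ (h3 : Fintype.card F = 3) (hf : Sesq (rf F) 1 f) {e : ι ≃ Fin 2 × Fin 2}
    {P : GL ι F} (hG : gramMatrix (pull e P f) = J2 F ⊗ₖ J2 F) : Nrm (similarityGroup f)
      (tprod e P (pauli (mI F) (mH (two_ne_of_three h3))) (pauli (mI F) (mH (two_ne_of_three h3)))) := by
  intro g hg x hx
  obtain ⟨g, rfl⟩ := (tg e P).surjective g
  have h1 := tg_mem_sim.1 hg
  rw [(hf.pull e P).eq_fun, hG] at h1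
  obtain ⟨a, ha, b, hb, rfl⟩ := mem_tprod.1 hx
  have hQ := nrm_Q8 h3 ⊤
  obtain ⟨c, d, rfl | rfl⟩ := o4_cases (two_ne_of_three h3) h1
  · exact mem_tprod.2 ⟨_, hQ c trivial a ha, _, hQ d trivial b hb, by
      simp only [kronecker_mul, kronecker_inv, map_mul, map_inv]⟩
  · refine mem_tprod.2 ⟨_, hQ d trivial b hb, _, hQ c trivial a ha, ?_⟩
    rw [← sw_conj]
    simp only [kronecker_mul, kronecker_inv, map_mul, map_inv, _root_.mul_inv_rev, mul_assoc]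

theorem TensF.nsym_of_plus (h3 : Fintype.card F = 3) {e : ι ≃ Fin 2 × Fin 4} {P : GL ι F}
    {G₂ : Matrix (Fin 4) (Fin 4) F} (h : TensF (rf F) f H e P (J2 F) G₂ (-1) 1)
    (hf : Sesq (rf F) ε f) (hs : H ≤ similarityGroup f) {e' : Fin 4 ≃ Fin 2 × Fin 2}
    {P' : GL (Fin 4) F} (hG : gramMatrix (pull e' P' (formOfGram (rf F) G₂)) = J2 F ⊗ₖ J2 F) :
    NSym f H :=
  h.nsym h3 hf hs ((sym_Q8 _).tprod (sym_Q8 _) e' P') (nrm_QQ h3 h.snd hG)
    (tprod_le_iso h.snd (c := 1) (by rw [hG, one_smul]) (Q8_le_iso h3) (Q8_le_iso h3))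

theorem lk_of_anti (h2 : (2 : F) ≠ 0) {y : Matrix (Fin 2 × Fin 2) (Fin 2 × Fin 2) F}
    (h1 : (1 : Matrix (Fin 2) (Fin 2) F) ⊗ₖ J2 F * y = yᵀ * 1 ⊗ₖ J2 F)
    (h3 : y * (mI F).val ⊗ₖ (1 : Matrix (Fin 2) (Fin 2) F) = -((mI F).val ⊗ₖ 1 * y)) :
    ∃ b, y = b ⊗ₖ (1 : Matrix (Fin 2) (Fin 2) F) := by
  rw [← ext_iff] at h1 h3
  simp [J2, coe_mI, mul_apply, Fintype.sum_prod_type, Fin.forall_fin_two] at h1 h3
  refine ⟨of fun i j => y (i, 0) (j, 0), ?_⟩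
  ext ⟨i, j⟩ ⟨k, l⟩
  fin_cases i <;> fin_cases j <;> fin_cases k <;> fin_cases l <;> simp <;> grind

/-- The normaliser of a skew element of square `-1` in `Sp₄(3)`. -/
theorem nsym_of_skew (h3 : Fintype.card F = 3) (hn : Fintype.card ι = 4) (hf : Sesq (rf F) (-1) f)
    (hs : H ≤ similarityGroup f) {j : Matrix ι ι F} (hj : j * j = -1) (ha : adj (rf F) f j = -j)
    (hH : ∀ g ∈ H, cj g j = j ∨ cj g j = -j) : NSym f H := by
  have h2 := two_ne_of_three h3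
  have h0 := hf.alt_of_neg_one h2
  have hc : ∀ u v, f u v = -f v u := fun u v => by simpa using hf.herm u v
  have e1 : ∀ u v, f (j *ᵥ u) v = -f u (j *ᵥ v) := fun u v => by
    rw [hf.adj_spec, ha, neg_mulVec, hf.neg_right]
  have e2 : ∀ v, j *ᵥ j *ᵥ v = -v := fun v => by rw [mulVec_mulVec, hj, neg_mulVec, one_mulVec]
  obtain ⟨v, -, hv, h4⟩ := Geom.exists_singular_of_three_le
    (LinearMap.BilinMap.toQuadraticMap (hf.bilin.compl₂ (toLin' j))) ⊤ (by simp [hn])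
  replace h4 : f v (j *ᵥ v) = 0 := h4
  obtain ⟨u, h5, h6⟩ : ∃ u, f v u = 1 ∧ f v (j *ᵥ u) = 0 := by
    have : ¬ hf.perp (F ∙ (j *ᵥ v)) ≤ hf.perp (F ∙ v) := fun hle => by
      have h5 : v ∈ hf.perp (hf.perp (F ∙ (j *ᵥ v))) := hf.mem_perp.2 fun w hw =>
        hf.eq_zero_comm.1 (hf.mem_perp.1 (hle hw) v (Submodule.mem_span_singleton_self v))
      rw [hf.perp_perp] at h5
      obtain ⟨c, h5⟩ := Submodule.mem_span_singleton.1 h5
      have h6 : (c * c + 1) • v = 0 := by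
        have := congrArg (j *ᵥ ·) h5
        simp only [mulVec_smul, e2] at this
        rw [add_smul, one_smul, mul_smul]
        nth_rw 2 [← h5]
        rw [← this]; simp
      rcases three_cases h3 c with h | h | h <;> simp [h, hv, one_add_one_eq_two, h2] at h6
    obtain ⟨u, hu, hu'⟩ := SetLike.not_le_iff_exists.1 this
    have h5 : f v u ≠ 0 := fun h => hu' (hf.mem_perp.2 fun w hw => by
      obtain ⟨c, rfl⟩ := Submodule.mem_span_singleton.1 hw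
      rw [hf.smul_right, hc, h]; simp)
    have h6 := hf.mem_perp.1 hu _ (Submodule.mem_span_singleton_self _)
    refine ⟨(f v u)⁻¹ • u, by simp [hf.smul_right, h5], ?_⟩
    rw [mulVec_smul, hf.smul_right, ← neg_neg (f v (j *ᵥ u)), ← e1, ← hc, h6, mul_zero]
  obtain ⟨w, h5, h6, h7⟩ : ∃ w, f v w = 1 ∧ f v (j *ᵥ w) = 0 ∧ f w (j *ᵥ w) = 0 := by
    refine ⟨u + f u (j *ᵥ u) • j *ᵥ v, ?_, ?_, ?_⟩ <;>
      simp only [mulVec_add, mulVec_smul, e2, hf.add_left, hf.add_right, hf.smul_left, hf.smul_right,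
        hf.neg_right, e1, h0, h4, h5, h6, hc u v, RingEquiv.refl_apply]
    · simp
    · simp
    · linear_combination f u (j *ᵥ u) * three_eq_zero h3
  obtain ⟨e, P, hP, hG⟩ := hf.exists_frame_of_gram (G := (1 : Matrix (Fin 2) (Fin 2) F) ⊗ₖ J2 F)
    (fun p : Fin 2 × Fin 2 => !![v, w; j *ᵥ v, j *ᵥ w] p.1 p.2) (by simp [hn]) (by
      rintro ⟨i, j⟩ ⟨k, l⟩
      fin_cases i <;> fin_cases j <;> fin_cases k <;> fin_cases l <;>
        simp [J2, e1, e2, h0, h4, h5, h6, h7, hc w v, hc w (j *ᵥ v), hf.neg_right])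
    (by simp [det_kronecker, det_J2])
  have h8 : j = tp e P ((mI F).val ⊗ₖ 1) := eq_tp_of_single fun ⟨a, b⟩ => by
    have : ((mI F).val ⊗ₖ (1 : Matrix (Fin 2) (Fin 2) F)) *ᵥ Pi.single (a, b) 1 =
        ![Pi.single (1, b) 1, -Pi.single (0, b) 1] a := by
      ext ⟨k, l⟩
      fin_cases a <;> fin_cases b <;> fin_cases k <;> fin_cases l <;> simp [coe_mI]
    rw [this]
    fin_cases a <;> fin_cases b <;> simp [hP, e2]
  have hf' := hf.pull e P
  have h9 : TensF (rf F) f H e P 1 (J2 F) 1 (-1) := by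
    refine ⟨le_rfl, le_rfl, fun g hg => ?_, ⟨1, one_ne_zero, by rw [hG, one_smul]⟩,
      sesq_one fun _ => rfl, sesq_J2⟩
    obtain ⟨g, rfl⟩ := (tg e P).surjective g
    have hI : cj g ((mI F).val ⊗ₖ 1) = (mI F).val ⊗ₖ 1 ∨
        cj g ((mI F).val ⊗ₖ 1) = -((mI F).val ⊗ₖ 1) := by
      simpa only [h8, cj_tg, ← map_neg, (tp e P).injective.eq_iff] using hH _ hg
    obtain ⟨z, hz⟩ := lk_of_anti h2 (y := cj g ((mZ F).val ⊗ₖ 1)) (by
      have := hf'.gram_mul_adj (cj g ((mZ F).val ⊗ₖ 1))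
      rw [hf'.adj_cj (tg_mem_sim.1 (hs hg)), hf'.adj_eq_of_gram (y := (mZ F).val ⊗ₖ 1), hG] at this
      · exact this
      · rw [hG]
        ext ⟨i, j⟩ ⟨k, l⟩
        fin_cases i <;> fin_cases j <;> fin_cases k <;> fin_cases l <;>
          simp [J2, coe_mZ, mul_apply, Fintype.sum_prod_type]) (by
      have : cj g ((mZ F).val ⊗ₖ (1 : Matrix (Fin 2) (Fin 2) F)) * cj g ((mI F).val ⊗ₖ 1) =
          -(cj g ((mI F).val ⊗ₖ 1) * cj g ((mZ F).val ⊗ₖ 1)) := by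
        rw [← map_mul, ← map_mul, ← map_neg, ← mul_kronecker_mul, ← mul_kronecker_mul,
          ← neg_one_smul F, ← smul_kronecker]
        simp [coe_mI, coe_mZ]
      rcases hI with h | h <;> simpa [h, neg_eq_iff_eq_neg] using this)
    obtain ⟨a, b, rfl⟩ := kron_of_norm g fun a => by
      let A := (lk (Fin 2) (Fin 2) F).range.comap ((cj g).toAlgHom.comp (lk _ _ F))
      have hA : ∀ a, a ∈ A ↔ ∃ b, cj g (a ⊗ₖ 1) = b ⊗ₖ 1 := fun a => by
        simp only [A, Subalgebra.mem_comap, AlgHom.mem_range, AlgHom.comp_apply, lk_apply, eq_comm]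
        rfl
      have hI : (mI F).val ∈ A := (hA _).2 (hI.elim (⟨_, ·⟩) fun h => ⟨-(mI F).val, by
        rw [h, ← neg_one_smul F (mI F).val, smul_kronecker, neg_one_smul]⟩)
      have hZ : (mZ F).val ∈ A := (hA _).2 ⟨z, hz⟩
      rw [← hA, show a = ((a 0 0 + a 1 1) / 2) • 1 + ((a 1 0 - a 0 1) / 2) • (mI F).val +
        ((a 0 0 - a 1 1) / 2) • (mZ F).val + ((a 0 1 + a 1 0) / 2) • ((mI F).val * (mZ F).val) by
          ext i j; fin_cases i <;> fin_cases j <;> simp [coe_mI, coe_mZ] <;> field_simp <;> ring]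
      exact add_mem (add_mem (add_mem (A.smul_mem A.one_mem _) (A.smul_mem hI _)) (A.smul_mem hZ _))
        (A.smul_mem (mul_mem hI hZ) _)
    exact mem_tensorProductSubgroup.2 ⟨a, b, rfl⟩
  exact h9.swap.nsym h3 hf hs (sym_D8 h2) (nrm_D8 h3 le_rfl) (D8_le_iso h3)

end three

end Cfsg.Agent.Asch
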