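import Cfsg.Agent.Asch.OType

/-! Rational structures of quadratic forms over subfields. -/

set_option autoImplicit false

namespace Cfsg.Agent.Asch

open Matrix Cfsg.Geo Module
open scoped Kronecker

variable {ι κ : Type} [Fintype ι] [DecidableEq ι] [Fintype κ] [DecidableEq κ]
  {F : Type*} [Field F] {Q : (ι → F) → F} {W : Submodule F (ι → F)} {K : Subfield F}

local notation "rf" => RingEquiv.refl
local notation "pl" => QuadraticMap.polar
local notation "NQ" => IsNondegenerateQuadraticForm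
local notation "TS" => IsTotallySingularQuad
local notation "Pl" => IsPlusTypeOn

theorem nq_of_nondeg {Q : QuadraticForm F (ι → F)} (h : (Geom.Formed.ofQuad Q).Nondeg) : NQ Q := by
  refine ⟨fun c v => by rw [Q.map_smul, sq, smul_eq_mul], ⟨QuadraticMap.polar_add_left Q,
    QuadraticMap.polar_smul_left Q, QuadraticMap.polar_add_right Q, fun c v x =>
      QuadraticMap.polar_smul_right Q c v x⟩, fun v hv => ?_⟩
  obtain ⟨x, hx⟩ := h.exists_ne hv
  exact ⟨⟨x, by rwa [QuadraticMap.polar_comm]⟩, x, hx⟩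

theorem nq_equiv (hQ : NQ Q) (a : (κ → F) ≃ₗ[F] (ι → F)) : NQ fun x => Q (a x) :=
  nq_restrict hQ (W := ⊤) (by simpa [IsNondegenerateOn, IsNondegenerateForm] using hQ.nondegenerate)
    (a.trans Submodule.topEquiv.symm)

theorem plus_equiv (a : (κ → F) ≃ₗ[F] (ι → F)) : Pl (fun x => Q (a x)) ⊤ ↔ Pl Q ⊤ :=
  plus_restrict (W := ⊤) (a.trans Submodule.topEquiv.symm)

theorem det_mem {A : Matrix ι ι F} (h : ∀ i j, A i j ∈ K) : A.det ∈ K := by
  rw [det_apply]
  exact sum_mem fun _ _ => zsmul_mem (prod_mem fun _ _ => h _ _) _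

theorem single_mem (i j : ι) {c : F} (hc : c ∈ K) : (Pi.single i c : ι → F) j ∈ K := by
  rw [Pi.single_apply]; split_ifs; exacts [hc, zero_mem _]

omit [Fintype ι] in
theorem single_eq_smul (i : ι) (c : F) : (Pi.single i c : ι → F) = c • Pi.single i 1 := by
  rw [← Pi.single_smul, smul_eq_mul, mul_one]

theorem polar_mem {P : GL ι F} {ζ : F} (h : IsQuadFormRationalStructure (fun v => ζ * Q v) K P) :
    IsFormRationalStructure (pl Q) K ζ P := fun u v hu hv => by
  rw [QuadraticMap.polar, mul_sub, mul_sub, ← mulVec_add]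
  exact sub_mem (sub_mem (h _ fun i => add_mem (hu i) (hv i)) (h u hu)) (h v hv)

theorem rescale_odd (hQ : NQ Q) (hn : Odd (Fintype.card ι)) (h1 : ∀ u, (∀ i, u i ∈ K) → Q u ∈ K)
    {P : GL ι F} {ζ : F} (hζ : ζ ≠ 0) (h : IsQuadFormRationalStructure (fun v => ζ * Q v) K P) :
    ∃ P', subfieldSubgroup K P' = subfieldSubgroup K P ∧ IsQuadFormRationalStructure Q K P' := by
  have hf := sesq_polar hQ
  obtain ⟨s, hs⟩ := hn
  have h2 : (gramMatrix (pl Q)).det ∈ K := det_mem fun i j => by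
    simpa [gramMatrix, -mulVec_single] using polar_mem (Q := Q) (P := 1) (ζ := 1) (by simpa [IsQuadFormRationalStructure])
      _ _ (single_mem i · (one_mem _)) (single_mem j · (one_mem _))
  have h3 : (ζ • gramMatrix (pull (Equiv.refl ι) P (pl Q))).det ∈ K := det_mem fun i j =>
    polar_mem h _ _ (single_mem i · (one_mem _)) (single_mem j · (one_mem _))
  rw [det_smul, hf.gram_pull, det_mul, det_mul, det_transpose, hs] at h3
  have h4 := hf.gram_det_ne
  have h5 := P.det_ne_zero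
  have h6 : ζ ^ s * P.val.det ≠ 0 := mul_ne_zero (pow_ne_zero _ hζ) h5
  refine ⟨_, subfieldSubgroup_mul_sc K P (Units.mk0 _ (inv_ne_zero h6)), fun u hu => ?_⟩
  rw [coe_mul_sc, smul_mulVec, hQ.smul]
  convert mul_mem (div_mem h2 h3) (h u hu) using 1
  simp only [Units.val_mk0, RingEquiv.coe_refl, map_id]
  field_simp
  ring

variable [Finite F]

theorem form_frob {ε ζ : F} {f : (ι → F) → (ι → F) → F} (hf : Sesq (rf F) ε f) {φ : F ≃+* F}
    (h : ∀ i j, φ (ζ * gramMatrix f i j) = ζ * gramMatrix f i j) (a b : ι → F) :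
    ζ * f (φ ∘ a) (φ ∘ b) = φ (ζ * f a b) := by
  simp only [hf.eq_formOfGram, formOfGram, Finset.mul_sum, map_sum, RingEquiv.refl_apply]
  refine Finset.sum_congr rfl fun i _ => Finset.sum_congr rfl fun j _ => ?_
  rw [show ζ * (a i * gramMatrix f i j * b j) = a i * (ζ * gramMatrix f i j) * b j by ring,
    map_mul, map_mul, h]
  simp; ring

theorem isQuadRat (hQ : NQ Q) {P : GL ι F} {ζ : F} (hG : IsFormRationalStructure (pl Q) K ζ P)
    (h : ∀ i, ζ * Q (P.val *ᵥ Pi.single i 1) ∈ K) :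
    IsQuadFormRationalStructure (fun v => ζ * Q v) K P := fun u hu => by
  rw [← Finset.univ_sum_single u]
  beta_reduce
  induction (Finset.univ : Finset ι) using Finset.induction_on with
  | empty => simp [quad_zero hQ]
  | insert i s hi ih =>
    rw [Finset.sum_insert hi, mulVec_add, quad_add Q, mul_add, mul_add]
    refine add_mem (add_mem ?_ ih) (hG _ _ (single_mem i · (hu i)) fun j => by
      rw [Finset.sum_apply]; exact sum_mem fun k _ => single_mem k j (hu k))
    rw [single_eq_smul, mulVec_smul, hQ.smul, mul_left_comm]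
    exact mul_mem (pow_mem (hu i) 2) (h i)

/-- A spanning set on which the form takes values in a subfield defines a subfield structure. -/
theorem subfield_of_set [Nonempty ι] (hQ : NQ Q) {S : Set (ι → F)} (hS : Submodule.span F S = ⊤)
    {ζ : F} (hζ : ζ ≠ 0) (h1 : ∀ u ∈ S, ζ * Q u ∈ K) (h2 : ∀ u ∈ S, ∀ v ∈ S, ζ * pl Q u v ∈ K) :
    ∃ P : GL ι F, IsQuadFormRationalStructure (fun v => ζ * Q v) K P ∧
      ∀ g : GL ι F, (∀ v ∈ S, g.val *ᵥ v ∈ S) → g ∈ subfieldSubgroup K P := by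
  obtain ⟨T, b, hb, hT⟩ := exists_gl_cols_mem hS
  have h3 : ∀ j, T.val *ᵥ Pi.single j 1 = b j := fun j => by
    rw [hT, Finset.sum_eq_single j] <;> simp +contextual
  have hf := (sesq_polar hQ).pull (Equiv.refl ι) T
  have hG : ∀ i j, ζ * gramMatrix (pull (Equiv.refl ι) T (pl Q)) i j ∈ K := fun i j => by
    change ζ * pl Q (T.val *ᵥ Pi.single i 1) (T.val *ᵥ Pi.single j 1) ∈ K
    rw [h3, h3]; exact h2 _ (hb i) _ (hb j)
  refine ⟨T, isQuadRat hQ ((sesq_polar hQ).isFormRationalStructure hG) fun i =>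
    h3 i ▸ h1 _ (hb i), fun g hg => mem_subfieldSubgroup.2 ⟨1, one_ne_zero, fun i j => ?_⟩⟩
  let φ := frob (card_eq_pow_subfield K)
  have h4 : ∀ x, T.val *ᵥ x ∈ S → φ ∘ x = x := fun x hx => sub_eq_zero.1 (hf.nondeg_left _ fun y => by
    rw [← Finset.univ_sum_single y, hf.sum_right]
    refine Finset.sum_eq_zero fun j _ => ?_
    have e1 := form_frob hf (fun i j => (mem_subfield_iff K _).1 (hG i j)) (φ := φ) x (Pi.single j 1)
    rw [show φ ∘ Pi.single j 1 = Pi.single j 1 from funext fun k =>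
      (mem_subfield_iff K _).1 (single_mem j k (one_mem _)), show φ (ζ * pull (Equiv.refl ι) T (pl Q) x (Pi.single j 1)) = _ from
      (mem_subfield_iff K _).1 (h2 _ hx (T.val *ᵥ Pi.single j 1) (h3 j ▸ hb j)), ← sub_eq_zero,
      ← mul_sub] at e1
    rw [single_eq_smul, hf.smul_right, hf.sub_left]
    exact mul_eq_zero_of_right _ ((mul_eq_zero.1 e1).resolve_left hζ))
  have h5 := h4 (cj T⁻¹ g *ᵥ Pi.single j 1) (by
    rw [cj_mulVec', inv_inv, mulVec_inv_mulVec, h3]; exact hg _ (hb j))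
  simpa using (mem_subfield_iff K _).2 (congrFun h5 i)

theorem quad_rational (hQ : NQ Q) (hn : 2 ≤ Fintype.card ι) {N : Subgroup (GL ι F)}
    (hN : gspan N = ⊤) (h : N ≤ isometryGroup F Q) {P : GL ι F}
    (hP : ∀ x ∈ N, ∀ i j, cj P⁻¹ x i j ∈ K) :
    ∃ ζ : F, ζ ≠ 0 ∧ IsQuadFormRationalStructure (fun v => ζ * Q v) K P := by
  haveI : Nonempty ι := Fintype.card_pos_iff.1 (by omega)
  have hf := sesq_polar hQ
  have hi := fun x hx => Geom.mem_isometryGroup.1 (h (x := x) hx)
  obtain ⟨ζ, hζ, hG⟩ := hf.gram_rational hN (fixesForm_iff.2 fun x hx => isom_polar (hi x hx)) hP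
  let φ := frob (card_eq_pow_subfield K)
  have h1 := form_frob (hf.pull (Equiv.refl ι) P) (φ := φ) fun i j =>
    (mem_subfield_iff K _).1 (hG i j)
  have h2 := quad_eq_zero (irr_of_gspan hN) hn
    (D := fun v => ζ * Q v - φ.symm (ζ * Q (P.val *ᵥ (φ ∘ (P⁻¹.val *ᵥ v))))) (fun u v => by
      have := h1 (P⁻¹.val *ᵥ u) (P⁻¹.val *ᵥ v)
      simp only [pull, tv_apply, Equiv.coe_refl, Function.comp_id, mulVec_inv_mulVec] at this
      rw [mulVec_add, show φ ∘ (P⁻¹.val *ᵥ u + P⁻¹.val *ᵥ v) = φ ∘ (P⁻¹.val *ᵥ u) + φ ∘ (P⁻¹.val *ᵥ v)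
        from funext fun _ => map_add _ _ _, mulVec_add, quad_add Q, quad_add Q, mul_add, mul_add,
        mul_add, mul_add, this, map_add, map_add, φ.symm_apply_apply]
      ring) (fun c v => by
      rw [mulVec_smul, show φ ∘ (c • P⁻¹.val *ᵥ v) = φ c • φ ∘ (P⁻¹.val *ᵥ v)
        from funext fun _ => map_mul _ _ _, mulVec_smul, hQ.smul, hQ.smul, mul_left_comm _ (φ c ^ 2),
        map_mul, map_pow, φ.symm_apply_apply]
      ring) fun g hg v hv => by
      rw [← cj_mulVec P⁻¹ g.val, comp_mulVec, show (cj P⁻¹ g.val).map φ = cj P⁻¹ g.val from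
        ext fun i j => (mem_subfield_iff K _).1 (hP g hg i j), ← cj_mulVec, cj_cj_inv, hi g hg, hi g hg]
      exact hv
  refine ⟨ζ, hζ, fun u hu => (mem_subfield_iff K _).2 ?_⟩
  have := h2 (P.val *ᵥ u)
  simp only [inv_mulVec_mulVec, sub_eq_zero] at this
  rw [show φ ∘ u = u from funext fun i => (mem_subfield_iff K _).1 (hu i)] at this
  exact (congrArg φ this).trans (φ.apply_symm_apply _)

open Polynomial in
theorem exists_root_two (hc : Nat.card F = Nat.card K ^ 2) {a b c : K} (ha : a ≠ 0) :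
    ∃ t : F, a * t ^ 2 + b * t + c = 0 := by
  have hd : (C a * X ^ 2 + C b * X + C c).natDegree = 2 := natDegree_quadratic ha
  by_cases hi : Irreducible (C a * X ^ 2 + C b * X + C c)
  · haveI := Fact.mk hi
    obtain ⟨ψ⟩ := FiniteField.nonempty_algHom_of_finrank_dvd (F := K)
      (K := AdjoinRoot (C a * X ^ 2 + C b * X + C c)) (L := F) (by
        rw [(AdjoinRoot.powerBasis hi.ne_zero).finrank, AdjoinRoot.powerBasis_dim, hd,
          Nat.pow_right_injective (two_le_natCard K) (hc.symm.trans (card_eq_pow_subfield K))])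
    have := congrArg ψ (AdjoinRoot.aeval_eq (f := C a * X ^ 2 + C b * X + C c) _ |>.trans
      AdjoinRoot.mk_self)
    rw [← aeval_algHom_apply, map_zero] at this
    generalize ψ (AdjoinRoot.root _) = t at this
    exact ⟨t, by simp at this; exact this⟩
  · rw [irreducible_iff_roots_eq_zero_of_degree_le_three hd.ge (by omega)] at hi
    obtain ⟨t, ht⟩ := Multiset.exists_mem_of_ne_zero hi
    exact ⟨t, by simpa using congrArg Subtype.val (isRoot_of_mem_roots ht)⟩

theorem plus_of_quadratic' (hQ : NQ Q) (hc : Nat.card F = Nat.card K ^ 2)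
    (h : ∀ u, (∀ i, u i ∈ K) → Q u ∈ K) {m : ℕ} (hm : Fintype.card ι = 2 * (m + 1)) : Pl Q ⊤ := by
  have hf := sesq_polar hQ
  let c : (ι → K) →+ (ι → F) := ⟨⟨fun u => algebraMap K F ∘ u, rfl⟩, fun _ _ => rfl⟩
  have hs : ∀ (a : K) u, c (a • u) = (a : F) • c u := fun _ _ => rfl
  let Q₀ : (ι → K) → K := fun u => ⟨Q (c u), h _ fun i => (u i).2⟩
  have hp : ∀ u v, ((pl Q₀ u v : K) : F) = pl Q (c u) (c v) := fun u v => by
    simp [QuadraticMap.polar, Q₀]
  have hQ₀ : NQ Q₀ := by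
    refine ⟨fun a v => Subtype.ext (hQ.smul a _), ⟨fun _ _ _ => Subtype.ext ?_,
      fun _ _ _ => Subtype.ext ?_, fun _ _ _ => Subtype.ext ?_, fun _ _ _ => Subtype.ext ?_⟩,
      fun v hv => ?_⟩
    · simp [hp, hf.add_left]
    · simp [hp, hs, hf.smul_left]
    · simp [hp, hf.add_right]
    · simp [hp, hs, hf.smul_right]
    have : ∃ x, pl Q₀ x v ≠ 0 := by
      by_contra h0
      push Not at h0
      refine hv (funext fun i => Subtype.ext (congrFun (hf.nondeg (c v) fun x => ?_) i))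
      rw [← Finset.univ_sum_single x, hf.sum_left]
      refine Finset.sum_eq_zero fun j _ => ?_
      rw [single_eq_smul, hf.smul_left, show Pi.single j (1 : F) = c (Pi.single j 1) from
        funext fun k => (Pi.apply_single (fun _ => algebraMap K F) (by simp) j 1 k).symm, ← hp, h0]
      simp
    exact ⟨this, this.imp fun x => by rw [QuadraticMap.polar_comm]; exact id⟩
  obtain ⟨U, hU, hd⟩ : ∃ U, TS Q₀ U ∧ finrank K U = m := by
    obtain ⟨Q', h1, h2⟩ := Root.Mx.exists_quad hQ₀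
    rw [← h1]
    rcases wittIndex_of_plus h2 hm with ⟨-, ⟨U, h3, h4⟩, -⟩ | ⟨-, ⟨U, h3, h4⟩, -⟩
    · obtain ⟨U', h5, h6⟩ := Geom.Formed.exists_le_finrank_eq U (k := m) (by omega)
      exact ⟨U', Geom.Formed.totSing_ofQuad.1 (h3.mono h5), h6⟩
    · exact ⟨U, Geom.Formed.totSing_ofQuad.1 h3, h4⟩
  have hf₀ := sesq_polar hQ₀
  have h1 := hf₀.finrank_perp U
  obtain ⟨e, he, rfl⟩ := Geom.Formed.exists_span_eq_fin U hd
  obtain ⟨x, hx, hx'⟩ := Root.Mx.exists_notMem_of_lt (U := hf₀.perp (Submodule.span K (Set.range e)))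
    (R := Submodule.span K (Set.range e)) (by omega)
  have he₁ := linearIndependent_finCons.2 ⟨he, hx'⟩
  obtain ⟨y, hy, hy'⟩ := Root.Mx.exists_notMem_of_lt (U := hf₀.perp (Submodule.span K (Set.range e)))
    (R := Submodule.span K (Set.range (Fin.cons x e : Fin (m + 1) → _))) (by
      rw [finrank_span_eq_card he₁, Fintype.card_fin]; omega)
  have he₂ := (linearIndependent_algebraMap_comp_iff (S := F)).2
    (linearIndependent_finCons.2 ⟨he₁, hy'⟩)
  rw [show (fun i => algebraMap K F ∘ (Fin.cons y (Fin.cons x e) : Fin (m + 2) → _) i) =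
    Fin.cons (c y) (Fin.cons (c x) (c ∘ e)) by rw [← Fin.comp_cons, ← Fin.comp_cons]; rfl,
    linearIndependent_finCons, linearIndependent_finCons, Fin.range_cons] at he₂
  obtain ⟨z, hz, hz', hz''⟩ : ∃ z ∉ Submodule.span F (Set.range (c ∘ e)), Q z = 0 ∧
      ∀ i, pl Q z (c (e i)) = 0 := by
    have h2 : ∀ x ∈ hf₀.perp (Submodule.span K (Set.range e)), ∀ i, pl Q (c x) (c (e i)) = 0 :=
      fun x hx i => by
        rw [← hp, hf₀.mem_perp.1 hx _ (Submodule.subset_span ⟨i, rfl⟩), ZeroMemClass.coe_zero]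
    by_cases h0 : Q₀ x = 0
    · exact ⟨c x, he₂.1.2, congrArg Subtype.val h0, h2 x hx⟩
    obtain ⟨t, ht⟩ := exists_root_two hc (b := pl Q₀ x y) (c := Q₀ y) h0
    refine ⟨t • c x + c y, fun h3 => he₂.2 ?_, ?_, fun i => ?_⟩
    · simpa using sub_mem (Submodule.span_mono (Set.subset_insert (c x) _) h3)
        (Submodule.smul_mem _ t (Submodule.subset_span (Set.mem_insert _ _)))
    · rw [quad_add Q, hQ.smul, hf.smul_left, ← hp]; linear_combination ht
    · rw [hf.add_left, hf.smul_left, h2 x hx, h2 y hy]; simp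
  refine plus_top_iff.2 ⟨Submodule.span F (insert z (Set.range (c ∘ e))), ts_span hQ ?_ ?_, ?_⟩
  · rintro _ (rfl | ⟨i, rfl⟩)
    exacts [hz', congrArg Subtype.val (hU _ (Submodule.subset_span ⟨i, rfl⟩))]
  · rintro _ (rfl | ⟨i, rfl⟩) _ (rfl | ⟨j, rfl⟩)
    · rw [polar_self hQ, hz', mul_zero]
    · exact hz'' j
    · exact hf.eq_zero_comm.1 (hz'' i)
    · exact (hp _ _).symm.trans (congrArg Subtype.val (polar_of_ts hU _
        (Submodule.subset_span ⟨i, rfl⟩) _ (Submodule.subset_span ⟨j, rfl⟩)))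
  · rw [← Fin.range_cons, finrank_span_eq_card (linearIndependent_finCons.2 ⟨he₂.1.1, hz⟩), hm]
    simp

/-- A form defined over the subfield of index two has plus type. -/
theorem plus_of_quadratic (hQ : NQ Q) (hc : Nat.card F = Nat.card K ^ 2) {P : GL ι F} {ζ : F}
    (hζ : ζ ≠ 0) (h : IsQuadFormRationalStructure (fun v => ζ * Q v) K P)
    (he : Even (Fintype.card ι)) (h0 : Fintype.card ι ≠ 0) : Pl Q ⊤ := by
  obtain ⟨m, hm⟩ := he
  rw [← plus_smul hζ, ← plus_equiv (tv (Equiv.refl ι) P)]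
  exact plus_of_quadratic' (nq_equiv (nq_smul hQ hζ) _) hc h (m := m - 1) (by omega)

end Cfsg.Agent.Asch
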