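import Cfsg.Agent.Asch.ORat
import Cfsg.Agent.Geom.OSum

/-! Orthogonal decompositions over small fields. -/

set_option autoImplicit false

namespace Cfsg.Agent.Asch

open Matrix Cfsg.Geo Module
open scoped Kronecker

variable {ι κ : Type} [Fintype ι] [DecidableEq ι] [Fintype κ] [DecidableEq κ]
  {F : Type*} [Field F] {Q : (ι → F) → F} {W : Submodule F (ι → F)} {K : Subfield F}

local notation "rf" => RingEquiv.refl
local notation "pl" => QuadraticMap.polar
local notation "NQ" => IsNondegenerateQuadraticForm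
local notation "TS" => IsTotallySingularQuad
local notation "Pl" => IsPlusTypeOn

variable [Finite F]

theorem plus_basis (hQ : NQ Q) (hW : IsNondegenerateOn (pl Q) W) {m : ℕ}
    (hm : finrank F W = m + m) (h0 : m ≠ 0) (h : Pl Q W) : ∃ b : (Fin (m + m) → F) ≃ₗ[F] W,
      ∀ x, Q (b x) = ∑ i, x (Fin.castAdd m i) * x (Fin.natAdd m i) := by
  obtain ⟨b⟩ := exists_sub_equiv W hm
  obtain ⟨e, he⟩ := exists_congr_of_plus (nq_of_nondeg (Geom.quadPlus_nondeg F m))
    (nq_restrict hQ hW b) (by simp) (by simp) (by simpa) (iff_of_true (plus_top_iff.2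
      ⟨_, (Geom.maxTS_stdU F m).2, by rw [(Geom.maxTS_stdU F m).1]; simp [two_mul]⟩)
      ((plus_restrict b).2 h))
  exact ⟨(LinearEquiv.funCongrLeft F F finSumFinEquiv).trans (e.trans b), fun x => by
    simp [he, Geom.quadPlus_apply]⟩

theorem plus_plane (hQ : NQ Q) (hW : IsNondegenerateOn (pl Q) W) (hm : finrank F W = 2)
    (h : Pl Q W) : ∃ b : (Fin 2 → F) ≃ₗ[F] W, (∀ x, Q (b x) = x 0 * x 1) ∧
      ∀ x y, pl Q (b x) (b y) = x 0 * y 1 + x 1 * y 0 := by
  obtain ⟨b, hb⟩ := plus_basis hQ hW (m := 1) hm one_ne_zero h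
  have : ∀ x, Q (b x) = x 0 * x 1 := fun x => by rw [hb, Fin.sum_univ_one]; rfl
  exact ⟨b, this, fun x y => by
    rw [← polar_restrict, QuadraticMap.polar, this, this, this]; simp; ring⟩

omit [Fintype ι] [DecidableEq ι] [Fintype κ] [DecidableEq κ] [Finite F] in
theorem exists_coord (b : (κ → F) ≃ₗ[F] W) {v : ι → F} (hv : v ∈ W) : ∃ x, (b x : ι → F) = v :=
  ⟨b.symm ⟨v, hv⟩, by simp⟩

theorem plus_plane_line [Fintype F] (hq : Fintype.card F ≤ 3) (hQ : NQ Q)
    (hW : IsNondegenerateOn (pl Q) W) (hm : finrank F W = 2) (h : Pl Q W) :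
    ∃ v ∈ W, Q v = 1 ∧ (∀ u ∈ W, Q u = 1 → u ∈ F ∙ v) ∧ ∃ w ∈ W, w ≠ 0 ∧ pl Q w v = 0 := by
  obtain ⟨b, hb, hb'⟩ := plus_plane hQ hW hm h
  refine ⟨b ![1, 1], (b _).2, by simp [hb], fun u hu h1 => ?_, b ![1, -1], (b _).2, by simp,
    by simp [hb']⟩
  obtain ⟨x, rfl⟩ := exists_coord b hu
  rw [hb] at h1
  have h2 : x 0 ^ 2 = 1 := by
    have h3 := FiniteField.pow_card_sub_one_eq_one _ (left_ne_zero_of_mul_eq_one h1)
    have := Fintype.one_lt_card (α := F)
    obtain h | h : Fintype.card F = 2 ∨ Fintype.card F = 3 := by omega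
    · rw [h, pow_one] at h3; rw [h3, one_pow]
    · rwa [h] at h3
  refine Submodule.mem_span_singleton.2 ⟨x 0, ?_⟩
  rw [← Submodule.coe_smul, ← map_smul]
  congr 2
  ext i; fin_cases i
  · simp
  · simp; linear_combination x 1 * h2 - x 0 * h1

/-- The vectors of norm `c` lying in a member of the decomposition. -/
def lev (Q : (ι → F) → F) {t : ℕ} (D : Fin t → Submodule F (ι → F)) (c : F) : Set (ι → F) :=
  {v | (∃ i, v ∈ D i) ∧ Q v = c}

variable {t k : ℕ} {D : Fin t → Submodule F (ι → F)} {c : F}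

omit [Finite F] in
theorem lev_inv {g : GL ι F} (hg : g ∈ decompositionStabilizer D ⊓ isometryGroup F Q) :
    ∀ v ∈ lev Q D c, g.val *ᵥ v ∈ lev Q D c := by
  rintro v ⟨⟨i, hv⟩, hv'⟩
  obtain ⟨π, hπ⟩ := dstab_mem hg.1
  exact ⟨⟨π i, (hπ i v).1 hv⟩, by rwa [Geom.mem_isometryGroup.1 hg.2]⟩

omit [Finite F] in
theorem span_lev (hD : IsMDecomposition k D) (h : ∀ i, D i ≤ Submodule.span F (lev Q D c)) :
    Submodule.span F (lev Q D c) = ⊤ := eq_top_iff.2 (hD.iSup_eq_top ▸ iSup_le h)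

theorem not_irr_of_planes [Fintype F] (hq : Fintype.card F ≤ 3) (hQ : NQ Q)
    (hD : IsNondegenerateMDecomposition (pl Q) 2 D) {i : Fin t} (h : Pl Q (D i))
    {H : Subgroup (GL ι F)} (hH : H ≤ decompositionStabilizer D ⊓ isometryGroup F Q) : ¬ Irr H := by
  intro hI
  have hf := sesq_polar hQ
  obtain ⟨v, h1, h2, h3, w, h4, h5, h6⟩ :=
    plus_plane_line hq hQ (hD.nondegenerate i) (hD.decomp.finrank_eq i) h
  rcases hI.span (lev Q D 1) fun g hg v hv => Submodule.subset_span (lev_inv (hH hg) v hv) with h | h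
  · have : v = 0 := Submodule.span_eq_bot.1 h v ⟨⟨i, h1⟩, h2⟩
    simp [this, quad_zero hQ] at h2
  refine h5 (hf.nondeg w fun x => hf.mem_perp.1 (Submodule.span_le.2 (show lev Q D 1 ⊆
    hf.perp (F ∙ w) from ?_) (h ▸ Submodule.mem_top)) w (Submodule.mem_span_singleton_self w))
  rintro u ⟨⟨j, hu⟩, hu'⟩
  refine hf.mem_perp.2 fun w' hw' => ?_
  obtain ⟨a, rfl⟩ := Submodule.mem_span_singleton.1 hw'
  by_cases hij : j = i
  · subst hij
    obtain ⟨b, rfl⟩ := Submodule.mem_span_singleton.1 (h3 u hu hu')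
    rw [hf.smul_left, hf.smul_right, hf.eq_zero_comm.1 h6]; simp
  · exact hD.orthogonal j i hij u hu _ (Submodule.smul_mem _ _ h4)

theorem subfield_of_lev (hQ : NQ Q) (hD : IsNondegenerateMDecomposition (pl Q) k D) (hc : c ≠ 0)
    (h1 : ∀ i, D i ≤ Submodule.span F (lev Q D c))
    (h2 : ∀ i, ∀ u ∈ D i, ∀ v ∈ D i, Q u = c → Q v = c → c⁻¹ * pl Q u v ∈ K) :
    ∃ P : GL ι F, IsQuadFormRationalStructure (fun v => c⁻¹ * Q v) K P ∧
      decompositionStabilizer D ⊓ isometryGroup F Q ≤ subfieldSubgroup K P := by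
  have := mdec_arith hD.decomp
  haveI : Nonempty ι := Fintype.card_pos_iff.1 (by omega)
  obtain ⟨P, h3, h4⟩ := subfield_of_set (K := K) hQ (span_lev hD.decomp h1) (inv_ne_zero hc)
    (fun u hu => by rw [hu.2, inv_mul_cancel₀ hc]; exact one_mem _) (by
      rintro u ⟨⟨i, hu⟩, hu'⟩ v ⟨⟨j, hv⟩, hv'⟩
      by_cases hij : i = j
      · exact h2 i u hu v (hij ▸ hv) hu' hv'
      · rw [hD.orthogonal i j hij u hu v hv, mul_zero]; exact zero_mem _)
  exact ⟨P, h3, fun g hg => h4 g (lev_inv hg)⟩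

theorem subfield_of_frame (hQ : NQ Q) (hD : IsOrthogonalMDecomposition Q 1 D) (K : Subfield F) :
    ∃ (P : GL ι F) (ζ : F), ζ ≠ 0 ∧ IsQuadFormRationalStructure (fun v => ζ * Q v) K P ∧
      decompositionStabilizer D ⊓ isometryGroup F Q ≤ subfieldSubgroup K P := by
  have hf := sesq_polar hQ
  have hd := hD.decomp.decomp
  let i₀ : Fin t := ⟨0, by have := hd.two_le; omega⟩
  obtain ⟨v, hv, h0⟩ := mdec_exists_ne hd i₀
  have hc : Q v ≠ 0 := fun h => by
    obtain ⟨x, hx, h1⟩ := (hD.decomp.nondegenerate i₀ v hv h0).1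
    obtain ⟨a, rfl⟩ := (mdec_one_span hd hv h0).1 hx
    simp [hf.smul_left, polar_self hQ, h] at h1
  have hne : ∀ u, Q u = Q v → u ≠ 0 := fun u hu h => hc (by rw [← hu, h, quad_zero hQ])
  refine (subfield_of_lev (K := K) hQ hD.decomp hc (fun i u hu => ?_) fun i u hu w hw h1 h2 => ?_).imp
    fun P h => ⟨_, inv_ne_zero hc, h⟩
  · obtain ⟨e, he⟩ := hD.isometric i₀ i
    obtain ⟨a, rfl⟩ := (mdec_one_span hd (e ⟨v, hv⟩).2 (hne _ (he _))).1 hu
    exact Submodule.smul_mem _ _ (Submodule.subset_span ⟨⟨i, (e _).2⟩, he _⟩)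
  · obtain ⟨a, rfl⟩ := (mdec_one_span hd hw (hne _ h2)).1 hu
    rw [hQ.smul, h2, mul_eq_right₀ hc, sq_eq_one_iff] at h1
    rw [hf.smul_left, polar_self hQ, h2, show (Q v)⁻¹ * (a * (2 * Q v)) = a * 2 by field_simp]
    rcases h1 with rfl | rfl <;> simp

theorem subfield_of_planes [Fintype F] (h4 : Fintype.card F = 2 ^ 2) (hQ : NQ Q)
    (hD : IsNondegenerateMDecomposition (pl Q) 2 D) (h : ∀ i, Pl Q (D i)) :
    ∃ P : GL ι F, IsQuadFormRationalStructure (fun v => 1⁻¹ * Q v) (fixF (fq h4)) P ∧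
      decompositionStabilizer D ⊓ isometryGroup F Q ≤ subfieldSubgroup (fixF (fq h4)) P := by
  choose b hb hb' using fun i => plus_plane hQ (hD.nondegenerate i) (hD.decomp.finrank_eq i) (h i)
  have h2 := two_eq_zero_of_four h4
  have h3 : ∀ a : F, a ≠ 0 → a * a ^ 2 = 1 := fun a ha => norm_four h4 ha
  refine subfield_of_lev hQ hD one_ne_zero (fun i u hu => ?_) fun i u hu v hv h1 h1' => ?_
  · obtain ⟨x, rfl⟩ := exists_coord (b i) hu
    obtain ⟨ω, hω⟩ := fq_ne h4
    rw [fq_apply] at hω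
    have h5 : ω ≠ 0 := by rintro rfl; simp at hω
    have h6 : ω ^ 2 + ω + 1 = 0 := (mul_eq_zero.1 (by linear_combination ω * h3 ω h5 :
      (ω ^ 2 - ω) * (ω ^ 2 + ω + 1) = 0)).resolve_left (sub_ne_zero.2 hω)
    have : x = (x 0 + (x 0 + x 1) * ω) • ![1, 1] + (x 0 + x 1) • ![ω, ω ^ 2] := by
      ext j; fin_cases j <;> simp
      · linear_combination -(x 0 + x 1) * ω * h2
      · linear_combination -(x 0 + x 1) * h6 + x 1 * h2
    rw [this, map_add, map_smul, map_smul]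
    exact add_mem (Submodule.smul_mem _ _ (Submodule.subset_span ⟨⟨i, (b i _).2⟩, by simp [hb]⟩))
      (Submodule.smul_mem _ _ (Submodule.subset_span ⟨⟨i, (b i _).2⟩, by simpa [hb] using h3 ω h5⟩))
  · obtain ⟨x, rfl⟩ := exists_coord (b i) hu
    obtain ⟨y, rfl⟩ := exists_coord (b i) hv
    rw [hb] at h1 h1'
    have e1 := h3 _ (left_ne_zero_of_mul_eq_one h1)
    have e2 := h3 _ (left_ne_zero_of_mul_eq_one h1')
    have e3 : x 1 = x 0 ^ 2 := by linear_combination x 0 ^ 2 * h1 - x 1 * e1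
    have e4 : y 1 = y 0 ^ 2 := by linear_combination y 0 ^ 2 * h1' - y 1 * e2
    rw [mem_fixF, fq_apply, hb', inv_one, one_mul, e3, e4]
    linear_combination (x 0 ^ 2 * y 0) * e2 + (x 0 * y 0 ^ 2) * e1 + x 0 ^ 3 * y 0 ^ 3 * h2

omit [Finite F] in
theorem isometric_span (hQ : NQ Q) {u v : ι → F} (hu : u ≠ 0) (hv : v ≠ 0) (h : Q u = Q v) :
    AreIsometricFor Q (F ∙ u) (F ∙ v) := by
  refine ⟨(LinearEquiv.toSpanNonzeroSingleton F _ u hu).symm.trans
    (LinearEquiv.toSpanNonzeroSingleton F _ v hv), fun w => ?_⟩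
  obtain ⟨a, rfl⟩ := (LinearEquiv.toSpanNonzeroSingleton F _ u hu).surjective w
  rw [LinearEquiv.trans_apply, LinearEquiv.symm_apply_apply]
  simp [hQ.smul, h]

theorem frame_of_const (hQ : NQ Q) (h2 : (2 : F) ≠ 0) (hD : IsOrthogonalMDecomposition Q k D)
    {i₀ : Fin t} (b₀ : (Fin k → F) ≃ₗ[F] D i₀) (hc : c ≠ 0)
    (hs : IsSquare (c ^ k * (gramMatrix fun x y => pl Q (b₀ x) (b₀ y)).det))
    (hF : ∀ x : Fin k → F, ∑ a, x a ^ 2 = 1 → ∃ a, ∀ a' ≠ a, x a' = 0) :
    ∃ D' : Fin (Fintype.card ι) → Submodule F (ι → F), IsOrthogonalMDecomposition Q 1 D' ∧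
      decompositionStabilizer D ⊓ isometryGroup F Q ≤ decompositionStabilizer D' := by
  have hf := sesq_polar hQ
  obtain ⟨a, ha⟩ := (sesq_diag (d := fun _ : Fin k => c) fun _ => hc).exists_congr_of_det
    (hf.restrict (hD.decomp.nondegenerate i₀) b₀) h2 rfl (by
      simpa [gramMatrix_formOfGram, -RingEquiv.coe_refl] using hs)
  choose e he using hD.isometric i₀
  let b := fun i => (a.trans b₀).trans (e i)
  have hb : ∀ i x y, pl Q (b i x) (b i y) = c * ∑ j, x j * y j := fun i x y => by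
    have := ha x y
    simp only [QuadraticMap.polar, b, LinearEquiv.trans_apply, ← Submodule.coe_add, ← map_add,
      he, form_diag, Finset.mul_sum, RingEquiv.refl_apply] at this ⊢
    rw [this]; exact Finset.sum_congr rfl fun _ _ => by ring
  have hb' : ∀ i x, Q (b i x) = c / 2 ↔ ∑ j, x j ^ 2 = 1 := fun i x => by
    rw [eq_div_iff h2, mul_comm, ← polar_self hQ, hb, mul_eq_left₀ hc]; simp only [sq]
  have hn := mdec_arith hD.decomp.decomp
  have hne : ∀ v ∈ lev Q D (c / 2), pl Q v v ≠ 0 := fun v hv => by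
    rw [polar_self hQ, hv.2, mul_div_cancel₀ _ h2]; exact hc
  obtain ⟨D', h1, h3, h4⟩ := hf.frame_of_set (by omega) hne (by
      rintro u ⟨⟨i, hu⟩, hu'⟩ v ⟨⟨j, hv⟩, hv'⟩
      by_cases hij : i = j
      swap
      · exact Or.inl (hD.decomp.orthogonal i j hij u hu v hv)
      subst hij
      obtain ⟨x, rfl⟩ := exists_coord (b i) hu
      obtain ⟨y, rfl⟩ := exists_coord (b i) hv
      rw [hb'] at hu' hv'
      obtain ⟨p, hp⟩ := hF x hu'
      obtain ⟨p', hp'⟩ := hF y hv'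
      by_cases hpp : p = p'
      · subst hpp
        have : y p ≠ 0 := fun h => by
          rw [Finset.sum_eq_single p (fun j _ hj => by simp [hp' j hj]) (by simp), h] at hv'
          simp at hv'
        refine Or.inr ⟨x p / y p, ?_⟩
        rw [← Submodule.coe_smul, ← map_smul]
        congr 2
        ext j; by_cases hj : j = p <;> simp [*]
      · refine Or.inl (by
          rw [hb, Finset.sum_eq_zero fun j _ => by by_cases hj : j = p <;> simp [*], mul_zero]))
    (span_lev hD.decomp.decomp fun i => le_span_of_basis (b i) fun j =>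
      ⟨⟨i, (b i _).2⟩, (hb' _ _).2 (by simp [Pi.single_apply])⟩)
  refine ⟨D', ⟨h1, fun i j => ?_⟩, fun g hg => h4 g fun v hv => ⟨1, by simpa using lev_inv hg v hv⟩⟩
  obtain ⟨u, hu, h5⟩ := h3 i
  obtain ⟨v, hv, h6⟩ := h3 j
  rw [h5, h6]
  exact isometric_span hQ (fun h => hne u hu (by rw [h, hf.zero_left]))
    (fun h => hne v hv (by rw [h, hf.zero_left])) (hu.2.trans hv.2.symm)

omit [Finite F] in
theorem sum_sq_prime [Fintype F] {p : ℕ} [Fact p.Prime] (hp : Fintype.card F = p)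
    (h : ∀ x : Fin k → ZMod p, ∑ a, x a ^ 2 = 1 → ∃ a, ∀ a' ≠ a, x a' = 0) (x : Fin k → F)
    (hx : ∑ a, x a ^ 2 = 1) : ∃ a, ∀ a' ≠ a, x a' = 0 := by
  let e := (ZMod.ringEquivOfPrime F Fact.out hp).symm
  simpa using h (e ∘ x) (by simpa using congrArg e hx)

theorem frame_of_three [Fintype F] (h3 : Fintype.card F = 3) (hQ : NQ Q)
    (hD : IsOrthogonalMDecomposition Q 3 D) :
    ∃ D' : Fin (Fintype.card ι) → Submodule F (ι → F), IsOrthogonalMDecomposition Q 1 D' ∧
      decompositionStabilizer D ⊓ isometryGroup F Q ≤ decompositionStabilizer D' := by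
  let i : Fin t := ⟨0, by have := hD.decomp.decomp.two_le; omega⟩
  obtain ⟨b⟩ := mdec_basis hD.decomp.decomp i
  exact frame_of_const hQ (two_ne_of_three h3) hD b
    ((sesq_polar hQ).restrict (hD.decomp.nondegenerate i) b).gram_det_ne
    ⟨_ ^ 2, by rw [← pow_succ, ← pow_add]⟩
    (sum_sq_prime h3 (by decide))

theorem frame_of_planes [Fintype F] (hQ : NQ Q) (hD : IsOrthogonalMDecomposition Q 2 D) {i : Fin t}
    (h : (Fintype.card F = 3 ∧ ¬ Pl Q (D i)) ∨ (Fintype.card F = 5 ∧ Pl Q (D i))) :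
    ∃ D' : Fin (Fintype.card ι) → Submodule F (ι → F), IsOrthogonalMDecomposition Q 1 D' ∧
      decompositionStabilizer D ⊓ isometryGroup F Q ≤ decompositionStabilizer D' := by
  obtain ⟨b⟩ := mdec_basis hD.decomp.decomp i
  have h2 : (2 : F) ≠ 0 := two_ne_zero_of_odd (by rcases h with h | h <;> rw [h.1] <;> decide)
  have h1 := plus_iff_det' (nq_restrict hQ (hD.decomp.nondegenerate i) b) h2 (m := 1) rfl
  rw [plus_restrict, Geom.isSquare_mul_iff (by simp)
    (sesq_polar (nq_restrict hQ (hD.decomp.nondegenerate i) b)).gram_det_ne,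
    isSquare_neg_one_odd h2 odd_one, funext₂ (polar_restrict b)] at h1
  haveI : Fact (Nat.Prime 5) := ⟨Nat.prime_five⟩
  refine frame_of_const hQ h2 hD b one_ne_zero ?_ ?_
  · rcases h with h | h <;> simp_all
  · rcases h with h | h <;> exact sum_sq_prime h.1 (by decide +revert)

set_option synthInstance.maxSize 2000 in
theorem four_aux : ∀ x y : Fin 4 → ZMod 2, x 0 * x 2 + x 1 * x 3 = 1 → y 0 * y 2 + y 1 * y 3 = 1 →
    x 0 * y 2 + x 2 * y 0 + (x 1 * y 3 + x 3 * y 1) = 1 →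
    (x 0 = x 2 + x 1 ∧ x 3 = x 1 ∧ y 0 = y 2 + y 1 ∧ y 3 = y 1) ∨
    (x 0 + x 2 = 0 ∧ x 2 + (x 1 + x 3) = 0 ∧ y 0 + y 2 = 0 ∧ y 2 + (y 1 + y 3) = 0) := by
  decide

/-- `O₄⁺(2) ≀ S_t` preserves a finer decomposition. -/
theorem dec_of_four [Fintype F] (hq : Fintype.card F = 2) (hQ : NQ Q)
    (hD : IsNondegenerateMDecomposition (pl Q) 4 D) {i : Fin t} (h : Pl Q (D i))
    {H : Subgroup (GL ι F)} (hI : Irr H) (hH : H ≤ decompositionStabilizer D ⊓ isometryGroup F Q) :
    ∃ (t k : ℕ) (D' : Fin t → Submodule F (ι → F)), k < 4 ∧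
      IsNondegenerateMDecomposition (pl Q) k D' ∧ H ≤ decompositionStabilizer D' ∧
      ∀ i j, AreIsometricFor Q (D' i) (D' j) := by
  have hf := sesq_polar hQ
  have h2 : (2 : F) = 0 := two_eq_zero_of_not_odd (by rw [hq]; decide)
  obtain ⟨b, hb⟩ := plus_basis hQ (hD.nondegenerate i) (m := 2) (hD.decomp.finrank_eq i)
    two_ne_zero h
  replace hb : ∀ x, Q (b x) = x 0 * x 2 + x 1 * x 3 := fun x => by rw [hb, Fin.sum_univ_two]; rfl
  have hb' : ∀ x y, pl Q (b x) (b y) = x 0 * y 2 + x 2 * y 0 + (x 1 * y 3 + x 3 * y 1) :=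
    fun x y => by rw [← polar_restrict, QuadraticMap.polar, hb, hb, hb]; simp; ring
  let W := Submodule.span F {(b ![1, 0, 1, 0] : ι → F), (b ![1, 1, 0, 1] : ι → F)}
  have hW : ∀ v ∈ W, ∃ s r : F, v = b ![s + r, r, s, r] := fun v hv => by
    obtain ⟨s, r, rfl⟩ := Submodule.mem_span_pair.1 hv
    refine ⟨s, r, ?_⟩
    rw [← Submodule.coe_smul, ← Submodule.coe_smul, ← Submodule.coe_add, ← map_smul, ← map_smul,
      ← map_add]
    congr 2
    ext j; fin_cases j <;> simp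
  have hW' : ∀ s r : F, (b ![s + r, r, s, r] : ι → F) ∈ W := fun s r =>
    Submodule.mem_span_pair.2 ⟨s, r, by
      rw [← Submodule.coe_smul, ← Submodule.coe_smul, ← Submodule.coe_add, ← map_smul, ← map_smul,
        ← map_add]
      congr 2
      ext j; fin_cases j <;> simp⟩
  have hle : W ≤ D i := fun v hv => by obtain ⟨s, r, rfl⟩ := hW v hv; exact (b _).2
  have hlt : finrank F W < 4 := by
    have := Root.Mx.finrank_span_fam (F := F) ![(b ![1, 0, 1, 0] : ι → F), (b ![1, 1, 0, 1] : ι → F)]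
    rw [Matrix.range_cons_cons_empty] at this
    exact this.trans_lt (by decide)
  have hiso := fun g hg => Geom.mem_isometryGroup.1 (hH (x := g) hg).2
  have hn := mdec_arith hD.decomp
  obtain ⟨t', D', h3, h4, h5⟩ := hf.dec_of_orbit hI (W := W)
    (fun g hg => iso_le_sim _ (isom_polar (hiso g hg)))
    (fun h0 => by simpa using (Submodule.eq_bot_iff _).1 h0 _ (hW' 1 0))
    (ne_top_of_finrank (by omega)) (fun w hw h0 => by
      obtain ⟨s, r, rfl⟩ := hW w hw
      have : ∃ x ∈ W, pl Q x (b ![s + r, r, s, r]) ≠ 0 := by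
        by_contra hc
        push Not at hc
        have e1 := hc _ (hW' 1 0)
        have e2 := hc _ (hW' 0 1)
        simp [hb'] at e1 e2
        obtain rfl : r = 0 := by linear_combination e1 - s * h2
        obtain rfl : s = 0 := by linear_combination e2
        simp at h0
      exact ⟨this, this.imp fun x => by rw [QuadraticMap.polar_comm]; exact id⟩) fun g hg => by
      obtain ⟨π, hπ⟩ := dstab_mem (hH hg).1
      by_cases hi : π i = i
      swap
      · exact Or.inr fun u hu v hv => hD.orthogonal _ _ hi _ ((hπ i u).1 (hle hu)) v (hle hv)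
      obtain ⟨x, hx⟩ := exists_coord b (hi ▸ (hπ i _).1 (hle (hW' 1 0)))
      obtain ⟨y, hy⟩ := exists_coord b (hi ▸ (hπ i _).1 (hle (hW' 0 1)))
      have e1 := hiso g hg (b ![1 + 0, 0, 1, 0])
      have e2 := hiso g hg (b ![0 + 1, 1, 0, 1])
      have e3 := isom_polar (hiso g hg) (b ![1 + 0, 0, 1, 0]) (b ![0 + 1, 1, 0, 1])
      have e4 : ∀ s r : F, g.val *ᵥ b ![s + r, r, s, r] = b (s • x + r • y) := fun s r => by
        rw [map_add, map_smul, map_smul, Submodule.coe_add, Submodule.coe_smul, Submodule.coe_smul,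
          hx, hy, ← mulVec_smul, ← mulVec_smul, ← mulVec_add, ← Submodule.coe_smul,
          ← Submodule.coe_smul, ← Submodule.coe_add, ← map_smul, ← map_smul, ← map_add]
        congr 3
        ext j; fin_cases j <;> simp
      rw [← hx, hb, hb] at e1
      rw [← hy, hb, hb] at e2
      rw [← hx, ← hy, hb', hb'] at e3
      simp at e1 e2 e3
      let e := (ZMod.ringEquivOfPrime F Nat.prime_two hq).symm
      have key' := four_aux (e ∘ x) (e ∘ y) (by simpa using congrArg e e1) (by simpa using congrArg e e2)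
        (by simpa using congrArg e e3)
      simp only [Function.comp, ← map_add, EmbeddingLike.apply_eq_iff_eq, map_eq_zero] at key'
      refine key'.imp (fun ⟨a1, a2, a3, a4⟩ v hv => ?_) fun ⟨a1, a2, a3, a4⟩ u hu v hv => ?_
      · obtain ⟨s, r, rfl⟩ := hW v hv
        rw [e4]
        convert hW' (s * x 2 + r * y 2) (s * x 1 + r * y 1) using 3
        ext j; fin_cases j <;> simp [a1, a2, a3, a4]
        ring
      · obtain ⟨s, r, rfl⟩ := hW u hu
        obtain ⟨s', r', rfl⟩ := hW v hv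
        rw [e4, hb']
        simp
        linear_combination s * s' * a1 + s * r' * a2 + r * s' * a3 + r * r' * a4
  refine ⟨t', _, D', hlt, h3, h4, fun i j => ?_⟩
  obtain ⟨g, hg, h6⟩ := h5 i
  obtain ⟨g', hg', h7⟩ := h5 j
  rw [h6, h7]
  refine ⟨(Submodule.equivMapOfInjective _ (toLin'_injective g) W).symm.trans
    (Submodule.equivMapOfInjective _ (toLin'_injective g') W), fun w => ?_⟩
  obtain ⟨w, rfl⟩ := (Submodule.equivMapOfInjective _ (toLin'_injective g) W).surjective w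
  simp [hiso g hg, hiso g' hg']

end Cfsg.Agent.Asch
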