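import Cfsg.Agent.Asch.MaxSp

/-! Types (plus / minus) of quadratic spaces and of their subspaces and decompositions. -/

set_option autoImplicit false

namespace Cfsg.Agent.Asch

open Matrix Cfsg.Geo Module
open scoped Kronecker

variable {ι κ μ : Type} [Fintype ι] [DecidableEq ι] [Fintype κ] [DecidableEq κ] [Fintype μ]
  [DecidableEq μ] {F : Type*} [Field F] {Q : (ι → F) → F} {U U' W W' : Submodule F (ι → F)}

local notation "rf" => RingEquiv.refl
local notation "pl" => QuadraticMap.polar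
local notation "NQ" => IsNondegenerateQuadraticForm
local notation "TS" => IsTotallySingularQuad
local notation "Pl" => IsPlusTypeOn

omit [Fintype ι] [DecidableEq ι] in
theorem polar_of_ts (h : TS Q W) : IsTotallySingularFor (pl Q) W := fun u hu v hv => by
  simp [QuadraticMap.polar, h _ (add_mem hu hv), h _ hu, h _ hv]

theorem ts_span (hQ : NQ Q) {S : Set (ι → F)} (h0 : ∀ u ∈ S, Q u = 0)
    (h1 : ∀ u ∈ S, ∀ v ∈ S, pl Q u v = 0) : TS Q (Submodule.span F S) := by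
  obtain ⟨Q, rfl, -⟩ := Root.Mx.exists_quad hQ
  exact Geom.Formed.totSing_ofQuad.1 ((Geom.Formed.ofQuad Q).totSing_span h1 h0)

theorem ts_sup (h : TS Q U) (h' : TS Q U') (ho : AreOrthogonalFor (pl Q) U U') : TS Q (U ⊔ U') := by
  intro v hv
  obtain ⟨u, hu, u', hu', rfl⟩ := Submodule.mem_sup.1 hv
  rw [quad_add Q, h u hu, h' u' hu', ho u hu u' hu']; simp

theorem ts_of_polar (hQ : NQ Q) (h2 : (2 : F) ≠ 0) (h : IsTotallySingularFor (pl Q) W) : TS Q W :=
  fun v hv => (mul_eq_zero.1 ((polar_self hQ v).symm.trans (h v hv v hv))).resolve_left h2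

theorem ts_two_mul_le (hQ : NQ Q) (h : TS Q U) : 2 * finrank F U ≤ Fintype.card ι := by
  have h1 := (sesq_polar hQ).finrank_perp U
  have h2 := Submodule.finrank_mono (show U ≤ (sesq_polar hQ).perp U from
    fun u hu => (sesq_polar hQ).mem_perp.2 (polar_of_ts h u hu))
  omega

theorem plus_top_iff : Pl Q ⊤ ↔ ∃ U, TS Q U ∧ 2 * finrank F U = Fintype.card ι := by
  simp [IsPlusTypeOn]

theorem even_of_plus (h : Pl Q W) : Even (finrank F W) := by
  obtain ⟨U, -, -, h⟩ := h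
  exact ⟨_, h.symm.trans (two_mul _)⟩

theorem plus_of_sup (hQ : NQ Q) (h : TS Q U) (h' : TS Q U') (hs : U ⊔ U' = ⊤) : Pl Q ⊤ := by
  have h1 := Submodule.finrank_add_le_finrank_add_finrank U U'
  have h2 := ts_two_mul_le hQ h
  have h3 := ts_two_mul_le hQ h'
  rw [hs, finrank_top, finrank_fintype_fun_eq_card] at h1
  exact plus_top_iff.2 ⟨U, h, by omega⟩

theorem span_tv_single (e : ι ≃ κ) (P : GL ι F) :
    Submodule.span F (Set.range fun p => tv e P (Pi.single p 1)) = ⊤ := by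
  rw [← ((Pi.basisFun F κ).map (tv e P)).span_eq]
  congr 2
  ext p : 1; simp

/-- A basis of singular vectors in two colours, vectors of the same colour being orthogonal. -/
theorem plus_of_basis (hQ : NQ Q) (e : ι ≃ κ) (P : GL ι F) (c : κ → Prop)
    (h0 : ∀ p, Q (tv e P (Pi.single p 1)) = 0)
    (h1 : ∀ p p', (c p ↔ c p') → gramMatrix (pull e P (pl Q)) p p' = 0) : Pl Q ⊤ := by
  have key : ∀ c' : κ → Prop, (∀ p p', c' p → c' p' → (c p ↔ c p')) →
      TS Q (Submodule.span F ((fun p => tv e P (Pi.single p 1)) '' {p | c' p})) := fun c' h =>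
    ts_span hQ (by rintro _ ⟨p, -, rfl⟩; exact h0 p)
      (by rintro _ ⟨p, hp, rfl⟩ _ ⟨p', hp', rfl⟩; exact h1 p p' (h p p' hp hp'))
  refine plus_of_sup hQ (key c (by tauto)) (key (fun p => ¬ c p) (by tauto)) ?_
  rw [← Submodule.span_union, ← Set.image_union, ← span_tv_single e P, ← Set.image_univ]
  congr 2
  ext p; simp [em]

theorem ts_ext (hQ : NQ Q) (h : TS Q U) (h' : TS Q U') (hle : finrank F U ≤ finrank F U') :
    ∃ M, U ≤ M ∧ TS Q M ∧ finrank F M = finrank F U' := by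
  obtain ⟨Q, rfl, hn⟩ := Root.Mx.exists_quad hQ
  simpa only [Geom.Formed.totSing_ofQuad, IsTotallySingularQuad] using hn.exists_totSing_ge
    (Geom.Formed.totSing_ofQuad.2 h) (Geom.Formed.totSing_ofQuad.2 h') hle

section restrict

theorem nq_restrict (hQ : NQ Q) (hW : IsNondegenerateOn (pl Q) W) (b : (κ → F) ≃ₗ[F] W) :
    NQ fun x => Q (b x) :=
  isQuad_of_polar ((sesq_polar hQ).restrict hW b) (fun c v => by simp [hQ.smul]) fun u v => by
    simp [QuadraticMap.polar]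

omit [Fintype ι] [DecidableEq ι] [DecidableEq κ] in
theorem polar_restrict (b : (κ → F) ≃ₗ[F] W) (x y : κ → F) :
    pl (fun x => Q (b x)) x y = pl Q (b x) (b y) := by simp [QuadraticMap.polar]

theorem plus_restrict (b : (κ → F) ≃ₗ[F] W) : Pl (fun x => Q (b x)) ⊤ ↔ Pl Q W := by
  have hd : finrank F W = Fintype.card κ := by rw [← b.finrank_eq]; simp
  rw [plus_top_iff]
  constructor
  · rintro ⟨U, h1, h2⟩
    refine ⟨U.map (W.subtype ∘ₗ b.toLinearMap), ?_, ?_, ?_⟩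
    · rintro _ ⟨x, -, rfl⟩; exact (b x).2
    · rintro _ ⟨x, hx, rfl⟩; exact h1 x hx
    · rw [hd, ← h2, (Submodule.equivMapOfInjective (W.subtype ∘ₗ b.toLinearMap)
        (Subtype.val_injective.comp b.injective) U).finrank_eq]
  · rintro ⟨U, h1, h2, h3⟩
    refine ⟨(U.comap W.subtype).map b.symm.toLinearMap, ?_, ?_⟩
    · rintro _ ⟨x, hx, rfl⟩; simpa using h2 _ hx
    · rw [LinearEquiv.finrank_map_eq, (Submodule.comapSubtypeEquivOfLe h1).finrank_eq, h3, hd]

end restrict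

theorem plus_smul {c : F} (hc : c ≠ 0) : Pl (fun v => c * Q v) W ↔ Pl Q W := by
  simp [IsPlusTypeOn, IsTotallySingularQuad, hc]

theorem nq_smul (hQ : NQ Q) {c : F} (hc : c ≠ 0) : NQ fun v => c * Q v :=
  isQuad_of_polar ((sesq_polar hQ).smul (ε' := 1) hc (by simp)) (fun a v => by rw [hQ.smul]; ring)
    fun u v => by simp only [QuadraticMap.polar]; ring

theorem plus_congr (e : W ≃ₗ[F] W') {c : F} (hc : c ≠ 0) (h : ∀ w, Q (e w) = c * Q w) :
    Pl Q W ↔ Pl Q W' := by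
  obtain ⟨b⟩ := exists_sub_equiv W rfl
  rw [← plus_restrict b, ← plus_restrict (b.trans e), ← plus_smul hc]
  simp [h]

theorem plus_sup (h : Pl Q W) (h' : Pl Q W') (ho : AreOrthogonalFor (pl Q) W W')
    (hd : Disjoint W W') : Pl Q (W ⊔ W') := by
  obtain ⟨U, h1, h2, h3⟩ := h
  obtain ⟨U', h1', h2', h3'⟩ := h'
  refine ⟨U ⊔ U', sup_le_sup h1 h1', ts_sup h2 h2' fun u hu v hv => ho u (h1 hu) v (h1' hv), ?_⟩
  have h4 := Submodule.finrank_sup_add_finrank_inf_eq U U'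
  have h5 := Submodule.finrank_sup_add_finrank_inf_eq W W'
  rw [hd.eq_bot] at h5
  rw [(hd.mono h1 h1').eq_bot] at h4
  simp only [finrank_bot] at h4 h5
  omega

theorem plus_of_anti (e : W ≃ₗ[F] W') (h : ∀ w, Q (e w) = -1 * Q w)
    (ho : AreOrthogonalFor (pl Q) W W') (hd : Disjoint W W') : Pl Q (W ⊔ W') := by
  let φ : W →ₗ[F] (ι → F) := W.subtype + W'.subtype ∘ₗ e.toLinearMap
  refine ⟨LinearMap.range φ, ?_, ?_, ?_⟩
  · rintro _ ⟨w, rfl⟩; exact Submodule.add_mem_sup w.2 (e w).2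
  · rintro _ ⟨w, rfl⟩
    change Q (w + e w) = 0
    rw [quad_add Q, h, ho _ w.2 _ (e w).2]; ring
  · have h5 := Submodule.finrank_sup_add_finrank_inf_eq W W'
    rw [hd.eq_bot, ← e.finrank_eq, finrank_bot] at h5
    rw [LinearMap.finrank_range_of_inj ((injective_iff_map_eq_zero φ).2 fun w hw => Subtype.ext
      (Submodule.disjoint_def.1 hd _ w.2 ((eq_neg_of_add_eq_zero_left
        (show w.1 + (e w).1 = 0 from hw)).symm ▸ neg_mem (e w).2)))]
    omega

/-- Cancellation of a subspace of plus type. -/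
theorem plus_perp (hQ : NQ Q) (hW : IsNondegenerateOn (pl Q) W) (h : Pl Q W) (ht : Pl Q ⊤) :
    Pl Q ((sesq_polar hQ).perp W) := by
  have hf := sesq_polar hQ
  obtain ⟨U, h1, h2, h3⟩ := h
  obtain ⟨M', h4, h5⟩ := plus_top_iff.1 ht
  obtain ⟨M, h6, h7, h8⟩ := ts_ext hQ h2 h4 (by have := ts_two_mul_le hQ h2; omega)
  have h9 : W ⊓ hf.perp U = U := by
    refine (Submodule.eq_of_le_of_finrank_le (le_inf h1 fun u hu => hf.mem_perp.2
      (polar_of_ts h2 u hu)) ?_).symm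
    have e1 := Submodule.finrank_sup_add_finrank_inf_eq W (hf.perp U)
    have e2 := hf.finrank_perp U
    have e3 : W ⊔ hf.perp U = ⊤ := top_le_iff.1 ((hf.sup_perp hW).ge.trans (sup_le_sup_left
      (fun v hv => hf.mem_perp.2 fun u hu => hf.mem_perp.1 hv u (h1 hu)) _))
    rw [e3, finrank_top, finrank_fintype_fun_eq_card] at e1
    omega
  have h10 : M ≤ U ⊔ M ⊓ hf.perp W := fun v hv => by
    obtain ⟨w, hw, w', hw', rfl⟩ := Submodule.mem_sup.1 ((hf.sup_perp hW).ge (Submodule.mem_top (x := v)))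
    have : w ∈ U := h9 ▸ ⟨hw, hf.mem_perp.2 fun u hu => by
      have := polar_of_ts h7 _ hv u (h6 hu)
      rwa [hf.add_left, hf.mem_perp.1 hw' u (h1 hu), add_zero] at this⟩
    exact Submodule.add_mem_sup this ⟨by simpa using sub_mem hv (h6 this), hw'⟩
  refine ⟨M ⊓ hf.perp W, inf_le_right, fun v hv => h7 v hv.1, ?_⟩
  have e1 := (Submodule.finrank_mono h10).trans (Submodule.finrank_add_le_finrank_add_finrank _ _)
  have e2 := hf.finrank_perp W
  obtain ⟨b⟩ := exists_sub_equiv (hf.perp W) rfl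
  have e3 := ts_two_mul_le (nq_restrict hQ (hf.nondegenerateOn_perp hW) b)
    (U := ((M ⊓ hf.perp W).comap (hf.perp W).subtype).map b.symm.toLinearMap) (by
      rintro _ ⟨x, hx, rfl⟩; simpa using h7 _ hx.1)
  rw [LinearEquiv.finrank_map_eq, (Submodule.comapSubtypeEquivOfLe inf_le_right).finrank_eq,
    Fintype.card_fin] at e3
  omega

theorem plus_of_perp (hQ : NQ Q) (hW : IsNondegenerateOn (pl Q) W) (h : Pl Q W)
    (h' : Pl Q ((sesq_polar hQ).perp W)) : Pl Q ⊤ :=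
  (sesq_polar hQ).sup_perp hW ▸ plus_sup h h' (fun _ hu _ hv => (sesq_polar hQ).eq_zero_comm.1
    ((sesq_polar hQ).mem_perp.1 hv _ hu)) (disjoint_iff.2 ((sesq_polar hQ).nondegenerateOn_iff.1 hW))

variable [Finite F]

theorem wittIndex_of_plus {Q : QuadraticForm F (ι → F)} (hn : (Geom.Formed.ofQuad Q).Nondeg) {m : ℕ}
    (hm : Fintype.card ι = 2 * (m + 1)) :
    (Pl Q ⊤ ∧ (Geom.Formed.ofQuad Q).WittIndex (m + 1)) ∨
      (¬ Pl Q ⊤ ∧ (Geom.Formed.ofQuad Q).WittIndex m) := by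
  refine (Geom.wittIndex_even hn (m := m) (by simpa)).imp (fun h => ⟨?_, h⟩) fun h => ⟨fun hp => ?_, h⟩
  · obtain ⟨U, h1, h2⟩ := h.1
    exact plus_top_iff.2 ⟨U, Geom.Formed.totSing_ofQuad.1 h1, by omega⟩
  · obtain ⟨U, h1, h2⟩ := plus_top_iff.1 hp
    have := h.2 U (Geom.Formed.totSing_ofQuad.2 h1)
    omega

theorem exists_congr_of_plus (hQ : NQ Q) {Q' : (κ → F) → F} (hQ' : NQ Q')
    (hd : Fintype.card ι = Fintype.card κ) (he : Even (Fintype.card ι)) (h0 : Fintype.card ι ≠ 0)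
    (h : Pl Q ⊤ ↔ Pl Q' ⊤) : ∃ e : (ι → F) ≃ₗ[F] (κ → F), ∀ v, Q' (e v) = Q v := by
  obtain ⟨Q, rfl, hn⟩ := Root.Mx.exists_quad hQ
  obtain ⟨Q', rfl, hn'⟩ := Root.Mx.exists_quad hQ'
  obtain ⟨m, hm⟩ : ∃ m, Fintype.card ι = 2 * (m + 1) := by
    obtain ⟨k, hk⟩ := he; exact ⟨k - 1, by omega⟩
  have key := fun k => Geom.exists_isIso_of_wittIndex (k := k) hn hn' (by simpa) (by simpa)
  rcases wittIndex_of_plus hn hm with h1 | h1 <;>
    rcases wittIndex_of_plus hn' (hd ▸ hm) with h2 | h2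
  · exact (key _ h1.2 h2.2).imp fun e h => h.2
  · tauto
  · tauto
  · exact (key _ h1.2 h2.2).imp fun e h => h.2

theorem exists_isom_of_plus (hQ : NQ Q) (hW : IsNondegenerateOn (pl Q) W)
    (hW' : IsNondegenerateOn (pl Q) W') {k : ℕ} (hk : finrank F W = k) (hk' : finrank F W' = k)
    (he : Even k) (h0 : k ≠ 0) (h : Pl Q W ↔ Pl Q W') {c : F} (hc : c ≠ 0) :
    ∃ e : W ≃ₗ[F] W', ∀ w, Q (e w) = c * Q w := by
  obtain ⟨b⟩ := exists_sub_equiv W hk
  obtain ⟨b'⟩ := exists_sub_equiv W' hk'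
  obtain ⟨e, he⟩ := exists_congr_of_plus (nq_smul (nq_restrict hQ hW b) hc) (nq_restrict hQ hW' b')
    rfl (by simpa) (by simpa) (by rw [plus_smul hc, plus_restrict, plus_restrict, h])
  exact ⟨b.symm.trans (e.trans b'), fun w => by simpa using he (b.symm w)⟩

omit [Finite F] in
theorem orth_biSup (hQ : NQ Q) {t k : ℕ} {D : Fin t → Submodule F (ι → F)}
    (hD : IsNondegenerateMDecomposition (pl Q) k D) {s s' : Set (Fin t)} (h : Disjoint s s') :
    AreOrthogonalFor (pl Q) (⨆ i ∈ s, D i) (⨆ i ∈ s', D i) := by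
  have hf := sesq_polar hQ
  refine fun u hu => hf.mem_perp.1 (iSup₂_le (a := hf.perp _) (fun i hi => ?_) hu)
  refine fun u hu => hf.mem_perp.2 fun v hv => hf.eq_zero_comm.1 (hf.mem_perp.1
    (iSup₂_le (a := hf.perp (D i)) (fun j hj => ?_) hv) u hu)
  exact fun v hv => hf.mem_perp.2 (hD.orthogonal j i
    (fun e => Set.disjoint_left.1 h hi (e ▸ hj)) v hv)

theorem plus_biSup (hQ : NQ Q) {t k : ℕ} {D : Fin t → Submodule F (ι → F)}
    (hD : IsOrthogonalMDecomposition Q k D) (he : Even k) (n : ℕ) :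
    ∀ s : Finset (Fin t), s.card = 2 * n → Pl Q (⨆ i ∈ (s : Set (Fin t)), D i) := by
  induction n with
  | zero =>
    intro s hs
    rw [Finset.card_eq_zero.1 hs, Finset.coe_empty, iSup_emptyset]
    exact ⟨⊥, bot_le, by simp [IsTotallySingularQuad, quad_zero hQ], by simp⟩
  | succ n ih =>
    intro s hs
    obtain ⟨s', h1, h2⟩ := Finset.exists_subset_card_eq (s := s) (n := 2) (by omega)
    obtain ⟨i, j, hij, rfl⟩ := Finset.card_eq_two.1 h2
    have h3 : Disjoint (({i, j} : Finset _) : Set (Fin t)) (s \ {i, j} : Finset _) :=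
      Finset.disjoint_coe.2 Finset.disjoint_sdiff
    have h4 := plus_sup ?_ (ih (s \ {i, j}) (by rw [Finset.card_sdiff_of_subset h1]; omega))
      (orth_biSup hQ hD.decomp h3) (hD.decomp.decomp.indep.disjoint_biSup_biSup h3)
    · rwa [← iSup_union, ← Finset.coe_union, Finset.union_sdiff_of_subset h1] at h4
    obtain ⟨e₀, he₀⟩ := hD.isometric i j
    obtain ⟨e, he⟩ := exists_isom_of_plus hQ (hD.decomp.nondegenerate i) (hD.decomp.nondegenerate j)
      (hD.decomp.decomp.finrank_eq i) (hD.decomp.decomp.finrank_eq j) he hD.decomp.decomp.pos.ne'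
      (plus_congr e₀ one_ne_zero (by simp [he₀])) (neg_ne_zero.2 one_ne_zero)
    simpa [iSup_or, iSup_sup_eq] using plus_of_anti e he (hD.decomp.orthogonal i j hij)
      (hD.decomp.decomp.indep.pairwiseDisjoint hij)

/-- The type of an orthogonal sum of isometric even-dimensional spaces. -/
theorem dec_plus (hQ : NQ Q) {t k : ℕ} {D : Fin t → Submodule F (ι → F)}
    (hD : IsOrthogonalMDecomposition Q k D) (he : Even k) (i : Fin t) :
    Pl Q ⊤ ↔ Even t ∨ Pl Q (D i) := by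
  have hf := sesq_polar hQ
  rcases Nat.even_or_odd' t with ⟨n, hn | hn⟩
  · have := plus_biSup hQ hD he n Finset.univ (by simpa)
    simp only [Finset.coe_univ, Set.mem_univ, iSup_pos, hD.decomp.decomp.iSup_eq_top] at this
    simp [this, hn]
  have h1 := plus_biSup hQ hD he n (Finset.univ.erase i) (by simp [hn])
  have h2 : (⨆ j ∈ ((Finset.univ.erase i : Finset _) : Set (Fin t)), D j) = hf.perp (D i) := by
    refine le_antisymm (iSup₂_le fun j hj v hv => hf.mem_perp.2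
      (hD.decomp.orthogonal j i (by simpa using hj) v hv)) fun v hv => ?_
    have h3 := iSup_split_single D i
    rw [hD.decomp.decomp.iSup_eq_top] at h3
    obtain ⟨a, ha, b, hb, rfl⟩ := Submodule.mem_sup.1 (h3.le (Submodule.mem_top (x := v)))
    have h4 : b ∈ hf.perp (D i) := iSup₂_le (a := hf.perp (D i)) (fun j hj v hv => hf.mem_perp.2
      (hD.decomp.orthogonal j i hj v hv)) hb
    have h5 : a = 0 := (Submodule.eq_bot_iff _).1 (hf.nondegenerateOn_iff.1
      (hD.decomp.nondegenerate i)) a ⟨ha, by simpa using sub_mem hv h4⟩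
    simpa [h5] using hb
  rw [h2] at h1
  have h3 : ¬ Even t := by simp [hn]
  refine ⟨fun h => Or.inr ?_, fun h => plus_of_perp hQ (hD.decomp.nondegenerate i)
    (h.resolve_left h3) h1⟩
  simpa only [hf.perp_perp] using plus_perp hQ (hf.nondegenerateOn_perp
    (hD.decomp.nondegenerate i)) h1 h

/-! ### Discriminants -/

theorem plus_iff_det (hQ : NQ Q) (h2 : (2 : F) ≠ 0) {m : ℕ} (hm : Fintype.card ι = 2 * m)
    (e : ι ≃ κ) (P : GL ι F) :
    Pl Q ⊤ ↔ IsSquare ((-1) ^ m * (gramMatrix (pull e P (pl Q))).det) := by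
  obtain ⟨Q, rfl, hn⟩ := Root.Mx.exists_quad hQ
  have := hn.plus_iff_isSquare h2 rfl (m := m) (by simpa) ((Pi.basisFun F κ).map (tv e P))
  rw [show (Geom.Formed.ofQuad Q).gram ((Pi.basisFun F κ).map (tv e P)) =
    gramMatrix (pull e P (pl Q)) from ext fun i j => by simp [gramMatrix, pull]] at this
  rw [← this, plus_top_iff]
  exact exists_congr fun U => and_congr Geom.Formed.totSing_ofQuad.symm (by omega)

theorem pull_refl (f : (ι → F) → (ι → F) → F) : pull (Equiv.refl ι) 1 f = f := by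
  ext u v; simp [pull, tv_apply]

theorem plus_iff_det' (hQ : NQ Q) (h2 : (2 : F) ≠ 0) {m : ℕ} (hm : Fintype.card ι = 2 * m) :
    Pl Q ⊤ ↔ IsSquare ((-1) ^ m * (gramMatrix (pl Q)).det) := by
  rw [plus_iff_det hQ h2 hm (Equiv.refl ι) 1, pull_refl]

theorem Sesq.exists_congr_of_det {f : (ι → F) → (ι → F) → F} (hf : Sesq (rf F) 1 f)
    {f' : (κ → F) → (κ → F) → F} (hf' : Sesq (rf F) 1 f') (h2 : (2 : F) ≠ 0)
    (hd : Fintype.card ι = Fintype.card κ)
    (h : IsSquare ((gramMatrix f).det * (gramMatrix f').det)) :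
    ∃ e : (ι → F) ≃ₗ[F] (κ → F), ∀ u v, f' (e u) (e v) = f u v := by
  have s : ∀ {ι : Type} [Fintype ι] [DecidableEq ι] {f : (ι → F) → (ι → F) → F}
      (hf : Sesq (rf F) 1 f), ∃ Φ : Geom.Formed (RingHom.id F) (ι → F), Φ.Nondeg ∧ Φ.ε = 1 ∧
        (∀ u v, Φ.B u v = f u v) ∧ Φ.gram (Pi.basisFun F ι) = gramMatrix f := fun hf =>
    ⟨.ofSymm h2 hf.bilin ⟨fun u v => by simpa [hf.bilin_apply] using (hf.herm v u).symm⟩,
      fun v hv => hf.nondeg_left v hv, rfl, fun _ _ => rfl, ext fun i j => by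
        simp [gramMatrix, hf.bilin_apply]⟩
  obtain ⟨Φ, h1, h3, h4, h5⟩ := s hf
  obtain ⟨Ψ, h1', h3', h4', h5'⟩ := s hf'
  simpa only [h4, h4'] using h1.exists_equiv_of_disc h1' h2 h3 h3' (by simpa) (Pi.basisFun F ι)
    (Pi.basisFun F κ) (by rwa [h5, h5'])

omit [Finite F] in
theorem det_gram_dec {f : (ι → F) → (ι → F) → F} {t k : ℕ} {D : Fin t → Submodule F (ι → F)}
    (hD : IsNondegenerateMDecomposition f k D) (b : ∀ i, (Fin k → F) ≃ₗ[F] D i) :
    ∃ (e : ι ≃ Fin k × Fin t) (P : GL ι F), (gramMatrix (pull e P f)).det =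
      ∏ i, (gramMatrix fun x y => f (b i x) (b i y)).det := by
  obtain ⟨e, P, h⟩ := exists_bframe hD.decomp b
  refine ⟨e, P, ?_⟩
  rw [← det_blockDiagonal]
  congr 1
  ext ⟨a, i⟩ ⟨a', j⟩
  simp only [gramMatrix, pull, single_eq_kv (a, i), single_eq_kv (a', j), h, blockDiagonal_apply]
  split_ifs with hij
  · subst hij; rfl
  · exact hD.orthogonal i j hij _ (b i _).2 _ (b j _).2

theorem isSquare_neg_one_odd [Fintype F] (h2 : (2 : F) ≠ 0) {m : ℕ} (hm : Odd m) :
    IsSquare ((-1 : F) ^ m) ↔ Fintype.card F % 4 = 1 := by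
  rw [hm.neg_one_pow, ← pow_one (-1 : F), Geom.isSquare_neg_one_pow_iff h2, pow_one]

/-- The type of an orthogonal sum of an even number of isometric spaces. -/
theorem dec_disc (hQ : NQ Q) (h2 : (2 : F) ≠ 0) {t k m : ℕ} {D : Fin t → Submodule F (ι → F)}
    (hD : IsOrthogonalMDecomposition Q k D) (ht : Even t) (hm : Fintype.card ι = 2 * m) :
    Pl Q ⊤ ↔ IsSquare ((-1 : F) ^ m) := by
  let i : Fin t := ⟨0, by have := hD.decomp.decomp.two_le; omega⟩
  obtain ⟨b⟩ := mdec_basis hD.decomp.decomp i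
  choose a ha using hD.isometric i
  obtain ⟨e, P, h⟩ := det_gram_dec hD.decomp fun j => b.trans (a j)
  have h1 : ∀ j, (gramMatrix fun x y => pl Q ((b.trans (a j)) x) ((b.trans (a j)) y)) =
      gramMatrix fun x y => pl Q (b x) (b y) := fun j => by
    congr 1; ext x y
    simp only [QuadraticMap.polar, LinearEquiv.trans_apply, ← Submodule.coe_add, ← map_add, ha]
  obtain ⟨s, rfl⟩ := ht
  rw [plus_iff_det hQ h2 hm e P, h, mul_comm]
  simp only [h1, Finset.prod_const, Finset.card_univ, Fintype.card_fin, pow_add, ← sq]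
  exact Geom.isSquare_sq_mul_iff (pow_ne_zero _
    ((sesq_polar hQ).restrict (hD.decomp.nondegenerate i) b).gram_det_ne)

theorem isom_of_polar (hQ : NQ Q) (h2 : (2 : F) ≠ 0) {u v : ι → F} {c : F}
    (h : pl Q u u = c * pl Q v v) : Q u = c * Q v := by
  rw [polar_self hQ, polar_self hQ] at h
  exact mul_left_cancel₀ h2 (by linear_combination h)

/-- The type of an orthogonal sum of two non-isometric spaces of the same dimension. -/
theorem half_disc (hQ : NQ Q) (h2 : (2 : F) ≠ 0) {k : ℕ} {D : Fin 2 → Submodule F (ι → F)}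
    (hD : IsNondegenerateMDecomposition (pl Q) k D) (hn : ¬ AreIsometricFor Q (D 0) (D 1)) :
    Pl Q ⊤ ↔ ¬ IsSquare ((-1 : F) ^ k) := by
  let b := fun i => (mdec_basis hD.decomp i).some
  obtain ⟨e, P, h⟩ := det_gram_dec hD b
  have hf := fun i => (sesq_polar hQ).restrict (hD.nondegenerate i) (b i)
  rw [plus_iff_det hQ h2 (mdec_mul_eq hD.decomp).symm e P, h, Fin.prod_univ_two,
    Geom.isSquare_mul_iff (by simp) (mul_ne_zero (hf 0).gram_det_ne (hf 1).gram_det_ne)]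
  refine iff_false_right fun hs => hn ?_
  obtain ⟨a, ha⟩ := (hf 0).exists_congr_of_det (hf 1) h2 rfl hs
  exact ⟨(b 0).symm.trans (a.trans (b 1)), fun w => by
    simpa using isom_of_polar hQ h2 (c := 1) (by simpa using ha ((b 0).symm w) ((b 0).symm w))⟩

/-! ### The two families of maximal totally singular subspaces -/

omit [Finite F] in
theorem omega_le_isom : omegaGL Q ≤ isometryGroup F Q := Subgroup.map_subtype_le _

omit [Finite F] in
theorem omega_isom {g : GL ι F} (hg : g ∈ omegaGL Q) (v : ι → F) : Q (g.val *ᵥ v) = Q v :=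
  Geom.mem_isometryGroup.1 (omega_le_isom hg) v

omit [Finite F] in
theorem omega_le_iso : omegaGL Q ≤ Iso (pl Q) := fun _ hg => isom_polar (omega_isom hg)

theorem omega_parity (hQ : NQ Q) {m : ℕ} (hm : Fintype.card ι = 2 * m) (h5 : 5 ≤ Fintype.card ι)
    (h : TS Q U) (hU : finrank F U = m) {g : GL ι F} (hg : g ∈ omegaGL Q) :
    Even (m - finrank F ↥(U ⊓ U.map (toLin' g.val))) := by
  obtain ⟨Q, rfl, hn⟩ := Root.Mx.exists_quad hQ
  obtain ⟨k, hk, rfl⟩ := hg
  have hx : Geom.NotExc Q := Or.inr (Or.inl (by simp; omega))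
  have := (Geom.dick_eq_one_iff_even hn hx (by simpa) ⟨hU, h⟩ _).1
    ((Geom.mem_commutator_iff hn hx _).1 ((Geom.mem_Omega_iff k).1 hk)).1
  rwa [← Geom.mulVecLin_eq] at this

/-! ### Subalgebras preserving singular vectors -/

omit [Finite F] in
theorem exists_max_ts (hQ : NQ Q) {K : Subalgebra F (Matrix ι ι F)}
    (ha : ∀ k ∈ K, adj (rf F) (pl Q) k ∈ K) (hK : ∀ k ∈ K, ∀ v, Q v = 0 → Q (k *ᵥ v) = 0) :
    ∃ U, TS Q U ∧ (∀ k ∈ K, ∀ v ∈ U, k *ᵥ v ∈ U) ∧ ∀ M, TS Q M → finrank F M ≤ finrank F U := by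
  have hf := sesq_polar hQ
  obtain ⟨W, ⟨h1, h2⟩, h3⟩ := exists_maximal_of_wellFoundedGT
    (fun W : Submodule F (ι → F) => (∀ k ∈ K, ∀ v ∈ W, k *ᵥ v ∈ W) ∧ TS Q W)
    ⟨⊥, by simp +contextual, by simp [IsTotallySingularQuad, quad_zero hQ]⟩
  refine ⟨W, h2, h1, fun M hM => not_lt.1 fun hlt => ?_⟩
  obtain ⟨M', h4, h5, h6⟩ := ts_ext hQ h2 hM hlt.le
  refine (Submodule.finrank_mono (show M' ≤ W from fun v hv => ?_)).not_gt (h6 ▸ hlt)
  let U := W ⊔ K.toSubmodule.map ((mulVecBilin F F).flip v)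
  have hU : ∀ u, u ∈ U ↔ ∃ w ∈ W, ∃ k ∈ K, w + k *ᵥ v = u := fun u => by
    simp [U, Submodule.mem_sup]
  refine h3 (y := U) ⟨fun k hk u hu => ?_, fun u hu => ?_⟩ le_sup_left
    ((hU v).2 ⟨0, zero_mem _, 1, one_mem _, by simp⟩)
  · obtain ⟨w, hw, k', hk', rfl⟩ := (hU u).1 hu
    exact (hU _).2 ⟨_, h1 k hk w hw, _, mul_mem hk hk', by rw [mulVec_add, mulVec_mulVec]⟩
  · obtain ⟨w, hw, k, hk, rfl⟩ := (hU u).1 hu
    rw [quad_add Q, h2 w hw, hK k hk v (h5 v hv), ← hf.adj_spec',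
      polar_of_ts h5 _ (h4 (h1 _ (ha k hk) w hw)) v hv]
    simp

theorem plus_iff_of_even (hQ : NQ Q) (h : TS Q U) (he : Even (finrank F U))
    (hn : Even (Fintype.card ι)) (hU : ∀ M, TS Q M → finrank F M ≤ finrank F U) :
    Pl Q ⊤ ↔ 4 ∣ Fintype.card ι := by
  have h1 := ts_two_mul_le hQ h
  obtain ⟨j, hj⟩ := he
  constructor
  · intro hp
    obtain ⟨M, h2, h3⟩ := plus_top_iff.1 hp
    have := hU M h2
    omega
  · rintro ⟨m, hm⟩
    rcases Nat.eq_zero_or_pos m with rfl | h0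
    · exact plus_top_iff.2 ⟨U, h, by omega⟩
    obtain ⟨Q, rfl, hn⟩ := Root.Mx.exists_quad hQ
    refine (wittIndex_of_plus hn (m := 2 * m - 1) (by omega)).elim (·.1) fun h2 => ?_
    obtain ⟨M, h3, h4⟩ := h2.2.1
    have := hU M (Geom.Formed.totSing_ofQuad.1 h3)
    have := h2.2.2 U (Geom.Formed.totSing_ofQuad.2 h)
    omega

/-- The type of a unitary space viewed over the subfield of index two. -/
theorem plus_iff_of_uni [Nonempty ι] (hQ : NQ Q) {K : Subalgebra F (Matrix ι ι F)}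
    (hK : IsFieldSubalgebra 2 K) (ha : ∀ k ∈ K, adj (rf F) (pl Q) k ∈ K)
    (h : ∀ k ∈ K, ∃ c, ∀ v, Q (k *ᵥ v) = c * Q v) : Pl Q ⊤ ↔ 4 ∣ Fintype.card ι := by
  obtain ⟨U, h1, h2, h3⟩ := exists_max_ts hQ ha fun k hk v hv => by
    obtain ⟨c, hc⟩ := h k hk; rw [hc, hv, mul_zero]
  exact plus_iff_of_even hQ h1 (even_iff_two_dvd.2 (Fld.dvd_finrank hK h2))
    (even_iff_two_dvd.2 (Fld.dvd_card hK)) h3

theorem plus_of_skew (hQ : NQ Q) (h2 : (2 : F) ≠ 0) (h4 : 4 ∣ Fintype.card ι) {j : Matrix ι ι F}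
    {a : F} (h0 : a ≠ 0) (hj : j * j = a • 1) (hs : adj (rf F) (pl Q) j = -j) : Pl Q ⊤ := by
  have hf := sesq_polar hQ
  have h1 : ∀ u v, pl Q (j *ᵥ u) v = - pl Q u (j *ᵥ v) := fun u v => by
    rw [hf.adj_spec, hs, neg_mulVec, hf.neg_right]
  have h3 : ∀ v, j *ᵥ j *ᵥ v = a • v := fun v => by rw [mulVec_mulVec, hj, smul_mulVec, one_mulVec]
  by_cases hsq : IsSquare a
  · obtain ⟨i, rfl⟩ := hsq
    have hi : i ≠ 0 := left_ne_zero_of_mul h0
    have key : ∀ c : F, c ≠ 0 → TS Q (LinearMap.ker (toLin' j - c • LinearMap.id)) := fun c hc =>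
      ts_of_polar hQ h2 fun u hu v hv => by
        have hu' : j *ᵥ u = c • u := by simpa [sub_eq_zero] using hu
        have hv' : j *ᵥ v = c • v := by simpa [sub_eq_zero] using hv
        have := h1 u v
        rw [hu', hv', hf.smul_left, hf.smul_right, RingEquiv.refl_apply] at this
        exact (mul_eq_zero.1 (by linear_combination this : 2 * c * pl Q u v = 0)).resolve_left
          (mul_ne_zero h2 hc)
    refine plus_of_sup hQ (key i hi) (key (-i) (neg_ne_zero.2 hi)) (eq_top_iff.2 fun v _ =>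
      Submodule.mem_sup.2 ⟨(2 * i)⁻¹ • (i • v + j *ᵥ v), ?_, (2 * i)⁻¹ • (i • v - j *ᵥ v), ?_, ?_⟩)
    · refine Submodule.smul_mem _ _ ?_
      simp [mulVec_smul, mulVec_add, h3, smul_smul, add_comm]
    · refine Submodule.smul_mem _ _ ?_
      simp [mulVec_smul, mulVec_sub, h3, smul_smul, smul_sub]
      abel
    · rw [← smul_add, add_add_sub_cancel, ← two_smul F, smul_smul, smul_smul, mul_assoc,
        inv_mul_cancel₀ (mul_ne_zero h2 hi), one_smul]
  let K : Subalgebra F (Matrix ι ι F) :=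
    { carrier := {x | ∃ b c : F, x = b • 1 + c • j}
      mul_mem' := by
        rintro _ _ ⟨b, c, rfl⟩ ⟨b', c', rfl⟩
        exact ⟨b * b' + c * c' * a, b * c' + c * b', by
          simp only [add_mul, mul_add, smul_mul_assoc, mul_smul_comm, hj, one_mul, mul_one]
          module⟩
      add_mem' := by
        rintro _ _ ⟨b, c, rfl⟩ ⟨b', c', rfl⟩
        exact ⟨b + b', c + c', by module⟩
      algebraMap_mem' := fun b => ⟨b, 0, by simp [Algebra.algebraMap_eq_smul_one]⟩ }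
  obtain ⟨U, h5, h6, h7⟩ := exists_max_ts hQ (K := K) (by
    rintro _ ⟨b, c, rfl⟩
    exact ⟨b, -c, by rw [hf.adj_add, hf.adj_smul, hf.adj_smul, hf.adj_one, hs]; simp⟩) (by
    rintro _ ⟨b, c, rfl⟩ v hv
    have e1 : pl Q v (j *ᵥ v) = 0 := by
      have := h1 v v
      rw [QuadraticMap.polar_comm] at this
      exact (mul_eq_zero.1 (by linear_combination this : 2 * pl Q v (j *ᵥ v) = 0)).resolve_left h2
    have e2 : Q (j *ᵥ v) = -a * Q v := isom_of_polar hQ h2 (by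
      rw [h1, h3, hf.smul_right]; simp)
    simp [add_mulVec, smul_mulVec, quad_add, hQ.smul, hf.smul_left, hf.smul_right, e1, e2, hv])
  refine (plus_iff_of_even hQ h5 ?_ ((even_iff_two_dvd.2 (Dvd.dvd.trans (by decide) h4))) h7).2 h4
  by_contra ho
  obtain ⟨s, hs⟩ := Nat.not_even_iff_odd.1 ho
  let φ : U →ₗ[F] U := (toLin' j).restrict (h6 j ⟨0, 1, by simp⟩)
  have e1 : φ ∘ₗ φ = a • LinearMap.id := LinearMap.ext fun v => Subtype.ext (h3 v)
  have e2 := congrArg LinearMap.det e1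
  rw [LinearMap.det_comp, LinearMap.det_smul, LinearMap.det_id, mul_one, hs, pow_succ, pow_mul'] at e2
  exact hsq ((Geom.isSquare_sq_mul_iff (pow_ne_zero s h0)).1 ⟨_, e2.symm⟩)

end Cfsg.Agent.Asch
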