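import Cfsg.Agent.Asch.Small

/-! Restriction of forms to non-degenerate subspaces, frames from sets of vectors, self-adjoint
fields, transvections. -/

set_option autoImplicit false

namespace Cfsg.Agent.Asch

open Matrix Cfsg.Geo
open scoped Kronecker

variable {ι κ μ : Type} [Fintype ι] [DecidableEq ι] [Fintype κ] [DecidableEq κ] [Fintype μ]
  [DecidableEq μ] {F : Type*} [Field F] {σ : F ≃+* F} {ε : F} {f : (ι → F) → (ι → F) → F}
  {H : Subgroup (GL ι F)}

local notation "rf" => RingEquiv.refl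

theorem Sesq.restrict (hf : Sesq σ ε f) {W : Submodule F (ι → F)} (hW : IsNondegenerateOn f W)
    (b : (κ → F) ≃ₗ[F] W) : Sesq σ ε fun x y => f (b x) (b y) where
  invol := hf.invol
  eps := hf.eps
  add_left x y v := by rw [map_add, Submodule.coe_add, hf.add_left]
  smul_left c x v := by rw [map_smul, Submodule.coe_smul, hf.smul_left]
  herm v w := hf.herm _ _
  nondeg v hv := by
    by_contra h0
    obtain ⟨x, hx, h⟩ := (hW _ (b v).2 (by simpa using h0)).1
    exact h (by simpa using hv (b.symm ⟨x, hx⟩))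

theorem exists_sub_equiv (W : Submodule F (ι → F)) {k : ℕ} (hk : Module.finrank F W = k) :
    Nonempty ((Fin k → F) ≃ₗ[F] W) := ⟨LinearEquiv.ofFinrankEq _ _ (by simp [hk])⟩

theorem Sesq.even_of_nd [Finite F] (hf : Sesq (rf F) ε f) (ha : ∀ v, f v v = 0)
    {W : Submodule F (ι → F)} (hW : IsNondegenerateOn f W) : Even (Module.finrank F W) := by
  obtain ⟨b⟩ := exists_sub_equiv W rfl
  simpa using (hf.restrict hW b).even_of_alt fun v => ha _

/-- Change of basis of a subspace. -/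
theorem Sesq.exists_sub_basis (hf : Sesq σ ε f) {W : Submodule F (ι → F)}
    (hW : IsNondegenerateOn f W) (b : (κ → F) ≃ₗ[F] W) (T : GL κ F) :
    ∃ b' : (κ → F) ≃ₗ[F] W, ∀ x y, f (b' x) (b' y) = formOfGram σ
      (T.valᵀ * gramMatrix (fun x y => f (b x) (b y)) * T.val.map σ) x y :=
  ⟨(Geom.glEquiv κ F T).trans b, fun x y => by
    rw [← gram_sim, ← (hf.restrict hW b).eq_formOfGram]; rfl⟩

theorem Sesq.exists_onb [Finite F] (hf : Sesq σ 1 f) (hσ : ∃ a, σ a ≠ a)
    {W : Submodule F (ι → F)} (hW : IsNondegenerateOn f W) {k : ℕ} (hk : Module.finrank F W = k) :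
    ∃ b : (Fin k → F) ≃ₗ[F] W, ∀ x y, f (b x) (b y) = formOfGram σ 1 x y := by
  obtain ⟨b⟩ := exists_sub_equiv W hk
  obtain ⟨T, hT⟩ := (hf.restrict hW b).exists_orthonormal hσ
  simpa only [hT] using hf.exists_sub_basis hW b T

theorem Sesq.exists_ogb (hf : Sesq (rf F) 1 f) (h2 : (2 : F) ≠ 0)
    {W : Submodule F (ι → F)} (hW : IsNondegenerateOn f W) {k : ℕ} (hk : Module.finrank F W = k) :
    ∃ (b : (Fin k → F) ≃ₗ[F] W) (d : Fin k → F), (∀ i, d i ≠ 0) ∧
      ∀ x y, f (b x) (b y) = formOfGram (rf F) (diagonal d) x y := by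
  obtain ⟨b⟩ := exists_sub_equiv W hk
  have h1 := hf.restrict hW b
  obtain ⟨T, d, hd, hT⟩ := Sesq.exists_diag (h1.eq_fun ▸ h1) h2
  obtain ⟨b', hb'⟩ := hf.exists_sub_basis hW b T
  exact ⟨b', d, hd, by rwa [hT] at hb'⟩

theorem form_diag (σ : F ≃+* F) (d x y : κ → F) :
    formOfGram σ (diagonal d) x y = ∑ i, x i * (d i * σ (y i)) := by
  simp [formOfGram_eq, dotProduct, mulVec_diagonal]

theorem form_one (σ : F ≃+* F) (x y : κ → F) :
    formOfGram σ (1 : Matrix κ κ F) x y = ∑ i, x i * σ (y i) := by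
  simp [formOfGram_eq, dotProduct]

theorem le_span_of_basis {W : Submodule F (ι → F)} (b : (κ → F) ≃ₗ[F] W) {S : Set (ι → F)}
    (h : ∀ i, (b (Pi.single i 1) : ι → F) ∈ S) : W ≤ Submodule.span F S := fun v hv => by
  obtain ⟨x, hx⟩ := b.surjective ⟨v, hv⟩
  rw [show v = b x from congrArg Subtype.val hx.symm, pi_eq_sum_univ' x, map_sum,
    Submodule.coe_sum]
  exact Submodule.sum_mem _ fun i _ => by
    rw [map_smul, Submodule.coe_smul]
    exact Submodule.smul_mem _ _ (Submodule.subset_span (h i))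

/-- A spanning set of non-isotropic vectors, any two proportional or orthogonal, gives a frame. -/
theorem Sesq.frame_of_set (hf : Sesq σ ε f) (hn : 2 ≤ Fintype.card ι) {S : Set (ι → F)}
    (h0 : ∀ v ∈ S, f v v ≠ 0) (ho : ∀ u ∈ S, ∀ v ∈ S, f u v = 0 ∨ ∃ c : F, u = c • v)
    (hS : Submodule.span F S = ⊤) :
    ∃ D : Fin (Fintype.card ι) → Submodule F (ι → F), IsNondegenerateMDecomposition f 1 D ∧
      (∀ i, ∃ v ∈ S, D i = F ∙ v) ∧
      ∀ g : GL ι F, (∀ v ∈ S, ∃ c : F, c • g.val *ᵥ v ∈ S) → g ∈ decompositionStabilizer D := by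
  obtain ⟨T, b, hb, hT⟩ := exists_gl_cols_mem hS
  have hne : ∀ v ∈ S, v ≠ 0 := fun v hv h => h0 v hv (by rw [h, hf.zero_left])
  have h1 : ∀ j, T.val *ᵥ Pi.single j 1 = b j := fun j => by
    rw [hT, Finset.sum_eq_single j] <;> simp +contextual
  have h2 : ∀ i j (c : F), b i = c • b j → i = j := fun i j c h => by
    rw [← h1, ← h1, ← mulVec_smul, ← sub_eq_zero, ← mulVec_sub, gl_mulVec_eq_zero] at h
    by_contra hij
    simpa [hij] using congrFun h i
  have h3 : ∀ i j, i ≠ j → f (b i) (b j) = 0 := fun i j hij =>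
    (ho _ (hb i) _ (hb j)).resolve_right fun ⟨c, hc⟩ => hij (h2 i j c hc)
  have h4 : ∀ v ∈ S, ∃ j, ∃ c : F, v = c • b j := fun v hv => by
    by_contra hc
    push Not at hc
    refine h0 v hv ?_
    nth_rw 2 [← mulVec_inv_mulVec T v]
    rw [hT, hf.sum_right]
    exact Finset.sum_eq_zero fun j _ => by
      rw [hf.smul_right, (ho v hv _ (hb j)).resolve_right fun ⟨c, h⟩ => hc j c h, mul_zero]
  let e := (Fintype.equivFin ι).symm
  have hli : LinearIndependent F (b ∘ e) := by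
    refine LinearIndependent.comp (Fintype.linearIndependent_iff.2 fun x hx => ?_) e e.injective
    rw [← hT, gl_mulVec_eq_zero] at hx
    exact congrFun hx
  refine ⟨fun i => F ∙ b (e i), ⟨⟨hn, one_pos, fun i => finrank_span_singleton (hne _ (hb _)),
    hli.iSupIndep_span_singleton, eq_top_iff.2 fun v _ => ?_⟩, fun i w hw hw0 => ?_,
    fun i j hij u hu v hv => ?_⟩, fun i => ⟨_, hb _, rfl⟩, fun g hg => ?_⟩
  · rw [← mulVec_inv_mulVec T v, hT]
    exact Submodule.sum_mem _ fun j _ => Submodule.smul_mem _ _ (Submodule.mem_iSup_of_mem (e.symm j)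
      (by simp))
  · obtain ⟨c, rfl⟩ := Submodule.mem_span_singleton.1 hw
    have hc : c ≠ 0 := by rintro rfl; simp at hw0
    refine ⟨⟨_, Submodule.mem_span_singleton_self _, ?_⟩, _, Submodule.mem_span_singleton_self _, ?_⟩
    · rw [hf.smul_right]; exact mul_ne_zero (by simpa using hc) (h0 _ (hb _))
    · rw [hf.smul_left]; exact mul_ne_zero hc (h0 _ (hb _))
  · obtain ⟨c, rfl⟩ := Submodule.mem_span_singleton.1 hu
    obtain ⟨d, rfl⟩ := Submodule.mem_span_singleton.1 hv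
    rw [hf.smul_left, hf.smul_right, h3 _ _ (e.injective.ne hij), mul_zero, mul_zero]
  have h5 : ∀ i, ∃ j, ∃ c : F, c ≠ 0 ∧ g.val *ᵥ b (e i) = c • b (e j) := fun i => by
    obtain ⟨c, hc⟩ := hg _ (hb (e i))
    obtain ⟨j, d, hd⟩ := h4 _ hc
    have hc0 : c ≠ 0 := by rintro rfl; exact hne _ hc (zero_smul _ _)
    refine ⟨e.symm j, c⁻¹ * d, fun h => hne _ hc ?_, by
      rw [e.apply_symm_apply, mul_smul, ← hd, inv_smul_smul₀ hc0]⟩
    rw [hd, (mul_eq_zero.1 h).resolve_left (inv_ne_zero hc0), zero_smul]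
  choose π c hc hπ using h5
  have hi : Function.Injective π := fun i j hij => e.injective (h2 _ _ (c i * (c j)⁻¹) (by
    refine toLin'_injective g ?_
    rw [map_smul, toLin'_apply, toLin'_apply, hπ, hπ, hij, smul_smul, inv_mul_cancel_right₀ (hc j)]))
  refine mem_dstab.2 ⟨Equiv.ofBijective π (Finite.injective_iff_bijective.1 hi), fun i => ?_⟩
  rw [Submodule.map_span, Set.image_singleton, toLin'_apply, hπ]
  exact Submodule.span_singleton_smul_eq (hc i).isUnit _

section field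

variable [Finite F] [Nonempty ι] {d : ℕ} {K : Subalgebra F (Matrix ι ι F)}

theorem Fld.dvd_finrank (hK : IsFieldSubalgebra d K) {W : Submodule F (ι → F)}
    (hW : ∀ k ∈ K, ∀ v ∈ W, k *ᵥ v ∈ W) : d ∣ Module.finrank F W := by
  letI := (Fld.isField hK).toField
  letI : Module K (ι → F) := Module.compHom (ι → F) (K.val.toRingHom : K →+* Matrix ι ι F)
  let W' : Submodule K (ι → F) := ⟨W.toAddSubmonoid, fun k v hv => hW k.1 k.2 v hv⟩
  have h1 : Nat.card W' = Nat.card K ^ Module.finrank K W' := Module.natCard_eq_pow_finrank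
  have h2 : Nat.card W = Nat.card F ^ Module.finrank F W := Module.natCard_eq_pow_finrank
  rw [Fld.card hK, ← pow_mul] at h1
  exact ⟨_, Nat.pow_right_injective (two_le_natCard F) (h2.symm.trans h1)⟩

/-- A self-adjoint field on which the form is alternating has degree dividing half the dimension. -/
theorem Fld.two_mul_dvd (hK : IsFieldSubalgebra d K) (hf : Sesq σ ε f)
    (hs : ∀ k ∈ K, adj σ f k = k) (ha : ∀ k ∈ K, ∀ v, f (k *ᵥ v) v = 0) :
    2 * d ∣ Fintype.card ι := by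
  obtain ⟨W, ⟨h1, h2⟩, h3⟩ := exists_maximal_of_wellFoundedGT
    (fun W : Submodule F (ι → F) => (∀ k ∈ K, ∀ v ∈ W, k *ᵥ v ∈ W) ∧ W ≤ hf.perp W)
    ⟨⊥, by simp +contextual, bot_le⟩
  have h4 : hf.perp W ≤ W := fun v hv => by
    let U := W ⊔ K.toSubmodule.map ((mulVecBilin F F).flip v)
    have hU : ∀ u, u ∈ U ↔ ∃ w ∈ W, ∃ k ∈ K, w + k *ᵥ v = u := fun u => by
      simp [U, Submodule.mem_sup]
    have h5 : ∀ k ∈ K, ∀ w ∈ W, f (k *ᵥ v) w = 0 := fun k hk w hw => by
      rw [hf.adj_spec, hs k hk]; exact hf.mem_perp.1 hv _ (h1 k hk w hw)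
    refine h3 (y := U) ⟨fun k hk u hu => ?_, fun u hu => hf.mem_perp.2 fun u' hu' => ?_⟩ le_sup_left
      ((hU v).2 ⟨0, zero_mem _, 1, one_mem _, by simp⟩)
    · obtain ⟨w, hw, k', hk', rfl⟩ := (hU u).1 hu
      exact (hU _).2 ⟨_, h1 k hk w hw, _, mul_mem hk hk', by rw [mulVec_add, mulVec_mulVec]⟩
    · obtain ⟨w, hw, k, hk, rfl⟩ := (hU u).1 hu
      obtain ⟨w', hw', k', hk', rfl⟩ := (hU u').1 hu'
      rw [hf.add_left, hf.add_right, hf.add_right, hf.mem_perp.1 (h2 hw) _ hw', h5 k hk _ hw',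
        hf.eq_zero_comm.1 (h5 k' hk' _ hw), ← hs k' hk', ← hf.adj_spec, mulVec_mulVec,
        ha _ (mul_mem hk' hk)]
      simp
  have h5 := hf.finrank_perp W
  rw [← le_antisymm h2 h4, ← two_mul] at h5
  exact h5 ▸ Nat.mul_dvd_mul_left 2 (Fld.dvd_finrank hK h1)

end field

theorem Sesq.exists_transv (hf : Sesq (rf F) ε f) (ha : ∀ v, f v v = 0) (v : ι → F) (c : F) :
    ∃ g ∈ Iso f, ∀ x, g.val *ᵥ x = x + (c * f x v) • v := by
  let φ : (ι → F) →ₗ[F] (ι → F) := LinearMap.id + (c • hf.bilin.flip v).smulRight v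
  have h1 : ∀ x, LinearMap.toMatrix' φ *ᵥ x = x + (c * f x v) • v := fun x => by
    rw [← toLin'_apply, toLin'_toMatrix']; simp [φ, hf.bilin_apply]
  have h2 : ∀ x y, f x y = -f y x := fun x y => by
    have := ha (x + y)
    rw [hf.add_left, hf.add_right, hf.add_right, ha, ha] at this
    linear_combination this
  have h3 : ∀ x y, f (LinearMap.toMatrix' φ *ᵥ x) (LinearMap.toMatrix' φ *ᵥ y) = f x y :=
    fun x y => by
    simp only [h1, hf.add_left, hf.add_right, hf.smul_left, hf.smul_right, ha, h2 v y,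
      RingEquiv.refl_apply]
    ring
  obtain ⟨g, hg⟩ := exists_gl_of_injective (LinearMap.toMatrix' φ) fun x hx =>
    hf.nondeg x fun y => by rw [← h3, hx, hf.zero_right]
  exact ⟨g, mem_iso.2 (hg ▸ h3), hg ▸ h1⟩

end Cfsg.Agent.Asch
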