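import Cfsg.Agent.Asch.Frame

/-! The Pauli group in dimension four, small-field lemmas, the cubic field normaliser in `SL₃(4)`. -/

set_option autoImplicit false

namespace Cfsg.Agent.Asch

open Matrix Cfsg.Geo Equiv
open scoped Kronecker

variable {ι κ : Type} [Fintype ι] [DecidableEq ι] [Fintype κ] [DecidableEq κ] {F : Type*} [Field F]

section pauli

/-- The Klein four-group. -/
def V4 (π : Perm (Fin 4)) : Prop := π * π = 1 ∧ Perm.sign π = 1

instance decV4 : DecidablePred V4 := fun _ => instDecidableAnd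

theorem V4.cases {π : Perm (Fin 4)} (h : V4 π) : π = 1 ∨ π = swap 0 1 * swap 2 3 ∨
    π = swap 0 2 * swap 1 3 ∨ π = swap 0 3 * swap 1 2 := by
  revert π; decide +kernel

theorem V4.mul {π ρ : Perm (Fin 4)} (h : V4 π) (h' : V4 ρ) : V4 (π * ρ) ∧ π * ρ = ρ * π := by
  rcases h.cases with rfl | rfl | rfl | rfl <;> rcases h'.cases with rfl | rfl | rfl | rfl <;>
    decide +kernel

theorem V4.inv {π : Perm (Fin 4)} (h : V4 π) : π⁻¹ = π := inv_eq_of_mul_eq_one_right h.1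

theorem V4.conj {π : Perm (Fin 4)} (h : V4 π) (ρ : Perm (Fin 4)) : V4 (ρ * π * ρ⁻¹) :=
  ⟨by rw [conj_mul, h.1, mul_one, mul_inv_cancel], by simp [h.2]⟩

theorem V4.trans (i j : Fin 4) : ∃ π, V4 π ∧ π j = i := by
  revert i j; decide +kernel

/-- Scalar multiples of characters of the four-group. -/
def Good (a : Fin 4 → Fˣ) : Prop := ∀ i, (∀ j, a i ^ 2 = a j ^ 2) ∧ ∏ j, a j = a i ^ 4

theorem Good.mul {a b : Fin 4 → Fˣ} (ha : Good a) (hb : Good b) : Good fun i => a i * b i :=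
  fun i => ⟨fun j => by rw [mul_pow, mul_pow, (ha i).1 j, (hb i).1 j], by
    rw [Finset.prod_mul_distrib, (ha i).2, (hb i).2, mul_pow]⟩

theorem Good.inv {a : Fin 4 → Fˣ} (ha : Good a) : Good fun i => (a i)⁻¹ :=
  fun i => ⟨fun j => by rw [inv_pow, inv_pow, (ha i).1 j], by
    rw [Finset.prod_inv_distrib, (ha i).2, inv_pow]⟩

theorem Good.comp {a : Fin 4 → Fˣ} (ha : Good a) (π : Perm (Fin 4)) : Good fun i => a (π i) :=
  fun i => ⟨fun j => (ha _).1 _, by rw [Equiv.prod_comp π a, (ha _).2]⟩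

theorem good_const (c : Fˣ) : Good fun _ => c := fun _ => ⟨fun _ => rfl, by simp⟩

theorem Good.shift {a : Fin 4 → Fˣ} (ha : Good a) {π : Perm (Fin 4)} (h : V4 π) (i : Fin 4) :
    a (π i) * a 0 = a (π 0) * a i := by
  have h1 := congrArg Units.val ((ha 0).1 1)
  have h2 := congrArg Units.val ((ha 0).1 2)
  have h3 := congrArg Units.val ((ha 0).1 3)
  have h4 := congrArg Units.val (ha 0).2
  have h0 := (a 0).ne_zero
  simp only [Fin.prod_univ_four, Units.val_mul, Units.val_pow_eq_pow_val] at h1 h2 h3 h4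
  apply Units.ext
  rcases h.cases with rfl | rfl | rfl | rfl <;> fin_cases i <;>
    simp [swap_apply_def, mul_comm] <;> grind

theorem good_shift {b : Fin 4 → Fˣ} (h1 : ∀ i, b i ^ 4 = 1) (h2 : (∏ i, b i) ^ 2 = 1)
    {π : Perm (Fin 4)} (h : V4 π) : Good fun i => b (π i) * (b i)⁻¹ := fun i => by
  refine ⟨fun j => ?_, by
    rw [Finset.prod_mul_distrib, Equiv.prod_comp π b, Finset.prod_inv_distrib, mul_pow, inv_pow, h1,
      h1]; simp⟩
  have h3 := fun i => congrArg Units.val (h1 i)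
  have h4 := congrArg Units.val h2
  have h5 := h3 0
  have h6 := h3 1
  have h7 := h3 2
  have h8 := h3 3
  simp only [Fin.prod_univ_four, Units.val_mul, Units.val_pow_eq_pow_val, Units.val_one]
    at h4 h5 h6 h7 h8
  rw [mul_pow, mul_pow, inv_pow, inv_pow, mul_inv_eq_iff_eq_mul, mul_right_comm,
    eq_mul_inv_iff_mul_eq]
  apply Units.ext
  rcases h.cases with rfl | rfl | rfl | rfl <;> fin_cases i <;> fin_cases j <;>
    simp [swap_apply_def, mul_comm] <;> grind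

/-- The Pauli group times scalars in dimension four. -/
def P4 (F : Type*) [Field F] : Subgroup (GL (Fin 4) F) where
  carrier := {g | ∃ π a, V4 π ∧ Good a ∧ g = monoGL π a}
  mul_mem' := by
    rintro _ _ ⟨π, a, h1, h2, rfl⟩ ⟨ρ, b, h3, h4, rfl⟩
    exact ⟨_, _, (h1.mul h3).1, (h2.comp ρ).mul h4, monoGL_mul _ _ _ _⟩
  one_mem' := ⟨1, _, by decide, good_const 1, by rw [monoGL_const, map_one]⟩
  inv_mem' := by
    rintro _ ⟨π, a, h1, h2, rfl⟩
    exact ⟨_, _, h1.inv.symm ▸ h1, (h2.comp π⁻¹).inv, monoGL_inv _ _⟩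

theorem P4_sq {π : Perm (Fin 4)} {a : Fin 4 → Fˣ} (h1 : V4 π) (h2 : Good a) :
    monoGL π a ^ 2 = sc _ (a (π 0) * a 0) := by
  rw [sq, monoGL_mul, h1.1, ← monoGL_const]
  congr 1; funext i
  apply mul_right_cancel (b := a 0)
  rw [mul_right_comm, h2.shift h1, mul_assoc, mul_assoc, ← sq, ← sq, (h2 0).1 i]

theorem sym_P4 (h2 : (2 : F) ≠ 0) : Sym (P4 F) 2 where
  zle x hx := by
    obtain ⟨c, rfl⟩ := mem_scalars_iff_sc.1 hx
    exact ⟨1, _, by decide, good_const c, (monoGL_const c).symm⟩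
  span := by
    have h4 : (4 : F) ≠ 0 := by rw [show (4 : F) = 2 * 2 by norm_num]; exact mul_ne_zero h2 h2
    have hd : ∀ a : Fin 4 → Fˣ, Good a → diagonal (fun i => (a i : F)) ∈ gspan (P4 F) :=
      fun a ha => mono_one (fun i => (a i : F)) ▸ coe_mem_gspan (N := P4 F) (g := monoGL 1 a)
        ⟨1, a, by decide, ha, rfl⟩
    have h1 := hd ![1, 1, -1, -1] fun i => ⟨fun j => by fin_cases i <;> fin_cases j <;> simp, by
      fin_cases i <;> simp [Fin.prod_univ_four] <;> norm_num⟩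
    have h3 := hd ![1, -1, 1, -1] fun i => ⟨fun j => by fin_cases i <;> fin_cases j <;> simp, by
      fin_cases i <;> simp [Fin.prod_univ_four] <;> norm_num⟩
    have h5 : single 0 0 (1 : F) ∈ gspan (P4 F) := by
      convert Subalgebra.smul_mem _ (mul_mem (add_mem (one_mem _) h1) (add_mem (one_mem _) h3))
        (4⁻¹ : F)
      ext i j
      fin_cases i <;> fin_cases j <;> simp [mul_apply, Fin.sum_univ_four, one_apply]
      field_simp; norm_num
    refine eq_top_iff.2 fun x _ => ?_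
    rw [matrix_eq_sum_single x]
    refine sum_mem fun i _ => sum_mem fun j _ => ?_
    obtain ⟨π, hπ, rfl⟩ := V4.trans i 0
    obtain ⟨ρ, hρ, hj⟩ := V4.trans 0 j
    have hm : ∀ π, V4 π → mono π (fun _ => 1) ∈ gspan (P4 F) := fun π hπ =>
      coe_mem_gspan (N := P4 F) (g := monoGL π fun _ => 1) ⟨π, _, hπ, good_const 1, rfl⟩
    convert Subalgebra.smul_mem _ (mul_mem (mul_mem (hm π hπ) h5) (hm ρ hρ)) (x (π 0) j)
    ext a b
    simp only [mono, mul_apply, single_apply, of_apply, Matrix.smul_apply, ← hj]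
    by_cases h : j = b <;> simp [h, ite_and, eq_comm]
  ab := by
    rintro _ ⟨π, a, h1, ha, rfl⟩ _ ⟨ρ, b, h3, hb, rfl⟩
    refine mem_scalars_iff_sc.2 ⟨a (ρ 0) * b 0 * (b (π 0) * a 0)⁻¹, ?_⟩
    rw [mul_assoc (_ * _), ← _root_.mul_inv_rev, eq_mul_inv_iff_mul_eq, ← monoGL_const, monoGL_mul,
      monoGL_mul, monoGL_mul, one_mul, (h1.mul h3).2]
    congr 1; funext i
    rw [mul_right_comm, mul_inv_eq_iff_eq_mul]
    calc _ = a (ρ 0) * a i * (b (π i) * b 0) := by ac_rfl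
      _ = _ := by rw [← ha.shift h3, hb.shift h1]; ac_rfl
  prime := Nat.prime_two
  pow := by
    rintro _ ⟨π, a, h1, ha, rfl⟩
    rw [P4_sq h1 ha]; exact sc_mem _
  two_le := by simp

theorem P4_root_sup (h2 : (2 : F) ≠ 0) : (sym_P4 h2).root ⊔ scalars _ F = P4 F := by
  refine le_antisymm (sup_le (sym_P4 h2).root_le (sym_P4 h2).zle) ?_
  rintro _ ⟨π, a, h1, ha, rfl⟩
  have hb := ha.mul (good_const (a 0)⁻¹)
  refine mem_sup_scalars.2 ⟨monoGL π _, ⟨⟨π, _, h1, hb, rfl⟩, ?_⟩, a 0, ?_⟩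
  · change _ ^ (2 * 2) = 1
    rw [pow_mul, P4_sq h1 hb, ← map_pow, mul_inv_cancel, mul_one, mul_pow, (ha _).1 0, ← mul_pow,
      mul_inv_cancel, one_pow, map_one]
  · rw [← monoGL_const, monoGL_mul, mul_one]; simp

theorem P4_conj {ρ : Perm (Fin 4)} {b : Fin 4 → Fˣ} (h1 : ∀ i, b i ^ 4 = 1)
    (h2 : (∏ i, b i) ^ 2 = 1) {x : GL (Fin 4) F} (hx : x ∈ P4 F) :
    monoGL ρ b * x * (monoGL ρ b)⁻¹ ∈ P4 F := by
  obtain ⟨π, a, h3, ha, rfl⟩ := hx
  rw [monoGL_inv, monoGL_mul, monoGL_mul]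
  refine ⟨_, _, h3.conj ρ, ?_, rfl⟩
  convert ((good_shift h1 h2 h3).mul ha).comp ρ⁻¹ using 2
  rw [mul_right_comm]

end pauli

theorem sesq_zero_adj (σ : F ≃+* F) (x : Matrix ι ι F) : adj σ (fun _ _ => 0) x = 0 := by
  have : gramMatrix (fun _ _ : ι → F => (0 : F)) = 0 := rfl
  simp [adj, this]

theorem card_ne_six [Fintype F] : Fintype.card F ≠ 6 := fun h => by
  have := FiniteField.isPrimePow_card F
  rw [h] at this
  revert this; decide

theorem pow_card_sub_one_units [Fintype F] (a : Fˣ) : a ^ (Fintype.card F - 1) = 1 :=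
  Units.ext (FiniteField.pow_card_sub_one_eq_one a.1 a.ne_zero)

theorem sign_sq (π : Perm κ) : ((Perm.sign π : ℤ) : F) ^ 2 = 1 := by
  rcases Int.units_eq_one_or (Perm.sign π) with h | h <;> simp [h]

theorem prod_sq_of_det {e : ι ≃ κ} {P : GL ι F} {π : Perm κ} {a : κ → Fˣ}
    (h : tg e P (monoGL π a) ∈ specialLinear ι F) : (∏ i, a i) ^ 2 = 1 := by
  rw [mem_sl, coe_tg, det_tp, coe_monoGL, det_mono] at h
  apply Units.ext
  have := congrArg (· ^ 2) h
  simpa [mul_pow, sign_sq] using this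

theorem minimal_mod [Fintype F] {z p e : ℕ} (h : IsMinimalFieldFor z p e F) (hz : 2 ≤ z) :
    0 < e ∧ (p % z) ^ e % z = 1 ∧ ∀ d < e, 0 < d → (p % z) ^ d % z ≠ 1 := by
  have key : ∀ d, z ∣ p ^ d - 1 ↔ (p % z) ^ d % z = 1 := fun d => by
    rw [← Nat.pow_mod, ← Nat.modEq_iff_dvd' (Nat.one_le_pow _ _ h.1.pos), Nat.ModEq,
      Nat.mod_eq_of_lt hz, eq_comm]
  refine ⟨Nat.pos_of_ne_zero fun he => ?_, (key e).1 h.2.2.2.1,
    fun d h1 h2 h3 => h.2.2.2.2 d h2 h1 ((key d).2 h3)⟩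
  have := h.2.2.1
  rw [he, pow_zero] at this
  exact Fintype.one_lt_card.ne' this

theorem minimal_le [Fintype F] {z p e k : ℕ} (h : IsMinimalFieldFor z p e F) (hz : 2 ≤ z)
    (hk : 0 < k) (hd : ∀ a < z, a ^ k % z = 1 ∨ a = 0) : e ≤ k := by
  obtain ⟨h1, h2, h3⟩ := minimal_mod h hz
  rcases hd _ (Nat.mod_lt p (by omega)) with h4 | h4
  · exact not_lt.1 fun h => h3 k h hk h4
  · rw [h4, zero_pow h1.ne'] at h2; simp at h2

theorem minimal_dec [Fintype F] {z p e k : ℕ} (h : IsMinimalFieldFor z p e F) (hz : 2 ≤ z)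
    (hk : 0 < k) (hd : ∀ a < z, a ^ k % z = 1 ∨ a = 0) {C : ℕ → ℕ → Prop}
    (hC : ∀ a < z, ∀ e ≤ k, 0 < e → a ^ e % z = 1 → (∀ d < e, 0 < d → a ^ d % z ≠ 1) → C a e) :
    C (p % z) e :=
  let ⟨h1, h2, h3⟩ := minimal_mod h hz
  hC _ (Nat.mod_lt p (by omega)) _ (minimal_le h hz hk hd) h1 h2 h3

theorem sl_not_le_sim [Finite F] {n : ℕ} (hn : 3 ≤ n) {σ : F ≃+* F} {ε : F}
    {f : (Fin n → F) → (Fin n → F) → F} (hf : Sesq σ ε f) :
    ¬ specialLinear (Fin n) F ≤ similarityGroup f := fun hle => by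
  have h := (qs_sl hn).le_iso hle
  have key : ∀ i j k : Fin n, i ≠ k → j ≠ k → f (Pi.single i 1) (Pi.single j 1) = 0 :=
    fun i j k hi hj => by
    have := mem_iso.1 (h (tvn_mem hi 1)) (Pi.single k 1) (Pi.single j 1)
    rw [tvn_mulVec, tvn_mulVec, Pi.single_eq_of_ne hj.symm] at this
    simpa [hf.add_left] using this
  have h0 : gramMatrix f = 0 := by
    ext i j
    obtain ⟨k, h1, h2⟩ := Classical.exists_ne_ne_of_three_le (ι := Fin n) (by simpa) i j
    exact key i j k h1 h2.symm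
  haveI : Nonempty (Fin n) := ⟨⟨0, by omega⟩⟩
  exact hf.gram_det_ne (by rw [h0, det_zero])

theorem nrm_sl (R : Subgroup (GL ι F)) : Nrm R (specialLinear ι F) := fun g _ x hx =>
  (MonoidHom.normal_ker _).conj_mem x hx g

section singer

universe u

/-- A field subalgebra of full degree: the module is a one-dimensional space over it. -/
structure Singer {F : Type u} [Field F] (K : Subalgebra F (Matrix ι ι F)) (L : Type u) [Field L]
    [Algebra F L] (ρ : L →ₐ[F] Matrix ι ι F) (Φ : L ≃ₗ[F] (ι → F)) : Prop where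
  range : ∀ x, x ∈ K ↔ ∃ y, ρ y = x
  app : ∀ x y, ρ x *ᵥ Φ y = Φ (x * y)
  card : Nat.card L = Nat.card F ^ Fintype.card ι
  det : ∀ x, algebraMap F L (ρ x).det = x ^ ((Nat.card F ^ Fintype.card ι - 1) / (Nat.card F - 1))
  norm : ∀ g ∈ subalgebraNormalizer K, ∃ (α : L ≃ₐ[F] L) (k : L), k ≠ 0 ∧
    ∀ x, g.val *ᵥ Φ x = Φ (α x * k)

theorem exists_singer {F : Type u} [Field F] [Finite F] [Nonempty ι]
    {K : Subalgebra F (Matrix ι ι F)} (hK : IsFieldSubalgebra (Fintype.card ι) K) :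
    ∃ (L : Type u) (_ : Field L) (_ : Finite L) (_ : Algebra F L) (ρ : L →ₐ[F] Matrix ι ι F)
      (Φ : L ≃ₗ[F] (ι → F)), Singer K L ρ Φ := by
  obtain ⟨i⟩ := ‹Nonempty ι›
  have hv : (Pi.single i 1 : ι → F) ≠ 0 := by simp
  obtain ⟨Φ, hΦ⟩ := Fld.exists_equiv hK hv
  letI := (Fld.isField hK).toField
  haveI : Nonempty ι := ⟨i⟩
  refine ⟨K, (Fld.isField hK).toField, inferInstance, inferInstanceAs (Algebra F K), K.val, Φ,
    fun x => ⟨fun h => ⟨⟨x, h⟩, rfl⟩, fun ⟨y, h⟩ => h ▸ y.2⟩, fun x y => ?_, Fld.card hK,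
    fun x => Subtype.ext ?_, fun g hg => ?_⟩
  · rw [hΦ, hΦ, mulVec_mulVec]; rfl
  · exact (Algebra.algebraMap_eq_smul_one _).trans (Fld.det_eq_pow hK x.2)
  · obtain ⟨k, hk⟩ := Φ.surjective (g.val *ᵥ Pi.single i 1)
    refine ⟨AlgEquiv.ofRingEquiv (f := (inv_subalgebraNormalizer K).aut g hg)
      fun c => Subtype.ext ((cj g).commutes c), k,
      fun h => hv (by rwa [h, map_zero, eq_comm, gl_mulVec_eq_zero] at hk), fun x => ?_⟩
    rw [hΦ, hΦ, ← cj_mulVec, ← hk, hΦ, mulVec_mulVec]; rfl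

theorem mem_range_algebraMap {L : Type*} [Field L] [Finite L] [Algebra F L] {x : L}
    (h : x ^ Nat.card F = x) : ∃ c, algebraMap F L c = x := by
  have := (mem_subfield_iff (algebraMap F L).fieldRange x).2 (by
    rwa [← Nat.card_congr (algebraMap F L).rangeRestrictFieldEquiv.toEquiv])
  exact this

end singer

/-- The normaliser of `F₆₄` in `SL₃(4)` is defined over `F₂`. -/
theorem le_subfield_of_cubic [Fintype F] (h4 : Fintype.card F = 4) (hn : Fintype.card ι = 3)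
    {K : Subalgebra F (Matrix ι ι F)} (hK : IsFieldSubalgebra 3 K) :
    ∃ P, subalgebraNormalizer K ⊓ specialLinear ι F ≤ subfieldSubgroup (fixF (fq (q := 2) h4)) P := by
  haveI : Nonempty ι := Fintype.card_pos_iff.1 (by omega)
  obtain ⟨L, _, _, _, ρ, Φ, h⟩ := exists_singer (hn ▸ hK)
  have h4' : Nat.card F = 4 := by rw [Nat.card_eq_fintype_card, h4]
  have hc : Nat.card L = 8 ^ 2 := by rw [h.card, h4', hn]; rfl
  have h8 : ∀ c : F, c ^ 8 = fq (q := 2) h4 c := fun c => by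
    rw [fq_apply, show 8 = 4 * 2 from rfl, pow_mul, ← h4', pow_natCard]
  let θ : (ι → F) →ₛₗ[(fq (q := 2) h4 : F →+* F)] (ι → F) :=
    { toFun := fun w => Φ (Φ.symm w ^ 8)
      map_add' := fun u v => by rw [map_add, add_pow_of_card hc, map_add]
      map_smul' := fun c v => by rw [map_smul, smul_pow, map_smul, h8]; rfl }
  have hθ : ∀ x, θ (Φ x) = Φ (x ^ 8) := fun x => by simp [θ]
  obtain ⟨T, hT⟩ := speiser (φ := fq (q := 2) h4) (d := 2) (orderOf_frob _) two_ne_zero θ fun v => by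
    obtain ⟨x, rfl⟩ := Φ.surjective v
    rw [Function.iterate_succ_apply, Function.iterate_one, hθ, hθ, ← pow_mul,
      show 8 * 8 = Nat.card L from hc.symm, pow_natCard]
  refine ⟨T, fun g hg => ?_⟩
  obtain ⟨α, k, hk0, h1⟩ := h.norm g hg.1
  have h2 : ∀ v, θ (g.val *ᵥ v) = (ρ (k ^ 7) * g.val) *ᵥ θ v := fun v => by
    obtain ⟨x, rfl⟩ := Φ.surjective v
    rw [h1, hθ, hθ, ← mulVec_mulVec, h1, h.app, map_pow α]
    congr 1; ring
  have h3 := congrArg det (map_eq_of_semi' hT h2)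
  rw [← RingEquiv.mapMatrix_apply, ← RingEquiv.map_det, det_cj, det_cj, det_mul, mem_sl.1 hg.2,
    map_one, mul_one] at h3
  have h6 := h.det (k ^ 7)
  rw [← h3, map_one, h4', hn] at h6
  have h7 : (k ^ 7) ^ 9 = 1 := by
    haveI := Fintype.ofFinite L
    have := FiniteField.pow_card_sub_one_eq_one k hk0
    rwa [← Nat.card_eq_fintype_card, hc, show 8 ^ 2 - 1 = 7 * 9 from rfl, pow_mul] at this
  obtain ⟨c, hc⟩ := mem_range_algebraMap (F := F) (x := k ^ 7) (by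
    rw [h4', pow_succ, show (k ^ 7) ^ 3 = 1 from _root_.pow_gcd_eq_one.2 ⟨h6.symm, h7⟩, one_mul])
  exact mem_subfield_of_semi hT (c := c) fun v => by
    rw [h2, ← hc, AlgHom.commutes, ← Algebra.smul_def, smul_mulVec]

end Cfsg.Agent.Asch
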