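import Cfsg.Agent.Asch.Unit

/-! Large quasisimple matrix groups lie in no member of the geometric classes. -/

set_option autoImplicit false

namespace Cfsg.Agent.Asch

open Matrix Cfsg.Geo
open scoped Kronecker

variable {ι : Type} [Fintype ι] [DecidableEq ι] {F : Type*} [Field F]

theorem Irr.scalar_of_eig {X : Subgroup (GL ι F)} (hI : Irr X) {y : Matrix ι ι F}
    (hy : ∀ g ∈ X, y * g.val = g.val * y) {v : ι → F} (hv : v ≠ 0) {c : F}
    (h : y *ᵥ v = c • v) : y = c • 1 := by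
  rcases hI (LinearMap.ker (toLin' (y - c • 1))) (fun g hg w hw => by
    rw [LinearMap.mem_ker, toLin'_apply] at hw ⊢
    rw [mulVec_mulVec, sub_mul, hy g hg, smul_mul_assoc, one_mul, ← mul_one g.val,
      ← mul_smul_comm, mul_one, ← mul_sub, ← mulVec_mulVec, hw, mulVec_zero]) with h0 | h0
  · refine absurd ((Submodule.eq_bot_iff _).1 h0 v ?_) hv
    rw [LinearMap.mem_ker, toLin'_apply, sub_mulVec, h, smul_mulVec, one_mulVec, sub_self]
  · rw [← sub_eq_zero]
    refine ext_mulVec fun w => ?_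
    have : w ∈ LinearMap.ker (toLin' (y - c • 1)) := h0 ▸ Submodule.mem_top
    rw [zero_mulVec]; exact this

theorem not_scalar_single {k : ℕ} (hk : 2 ≤ k) (c : F) :
    single (⟨0, by omega⟩ : Fin k) (⟨1, by omega⟩ : Fin k) (1 : F) ≠ c • 1 := fun h => by
  have := congrFun (congrFun h ⟨0, by omega⟩) ⟨1, by omega⟩
  simp [Matrix.one_apply, Fin.ext_iff] at this

theorem gspan_eq_top_of_eig [Finite F] {X : Subgroup (GL ι F)} (hI : Irr X)
    (hn : 2 ≤ Fintype.card ι)
    (h : ∀ y : Matrix ι ι F, (∀ g ∈ X, y * g.val = g.val * y) → ∃ v ≠ 0, ∃ c : F, y *ᵥ v = c • v) :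
    gspan X = ⊤ := by
  haveI : Nonempty ι := Fintype.card_pos_iff.1 (by omega)
  have hs : ∀ y : Matrix ι ι F, (∀ g ∈ X, y * g.val = g.val * y) → ∃ c : F, y = c • 1 :=
    fun y hy => let ⟨_, hv, c, hc⟩ := h y hy; ⟨c, hI.scalar_of_eig hy hv hc⟩
  by_contra h2
  have h1 : gspan X ≠ ⊥ := gspan_ne_bot fun hle => by
    have := hI.scalars_lt hn
    rw [sup_eq_right.2 hle] at this
    exact lt_irrefl _ this
  obtain ⟨k, m, e, P, hk, hm, -, hA⟩ := tensor_case hI (nrm_self X).inv_gspan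
    (fun x _ hx => hs x fun g hg => hx _ (coe_mem_gspan hg)) h1 h2
  haveI : Nonempty (Fin k) := ⟨⟨0, by omega⟩⟩
  haveI : Nonempty (Fin m) := ⟨⟨0, by omega⟩⟩
  obtain ⟨c, hc⟩ := hs (tp e P ((1 : Matrix (Fin k) (Fin k) F) ⊗ₖ
      single (⟨0, by omega⟩ : Fin m) (⟨1, by omega⟩ : Fin m) (1 : F))) fun g hg => by
    obtain ⟨a, ha⟩ := (hA _).1 (coe_mem_gspan hg)
    rw [ha, ← map_mul, ← map_mul, ← mul_kronecker_mul, ← mul_kronecker_mul, one_mul, mul_one,
      one_mul, mul_one]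
  refine not_scalar_single hm c (algHom_injective (rk (Fin k) (Fin m) F) ?_)
  rw [map_smul, map_one, rk_apply]
  exact (tp e P).injective (by rw [hc, map_smul, map_one])

theorem commutator_self_le {G : Type*} [Group G] (N : Subgroup G) : ⁅N, N⁆ ≤ N :=
  Subgroup.commutator_le.2 fun _ ha _ hb =>
    N.mul_mem (N.mul_mem (N.mul_mem ha hb) (N.inv_mem ha)) (N.inv_mem hb)

/-- No proper invariant additive subgroup. -/
def AddIrr (X : Subgroup (GL ι F)) : Prop :=
  ∀ U : AddSubgroup (ι → F), (∀ g ∈ X, ∀ v ∈ U, g.val *ᵥ v ∈ U) → ∀ v ∈ U, v ≠ 0 → ∀ w, w ∈ U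

theorem AddIrr.irr {X : Subgroup (GL ι F)} (h : AddIrr X) : Irr X := fun W hW => by
  rcases eq_or_ne W ⊥ with h0 | h0
  · exact Or.inl h0
  · obtain ⟨v, hv, h1⟩ := (Submodule.ne_bot_iff _).1 h0
    exact Or.inr (eq_top_iff.2 fun w _ => h W.toAddSubgroup hW v hv h1 w)

/-- A large quasisimple absolutely irreducible matrix group. -/
structure QS (X : Subgroup (GL ι F)) : Prop where
  perfect : ⁅X, X⁆ = X
  span : gspan X = ⊤
  simple : ∀ N ≤ X, Nrm X N → N ≤ scalars ι F ∨ N = X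
  two : 2 ≤ Fintype.card ι
  big1 : (Fintype.card ι).factorial * (Nat.card F - 1) < Nat.card X
  big2 : 4 ≤ Fintype.card ι → Nat.card F ^ (Fintype.card ι + 1) ≤ Nat.card X
  air : AddIrr X

theorem QS.of_hom {X : Subgroup (GL ι F)} {G : Type*} [Group G] (φ : G →* GL ι F)
    (hi : Function.Injective φ) (hφ : φ.range = X)
    (hs : IsSimpleGroup (G ⧸ Subgroup.center G)) (hp : commutator G = ⊤) (span : gspan X = ⊤)
    (two : 2 ≤ Fintype.card ι) {a : ℕ} (ha : (Fintype.card ι).factorial ≤ Nat.card F ^ a)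
    (ha' : 4 ≤ Fintype.card ι → Fintype.card ι ≤ a) [Finite F]
    (big : Nat.card F ^ (a + 1) ≤ Nat.card G) (air : AddIrr X) : QS X := by
  haveI : Nonempty ι := Fintype.card_pos_iff.1 (by omega)
  have hc : Nat.card X = Nat.card G := by
    rw [← hφ]; exact (Nat.card_congr (MonoidHom.ofInjective hi).toEquiv).symm
  rw [MonoidHom.range_eq_map] at hφ
  have hX : ⁅X, X⁆ = X := by
    rw [← hφ, ← Subgroup.map_commutator, ← commutator_def, hp]
  have hm : ∀ g, φ g ∈ X := fun g => hφ ▸ ⟨g, Subgroup.mem_top g, rfl⟩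
  have h2 := two_le_natCard F
  refine ⟨hX, span, fun N hN hn => ?_, two, ?_, fun h4 =>
    hc ▸ (Nat.pow_le_pow_right (by omega) (Nat.succ_le_succ (ha' h4))).trans big, air⟩
  swap
  · refine lt_of_lt_of_le ?_ (hc ▸ big)
    rw [pow_succ]
    exact Nat.mul_lt_mul_of_le_of_lt ha (by omega) (by positivity)
  haveI : (N.comap φ).Normal := ⟨fun x hx g => by
    rw [Subgroup.mem_comap, map_mul, map_mul, map_inv]; exact hn _ (hm g) _ hx⟩
  have hz : ∀ z ∈ Subgroup.center G, φ z ∈ scalars ι F := fun z hz => by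
    obtain ⟨c, hc⟩ := schur span (y := (φ z).val) fun g hg => by
      obtain ⟨g, -, rfl⟩ := (hφ ▸ hg : g ∈ (⊤ : Subgroup G).map φ)
      rw [← Units.val_mul, ← Units.val_mul, ← map_mul, ← map_mul, Subgroup.mem_center_iff.1 hz]
    exact mem_scalars_of_eq hc
  rcases hs.eq_bot_or_eq_top_of_normal ((N.comap φ).map (QuotientGroup.mk' _))
    (Subgroup.Normal.map inferInstance _ (QuotientGroup.mk'_surjective _)) with h | h
  · refine Or.inl fun x hx => ?_
    obtain ⟨g, -, rfl⟩ := (hφ ▸ hN hx : x ∈ (⊤ : Subgroup G).map φ)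
    rw [Subgroup.map_eq_bot_iff, QuotientGroup.ker_mk'] at h
    exact hz g (h hx)
  · refine Or.inr (le_antisymm hN ?_)
    have h1 : X ≤ N ⊔ scalars ι F := fun x hx => by
      obtain ⟨g, -, rfl⟩ := (hφ ▸ hx : x ∈ (⊤ : Subgroup G).map φ)
      obtain ⟨g', hg', h2⟩ := (h ▸ Subgroup.mem_top (QuotientGroup.mk' _ g) :
        QuotientGroup.mk' _ g ∈ (N.comap φ).map (QuotientGroup.mk' (Subgroup.center G)))
      obtain ⟨z, hz', rfl⟩ := (QuotientGroup.mk'_eq_mk' _).1 h2
      rw [map_mul]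
      exact mul_mem (Subgroup.mem_sup_left hg') (Subgroup.mem_sup_right (hz z hz'))
    calc X = ⁅X, X⁆ := hX.symm
      _ ≤ ⁅N ⊔ scalars ι F, N ⊔ scalars ι F⁆ := Subgroup.commutator_mono h1 h1
      _ = ⁅N, N⁆ := commutator_sup_scalars _ _
      _ ≤ N := commutator_self_le _

theorem eq_of_max {G : Type*} [Group G] {X H M : Subgroup G} (h : IsMaximalIn X H) (hM : H ≤ M)
    (hX : ¬ X ≤ M) : H = M ⊓ X :=
  ((h.2 _ (le_inf hM h.1.le) inf_le_right).resolve_right fun e => hX (e ▸ inf_le_left)).symm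

namespace QS

variable {X : Subgroup (GL ι F)} (h : QS X)
include h

theorem nonempty : Nonempty ι := Fintype.card_pos_iff.1 (by have := h.two; omega)

theorem irr : Irr X := irr_of_gspan h.span

theorem not_le_scalars : ¬ X ≤ scalars ι F := fun hle => by
  have := h.irr.scalars_lt h.two
  rw [sup_eq_right.2 hle] at this
  exact lt_irrefl _ this

theorem not_noPerf : ¬ NoPerf X := fun hp =>
  h.not_le_scalars (by rw [hp X le_rfl h.perfect]; exact bot_le)

theorem not_le_stab {W : Submodule F (ι → F)} (h0 : W ≠ ⊥) (h1 : W ≠ ⊤) :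
    ¬ X ≤ subspaceStabilizer W := fun hle =>
  (h.irr W fun _ hg v hv => (mem_subspaceStabilizer.1 (hle hg) v).1 hv).elim h0 h1

theorem card_le [Finite F] {α : Type*} [Finite α] {N : Subgroup (GL ι F)} (hN : N ≤ X)
    (hn : Nrm X N) (hne : N ≠ X) (φ : X → α) (hφ : ∀ g g', φ g = φ g' → g.1⁻¹ * g'.1 ∈ N) :
    Nat.card X ≤ Nat.card α * (Nat.card F - 1) := by
  classical
  have hz := (h.simple N hN hn).resolve_right hne
  haveI : Nonempty X := ⟨1⟩
  have h1 : ∀ g : X, ∃ c : Fˣ, sc ι c = (Function.invFun φ (φ g)).1⁻¹ * g.1 := fun g =>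
    mem_scalars_iff_sc.1 (hz (hφ _ _ (Function.invFun_eq ⟨g, rfl⟩)))
  choose c hc using h1
  rw [← Nat.card_units, ← Nat.card_prod]
  refine Nat.card_le_card_of_injective (fun g => (φ g, c g)) fun g g' hg => ?_
  obtain ⟨e1, e2⟩ := Prod.mk.inj hg
  have := hc g
  rw [e2, hc g', e1] at this
  exact Subtype.ext (mul_left_cancel this).symm

theorem not_le_dstab [Finite F] {t m : ℕ} {D : Fin t → Submodule F (ι → F)}
    (hD : IsMDecomposition m D) : ¬ X ≤ decompositionStabilizer D := fun hle => by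
  choose π hπ using fun g : X => hle g.2
  have hm := mdec_mul_eq hD
  have h2 := hD.two_le
  have h0 := hD.pos
  have hmap : ∀ (g : GL ι F) (W : Submodule F (ι → F)), g ∈ subspaceStabilizer W ↔
      W.map (toLin' g.val) = W := fun g W => by
    rw [mem_subspaceStabilizer]
    refine ⟨fun hg => le_antisymm (Submodule.map_le_iff_le_comap.2 fun v hv => (hg v).1 hv)
      fun v hv => ⟨g⁻¹.val *ᵥ v, (hg _).2 (by rwa [mulVec_inv_mulVec]), by
        rw [toLin'_apply, mulVec_inv_mulVec]⟩, fun hg v => ⟨fun hv => hg ▸ ⟨v, hv, rfl⟩, fun hv => ?_⟩⟩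
    rw [← hg] at hv
    obtain ⟨w, hw, e⟩ := hv
    rwa [← toLin'_injective g e]
  have hmul : ∀ (g g' : GL ι F) (W : Submodule F (ι → F)), W.map (toLin' (g * g').val) =
      (W.map (toLin' g'.val)).map (toLin' g.val) := fun g g' W => by
    rw [Units.val_mul, toLin'_mul, Submodule.map_comp]
  have := h.card_le (N := X ⊓ ⨅ i, subspaceStabilizer (D i)) inf_le_left (fun g hg x hx =>
    ⟨X.mul_mem (X.mul_mem hg hx.1) (X.inv_mem hg), Subgroup.mem_iInf.2 fun i => by
      rw [hmap, hmul, hmul, hπ ⟨_, inv_mem hg⟩, (hmap _ _).1 (Subgroup.mem_iInf.1 hx.2 _),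
        ← hπ ⟨_, inv_mem hg⟩, ← hmul, mul_inv_cancel, Units.val_one, toLin'_one,
        Submodule.map_id]⟩) (fun e => by
      refine h.not_le_stab (W := D ⟨0, by omega⟩) (fun e' => ?_) (fun e' => ?_)
        ((e.ge.trans inf_le_right).trans (iInf_le _ _))
      · have := hD.finrank_eq ⟨0, by omega⟩
        rw [e', finrank_bot] at this; omega
      · have := hD.finrank_eq ⟨0, by omega⟩
        rw [e', finrank_top, Module.finrank_fintype_fun_eq_card] at this
        nlinarith) π fun g g' e => ⟨X.mul_mem (X.inv_mem g.2) g'.2, Subgroup.mem_iInf.2 fun i => by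
      rw [hmap, hmul, hπ, ← e, ← hπ, ← hmul, inv_mul_cancel, Units.val_one, toLin'_one,
        Submodule.map_id]⟩
  rw [Nat.card_eq_fintype_card (α := Equiv.Perm _), Fintype.card_perm, Fintype.card_fin] at this
  refine absurd h.big1 (not_lt.2 (this.trans (Nat.mul_le_mul_right _ (Nat.factorial_le ?_))))
  nlinarith

theorem scalar_of_fix {y : Matrix ι ι F} (hy : ∀ g ∈ X, cj g y = y) : ∃ c : F, y = c • 1 :=
  schur h.span fun g hg => ((cj_eq_iff _ _ _).1 (hy g hg)).symm

theorem not_le_anorm [Finite F] {r : ℕ} (hr : 1 < r) {K : Subalgebra F (Matrix ι ι F)}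
    (hK : IsFieldSubalgebra r K) : ¬ X ≤ subalgebraNormalizer K := fun hle => by
  haveI := h.nonempty
  have hi : Inv X K := (inv_subalgebraNormalizer K).mono hle
  letI := (Fld.isField hK).toField
  have : K = ⊥ := eq_bot_iff.2 fun y hy => mem_bot_iff.2 (h.scalar_of_fix fun g hg => by
    rw [← h.perfect, Subgroup.commutator_def] at hg
    induction hg using Subgroup.closure_induction with
    | mem x hx =>
      obtain ⟨a, ha, b, hb, rfl⟩ := hx
      have := congrArg Subtype.val (ringAut_comm (hi.aut a ha) (hi.aut b hb)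
        ⟨_, hi _ (inv_mem ha) _ (hi _ (inv_mem hb) _ hy)⟩)
      change cj a (cj b _) = cj b (cj a _) at this
      rw [commutatorElement_def, cj_mul, cj_mul, cj_mul, this, cj_cj_inv, cj_cj_inv]
    | one => exact cj_one y
    | mul a b _ _ h1 h2 => rw [cj_mul, h2, h1]
    | inv a _ h1 => nth_rw 1 [← h1]; rw [cj_inv_cj])
  have h1 := hK.finrank_eq
  rw [this, Subalgebra.finrank_bot] at h1
  omega

theorem not_inv_hom [Finite F] {k : ℕ} (hk : 2 ≤ k) (hn : k * k ≤ Fintype.card ι)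
    (ψ : Matrix (Fin k) (Fin k) F →ₐ[F] Matrix ι ι F) :
    ¬ ∀ g ∈ X, ∀ a, ∃ a', cj g (ψ a) = ψ a' := fun hi => by
  haveI := h.nonempty
  haveI : Nonempty (Fin k) := ⟨⟨0, by omega⟩⟩
  choose u hu using fun g : X => skolem' ψ ((cj g.1).toAlgHom.comp ψ) (hi g.1 g.2)
  let N : Subgroup (GL ι F) :=
    { carrier := {g | ∀ a, cj g (ψ a) = ψ a}
      mul_mem' := fun ha hb a => by rw [cj_mul, hb, ha]
      one_mem' := fun a => cj_one _
      inv_mem' := fun ha a => by nth_rw 1 [← ha a]; rw [cj_inv_cj] }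
  have := h.card_le (N := X ⊓ N) inf_le_left (fun g hg x hx =>
    ⟨X.mul_mem (X.mul_mem hg hx.1) (X.inv_mem hg), fun a => by
      obtain ⟨a', ha'⟩ := hi _ (inv_mem hg) a
      rw [cj_mul, cj_mul, ha', hx.2, ← ha', cj_cj_inv]⟩) (fun e => by
      obtain ⟨c, hc⟩ := h.scalar_of_fix (y := ψ (single ⟨0, by omega⟩ ⟨1, by omega⟩ 1))
        fun g hg => (e.ge hg).2 _
      exact not_scalar_single hk c (algHom_injective ψ (by rw [hc, map_smul, map_one])))
    (fun g => (u g).val) fun g g' e => ⟨X.mul_mem (X.inv_mem g.2) g'.2, fun a => by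
      have h1 : cj g'.1 (ψ a) = _ := hu g' a
      have h2 : cj g.1 (ψ a) = _ := hu g a
      rw [cj_mul, h1, ← Units.ext e, ← h2, cj_inv_cj]⟩
  have h2 := h.big2 (by nlinarith)
  have h3 := two_le_natCard F
  have h4 : Nat.card (Matrix (Fin k) (Fin k) F) = Nat.card F ^ (k * k) := by
    rw [Matrix, Nat.card_fun, Nat.card_fun, ← pow_mul]; simp
  have h5 : Nat.card F ^ (k * k) ≤ Nat.card F ^ Fintype.card ι := Nat.pow_le_pow_right (by omega) hn
  have h6 : 0 < Nat.card F ^ Fintype.card ι := by positivity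
  rw [h4] at this
  rw [pow_succ] at h2
  have h7 := Nat.mul_le_mul_right (Nat.card F - 1) h5
  have h8 := Nat.mul_lt_mul_of_pos_left (show Nat.card F - 1 < Nat.card F by omega) h6
  omega

theorem not_le_tensor' [Finite F] {k m : ℕ} (hk : 2 ≤ k) (hkm : k ≤ m) (e : ι ≃ Fin k × Fin m)
    (P : GL ι F) : ¬ X ≤ tensorProductSubgroup k m e P := fun hle => by
  have hc : Fintype.card ι = k * m := by simpa using Fintype.card_congr e
  refine h.not_inv_hom hk (by rw [hc]; exact Nat.mul_le_mul_left _ hkm)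
    ((tp e P).toAlgHom.comp (lk (Fin k) (Fin m) F)) fun g hg a => ?_
  obtain ⟨b, c, rfl⟩ := mem_tensorProductSubgroup.1 (hle hg)
  refine ⟨cj b a, ?_⟩
  rw [AlgHom.comp_apply, AlgHom.comp_apply, lk_apply, lk_apply]
  exact (cj_tg _ _ _ _).trans (by rw [cj_kronecker, map_one]; rfl)

theorem not_le_tensor [Finite F] {k m : ℕ} (hk : 2 ≤ k) (hm : 2 ≤ m) (e : ι ≃ Fin k × Fin m)
    (P : GL ι F) : ¬ X ≤ tensorProductSubgroup k m e P := by
  rcases le_total k m with hkm | hkm
  · exact h.not_le_tensor' hk hkm e P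
  · rw [← tensorProductSubgroup_swap e P]; exact h.not_le_tensor' hm hkm _ P

theorem not_le_wreath [Finite F] {m t : ℕ} (hm : 2 ≤ m) (ht : 2 ≤ t) (e : ι ≃ (Fin t → Fin m))
    (P : GL ι F) : ¬ X ≤ tensorWreathSubgroup m t e P := fun hle => by
  haveI : Nonempty (Fin m) := ⟨⟨0, by omega⟩⟩
  have hc : Fintype.card ι = m ^ t := by simpa using Fintype.card_congr e
  have h1 : ∀ g : X, ∃ π : Equiv.Perm (Fin t), ∀ i a, ∃ a',
      cj g.1 (tp e P (fac i a)) = tp e P (fac (π i) a') := fun g => by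
    obtain ⟨k, hk, e'⟩ := mem_tensorWreathSubgroup.1 (hle g.2)
    obtain ⟨π, hπ⟩ := mem_tensorWreathStandard hk
    exact ⟨π, fun i a => let ⟨a', ha'⟩ := hπ i a; ⟨a', by rw [← e', cj_tg, ha']⟩⟩
  choose π hπ using h1
  let A : Fin t → Subalgebra F (Matrix ι ι F) := fun i => ((tp e P).toAlgHom.comp (fac i)).range
  have hA : ∀ g : X, ∀ i, ∀ x ∈ A i, cj g.1 x ∈ A (π g i) := by
    rintro g i _ ⟨a, rfl⟩
    obtain ⟨a', ha'⟩ := hπ g i a
    exact ⟨a', ha'.symm⟩
  have hA' : ∀ g : X, ∀ i, ∀ x ∈ A (π g i), cj g.1⁻¹ x ∈ A i := by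
    intro g i
    let φ : A i → A (π g i) := fun x => ⟨_, hA g i x.1 x.2⟩
    have hφ : Function.Injective φ := fun x y e => Subtype.ext ((cj g.1).injective
      (congrArg Subtype.val e))
    have hcard : ∀ i, Nat.card (A i) = Nat.card (Matrix (Fin m) (Fin m) F) := fun i => by
      haveI := h.nonempty
      exact (Nat.card_congr (AlgEquiv.ofInjective _ (algHom_injective _)).toEquiv).symm
    have hs := (hφ.bijective_of_nat_card_le (by rw [hcard, hcard])).2
    intro x hx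
    obtain ⟨y, hy⟩ := hs ⟨x, hx⟩
    rw [← show cj g.1 y.1 = x from congrArg Subtype.val hy, cj_inv_cj]
    exact y.2
  have := h.card_le (N := X ⊓ ⨅ i, subalgebraNormalizer (A i)) inf_le_left (fun g hg x hx =>
    ⟨X.mul_mem (X.mul_mem hg hx.1) (X.inv_mem hg), Subgroup.mem_iInf.2 fun i => by
      obtain ⟨j, rfl⟩ := (π ⟨g, hg⟩).surjective i
      have h2 := mem_subalgebraNormalizer.1 (Subgroup.mem_iInf.1 hx.2 j)
      refine mem_subalgebraNormalizer.2 fun y => ⟨fun hy => ?_, fun hy => ?_⟩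
      · rw [cj_mul, cj_mul]; exact hA ⟨g, hg⟩ j _ ((h2 _).1 (hA' ⟨g, hg⟩ j _ hy))
      · have h3 := hA' ⟨g, hg⟩ j _ hy
        rw [cj_mul, cj_mul, cj_inv_cj] at h3
        have h4 := hA ⟨g, hg⟩ j _ ((h2 _).2 h3)
        rwa [cj_cj_inv] at h4⟩) (fun e' => by
      refine h.not_inv_hom hm (hc ▸ (by rw [← sq]; exact Nat.pow_le_pow_right (by omega) ht))
        ((tp e P).toAlgHom.comp (fac ⟨0, by omega⟩)) fun g hg a => ?_
      obtain ⟨a', ha'⟩ := (mem_subalgebraNormalizer.1
        (Subgroup.mem_iInf.1 (e'.ge hg).2 ⟨0, by omega⟩) _).1 ⟨a, rfl⟩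
      exact ⟨a', ha'.symm⟩) π fun g g' e' => ⟨X.mul_mem (X.inv_mem g.2) g'.2,
      Subgroup.mem_iInf.2 fun i => mem_subalgebraNormalizer.2 fun y => ⟨fun hy => by
        rw [cj_mul]; exact hA' g i _ (e' ▸ hA g' i _ hy), fun hy => by
        have h3 := hA g i _ hy
        rw [cj_mul, cj_cj_inv, e'] at h3
        have h4 := hA' g' i _ h3
        rwa [cj_inv_cj] at h4⟩⟩
  rw [Nat.card_eq_fintype_card (α := Equiv.Perm _), Fintype.card_perm, Fintype.card_fin] at this
  refine absurd h.big1 (not_lt.2 (this.trans (Nat.mul_le_mul_right _ (Nat.factorial_le ?_))))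
  exact hc ▸ (Nat.lt_pow_self (by omega)).le

theorem not_le_gnorm [Finite F] {R : Subgroup (GL ι F)} {r : ℕ} (hr : r.Prime) (hR : IsPGroup r R)
    (hs : gspan R = ⊤) (hn : Nrm R X) : ¬ X ≤ subgroupNormalizer R := fun hle => by
  haveI := h.nonempty
  haveI := Fact.mk hr
  have hX : Nrm X R := (nrm_normalizer R).mono hle
  have h1 : ⁅X, R⁆ ≤ R := Subgroup.commutator_le.2 fun x hx y hy =>
    mul_mem (hX x hx y hy) (inv_mem hy)
  have h2 : ⁅X, R⁆ ≤ X := Subgroup.commutator_le.2 fun x hx y hy => by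
    rw [commutatorElement_def, mul_assoc, mul_assoc, ← mul_assoc y]
    exact mul_mem hx (hn y hy _ (inv_mem hx))
  rcases h.simple _ h2 ((nrm_self X).commutator hX) with h3 | h3
  · have h4 : R ≤ scalars ι F := fun y hy => by
      obtain ⟨c, hc⟩ := schur h.span (y := y.val) fun g hg => congrArg Units.val
        (comm_of_comm_mod (fun x hx => h3 (Subgroup.commutator_mem_commutator hx hy))
          (h.perfect.ge hg)).symm
      exact mem_scalars_of_eq hc
    have := (irr_of_gspan hs).scalars_lt h.two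
    rw [sup_eq_right.2 h4] at this
    exact lt_irrefl _ this
  · haveI := hR.isNilpotent
    exact h.not_noPerf ((noPerf_of_solvable (X := R) inferInstance).mono (h3 ▸ h1))

theorem mem_of_le_subfield {K : Subfield F} {P : GL ι F} (hle : X ≤ subfieldSubgroup K P)
    {g : GL ι F} (hg : g ∈ X) (i j : ι) : cj P⁻¹ g i j ∈ K := by
  have h1 := Subgroup.commutator_mono hle hle (h.perfect.ge hg)
  rw [subfieldSubgroup, ← Subgroup.map_commutator] at h1
  obtain ⟨x, hx, rfl⟩ := h1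
  have h2 := commutator_sup_scalars (GeneralLinearGroup.map (n := ι) K.subtype).range
    (GeneralLinearGroup.map (n := ι) K.subtype).range
  obtain ⟨y, rfl⟩ := commutator_self_le _ (h2.le hx)
  have : cj P⁻¹ ((MulAut.conj P).toMonoidHom (GeneralLinearGroup.map K.subtype y)).val =
      (GeneralLinearGroup.map K.subtype y).val := by
    rw [cj_coe]; simp [mul_assoc]
  rw [this]
  exact (y.val i j).2

theorem not_le_subfield {K : Subfield F} (hK : K ≠ ⊤) (P : GL ι F) :
    ¬ X ≤ subfieldSubgroup K P := fun hle => by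
  obtain ⟨i⟩ := h.nonempty
  let U : AddSubgroup (ι → F) :=
    { carrier := {v | ∀ i, (P⁻¹.val *ᵥ v) i ∈ K}
      add_mem' := fun ha hb i => by rw [mulVec_add]; exact add_mem (ha i) (hb i)
      zero_mem' := fun i => by rw [mulVec_zero]; exact zero_mem _
      neg_mem' := fun ha i => by rw [mulVec_neg]; exact neg_mem (ha i) }
  refine hK (eq_top_iff.2 fun c _ => ?_)
  have := h.air U (fun g hg v hv i => by
    have e := cj_mulVec P⁻¹ g v
    rw [← e]
    exact sum_mem fun j _ => mul_mem (h.mem_of_le_subfield hle hg i j) (hv j))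
    (P.val *ᵥ Pi.single i 1) (fun j => by
      rw [inv_mulVec_mulVec, Pi.single_apply]; split_ifs; exacts [one_mem _, zero_mem _])
    (by rw [Ne, gl_mulVec_eq_zero]; exact fun e => by simpa using congrFun e i)
    (P.val *ᵥ Pi.single i c) i
  rwa [inv_mulVec_mulVec, Pi.single_eq_same] at this

theorem not_le_subfield' [Fintype F] {K : Subfield F} {r : ℕ} (hr : 2 ≤ r)
    (hc : Fintype.card F = Nat.card K ^ r) (P : GL ι F) : ¬ X ≤ subfieldSubgroup K P :=
  h.not_le_subfield (ne_top_of_card_pow hr (by rwa [Nat.card_eq_fintype_card])) P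

theorem le_iso {f : (ι → F) → (ι → F) → F} (hle : X ≤ similarityGroup f) : X ≤ Iso f :=
  h.perfect ▸ commutator_le_iso hle hle

theorem isom_of_le_quadSim {Q : (ι → F) → F} (hle : X ≤ quadSimilarityGroup Q) :
    ∀ g ∈ X, ∀ v, Q (g.val *ᵥ v) = Q v := fun g hg v =>
  mem_iso.1 (h.le_iso (f := fun u _ => Q u) (fun _ hx => let ⟨c, hc⟩ := hle hx;
    ⟨c, fun u _ => hc u⟩) hg) v v

end QS

end Cfsg.Agent.Asch
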