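import Cfsg.Agent.Asch.Proper
import Cfsg.Agent.Root.Max3
import Cfsg.Agent.Classical.SLCard
import Cfsg.Agent.Classical.GUCard
import Cfsg.Agent.Classical.SUSimple
import Cfsg.Agent.Classical.SpSimple

/-! The groups `SL`, `SU`, `Sp`, `Ω` are large quasisimple matrix groups (`QS`). -/

set_option autoImplicit false

namespace Cfsg.Agent.Asch

open Matrix Cfsg.Geo Cfsg.Agent.Geom Cfsg.Agent.AutCl Cfsg.Agent.Root.Mx

variable {ι : Type} [Fintype ι] [DecidableEq ι] {F : Type*} [Field F]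

theorem fact_le (n : ℕ) : n.factorial ≤ 2 ^ n.choose 2 := by
  induction n with
  | zero => simp
  | succ n ih =>
    rw [Nat.factorial_succ, Nat.choose_succ_succ', Nat.choose_one_right, pow_add]
    exact Nat.mul_le_mul (Nat.lt_two_pow_self) ih

theorem fact_le' {n : ℕ} (hn : 5 ≤ n) : (n + 1).factorial ≤ 2 ^ n.choose 2 := by
  induction n, hn using Nat.le_induction with
  | base => decide
  | succ n hn ih =>
    rw [Nat.factorial_succ, Nat.choose_succ_succ', Nat.choose_one_right, pow_add]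
    refine Nat.mul_le_mul ?_ ih
    obtain ⟨k, rfl⟩ := Nat.exists_eq_add_of_le' (show 1 ≤ n by omega)
    have := Nat.lt_two_pow_self (n := k)
    rw [pow_succ]; omega

theorem fact_le_pow {n a q : ℕ} (hq : 2 ≤ q) (h : n * (n - 1) ≤ 2 * a) : n.factorial ≤ q ^ a :=
  (fact_le n).trans ((Nat.pow_le_pow_right two_pos (by rw [Nat.choose_two_right]; omega)).trans
    (Nat.pow_le_pow_left hq a))

theorem fact_le_pow' {n a q : ℕ} (hq : 2 ≤ q) (hn : 5 ≤ n) (h : n * (n - 1) ≤ 2 * a) :
    (n + 1).factorial ≤ q ^ a :=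
  (fact_le' hn).trans ((Nat.pow_le_pow_right two_pos (by rw [Nat.choose_two_right]; omega)).trans
    (Nat.pow_le_pow_left hq a))

theorem pow_le_pow_succ_sub {q : ℕ} (hq : 2 ≤ q) (i : ℕ) : q ^ i ≤ q ^ (i + 1) - 1 := by
  have : 0 < q ^ i := by positivity
  rw [pow_succ]
  have := Nat.mul_le_mul_left (q ^ i) hq
  omega

theorem pow_sq_le_prod {q : ℕ} (hq : 2 ≤ q) (k : ℕ) :
    q ^ (k ^ 2) ≤ ∏ i ∈ Finset.range k, (q ^ (2 * (i + 1)) - 1) := by
  induction k with
  | zero => simp
  | succ k ih =>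
    rw [Finset.prod_range_succ, show (k + 1) ^ 2 = k ^ 2 + (2 * k + 1) by ring, pow_add]
    exact Nat.mul_le_mul ih (pow_le_pow_succ_sub hq _)

section formed

variable [Finite F] {σ : F →+* F} {Φ : Formed σ (ι → F)} {X : Subgroup (GL ι F)}

theorem addIrr_of_EG (hn : Φ.Nondeg) (h3 : 3 ≤ Fintype.card ι)
    (hX : ∀ g, glEquiv ι F g ∈ EG Φ → g ∈ X) : AddIrr X := fun U hU v hv h0 w =>
  le_of_inv hn (nondeg_top hn) (by simpa using h3) U (fun x _ y _ d g hg a ha => by
    have := hU _ (hX ((glEquiv ι F).symm g) (by simpa using IsE_mem_EG hg)) a ha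
    rwa [glEquiv_symm_mulVec] at this) hv (by
    by_contra hc
    push Not at hc
    exact h0 (hn.right v fun x => hc x trivial)) w trivial

omit [DecidableEq ι] [Finite F] in
theorem mem_span_of_isE (hn : Φ.Nondeg) (h3 : 3 ≤ Fintype.card ι) {p x : ι → F} (hp0 : p ≠ 0)
    (hp : Φ.Sing p) (hx : ∀ a d g, IsE Φ p a d g → g x = x) : x ∈ F ∙ p := by
  have hε : Φ.ε ≠ 0 := fun h => by simpa [h] using Φ.εε
  have h1 : Φ.B p x = 0 := by
    by_contra hc
    obtain ⟨a, -, ha, hpa⟩ := exists_mem_notMem (Φ := Φ) (U := ⊤) (S := F ∙ p) ![p] (by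
      have := finrank_span_one (F := F) p
      rw [top_sup_eq, finrank_top, Module.finrank_fintype_fun_eq_card]; omega)
    obtain ⟨d, g, hg⟩ := exists_isE' hn hp (hpa 0)
    have := hx a d g hg
    rw [hg.app, add_sub_assoc, add_eq_left, sub_eq_zero] at this
    refine ha (Submodule.mem_span_singleton.2 ⟨(Φ.ε * Φ.B p x)⁻¹ * (Φ.B a x - d * Φ.B p x), ?_⟩)
    rw [mul_smul, this, smul_smul, inv_mul_cancel₀ (mul_ne_zero hε hc), one_smul]
  by_contra hc
  obtain ⟨a, -, ha, hxa⟩ := sep hn (nondeg_top hn) le_top (p := x) trivial hc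
  obtain ⟨d, g, hg⟩ := exists_isE' hn hp (Φ.mem_perp_span_singleton.1 ha)
  have := hx a d g hg
  rw [hg.apply_perp h1, add_eq_left, smul_eq_zero, or_iff_left hp0] at this
  rw [Φ.B_eq_zero_symm this] at hxa
  exact zero_ne_one hxa

theorem gspan_of_EG (hn : Φ.Nondeg) (h3 : 3 ≤ Fintype.card ι)
    (hX : ∀ g, glEquiv ι F g ∈ EG Φ → g ∈ X) : gspan X = ⊤ := by
  refine gspan_eq_top_of_eig (addIrr_of_EG hn h3 hX).irr (by omega) fun y hy => ?_
  obtain ⟨p, hp0, hp⟩ := exists_sing_top Φ (by simpa using h3)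
  obtain ⟨c, hc⟩ := Submodule.mem_span_singleton.1 (mem_span_of_isE hn h3 hp0 hp (x := y *ᵥ p)
    fun a d g hg => by
      have := hy _ (hX ((glEquiv ι F).symm g) (by simpa using IsE_mem_EG hg))
      rw [← glEquiv_symm_mulVec g, mulVec_mulVec, ← this, ← mulVec_mulVec, glEquiv_symm_mulVec,
        hg.apply_p])
  exact ⟨p, hp0, c, hc.symm⟩

end formed

theorem mem_sl {g : GL ι F} : g ∈ specialLinear ι F ↔ g.val.det = 1 := by
  rw [specialLinear, MonoidHom.mem_ker, Units.ext_iff]; rfl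

/-- The elementary transvection. -/
def tvn {i j : ι} (h : i ≠ j) (c : F) : GL ι F :=
  GeneralLinearGroup.mkOfDetNeZero (transvection i j c) (by
    rw [det_transvection_of_ne _ _ h]; exact one_ne_zero)

theorem tvn_mem {i j : ι} (h : i ≠ j) (c : F) : tvn h c ∈ specialLinear ι F :=
  mem_sl.2 (det_transvection_of_ne _ _ h c)

theorem tvn_mulVec {i j : ι} (h : i ≠ j) (c : F) (v : ι → F) :
    (tvn h c).val *ᵥ v = v + Pi.single i (c * v j) := by
  change transvection i j c *ᵥ v = _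
  rw [transvection, add_mulVec, one_mulVec, single_mulVec]
  congr 1

theorem addIrr_sl (h : 2 ≤ Fintype.card ι) : AddIrr (specialLinear ι F) := fun U hU v hv h0 w => by
  haveI : Nontrivial ι := Fintype.one_lt_card_iff_nontrivial.1 h
  have key : ∀ v ∈ U, ∀ i j, i ≠ j → v j ≠ 0 → ∀ c, Pi.single i c ∈ U := fun v hv i j hij hj c => by
    have := U.sub_mem (hU _ (tvn_mem hij (c / v j)) v hv) hv
    rwa [tvn_mulVec, add_sub_cancel_left, div_mul_cancel₀ _ hj] at this
  obtain ⟨j, hj⟩ := Function.ne_iff.1 h0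
  obtain ⟨k, hk⟩ := exists_ne j
  rw [← Finset.univ_sum_single w]
  refine U.sum_mem fun i _ => ?_
  by_cases hi : i = j
  · exact key _ (key v hv k j hk hj 1) i k (hi ▸ hk.symm) (by simp) _
  · exact key v hv i j hi hj _

theorem gspan_sl (h : 2 ≤ Fintype.card ι) [Finite F] : gspan (specialLinear ι F) = ⊤ := by
  haveI : Nontrivial ι := Fintype.one_lt_card_iff_nontrivial.1 h
  refine gspan_eq_top_of_eig (addIrr_sl h).irr h fun y hy => ?_
  obtain ⟨i, j, hij⟩ := exists_pair_ne ι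
  refine ⟨Pi.single i 1, by simp, y j j, ?_⟩
  have := congrArg (· *ᵥ Pi.single j 1) (hy _ (tvn_mem hij 1))
  simp only [← mulVec_mulVec, tvn_mulVec, mulVec_add, add_right_inj] at this
  simpa [← Pi.single_smul] using this

theorem qs_sl [Finite F] {n : ℕ} (hn : 3 ≤ n) : QS (specialLinear (Fin n) F) := by
  have h2 := two_le_natCard F
  refine QS.of_hom SpecialLinearGroup.toGL SpecialLinearGroup.toGL_injective Classical.range_toGL
    (Classical.isSimpleGroup_PSL (by simpa)) (Classical.commutator_SL_eq_top (by simpa))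
    (gspan_sl (by simp; omega)) (by simp; omega) (a := n * (n - 1) - 1) (fact_le_pow h2 ?_) ?_ ?_
    (addIrr_sl (by simp; omega))
  · obtain ⟨k, rfl⟩ := Nat.exists_eq_add_of_le' hn
    simp only [Fintype.card_fin, show k + 3 - 1 = k + 2 from rfl]
    have : 2 ≤ (k + 3) * (k + 2) := by nlinarith
    omega
  · obtain ⟨k, rfl⟩ := Nat.exists_eq_add_of_le' hn
    simp only [Fintype.card_fin, show k + 3 - 1 = k + 2 from rfl]
    have : k + 4 ≤ (k + 3) * (k + 2) := by nlinarith
    omega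
  · obtain ⟨k, rfl⟩ := Nat.exists_eq_add_of_le' hn
    have h1 := Classical.card_SL_mul (F := F) (k + 3) (by omega)
    have h3 : (Nat.card F ^ (k + 2) * (Nat.card F - 1)) ^ (k + 3) ≤
        ∏ i : Fin (k + 3), (Nat.card F ^ (k + 3) - Nat.card F ^ (i : ℕ)) := by
      refine le_trans (le_of_eq ?_) (Finset.pow_card_le_prod _ _
        (Nat.card F ^ (k + 2) * (Nat.card F - 1)) fun i _ => ?_)
      · rw [Finset.card_univ, Fintype.card_fin]
      · rw [Nat.mul_sub_one, ← pow_succ]
        exact Nat.sub_le_sub_left (Nat.pow_le_pow_right (by omega) (by omega)) _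
    have h4 : 1 ≤ (k + 3) * (k + 2) := by nlinarith
    rw [show k + 3 - 1 = k + 2 from rfl, Nat.sub_add_cancel h4]
    refine Nat.le_of_mul_le_mul_left (c := Nat.card F - 1) (h1 ▸ le_trans ?_ h3) (by omega)
    rw [mul_pow, ← pow_mul, mul_comm (k + 2), mul_comm]
    exact Nat.mul_le_mul_left _ (Nat.le_self_pow (by omega) _)

theorem qs_su [Fintype F] {n q : ℕ} (hF : Fintype.card F = q ^ 2) (hn : 3 ≤ n)
    (hx : ¬ (n = 3 ∧ q = 2)) : QS (GU n F q ⊓ specialLinear (Fin n) F) := by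
  haveI := Fact.mk hF
  have hF' : Nat.card F = q ^ 2 := by rwa [Nat.card_eq_fintype_card]
  have h2 : 2 ≤ q := two_le_of_card_eq hF'
  have hE : ∀ g, glEquiv _ F g ∈ EG (hermFormed hF n) → g ∈ GU n F q ⊓ specialLinear (Fin n) F :=
    fun g hg => ⟨(mem_hermFormed_isom hF n).1 (EG_le_isom hg), mem_specialLinear.2 (EG_le_SLg hg)⟩
  obtain ⟨k, rfl⟩ := Nat.exists_eq_add_of_le' hn
  have h4 : (k + 3) * (k + 2) = 2 * ((k + 3) * (k + 2) / 2) :=
    (Nat.mul_div_cancel' (by rw [mul_comm]; exact (Nat.even_mul_succ_self (k + 2)).two_dvd)).symm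
  have h5 : 2 * k + 6 ≤ (k + 3) * (k + 2) := by nlinarith
  refine QS.of_hom (SpecialLinearGroup.toGL.comp (SU _ F q).subtype)
    (SpecialLinearGroup.toGL_injective.comp Subtype.val_injective) ?_
    (Classical.isSimpleGroup_PSU hn hx) (Classical.commutator_SU_eq_top hn hx)
    (gspan_of_EG (hermFormed_nondeg hF _) (by simp) hE) (by simp)
    (a := (k + 3) * (k + 2) / 2 - 1) ?_ ?_ ?_ (addIrr_of_EG (hermFormed_nondeg hF _) (by simp) hE)
  · ext g
    refine ⟨?_, fun hg => ⟨⟨⟨g.val, mem_sl.1 hg.2⟩, hg.1⟩, Units.ext rfl⟩⟩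
    rintro ⟨a, rfl⟩
    exact ⟨a.2, mem_sl.2 a.1.2⟩
  · rw [hF', ← pow_mul]
    refine fact_le_pow h2 ?_
    simp only [Fintype.card_fin, show k + 3 - 1 = k + 2 from rfl]
    omega
  · simp only [Fintype.card_fin]
    intro h
    have : 2 * k + 8 ≤ (k + 3) * (k + 2) := by nlinarith
    omega
  · have h1 := Classical.card_SU_mul (F := F) (q := q) (n := k + 3) (by omega)
    rw [Classical.card_GU, Finset.prod_range_succ', show k + 3 - 1 = k + 2 from rfl] at h1
    have h3 : ∀ j, q ^ (j + 1).choose 2 ≤ ∏ i ∈ Finset.range j,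
        (if Even (i + 1) then q ^ (i + 1 + 1) + 1 else q ^ (i + 1 + 1) - 1) := fun j => by
      induction j with
      | zero => simp
      | succ j ih =>
        rw [Finset.prod_range_succ, Nat.choose_succ_succ', Nat.choose_one_right, pow_add, mul_comm]
        refine Nat.mul_le_mul ih ((pow_le_pow_succ_sub h2 _).trans ?_)
        split_ifs <;> omega
    rw [Nat.sub_add_cancel (by omega), hF', ← pow_mul, two_mul, pow_add]
    refine Nat.le_of_mul_le_mul_left (c := q + 1) (h1 ▸ ?_) (by omega)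
    have h6 := h3 (k + 2)
    rw [Nat.choose_two_right, show k + 2 + 1 - 1 = k + 2 from rfl] at h6
    simp only [Even.zero, if_true, zero_add, pow_one]
    rw [mul_comm, mul_assoc]
    exact Nat.mul_le_mul_left _ (Nat.mul_le_mul_right _ h6)

theorem qs_sp [Finite F] {m : ℕ} (hm : 2 ≤ m) (hx : m = 2 → 3 ≤ Nat.card F) : QS (spGL m F) := by
  have h2 := two_le_natCard F
  have hE : ∀ g, glEquiv _ F g ∈ EG (sympFormed m F) → g ∈ spGL m F := fun g => mem_spGL.2
  have h3 : 3 ≤ Fintype.card (Fin m ⊕ Fin m) := by simp; omega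
  have h4 : 2 * m + 1 ≤ 2 * m ^ 2 := by nlinarith
  refine QS.of_hom ((spGL m F).subtype.comp (Classical.spEquivSpGL (m := m) (F := F)).toMonoidHom)
    (Subtype.val_injective.comp Classical.spEquivSpGL.injective) ?_
    (Classical.isSimpleGroup_PSp hm hx) (Classical.commutator_sp_eq_top_of_finite (by omega))
    (gspan_of_EG (sympFormed_nondeg m F) h3 hE) (by omega) (a := 2 * m ^ 2 - 1)
    (fact_le_pow h2 ?_) ?_ ?_ (addIrr_of_EG (sympFormed_nondeg m F) h3 hE)
  · rw [MonoidHom.range_comp, MonoidHom.range_eq_top.2 Classical.spEquivSpGL.surjective,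
      ← MonoidHom.range_eq_map, Subgroup.range_subtype]
  · obtain ⟨k, rfl⟩ := Nat.exists_eq_add_of_le' hm
    simp only [Fintype.card_sum, Fintype.card_fin,
      show k + 2 + (k + 2) - 1 = 2 * k + 3 by omega]
    have : (k + 2 + (k + 2)) * (2 * k + 3) + 2 ≤ 2 * (2 * (k + 2) ^ 2) := by nlinarith
    omega
  · simp only [Fintype.card_sum, Fintype.card_fin]; omega
  · rw [Classical.card_sp, Nat.sub_add_cancel (by omega), two_mul, pow_add]
    exact Nat.mul_le_mul_left _ (pow_sq_le_prod h2 m)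

theorem qs_omega [Finite F] {Q : (ι → F) → F} (hQ : IsNondegenerateQuadraticForm Q)
    (hn : 7 ≤ Fintype.card ι) : QS (omegaGL Q) := by
  obtain ⟨Q, rfl, hQ'⟩ := exists_quad hQ
  have h2 := two_le_natCard F
  have hE : ∀ g, glEquiv _ F g ∈ EG (Formed.ofQuad Q) → g ∈ omegaGL ⇑Q :=
    fun g => (mem_omegaGL hQ' (by omega)).2
  have hr : Module.finrank F (ι → F) = Fintype.card ι := Module.finrank_fintype_fun_eq_card F
  have hi : Nat.card (Formed.ofQuad Q).isom ≤ 4 * Nat.card (Omega F ⇑Q) := by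
    rw [Nat.card_congr (omegaEquiv Q).toEquiv]
    refine (Subgroup.index_mul_card (commutator (OG Q))).ge.trans (Nat.mul_le_mul_right _ ?_)
    by_cases h : (2 : F) = 0
    · rw [index_commutator_even hQ' (notExc_of_finrank (by omega)) h (by omega)]; omega
    · rw [index_commutator_odd hQ' h (by omega)]
  have hb : ∀ a b, 2 * Nat.card F ^ (a + 1 + 1) ≤ b → b ≤ 4 * Nat.card (Omega F ⇑Q) →
      Nat.card F ^ (a + 1) ≤ Nat.card (Omega F ⇑Q) := fun a b h1 h3 => by
    rw [pow_succ] at h1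
    have := Nat.mul_le_mul_left (Nat.card F ^ (a + 1)) h2
    omega
  have key : ∃ a, (Fintype.card ι).factorial ≤ Nat.card F ^ a ∧ Fintype.card ι ≤ a ∧
      Nat.card F ^ (a + 1) ≤ Nat.card (Omega F ⇑Q) := by
    rcases Nat.even_or_odd' (Fintype.card ι) with ⟨k, hk | hk⟩
    · obtain ⟨k, rfl⟩ := Nat.exists_eq_add_of_le' (show 4 ≤ k by omega)
      refine ⟨2 * k ^ 2 + 14 * k + 22, ?_, by omega, hb _ _ ?_ hi⟩
      · rw [hk]
        refine fact_le_pow' (n := 2 * k + 7) h2 (by omega) ?_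
        rw [show 2 * k + 7 - 1 = 2 * k + 6 from rfl]; nlinarith
      · have h3 := pow_sq_le_prod h2 (k + 3)
        have h4 := pow_le_pow_succ_sub h2 (k + 3)
        rw [show 2 * k ^ 2 + 14 * k + 22 + 1 + 1 = (k + 3 + 1) * (k + 3) + (k + 3) + (k + 3) ^ 2 by
          ring, pow_add, pow_add, ← mul_assoc, ← mul_assoc]
        rcases wittIndex_even hQ' (m := k + 3) (by omega) with h | h
        · rw [card_isom_plus _ hQ' h (by omega)]
          exact Nat.mul_le_mul (Nat.mul_le_mul_left _ h4) h3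
        · rw [card_isom_minus _ hQ' h (by omega)]
          exact Nat.mul_le_mul (Nat.mul_le_mul_left _ (by omega)) h3
    · obtain ⟨k, rfl⟩ := Nat.exists_eq_add_of_le' (show 3 ≤ k by omega)
      refine ⟨2 * k ^ 2 + 12 * k + 16, ?_, by omega, hb _ _ ?_ hi⟩
      · rw [hk]
        refine fact_le_pow' (n := 2 * (k + 3)) h2 (by omega) ?_
        rw [show 2 * (k + 3) - 1 = 2 * k + 5 from rfl]; nlinarith
      · rw [card_isom_odd (k + 3) hQ' (by omega),
          show 2 * k ^ 2 + 12 * k + 16 + 1 + 1 = (k + 3) ^ 2 + (k + 3) ^ 2 by ring, pow_add,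
          ← mul_assoc]
        exact Nat.mul_le_mul_left _ (pow_sq_le_prod h2 _)
  obtain ⟨a, h3, h4, h5⟩ := key
  haveI := isSimpleGroup_POmega hQ' (by omega)
  refine QS.of_hom ((isometryGroup F ⇑Q).subtype.comp (Omega F ⇑Q).subtype)
    (Subtype.val_injective.comp Subtype.val_injective) ?_ (pOmegaEquiv Q).isSimpleGroup ?_
    (gspan_of_EG hQ' (by omega) hE) (by omega) h3 (fun _ => h4) h5
    (addIrr_of_EG hQ' (by omega) hE)
  · rw [MonoidHom.range_comp, Subgroup.range_subtype]; rfl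
  · have h6 : commutator (commutator (OG Q)) = ⊤ := by
      apply Subgroup.map_injective (commutator (OG Q)).subtype_injective
      rw [commutator_def (commutator (OG Q)), Subgroup.map_commutator, ← MonoidHom.range_eq_map,
        Subgroup.range_subtype, commutator_perfect hQ' (by omega)]
    apply Subgroup.map_injective (f := (omegaEquiv Q).toMonoidHom) (omegaEquiv Q).injective
    rw [commutator_def (Omega F ⇑Q), Subgroup.map_commutator, ← MonoidHom.range_eq_map,
      MonoidHom.range_eq_top.2 (omegaEquiv Q).surjective]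
    exact h6

end Cfsg.Agent.Asch
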