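import Cfsg.Agent.Asch.MaxL

/-! Small-dimensional tools: frames with prescribed Gram matrix, Pauli groups in dimension two
and their tensor products. -/

set_option autoImplicit false

namespace Cfsg.Agent.Asch

open Matrix Cfsg.Geo
open scoped Kronecker

variable {ι κ μ : Type} [Fintype ι] [DecidableEq ι] [Fintype κ] [DecidableEq κ] [Fintype μ]
  [DecidableEq μ] {F : Type*} [Field F]

local notation "rf" => RingEquiv.refl

theorem Sesq.exists_frame_of_gram {σ : F ≃+* F} {ε : F} {f : (ι → F) → (ι → F) → F}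
    (hf : Sesq σ ε f) (w : κ → ι → F) (hc : Fintype.card κ = Fintype.card ι) {G : Matrix κ κ F}
    (hG : ∀ p q, f (w p) (w q) = G p q) (hd : G.det ≠ 0) :
    ∃ (e : ι ≃ κ) (P : GL ι F), (∀ p, tv e P (Pi.single p 1) = w p) ∧
      gramMatrix (Asch.pull e P f) = G := by
  let Φ : (κ → F) →ₗ[F] (ι → F) := Fintype.linearCombination F w
  have hi : Function.Injective Φ := (injective_iff_map_eq_zero _).2 fun x hx => by
    refine eq_zero_of_vecMul_eq_zero hd (funext fun q => ?_)
    have := congrArg (f · (w q)) hx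
    simp only [Φ, Fintype.linearCombination_apply, hf.sum_left, hf.smul_left, hG,
      hf.zero_left] at this
    exact this
  obtain ⟨e, P, h⟩ := exists_frame (LinearEquiv.ofBijective Φ ⟨hi,
    (LinearMap.injective_iff_surjective_of_finrank_eq_finrank (by simpa)).1 hi⟩)
  have h1 : ∀ p, tv e P (Pi.single p 1) = w p := fun p => (h _).trans (show Φ _ = _ by simp [Φ])
  refine ⟨e, P, h1, ext fun p q => ?_⟩
  rw [gramMatrix, Asch.pull, h1, h1, hG]

theorem Sesq.exists_diag {G : Matrix κ κ F} (h : Sesq (rf F) 1 (formOfGram (rf F) G))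
    (h2 : (2 : F) ≠ 0) : ∃ (T : GL κ F) (d : κ → F), (∀ i, d i ≠ 0) ∧
      T.valᵀ * G * T.val.map (rf F) = diagonal d := by
  haveI := invertibleOfNonzero h2
  obtain ⟨b, hb⟩ := LinearMap.BilinForm.exists_orthogonal_basis (B := h.bilin)
    ⟨fun x y => (h.herm x y).trans (one_mul _)⟩
  let e := Fintype.equivFinOfCardEq (Module.finrank_fintype_fun_eq_card F (η := κ)).symm
  obtain ⟨T, hT⟩ := exists_gl_cols (b ∘ e) (b.linearIndependent.comp _ e.injective)
  have h1 : T.valᵀ * G * T.val.map (rf F) =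
      diagonal fun i => formOfGram (rf F) G (b (e i)) (b (e i)) := ext fun i j => by
    have := gram_of_cols h hT i j
    rw [gramMatrix_formOfGram] at this
    rw [this, diagonal_apply]
    split_ifs with hij
    · rw [hij]; rfl
    · exact hb (e.injective.ne hij)
  refine ⟨T, _, fun i hi => ?_, h1⟩
  have h3 := congrArg det h1
  have h4 := h.gram_det_ne
  rw [gramMatrix_formOfGram] at h4
  rw [det_diagonal, Finset.prod_eq_zero (Finset.mem_univ i) hi] at h3
  simp [T.det_ne_zero, h4] at h3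

theorem sesq_diag {d : κ → F} (hd : ∀ i, d i ≠ 0) :
    Sesq (rf F) 1 (formOfGram (rf F) (diagonal d)) :=
  sesq_formOfGram (fun _ => rfl) (by simp) (by simpa [Finset.prod_eq_zero_iff] using hd) (by simp)

theorem alt_two {G : Matrix (Fin 2) (Fin 2) F} (h : Sesq (rf F) (-1) (formOfGram (rf F) G))
    (ha : ∀ v, formOfGram (rf F) G v v = 0) : ∃ c : F, c ≠ 0 ∧ G = c • J2 F := by
  have h1 := h.gram_symm
  have h2 := gram_diag_of_alt ha
  have h3 : G = G 0 1 • J2 F := by
    have := congrFun (congrFun h1 0) 1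
    ext i j; fin_cases i <;> fin_cases j <;> simp_all [J2]
  refine ⟨_, fun h0 => h.gram_det_ne ?_, h3⟩
  rw [gramMatrix_formOfGram, h3, h0, zero_smul, det_zero]

theorem three_cases [Fintype F] (h : Fintype.card F = 3) (x : F) : x = 0 ∨ x = 1 ∨ x = -1 := by
  have := FiniteField.pow_card x
  rw [h] at this
  have : x * ((x - 1) * (x + 1)) = 0 := by linear_combination this
  simpa [sub_eq_zero, add_eq_zero_iff_eq_neg] using this

theorem three_eq_zero [Fintype F] (h : Fintype.card F = 3) : (3 : F) = 0 := by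
  have := FiniteField.cast_card_eq_zero F
  rwa [h] at this

section pauli

/-- The group generated by two matrices and the scalars. -/
def pauli (X Z : GL κ F) : Subgroup (GL κ F) := Subgroup.closure {X, Z} ⊔ scalars κ F

variable {X Z : GL κ F}

theorem left_mem_pauli : X ∈ pauli X Z :=
  Subgroup.mem_sup_left (Subgroup.subset_closure (by simp))

theorem right_mem_pauli : Z ∈ pauli X Z :=
  Subgroup.mem_sup_left (Subgroup.subset_closure (by simp))

theorem pauli_le {M : Subgroup (GL κ F)} (hX : X ∈ M) (hZ : Z ∈ M) (h : scalars κ F ≤ M) :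
    pauli X Z ≤ M :=
  sup_le ((Subgroup.closure_le _).2 (by rintro _ (rfl | rfl) <;> assumption)) h

theorem nrm_pauli {H : Subgroup (GL κ F)}
    (h : ∀ g ∈ H, g * X * g⁻¹ ∈ pauli X Z ∧ g * Z * g⁻¹ ∈ pauli X Z) : Nrm H (pauli X Z) :=
  fun g hg => pauli_le (M := (pauli X Z).comap (MulAut.conj g).toMonoidHom) (h g hg).1 (h g hg).2
    fun _ hz => Subgroup.mem_sup_right (scalars_normal.conj_mem _ hz g)

theorem sym_pauli (hX : X * X ∈ scalars κ F) (hZ : Z * Z ∈ scalars κ F)
    (hc : X * Z * X⁻¹ * Z⁻¹ ∈ scalars κ F) (hs : gspan (pauli X Z) = ⊤) (h2 : 2 ≤ Fintype.card κ) :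
    Sym (pauli X Z) 2 := by
  let π := QuotientGroup.mk' (scalars κ F)
  have hπ : ∀ x, π x = 1 ↔ x ∈ scalars κ F := fun x => QuotientGroup.eq_one_iff x
  have h1 : Commute (π X) (π Z) := by
    rw [← commutatorElement_eq_one_iff_commute, ← map_commutatorElement]; exact (hπ _).2 hc
  have h3 : ∀ y, Commute (π X) y → Commute (π Z) y → ∀ x ∈ pauli X Z, Commute (π x) y :=
    fun y h1 h2 x hx => Subgroup.mem_centralizer_singleton_iff.1 (pauli_le
      (M := (Subgroup.centralizer {y}).comap π) (Subgroup.mem_centralizer_singleton_iff.2 h1)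
      (Subgroup.mem_centralizer_singleton_iff.2 h2)
      (fun z hz => Subgroup.mem_centralizer_singleton_iff.2 (by rw [(hπ z).2 hz]; simp)) hx)
  have h4 : ∀ x ∈ pauli X Z, ∀ y ∈ pauli X Z, Commute (π x) (π y) := fun x hx y hy =>
    h3 _ (h3 _ (Commute.refl _) h1.symm y hy).symm (h3 _ h1 (Commute.refl _) y hy).symm x hx
  refine ⟨le_sup_right, hs, fun x hx y hy => (hπ _).1 ?_, Nat.prime_two, fun x hx => ?_, h2⟩
  · rw [← commutatorElement_def, map_commutatorElement, commutatorElement_eq_one_iff_commute]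
    exact h4 x hx y hy
  · let M : Subgroup (GL κ F) :=
      { carrier := {x | x ∈ pauli X Z ∧ π x ^ 2 = 1}
        mul_mem' := fun ha hb => ⟨mul_mem ha.1 hb.1, by
          rw [map_mul, (h4 _ ha.1 _ hb.1).mul_pow, ha.2, hb.2, one_mul]⟩
        one_mem' := ⟨one_mem _, by simp⟩
        inv_mem' := fun ha => ⟨inv_mem ha.1, by rw [map_inv, inv_pow, ha.2, inv_one]⟩ }
    have := pauli_le (M := M) ⟨left_mem_pauli, by rw [sq, ← map_mul, hπ]; exact hX⟩
      ⟨right_mem_pauli, by rw [sq, ← map_mul, hπ]; exact hZ⟩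
      (fun z hz => ⟨Subgroup.mem_sup_right hz, by rw [(hπ z).2 hz, one_pow]⟩) hx
    rw [← hπ, map_pow]; exact this.2

theorem Sym.cm_pauli (h : Sym (pauli X Z) 2) {a : GL κ F} (ha : a ∈ pauli X Z)
    (hz : a ∉ scalars κ F) : cm X a ≠ 1 ∨ cm Z a ≠ 1 := by
  haveI := h.nonempty
  by_contra hc
  push Not at hc
  obtain ⟨y, hy, h1⟩ := h.exists_cm_ne ha hz
  refine h1 ((h.ab.cm_eq_one_iff hy ha).2 (Subgroup.mem_centralizer_singleton_iff.1 (pauli_le
    (M := Subgroup.centralizer {a}) ?_ ?_ (fun z hz => ?_) hy)))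
  all_goals rw [Subgroup.mem_centralizer_singleton_iff]
  exacts [(h.ab.cm_eq_one_iff left_mem_pauli ha).1 hc.1,
    (h.ab.cm_eq_one_iff right_mem_pauli ha).1 hc.2, scalars_comm hz a]

theorem mem_of_smul [Nonempty κ] {N : Subgroup (GL κ F)} (hz : scalars κ F ≤ N) {x y : GL κ F}
    (hy : y ∈ N) {c : F} (h : x.val = c • y.val) : x ∈ N := by
  have : x * y⁻¹ ∈ scalars κ F := mem_scalars_of_eq (c := c) (by
    rw [Units.val_mul, h, smul_mul_assoc, Units.mul_inv])
  simpa using mul_mem (hz this) hy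

/-- The rotation by a right angle. -/
def mI (F : Type*) [Field F] : GL (Fin 2) F :=
  GeneralLinearGroup.mkOfDetNeZero !![0, -1; 1, 0] (by simp [det_fin_two])

/-- The Pauli `X` matrix. -/
def mX (F : Type*) [Field F] : GL (Fin 2) F :=
  GeneralLinearGroup.mkOfDetNeZero !![0, 1; 1, 0] (by simp [det_fin_two])

/-- The Pauli `Z` matrix. -/
def mZ (F : Type*) [Field F] : GL (Fin 2) F :=
  GeneralLinearGroup.mkOfDetNeZero !![1, 0; 0, -1] (by simp [det_fin_two])

/-- The Hadamard matrix. -/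
def mH (h2 : (2 : F) ≠ 0) : GL (Fin 2) F :=
  GeneralLinearGroup.mkOfDetNeZero !![1, 1; 1, -1] (by
    simp only [det_fin_two, of_apply, cons_val', cons_val_zero, cons_val_one, cons_val_fin_one]
    intro h; exact h2 (by linear_combination -h))

theorem coe_mI : (mI F).val = !![0, -1; 1, 0] := rfl
theorem coe_mX : (mX F).val = !![0, 1; 1, 0] := rfl
theorem coe_mZ : (mZ F).val = !![1, 0; 0, -1] := rfl
theorem coe_mH (h2 : (2 : F) ≠ 0) : (mH h2).val = !![1, 1; 1, -1] := rfl

theorem comm_mem_of_anti [Nonempty κ] (h : X.val * Z.val = (-1 : F) • (Z.val * X.val)) :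
    X * Z * X⁻¹ * Z⁻¹ ∈ scalars κ F := mem_scalars_of_eq (c := -1) (by
  rw [mul_assoc (X * Z), ← _root_.mul_inv_rev, Units.val_mul, Units.val_mul, h, smul_mul_assoc,
    ← Units.val_mul, Units.mul_inv])

theorem span_pauli_of {a b c d : Matrix κ κ F → F}
    (h : ∀ x, x = a x • 1 + b x • X.val + c x • Z.val + d x • (X.val * Z.val)) :
    gspan (pauli X Z) = ⊤ := eq_top_iff.2 fun x _ => by
  have h1 := coe_mem_gspan (left_mem_pauli (X := X) (Z := Z))
  have h2 := coe_mem_gspan (right_mem_pauli (X := X) (Z := Z))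
  rw [h x]
  exact add_mem (add_mem (add_mem (Subalgebra.smul_mem _ (one_mem _) _) (Subalgebra.smul_mem _ h1 _))
    (Subalgebra.smul_mem _ h2 _)) (Subalgebra.smul_mem _ (mul_mem h1 h2) _)

theorem sym_D8 (h2 : (2 : F) ≠ 0) : Sym (pauli (mX F) (mZ F)) 2 :=
  sym_pauli (mem_scalars_of_eq (c := 1) (by simp [coe_mX, one_fin_two]))
    (mem_scalars_of_eq (c := 1) (by simp [coe_mZ, one_fin_two]))
    (comm_mem_of_anti (by simp [coe_mX, coe_mZ])) (span_pauli_of (a := fun x => (x 0 0 + x 1 1) / 2)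
      (b := fun x => (x 0 1 + x 1 0) / 2) (c := fun x => (x 0 0 - x 1 1) / 2)
      (d := fun x => (x 1 0 - x 0 1) / 2) fun x => by
      ext i j; fin_cases i <;> fin_cases j <;> simp [coe_mX, coe_mZ] <;> field_simp <;> ring)
    (by simp)

theorem sym_Q8 (h2 : (2 : F) ≠ 0) : Sym (pauli (mI F) (mH h2)) 2 := by
  have h4 : (4 : F) ≠ 0 := by rw [show (4 : F) = 2 * 2 by norm_num]; exact mul_ne_zero h2 h2
  exact sym_pauli (mem_scalars_of_eq (c := -1) (by simp [coe_mI, one_fin_two]))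
    (mem_scalars_of_eq (c := 2) (by simp [coe_mH, one_fin_two]; norm_num))
    (comm_mem_of_anti (by simp [coe_mI, coe_mH])) (span_pauli_of (a := fun x => (x 0 0 + x 1 1) / 2)
      (b := fun x => (x 1 0 - x 0 1) / 2) (c := fun x => (x 0 1 + x 1 0 + x 0 0 - x 1 1) / 4)
      (d := fun x => (x 0 1 + x 1 0 - x 0 0 + x 1 1) / 4) fun x => by
      ext i j; fin_cases i <;> fin_cases j <;> simp [coe_mI, coe_mH] <;> field_simp <;> ring)
    (by simp)

variable [Fintype F]

theorem two_ne_of_three (h : Fintype.card F = 3) : (2 : F) ≠ 0 :=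
  two_ne_zero_of_odd (by rw [h]; decide)

theorem mem_Q8 (h : Fintype.card F = 3) {x : GL (Fin 2) F} (ht : x.val.trace = 0)
    (hd : x.val.det = 1) : x ∈ pauli (mI F) (mH (two_ne_of_three h)) := by
  have h2 := two_ne_of_three h
  have h3 := three_eq_zero h
  have hI := left_mem_pauli (X := mI F) (Z := mH h2)
  have hH := right_mem_pauli (X := mI F) (Z := mH h2)
  rw [trace_fin_two] at ht
  rw [det_fin_two] at hd
  rcases three_cases h (x.val 0 0) with h0 | h0 | h0
  · refine mem_of_smul le_sup_right hI (c := x.val 1 0) (ext fun i j => ?_)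
    rcases three_cases h (x.val 1 0) with h1 | h1 | h1 <;>
      fin_cases i <;> fin_cases j <;> simp [coe_mI] <;> grind
  all_goals
    by_cases h1 : x.val 0 0 = x.val 0 1
    · refine mem_of_smul le_sup_right hH (c := x.val 0 0) (ext fun i j => ?_)
      fin_cases i <;> fin_cases j <;> simp [coe_mH] <;> grind
    · refine mem_of_smul le_sup_right (mul_mem hI hH) (c := -x.val 0 0) (ext fun i j => ?_)
      rcases three_cases h (x.val 0 1) with h1 | h1 | h1 <;>
        fin_cases i <;> fin_cases j <;> simp [coe_mH, coe_mI] <;> grind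

theorem nrm_Q8 (h : Fintype.card F = 3) (H : Subgroup (GL (Fin 2) F)) :
    Nrm H (pauli (mI F) (mH (two_ne_of_three h))) := nrm_pauli fun g _ => by
  have h3 := three_eq_zero h
  refine ⟨mem_Q8 h ?_ ?_, mem_Q8 h ?_ ?_⟩ <;> rw [← cj_coe]
  · rw [trace_cj]; simp [coe_mI]
  · rw [det_cj]; simp [coe_mI]
  · rw [trace_cj]; simp [coe_mH]
  · rw [det_cj]; simp [coe_mH]; linear_combination -h3

theorem scalars_le_iso_three (h : Fintype.card F = 3) [Nonempty ι] {ε : F}
    {f : (ι → F) → (ι → F) → F} (hf : Sesq (rf F) ε f) : scalars ι F ≤ Iso f := fun z hz => by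
  obtain ⟨c, rfl⟩ := mem_scalars_iff_sc.1 hz
  refine hf.sc_mem_iso.2 ?_
  rcases three_cases h c with h | h | h <;> simp_all

theorem mem_iso_J2 {x : GL (Fin 2) F} (h : x.val.det = 1) : x ∈ Iso (formOfGram (rf F) (J2 F)) :=
  mem_iso.2 fun u v => by rw [form_J2, h, one_mul]

theorem Q8_le_iso (h : Fintype.card F = 3) :
    pauli (mI F) (mH (two_ne_of_three h)) ≤ Iso (formOfGram (rf F) (J2 F)) :=
  pauli_le (mem_iso_J2 (by simp [coe_mI])) (mem_iso_J2 (by
    simp [coe_mH]; linear_combination -three_eq_zero h)) (scalars_le_iso_three h sesq_J2)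

theorem D8_le_iso (h : Fintype.card F = 3) :
    pauli (mX F) (mZ F) ≤ Iso (formOfGram (rf F) (1 : Matrix (Fin 2) (Fin 2) F)) := by
  refine pauli_le (mem_iso.2 fun u v => ?_) (mem_iso.2 fun u v => ?_)
    (scalars_le_iso_three h (sesq_one fun _ => rfl))
  all_goals
    rw [gram_sim]
    congr 1
    ext i j; fin_cases i <;> fin_cases j <;> simp [coe_mX, coe_mZ, mul_apply, Fin.sum_univ_two]

theorem nrm_D8 (h : Fintype.card F = 3) {H : Subgroup (GL (Fin 2) F)}
    (hH : H ≤ similarityGroup (formOfGram (rf F) (1 : Matrix (Fin 2) (Fin 2) F))) :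
    Nrm H (pauli (mX F) (mZ F)) := nrm_pauli fun g hg => by
  have h3 := three_eq_zero h
  have hf := sesq_one (ι := Fin 2) (σ := rf F) fun _ => rfl
  have ha : ∀ x, adj (rf F) (formOfGram (rf F) (1 : Matrix (Fin 2) (Fin 2) F)) x = xᵀ :=
    fun x => hf.adj_eq_of_gram (by rw [gramMatrix_formOfGram]; simp)
  have key : ∀ y : GL (Fin 2) F, y.valᵀ = y.val → y.val.trace = 0 → y.val.det = -1 →
      g * y * g⁻¹ ∈ pauli (mX F) (mZ F) := fun y h1 h2 h4 => by
    have h5 := hf.adj_cj (hH hg) y.val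
    rw [← trace_cj g] at h2
    rw [← det_cj g] at h4
    rw [ha, ha, h1] at h5
    rw [cj_coe] at h2 h4 h5
    generalize g * y * g⁻¹ = x at *
    have h6 := congrFun (congrFun h5 0) 1
    rw [trace_fin_two] at h2
    rw [det_fin_two] at h4
    rw [transpose_apply] at h6
    rcases three_cases h (x.val 0 0) with h0 | h0 | h0
    · refine mem_of_smul le_sup_right left_mem_pauli (c := x.val 1 0) (ext fun i j => ?_)
      fin_cases i <;> fin_cases j <;> simp [coe_mX] <;> grind
    all_goals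
      refine mem_of_smul le_sup_right right_mem_pauli (c := x.val 0 0) (ext fun i j => ?_)
      fin_cases i <;> fin_cases j <;> simp [coe_mZ] <;> grind
  refine ⟨key _ ?_ (by simp [coe_mX]) (by simp [coe_mX]), key _ ?_ (by simp [coe_mZ])
    (by simp [coe_mZ])⟩ <;> ext i j <;> fin_cases i <;> fin_cases j <;> rfl

theorem tg_kron_mul (e : ι ≃ κ × μ) (P : GL ι F) (a a' : GL κ F) (b b' : GL μ F) :
    (tg e P (GeneralLinearGroup.kronecker a b)).val * (tg e P (GeneralLinearGroup.kronecker a' b')).val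
      = tp e P ((a.val * a'.val) ⊗ₖ (b.val * b'.val)) := by
  rw [coe_tg, coe_tg, ← map_mul, coe_kronecker, coe_kronecker, mul_kronecker_mul]

/-- Over `F₃`, the product of `Q₈` with a Pauli-type group has enough elements of order four. -/
theorem hx_tprod (h : Fintype.card F = 3) {B : Subgroup (GL μ F)} (hB : Sym B 2)
    (e : ι ≃ Fin 2 × μ) (P : GL ι F) : ∀ a ∈ tprod e P (pauli (mI F) (mH (two_ne_of_three h))) B,
      a ∉ scalars ι F → ∃ x ∈ tprod e P (pauli (mI F) (mH (two_ne_of_three h))) B,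
        x.val * x.val = -1 ∧ cm x a ≠ 1 := by
  have h2 := two_ne_of_three h
  have hA := sym_Q8 h2
  have hN := hA.tprod hB e P
  haveI := hN.nonempty
  haveI := hB.nonempty
  intro a ha hz
  obtain ⟨a₁, h1, a₂, h3, rfl⟩ := mem_tprod.1 ha
  have key : ∀ x₁ ∈ pauli (mI F) (mH h2), ∀ x₂ ∈ B,
      (x₁.val * x₁.val) ⊗ₖ (x₂.val * x₂.val) = -1 →
      (x₁.val * a₁.val) ⊗ₖ (x₂.val * a₂.val) = -((a₁.val * x₁.val) ⊗ₖ (a₂.val * x₂.val)) →
      ∃ x ∈ tprod e P (pauli (mI F) (mH h2)) B, x.val * x.val = -1 ∧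
        cm x (tg e P (GeneralLinearGroup.kronecker a₁ a₂)) ≠ 1 := fun x₁ hx₁ x₂ hx₂ h4 h5 => by
    have hx := (mem_tprod (e := e) (P := P)).2 ⟨x₁, hx₁, x₂, hx₂, rfl⟩
    refine ⟨_, hx, by rw [tg_kron_mul, h4, map_neg, map_one], fun hc => ?_⟩
    have h6 := congrArg Units.val ((hN.ab.cm_eq_one_iff hx ha).1 hc)
    have h7 := (tg e P (GeneralLinearGroup.kronecker a₁ a₂) *
      tg e P (GeneralLinearGroup.kronecker x₁ x₂)).ne_zero
    rw [Units.val_mul, Units.val_mul, tg_kron_mul, h5, map_neg, ← tg_kron_mul, neg_eq_iff_add_eq_zero,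
      ← two_smul F, smul_eq_zero] at h6
    exact h6.elim h2 h7
  have hI : (mI F).val * (mI F).val = (-1 : F) • 1 := by simp [coe_mI, one_fin_two]
  have hH : (mH h2).val * (mH h2).val = (-1 : F) • 1 := by
    simp [coe_mH, one_fin_two]; linear_combination three_eq_zero h
  by_cases h4 : a₁ ∈ scalars _ F
  · have h5 : a₂ ∉ scalars _ F := fun h5 => hz (tg_kron_mem_scalars e P h4 h5)
    obtain ⟨y, hy, h6⟩ := hB.exists_cm_ne h3 h5
    have h7 := hB.cm_eq_neg_one hy h3 h6
    obtain ⟨c, hc⟩ := (mem_scalars_iff _).1 (hB.pow y hy)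
    rw [sq, Units.val_mul] at hc
    have h8 : ∀ x : GL (Fin 2) F, (x.val * a₁.val) ⊗ₖ (y.val * a₂.val) =
        -((a₁.val * x.val) ⊗ₖ (a₂.val * y.val)) := fun x => by
      rw [h7, ← Units.val_mul, ← scalars_comm h4, ← neg_one_smul F, kronecker_smul, neg_one_smul]; rfl
    rcases three_cases h c with h0 | h0 | h0
    · exact absurd h0 c.ne_zero
    · exact key _ left_mem_pauli y hy (by rw [hI, hc, h0, smul_kronecker]; simp) (h8 _)
    · exact key 1 (one_mem _) y hy (by rw [hc, h0, kronecker_smul]; simp) (h8 _)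
  · have h8 : ∀ x ∈ pauli (mI F) (mH h2), cm x a₁ ≠ 1 → x.val * x.val = (-1 : F) • 1 → _ :=
      fun x hx h5 h6 => key x hx 1 (one_mem _) (by rw [h6, smul_kronecker]; simp) (by
        rw [hA.cm_eq_neg_one hx h1 h5, ← neg_one_smul F, smul_kronecker]; simp)
    exact (hA.cm_pauli h1 h4).elim (h8 _ left_mem_pauli · hI) (h8 _ right_mem_pauli · hH)

omit [Fintype F] in
theorem tprod_le_iso {σ : F ≃+* F} {ε : F} {f : (ι → F) → (ι → F) → F} (hf : Sesq σ ε f)
    {e : ι ≃ κ × μ} {P : GL ι F} {G₁ : Matrix κ κ F} {G₂ : Matrix μ μ F} {c : F}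
    (hG : gramMatrix (pull e P f) = c • (G₁ ⊗ₖ G₂)) {A : Subgroup (GL κ F)} {B : Subgroup (GL μ F)}
    (hA : A ≤ Iso (formOfGram σ G₁)) (hB : B ≤ Iso (formOfGram σ G₂)) : tprod e P A B ≤ Iso f := by
  intro g hg
  obtain ⟨a, ha, b, hb, rfl⟩ := mem_tprod.1 hg
  have h1 := (gram_isom_iff σ G₁ a.val 1).1 (by simpa using mem_iso.1 (hA ha))
  have h2 := (gram_isom_iff σ G₂ b.val 1).1 (by simpa using mem_iso.1 (hB hb))
  have h3 := ((hf.pull e P).isom_iff (a.val ⊗ₖ b.val) 1).2 (by
    have : (a.val ⊗ₖ b.val).map σ = a.val.map σ ⊗ₖ b.val.map σ := by ext; simp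
    rw [hG, this, ← kroneckerMap_transpose, mul_smul_comm, smul_mul_assoc, ← mul_kronecker_mul,
      ← mul_kronecker_mul, h1, h2]; simp)
  refine mem_iso.2 fun u v => ?_
  obtain ⟨u, rfl⟩ := (tv e P).surjective u
  obtain ⟨v, rfl⟩ := (tv e P).surjective v
  rw [tg_mulVec, tg_mulVec]
  exact (h3 u v).trans (one_mul _)

end pauli

end Cfsg.Agent.Asch
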