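import Cfsg.Agent.Asch.Herm

/-! Aschbacher's theorem for the unitary groups. -/

set_option autoImplicit false

namespace Cfsg.Agent.Asch

open Matrix Cfsg.Geo
open scoped Kronecker

variable {ι : Type} [Fintype ι] [DecidableEq ι] {F : Type*} [Field F]

section gen

variable {σ : F ≃+* F} {ε : F} {f : (ι → F) → (ι → F) → F}

theorem Sesq.mult_mul [Nonempty ι] (hf : Sesq σ ε f) {c : F} (h : ∀ u v, c * f u v = f u v) :
    c = 1 := by
  by_contra hc
  obtain ⟨i⟩ := ‹Nonempty ι›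
  have := hf.nondeg (Pi.single i 1) fun x => (mul_left_eq_self₀.1 (h x _)).resolve_left hc
  simpa using congrFun this i

theorem sim_pow {g : GL ι F} {c : F}
    (hg : ∀ u v, f (g.val *ᵥ u) (g.val *ᵥ v) = c * f u v) (k : ℕ) (u v : ι → F) :
    f ((g ^ k).val *ᵥ u) ((g ^ k).val *ᵥ v) = c ^ k * f u v := by
  induction k with
  | zero => simp
  | succ k ih => rw [pow_succ', Units.val_mul, ← mulVec_mulVec, ← mulVec_mulVec, hg, ih]; ring

theorem Sym.root_le_iso [Finite F] {N : Subgroup (GL ι F)} {r : ℕ} (h : Sym N r) (ho : Odd r)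
    (hf : Sesq σ ε f) (hs : N ≤ similarityGroup f) : h.root ≤ Iso f := by
  haveI := h.nonempty
  haveI : NeZero r := ⟨h.prime.ne_zero⟩
  obtain ⟨ω, hω, y, hy, z, hz, hyz⟩ := h.exists_orderOf
  have hp : IsPrimitiveRoot ω r := hω ▸ IsPrimitiveRoot.orderOf ω
  have h1 := h.cm_norm hf hs hy hz
  rw [hyz] at h1
  intro x hx
  obtain ⟨c, hc⟩ := hs hx.1
  have hxr : x ^ r = 1 := by
    have := hx.2
    rwa [(Nat.coprime_two_left.2 ho).gcd_eq_one, mul_one] at this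
  have hcr : c ^ r = 1 := Units.ext (hf.mult_mul fun u v => by
    rw [Units.val_pow_eq_pow_val, ← sim_pow hc, hxr]; simp)
  obtain ⟨j, -, rfl⟩ := hp.eq_pow_of_mem_rootsOfUnity ((mem_rootsOfUnity r _).2 hcr)
  have h2 := hf.mult_fixed hc
  have h3 : (ω ^ j) ^ 2 = 1 := Units.ext (by
    rw [sq, Units.val_mul]
    nth_rw 2 [← h2]
    rw [Units.val_pow_eq_pow_val, map_pow, ← mul_pow, h1, one_pow, Units.val_one])
  have h4 : ω ^ j = 1 := by
    have := pow_gcd_eq_one.2 ⟨h3, hcr⟩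
    rwa [(Nat.coprime_two_left.2 ho).gcd_eq_one, pow_one] at this
  exact fun u v => by simpa [h4] using hc u v

theorem Sym.root_inf_iso_sup [Finite F] {H N : Subgroup (GL ι F)} (h : Sym N 2) (hm : MinN H N)
    (hf : Sesq σ ε f) (hH : H ≤ similarityGroup f) (hs : N ≤ similarityGroup f) :
    h.root ⊓ Iso f ⊔ scalars ι F = N := by
  haveI := h.nonempty
  refine (hm.min _ le_sup_right (sup_le (inf_le_left.trans h.root_le) h.zle)
    (((h.nrm_root hm.nrm).inf (nrm_iso hH)).sup (nrm_scalars H))).resolve_left fun h1 => ?_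
  have hz : h.root ⊓ Iso f ≤ scalars ι F := le_sup_left.trans h1.le
  have hmu : ∀ x ∈ h.root, x ∉ scalars ι F → ∀ u v, f (x.val *ᵥ u) (x.val *ᵥ v) = -1 * f u v := by
    intro x hx hxz
    obtain ⟨c, hc⟩ := hs hx.1
    obtain ⟨s, hs'⟩ := mem_scalars_iff_sc.1 (h.pow x hx.1)
    have h4 : (s : F) ^ 2 = 1 := by
      have := hx.2
      change x ^ (2 * 2) = 1 at this
      rw [pow_mul, ← hs', ← map_pow, map_eq_one_iff _ sc_injective] at this
      rw [← Units.val_pow_eq_pow_val, this]; rfl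
    have h5 : sc ι s ∈ Iso f := hf.sc_mem_iso.2 (by
      rcases sq_eq_one_iff.1 h4 with e | e <;> simp [e])
    have h6 : (c : F) ^ 2 = 1 := hf.mult_mul fun u v => by
      rw [← sim_pow hc, ← hs', mem_iso.1 h5]
    rcases sq_eq_one_iff.1 h6 with e | e
    · exact absurd (hz ⟨hx, fun u v => by simpa [e] using hc u v⟩) hxz
    · exact e ▸ hc
  have hR := h.root_sup hm
  obtain ⟨y, hy, hyz⟩ := SetLike.not_le_iff_exists.1 fun h' : h.root ≤ scalars ι F =>
    h.not_le (hR ▸ sup_le h' le_rfl)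
  obtain ⟨x, hx, hne⟩ := h.exists_cm_ne' hR hy.1 hyz
  rw [Ne, h.ab.cm_eq_one_iff hx.1 hy.1] at hne
  have hxz : x ∉ scalars ι F := fun e => hne (scalars_comm e y)
  have := scalars_comm (hz ⟨mul_mem hx hy, fun u v => by
    simp only [Units.coeHom_apply, Units.val_mul, ← mulVec_mulVec]
    rw [hmu x hx hxz, hmu y hy hyz]; ring⟩) x
  rw [mul_assoc] at this
  exact hne (mul_left_cancel this).symm

theorem Sesq.isUnitaryFormPow [Fintype F] {q : ℕ} {hF : Fintype.card F = q ^ 2}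
    (hf : Sesq (fq hF) 1 f) : IsUnitaryFormPow q f :=
  ⟨hf.add_left, hf.smul_left, fun v w => by rw [hf.herm, one_mul]; rfl, hf.isNondegenerateForm⟩

theorem WrF.exists_bilin {H : Subgroup (GL ι F)} {t : ℕ} {e : ι ≃ (Fin t → Fin 2)} {P : GL ι F}
    {G : Matrix (Fin 2) (Fin 2) F} {l : F} (h : WrF σ f H e P G l) :
    ∃ (ε : F) (f : (ι → F) → (ι → F) → F), Sesq (RingEquiv.refl F) ε f ∧ H ≤ similarityGroup f :=
  haveI : Nonempty (Fin t) := ⟨⟨0, by have := h.two_t; omega⟩⟩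
  let ⟨ε, f, h1, h2⟩ := wreath_two_le_sim e P
  ⟨ε, f, h1, h.le.trans h2⟩

end gen

variable [Fintype F] {n q : ℕ} (hF : Fintype.card F = q ^ 2) {H : Subgroup (GL (Fin n) F)}

theorem GU_eq (n : ℕ) (F : Type*) [Field F] (q : ℕ) : GU n F q = Iso (hermForm n F q) := rfl

theorem hermForm_eq (n : ℕ) : hermForm n F q = formOfGram (fq hF) 1 := by
  funext u v
  rw [formOfGram_eq, one_mulVec]; rfl

theorem sesq_herm (n : ℕ) : Sesq (fq hF) 1 (hermForm n F q) :=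
  hermForm_eq hF n ▸ sesq_one (fq_fq hF)

include hF in
theorem odd_q_iff : Odd q ↔ (2 : F) ≠ 0 :=
  ⟨fun h => two_ne_zero_of_odd (hF ▸ h.pow), fun h => by
    have := odd_of_two_ne_zero h
    rwa [hF, Nat.odd_pow_iff two_ne_zero] at this⟩

/-- `H` lies in a member of a geometric class of the unitary group. -/
inductive InU (H : Subgroup (GL (Fin n) F)) : Prop
  | ts (W : Submodule F (Fin n → F)) (h0 : W ≠ ⊥) (h1 : IsTotallySingularFor (hermForm n F q) W)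
      (h : H ≤ subspaceStabilizer W)
  | nd (W : Submodule F (Fin n → F)) (h0 : W ≠ ⊥) (h1 : IsNondegenerateOn (hermForm n F q) W)
      (h2 : 2 * Module.finrank F W < n) (h : H ≤ subspaceStabilizer W)
  | dec (t k : ℕ) (D : Fin t → Submodule F (Fin n → F))
      (hD : IsNondegenerateMDecomposition (hermForm n F q) k D) (h : H ≤ decompositionStabilizer D)
  | pair (k : ℕ) (D : Fin 2 → Submodule F (Fin n → F)) (hD : IsMDecomposition k D)
      (h1 : ∀ i, IsTotallySingularFor (hermForm n F q) (D i)) (h : H ≤ decompositionStabilizer D)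
  | subOdd (K : Subfield F) (r : ℕ) (P : GL (Fin n) F) (hr : r.Prime) (ho : Odd r)
      (hc : Fintype.card F = Nat.card K ^ r) (h1 : IsFormRationalStructure (hermForm n F q) K 1 P)
      (h : H ≤ subfieldSubgroup K P)
  | subO (K : Subfield F) (P : GL (Fin n) F) (ho : Odd q) (hc : Fintype.card F = Nat.card K ^ 2)
      (h1 : IsFormRationalStructure (hermForm n F q) K 1 P) (h : H ≤ subfieldSubgroup K P)
  | subS (K : Subfield F) (P : GL (Fin n) F) (ζ : F) (he : Even n)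
      (hc : Fintype.card F = Nat.card K ^ 2) (hζ : ζ ≠ 0) (hz : ζ + ζ ^ q = 0)
      (h1 : IsFormRationalStructure (hermForm n F q) K ζ P)
      (h2 : ∀ u : Fin n → F, (∀ i, u i ∈ K) → hermForm n F q (P.val *ᵥ u) (P.val *ᵥ u) = 0)
      (h : H ≤ subfieldSubgroup K P)
  | sym (r : ℕ) (R : Subgroup (GL (Fin n) F)) (p e k : ℕ) (h1 : IsSymplecticTypeGroup r R)
      (h2 : gspan R = ⊤) (h3 : R ≤ GU n F q) (hp : r ≠ p)
      (hm : IsMinimalFieldFor (Nat.card (Subgroup.center R)) p e F)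
      (h4 : (Odd r ∧ Nat.card (Subgroup.center R) = r ∧ 1 ≤ k ∧ Nat.card R = r ^ (1 + 2 * k)) ∨
        (r = 2 ∧ e = 2 ∧ Nat.card (Subgroup.center R) = 4 ∧ Nat.card R = 2 ^ (2 + 2 * k)))
      (hk : n = r ^ k) (h : H ≤ subgroupNormalizer R)
  | fld (r : ℕ) (K : Subalgebra F (Matrix (Fin n) (Fin n) F)) (hr : r.Prime) (ho : Odd r)
      (hK : IsFieldSubalgebra r K) (h1 : IsAdjointClosedFor (hermForm n F q) K)
      (h : H ≤ subalgebraNormalizer K)
  | tens (k m : ℕ) (e : Fin n ≃ Fin k × Fin m) (P : GL (Fin n) F) (hkm : k < m)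
      (h : TensF (fq hF) (hermForm n F q) H e P 1 1 1 1)
  | wr (k t : ℕ) (e : Fin n ≃ (Fin t → Fin k)) (P : GL (Fin n) F) (G : Matrix (Fin k) (Fin k) F)
      (hk : 3 ≤ k) (hx : ¬ (q = 2 ∧ k = 3)) (h : WrF (fq hF) (hermForm n F q) H e P G 1)

variable {hF}

theorem InU.inClass (hH : H ≤ GU n F q) (h : InU hF H) :
    ∃ M, InUnitaryClass n F q M ∧ H ≤ M := by
  have hf := sesq_herm hF n
  cases h with
  | ts W h0 h1 h => exact ⟨_, Or.inl (Or.inl ⟨W, h0, h1, rfl⟩), le_inf h hH⟩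
  | nd W h0 h1 h2 h => exact ⟨_, Or.inl (Or.inr <| Or.inl ⟨W, h0, h1, h2, rfl⟩), le_inf h hH⟩
  | dec t k D hD h => exact ⟨_, Or.inl (Or.inr <| Or.inr <| Or.inl ⟨t, k, D, hD, rfl⟩), le_inf h hH⟩
  | pair k D hD h1 h =>
    exact ⟨_, Or.inl (Or.inr <| Or.inr <| Or.inr <| Or.inl
      ⟨k, D, by simpa using mdec_mul_eq hD, hD, h1, rfl⟩), le_inf h hH⟩
  | subOdd K r P hr ho hc h1 h =>
    exact ⟨_, Or.inl (Or.inr <| Or.inr <| Or.inr <| Or.inr <| Or.inl
      ⟨K, r, P, hr, ho, hc, h1, rfl⟩), le_inf h hH⟩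
  | subO K P ho hc h1 h =>
    exact ⟨_, Or.inl (Or.inr <| Or.inr <| Or.inr <| Or.inr <| Or.inr <| Or.inl
      ⟨K, P, ho, hc, h1, rfl⟩), le_inf h hH⟩
  | subS K P ζ he hc hζ hz h1 h2 h =>
    exact ⟨_, Or.inl (Or.inr <| Or.inr <| Or.inr <| Or.inr <| Or.inr <| Or.inr <| Or.inl
      ⟨K, P, ζ, he, hc, hζ, hz, h1, h2, rfl⟩), le_inf h hH⟩
  | sym r R p e k h1 h2 h3 hp hm h4 hk h =>
    exact ⟨_, Or.inl (Or.inr <| Or.inr <| Or.inr <| Or.inr <| Or.inr <| Or.inr <| Or.inr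
      ⟨r, R, p, e, k, h1, absIrr_of_gspan h2, h3.trans (iso_le_sim _), hp, hm, h4, rfl⟩),
      le_inf h hH⟩
  | fld r K hr ho hK h1 h => exact ⟨_, Or.inr (Or.inl ⟨r, K, hr, ho, hK, h1, rfl⟩), le_inf h hH⟩
  | tens k m e P hkm h =>
    exact ⟨_, Or.inr <| Or.inr <| Or.inl ⟨k, m, e, P, _, _, h.two_k, hkm, h.fst.isUnitaryFormPow,
      h.snd.isUnitaryFormPow, h.isTensorFormStructure hf, rfl⟩, le_inf h.le hH⟩
  | wr k t e P G hk hx h =>
    exact ⟨_, Or.inr <| Or.inr <| Or.inr ⟨k, t, e, P, _, hk, h.two_t, hx, h.sesq.isUnitaryFormPow,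
      h.isTensorPowerFormStructure hf, rfl⟩, le_inf h.le hH⟩

theorem inU_of_not_irr (hH : H ≤ GU n F q) (h : ¬ Irr H) : InU hF H := by
  have hf := sesq_herm hF n
  have hs := hH.trans (iso_le_sim _)
  obtain ⟨W, h1, h2, h3, h4 | ⟨h4, h5⟩⟩ := hf.reducible hs h
  · exact .ts W h1 h4 (le_subspaceStabilizer h3)
  · rcases h5.lt_or_eq with h5 | h5
    · exact .nd W h1 h4 (by simpa using h5) (le_subspaceStabilizer h3)
    · exact .dec _ _ _ (hf.nd_pair h1 h4 h5) (le_dstab_pair h3 (hf.perp_inv hs h3))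

theorem inU_of_hasComm (hn : 2 ≤ n) (hH : H ≤ GU n F q)
    (h : HasComm (fq hF) (hermForm n F q) H) : InU hF H := by
  haveI : Nonempty (Fin n) := ⟨⟨0, by omega⟩⟩
  by_cases hI : Irr H
  swap
  · exact inU_of_not_irr hH hI
  have hf := sesq_herm hF n
  obtain ⟨C, h1, h2, h3, h4⟩ := h
  rcases comm_cases_adj hf hI (hH.trans (iso_le_sim _)) h1 h2 h3 h4 with ⟨t, e, he, -, ha, -⟩ |
    ⟨e, he, -, ha⟩ | ⟨d, hd, hK⟩
  · obtain ⟨k, hk⟩ := he.nd_decomp hf ha
    exact .dec _ _ _ hk he.le_stab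
  · obtain ⟨k, hk⟩ := he.decomp
    exact .pair k _ hk (he.ts_of_adj hf ha) he.le_stab
  · obtain ⟨r, hr, hrd⟩ := Nat.exists_prime_and_dvd hd.ne'
    obtain ⟨K, -, h5, h6, h7⟩ := Fld.exists_dvd_inv hK hrd h1
    exact .fld r K hr ((Fld.odd_of_adj hK hf h4 (fq_ne hF)).of_dvd_nat hrd) h5
      (hf.isAdjointClosedFor_iff.2 (h7 hf h4)) h6.le_normalizer

theorem inU_of_subfield (hn : 2 ≤ n) (hH : H ≤ GU n F q) {K : Subfield F} {r : ℕ} (hr : r.Prime)
    (hc : Nat.card F = Nat.card K ^ r) {P : GL (Fin n) F} (hle : H ≤ subfieldSubgroup K P) {ζ : F}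
    (hζ : ζ ≠ 0) (h : ∀ i j, ζ * gramMatrix (pull (Equiv.refl _) P (hermForm n F q)) i j ∈ K) :
    InU hF H := by
  by_cases hI : Irr H
  swap
  · exact inU_of_not_irr hH hI
  have hf := sesq_herm hF n
  have hc' : Fintype.card F = Nat.card K ^ r := by rw [← Nat.card_eq_fintype_card, hc]
  rcases hf.herm_subfield (fq_ne hF) hI hH (by simpa using hn) hr hc hle hζ h with
    ⟨ho | ⟨rfl, h2⟩, P', h3, h4⟩ | ⟨rfl, he, h2, h3⟩
  · exact .subOdd K r P' hr ho hc' h4 h3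
  · exact .subO K P' ((odd_q_iff hF).2 h2) hc' h4 h3
  · exact .subS K P ζ (by simpa using he) hc' hζ h2 (hf.isFormRationalStructure h) h3 hle

theorem inU_of_bilin (hn : 2 ≤ n) (hH : H ≤ GU n F q) {ε' : F}
    {f' : (Fin n → F) → (Fin n → F) → F} (hf' : Sesq (RingEquiv.refl F) ε' f')
    (hs : H ≤ similarityGroup f') : InU hF H := by
  haveI : Nonempty (Fin n) := ⟨⟨0, by omega⟩⟩
  rcases (sesq_herm hF n).herm_bilin (fq_ne hF) hH hf' hs with h | ⟨P, ζ, h1, h2, h3⟩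
  · exact inU_of_hasComm hn hH h
  · exact inU_of_subfield hn hH Nat.prime_two (card_of_invol (fq_fq hF) (fq_ne hF)) h1 h2 h3

theorem inU_of_realisable (hn : 2 ≤ n) (hH : H ≤ GU n F q) {N : Subgroup (GL (Fin n) F)}
    (hN : gspan N = ⊤) (hnr : Nrm H N) (hi : N ≤ GU n F q) {K : Subfield F} (hK : K ≠ ⊤)
    (h : RealisableOver K (matrixSet N)) : InU hF H := by
  haveI : Nonempty (Fin n) := ⟨⟨0, by omega⟩⟩
  obtain ⟨K', r, P, hr, -, hc, hP⟩ := exists_subfield_of_realisable hK h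
  obtain ⟨ζ, hζ, hG⟩ := (sesq_herm hF n).gram_rational hN (fixes_iff_le_iso.2 hi) hP
  exact inU_of_subfield hn hH hr hc (le_subfieldSubgroup hN hnr hP) hζ hG

theorem inU_of_root (hH : H ≤ GU n F q) {N : Subgroup (GL (Fin n) F)} {r : ℕ} (h : Sym N r)
    (hnr : Nrm H N) (hR : h.root ⊔ scalars _ F = N) (hi : h.root ≤ GU n F q)
    (ho : Odd r ∨ r = 2) : InU hF H := by
  haveI := h.nonempty
  have hn : 2 ≤ n := by simpa using h.two_le
  have hs := h.span_of_sup hR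
  have hnr' := h.nrm_root hnr
  have hZ : Nat.card (Subgroup.center h.root) = (Nat.card F - 1).gcd (r * Nat.gcd 2 r) := by
    rw [card_center hs, h.card_comap_root]
  obtain ⟨m, hm1, hmn⟩ := h.card_eq_pow
  have hc := h.card_of_sup hR hmn
  rcases minimal_or (F := F) (Nat.gcd_dvd_left (Nat.card F - 1) (r * Nat.gcd 2 r)) with
    ⟨p, e, hmin⟩ | ⟨K, hK, hKz⟩
  swap
  · exact inU_of_realisable hn hH hs hnr' hi hK
      (h.realisable hR fun c hc => hKz _ (pow_gcd_card c.ne_zero (mem_root_sc h hc)))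
  haveI := hmin.2.1
  rcases gcd_cases h.prime h.dvd_card_sub_one with ⟨ho, hg, -⟩ | ⟨rfl, h4, hg⟩ | ⟨rfl, h4, hg⟩
  · exact .sym r _ p e m (h.isSymplecticTypeGroup_root hR (Or.inl ho)) hs hi (h.ne_char hmin.1)
      (by rwa [hZ]) (Or.inl ⟨ho, hZ.trans hg, hm1, by rw [hc, hZ, hg]; ring⟩) (by simpa using hmn)
      hnr'.le_normalizer
  · have he : e = 2 := (minimal_four (by rwa [hg] at hmin)).resolve_left fun he => by
      have := hmin.2.2.1
      rw [he, pow_one, hF] at this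
      exact absurd (this ▸ hmin.1 : (q ^ 2).Prime).eq_one_of_pow (by decide)
    refine .sym 2 _ p e m (h.isSymplecticTypeGroup_root hR (Or.inr ?_)) hs hi (h.ne_char hmin.1)
      (by rwa [hZ]) (Or.inr ⟨rfl, he, hZ.trans hg, by rw [hc, hZ, hg]; ring⟩) (by simpa using hmn)
      hnr'.le_normalizer
    obtain ⟨i, hi⟩ := FiniteField.isSquare_neg_one_iff.2 (show Fintype.card F % 4 ≠ 3 by
      rw [Nat.card_eq_fintype_card] at h4; omega)
    exact ⟨i, hi.symm⟩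
  · obtain ⟨j, hj⟩ := (odd_q_iff hF).2 h.two_ne
    rw [Nat.card_eq_fintype_card, hF, hj] at h4
    exact absurd ⟨j * j + j, Nat.sub_eq_of_eq_add (by ring)⟩ h4

theorem inU_of_sym (hH : H ≤ GU n F q) {N : Subgroup (GL (Fin n) F)} (hm : MinN H N)
    (hle : N ≤ H ⊔ scalars _ F) {r : ℕ} (h : Sym N r) : InU hF H := by
  haveI := h.nonempty
  have hn : 2 ≤ n := by simpa using h.two_le
  have hf := sesq_herm hF n
  have hs := hH.trans (iso_le_sim _)
  have hN := hle.trans (hf.sup_le_sim hs)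
  rcases h.prime.eq_two_or_odd' with rfl | ho
  swap
  · exact inU_of_root hH h hm.nrm (h.root_sup hm) (h.root_le_iso ho hf hN) (Or.inl ho)
  have hR := h.root_inf_iso_sup hm hf hs hN
  by_cases hi : ∀ c : Fˣ, sc (Fin n) c ∈ h.root ⊓ Iso (hermForm n F q) → (c : F) * c = 1
  · obtain ⟨l, G, hf', hfix⟩ := h.exists_form hR (σ := RingEquiv.refl F) (fun _ => rfl) hi
    exact inU_of_bilin hn hH hf' (hf'.le_sim_of_nrm (h.span_of_sup hR)
      ((h.nrm_root hm.nrm).inf (nrm_iso hs)) hfix)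
  push Not at hi
  obtain ⟨c, hc, hc2⟩ := hi
  refine inU_of_root hH h hm.nrm (h.root_sup hm) (fun x hx => ?_) (Or.inr rfl)
  obtain ⟨y, hy, z, rfl⟩ := mem_sup_scalars.1 (hR.ge hx.1)
  refine mul_mem hy.2 (hf.sc_mem_iso.2 ?_)
  have h1 : (c : F) ^ (2 * 2) = 1 := mem_root_sc h hc.1
  have h2 : (z : F) ^ (2 * 2) = 1 := mem_root_sc h ((h.root.mul_mem_cancel_left hy.1).1 hx)
  have h3 := hf.sc_mem_iso.1 hc.2
  rw [pow_mul, sq_eq_one_iff] at h1 h2
  have h4 := h1.resolve_left (by rwa [sq])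
  rcases h2 with h2 | h2
  · rcases sq_eq_one_iff.1 h2 with e | e <;> simp [e]
  · rcases sq_eq_sq_iff_eq_or_eq_neg.1 (h2.trans h4.symm) with e | e <;> simp [e, h3]

theorem inU_of_wrF (hn : 2 ≤ n) (hH : H ≤ GU n F q) {k t : ℕ} {e : Fin n ≃ (Fin t → Fin k)}
    {P : GL (Fin n) F} {G : Matrix (Fin k) (Fin k) F} {l : F}
    (h : WrF (fq hF) (hermForm n F q) H e P G l) (hx : ¬ (q = 2 ∧ k = 3)) : InU hF H := by
  rcases h.two_m.eq_or_lt with rfl | hk
  · obtain ⟨ε, f', h1, h2⟩ := h.exists_bilin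
    exact inU_of_bilin hn hH h1 h2
  · obtain ⟨b, -, h'⟩ := h.herm (fq_ne hF)
    exact .wr k t e P _ hk hx h'

theorem inU_of_tensF (hn : 2 ≤ n) (hH : H ≤ GU n F q) (hI : Irr H) {k m : ℕ}
    {e : Fin n ≃ Fin k × Fin m} {P : GL (Fin n) F} {G₁ : Matrix (Fin k) (Fin k) F}
    {G₂ : Matrix (Fin m) (Fin m) F} {l₁ l₂ : F}
    (h : TensF (fq hF) (hermForm n F q) H e P G₁ G₂ l₁ l₂) : InU hF H := by
  have hf := sesq_herm hF n
  have hs := hH.trans (iso_le_sim _)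
  obtain ⟨P', h⟩ := h.orthonormal hf (fq_ne hF)
  rcases lt_trichotomy k m with hl | rfl | hl
  · exact .tens k m e P' hl h
  · by_cases hx : q = 2 ∧ k = 3
    swap
    · exact inU_of_wrF hn hH h.wrF hx
    obtain ⟨rfl, rfl⟩ := hx
    have hp := h.fst.noPerf_gu hF (Or.inr (by simp))
    have h3 : (Fintype.card (Fin 3)).Prime := by simpa using Nat.prime_three
    rcases h.fst.noPerf_cases (h.irr hI) (h.fstG_le_sim hf hs) (hp.mono (h.fstG_le_sim hf hs)) h3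
      with h1 | ⟨A, hA, hA', hA''⟩
    · exact inU_of_hasComm hn hH (h.hasComm hf h1)
    rcases h.fst.noPerf_cases (h.swap.irr hI) (h.swap.fstG_le_sim hf hs)
      (hp.mono (h.swap.fstG_le_sim hf hs)) h3 with h1 | ⟨B, hB, hB', hB''⟩
    · exact inU_of_hasComm hn hH (h.swap.hasComm hf h1)
    have ho : Odd (Fintype.card (Fin 3)) := by simpa using (by decide : Odd 3)
    refine inU_of_root hH (hA''.tprod hB'' e P') (nrm_tprod h.le hA.nrm hB.nrm)
      (hA''.tprod_root_sup hB'' e P' (hA''.root_sup hA) (hB''.root_sup hB))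
      (Sym.root_le_iso _ ho hf fun x hx => ?_) (Or.inl ho)
    obtain ⟨a, ha, b, hb, rfl⟩ := mem_tprod.1 hx
    obtain ⟨c, hc, ha⟩ := h.fst.adj_mul_self (hA'.trans (h.fst.sup_le_sim (h.fstG_le_sim hf hs)) ha)
    obtain ⟨d, hd, hb⟩ := h.fst.adj_mul_self
      (hB'.trans (h.fst.sup_le_sim (h.swap.fstG_le_sim hf hs)) hb)
    refine tg_mem_sim.2 ((hf.pull e P').sim_of_adj (mul_ne_zero hc hd) ?_)
    rw [coe_kronecker, h.adj_eq hf, ← mul_kronecker_mul, ha, hb, smul_kronecker, kronecker_smul,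
      one_kronecker_one, smul_smul]
  · exact .tens m k _ P' hl h.swap

theorem u_of_quasi (hn : 2 ≤ n) (hH : H ≤ GU n F q) {P : Subgroup (GL (Fin n) F)}
    (h : Quasi H P) : InU hF H ∨ InUnitaryResidualClass H := by
  haveI : Nonempty (Fin n) := ⟨⟨0, by omega⟩⟩
  by_contra hc
  rw [not_or] at hc
  refine hc.2 ⟨P, h.core fun K hK hr =>
    hc.1 (inU_of_realisable hn hH h.span h.nrm (h.le.trans hH) hK hr), ?_, ?_⟩
  · rintro ⟨Q, hQ, hfix⟩
    exact hc.1 (inU_of_bilin hn hH (sesq_polar hQ)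
      ((sesq_polar hQ).le_sim_of_nrm h.span h.nrm (fixesForm_polar hfix)))
  · rintro ⟨f, hf, hfix⟩
    exact hc.1 (inU_of_bilin hn hH (sesq_of_symplectic hf)
      ((sesq_of_symplectic hf).le_sim_of_nrm h.span h.nrm hfix))

/-- Aschbacher's theorem, unitary case. -/
theorem u_main (hn : 2 ≤ n) (hH : H ≤ GU n F q) : InU hF H ∨ InUnitaryResidualClass H := by
  by_cases hI : Irr H
  swap
  · exact Or.inl (inU_of_not_irr hH hI)
  rcases (sesq_herm hF n).core hI (hH.trans (iso_le_sim _)) (by simpa using hn) with h |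
    ⟨k, m, e, P, G₁, G₂, l, h⟩ | ⟨N, r, h1, h2, h3⟩ | ⟨k, t, e, T, G, l, c, h, -, -, h3⟩ | ⟨P, h⟩
  · exact Or.inl (inU_of_hasComm hn hH h)
  · exact Or.inl (inU_of_tensF hn hH hI h)
  · exact Or.inl (inU_of_sym hH h1 h2 h3)
  · refine Or.inl (inU_of_wrF hn hH h ?_)
    rintro ⟨rfl, rfl⟩
    exact h3 (h.sesq.noPerf_gu hF (Or.inr (by simp)))
  · exact u_of_quasi hn hH h

end Cfsg.Agent.Asch
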